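import Cfsg.Agent.PT.Defs2
import Cfsg.Prelude.Def_Amalgam

/-!
# Tower `PT`: definitions for the rank one case
-/

set_option autoImplicit false

namespace Cfsg.Lib.PT

open Subgroup

universe u

variable {G : Type u} [Group G]

namespace Cfg

variable (C : Cfg G)

/-- Simple configuration of rank one, with the theorem known for smaller groups. -/
structure RO : Prop where
  simple : C.Simple
  r1 : C.R1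
  ih : IH.{u} C.p (Nat.card G)

/-- All pairs are of type `W1` and `CC x` is transitive on the points other than `x`. -/
structure R2 : Prop extends C.RO where
  w1 : ∀ x y : C.Pt, x ≠ y → W1 x y
  tr : ∀ x y u : C.Pt, y ≠ x → u ≠ x → ∃ g ∈ CC x, g • y = u

/-- No abelian `p`-subgroup of a stabiliser is transitive, unless `zz = 1`. -/
def NAB : Prop :=
  ∀ (x y : C.Pt) (a b : G), BP x y a b → zz a b ≠ 1 → ∀ A : Subgroup G, IsPGroup C.p A →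
    (∀ g ∈ A, g • x = x) → (∀ g ∈ A, ∀ h ∈ A, g * h = h * g) →
    ¬ ∀ u : C.Pt, u ≠ x → ∃ g ∈ A, g • y = u

end Cfg

/-- The rank one theorem. -/
def IH2 (p : ℕ) : Prop :=
  ∀ (H : Type u) [Group H] [Finite H] (C : Cfg H), C.p = p → C.Simple → C.R1 → C.RK ∧ C.NAB

/-- `O` is the product of a nilpotent normal subgroup and `O0`. -/
def NT (O O0 : Subgroup G) : Prop :=
  ∃ K : Subgroup G, K ≤ O ∧ (∀ g ∈ O, ∀ k ∈ K, g * k * g⁻¹ ∈ K) ∧ Group.IsNilpotent K ∧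
    O ≤ K ⊔ O0

/-- Abstract data in the case `zz ≠ 1`. -/
structure SD (p : ℕ) (O E O0 : Subgroup G) (z t : G) : Prop where
  prime : p.Prime
  two : p ≠ 2
  odd : Odd (Nat.card O)
  EO : E ≤ O
  Ec : ∀ e ∈ E, ∀ g ∈ O, e * g = g * e
  Ep : IsPGroup p E
  le0 : O0 ≤ O
  zn : ∀ g ∈ O, z * g * z⁻¹ ∈ O
  tn : ∀ g ∈ O, t * g * t⁻¹ ∈ O
  tE : ∀ e ∈ E, t * e * t⁻¹ ∈ E
  z2 : z * z = 1
  zt : z * t = t * z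
  tord : ∃ n : ℕ, n.Coprime p ∧ t ^ n = 1
  zE : ∀ e ∈ E, z * e = e * z
  z0 : ∀ c ∈ O0, z * c = c * z
  t0 : ∀ c ∈ O0, t * c = c * t
  cz : ∀ g ∈ O, g * z = z * g → g ∈ E ⊔ O0
  ct : ∀ g ∈ O, g * t = t * g → g ∈ O0
  ctz : ∀ g ∈ O, g * (t * z) = t * z * g → g ∈ O0
  s2 : ∀ c ∈ O0, c ≠ 1 → ∀ d ∈ O, z * d * z⁻¹ = d⁻¹ → c * d = d * c → ∃ k : ℕ, d ^ p ^ k = 1

/-- Abstract data in the case `zz = 1`. -/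
structure PD (p r : ℕ) (κ : ZMod p) (O E O0 Γ : Subgroup G) (t : G) : Prop where
  prime : p.Prime
  five : 5 ≤ p
  rp : r.Prime
  rdvd : r ∣ p - 1
  κ1 : κ ≠ 1
  EO : E ≤ O
  Ec : ∀ e ∈ E, ∀ g ∈ O, e * g = g * e
  Ep : ∀ e ∈ E, e ^ p = 1
  le0 : O0 ≤ O
  dis : ∀ e ∈ E, e ∈ O0 → e = 1
  tΓ : t ∈ Γ
  tr : t ^ r = 1
  Γn : ∀ γ ∈ Γ, ∀ g ∈ O, γ * g * γ⁻¹ ∈ O
  Γ0 : ∀ γ ∈ Γ, ∀ c ∈ O0, γ * c = c * γ
  ΓE : ∀ γ ∈ Γ, ∀ e ∈ E, γ * e * γ⁻¹ ∈ E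
  irr : ∀ A ≤ E, (∀ γ ∈ Γ, ∀ e ∈ A, γ * e * γ⁻¹ ∈ A) → A = ⊥ ∨ A = E
  tE : ∀ e ∈ E, t * e * t⁻¹ = pw e κ
  ct : ∀ g ∈ O, g * t = t * g → g ∈ O0
  pt : ∀ c ∈ O0, c ≠ 1 → ∀ g ∈ O, g * c * g⁻¹ ∈ O0 → g ∈ E ⊔ O0
  fx : r ≠ 2 → ∀ g ∈ O, ∀ h ∈ O0, g * t * g⁻¹ = h * t → g ∈ O0
  b5 : ∀ c ∈ O0, c ≠ 1 → (∀ e ∈ E, ∃ g ∈ O, g * c * g⁻¹ = c * e) →
    Nat.card E ^ 3 * Nat.card O0 ≤ Nat.card O

/-- The stabiliser of a second line. -/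
structure YD (p : ℕ) (O E O0 Y0 : Subgroup G) : Prop where
  le : Y0 ≤ O0
  ne : Y0 ≠ ⊥
  pow : ∀ c ∈ Y0, c ^ p = 1
  comm : ∀ c ∈ Y0, ∀ d ∈ Y0, c * d = d * c
  cc : ∀ c ∈ Y0, c ≠ 1 → ∀ g ∈ O, g * c = c * g → g ∈ E ⊔ Y0

/-- `O'` is a subgroup of odd order, invariant under the normaliser of `O`, with `O = O' O0`. -/
structure OD (O E O0 O' : Subgroup G) : Prop where
  le : O' ≤ O
  odd : Odd (Nat.card O')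
  norm : ∀ g : G, (∀ x ∈ O, g * x * g⁻¹ ∈ O) → ∀ x ∈ O', g * x * g⁻¹ ∈ O'
  EO : E ≤ O'
  sup : O ≤ O' ⊔ O0

end Cfsg.Lib.PT
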