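import Cfsg.Agent.PT.W

/-!
# Tower `PT`: pairs with trivial mutual stabilisers
-/

set_option autoImplicit false
set_option linter.unusedSectionVars false

namespace Cfsg.Lib.PT

open Matrix Subgroup
open scoped MatrixGroups commutatorElement

universe u

variable {G : Type u} [Group G]

namespace Cfg
variable {C : Cfg G} {x y s : C.Pt} {a b c e g : G}

section W
variable [Finite G] {m : G}

namespace W1
variable (h : W1 x y)
include h

theorem unique {b' : G} (h1 : BP x y a b) (h2 : BP x y a b') : b = b' := by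
  obtain ⟨m, hm, e⟩ := w3 h1.symm h2.symm
  rw [h.2.1, mem_bot] at hm
  simp [e, hm]

theorem free (he : e ∈ E x) (ey : e • y = y) : e = 1 :=
  mem_bot.1 (h.2.1 ▸ mem_S.2 ⟨he, ey⟩)

theorem cc (hg : g ∈ CC x) (gy : g • y = y) : g ∈ CC y := by
  refine mem_CC.2 fun b hb => ?_
  obtain ⟨a, k⟩ := exists_partner hb h.symm.1
  have := k.symm.smul g
  rw [CC_fix hg, gy, CC_comm hg (M_le_E k.hb), mul_inv_cancel_right] at this
  exact mul_inv_eq_iff_eq_mul.1 (h.unique this k.symm)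

theorem c0 : C0 x y = C0 y x :=
  le_antisymm (fun _ k => ⟨h.cc k.1 k.2, CC_fix k.1⟩) fun _ k => ⟨h.symm.cc k.1 k.2, CC_fix k.1⟩

theorem c0_KK (hc : c ∈ C0 x y) (hg : g ∈ KK x y) : c * g = g * c := by
  have : KK x y ≤ centralizer {c} :=
    sup_le (fun e he => mem_centralizer_singleton_iff.2 (CC_comm hc.1 he).symm)
      fun e he => mem_centralizer_singleton_iff.2 (CC_comm (h.cc hc.1 hc.2) he).symm
  exact (mem_centralizer_singleton_iff.1 (this hg)).symm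

theorem tt_eq {a' b' : G} (h1 : BP x y a b) (h2 : BP x y a' b') (l : (ZMod C.p)ˣ) :
    tt a b l = tt a' b' l := by
  obtain ⟨K, _, _, f, α, β, hf, rfl, rfl, -⟩ := C.pair a (mem_D h1.ha) b' (mem_D h2.hb)
    fun e => h.1 ((Pp_iff h1.ha h2.hb).2 e)
  have hα : α ≠ 0 := by
    rintro rfl
    exact ne_one (mem_D h1.ha) (by rw [up_zero, map_one])
  have hβ : β ≠ 0 := by
    rintro rfl
    exact ne_one (mem_D h2.hb) (by rw [lo_zero, map_one])
  obtain ⟨μ, hμ⟩ := hf.exists_unit C.prime C.five l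
  rw [h.unique h1 (up_partner hf h1.ha h2.hb),
    h.symm.unique h2.symm (lo_partner hf h1.ha h2.hb).symm,
    hf.tt_eq C.prime C.five (by field_simp) l μ hμ, hf.tt_eq C.prime C.five (by field_simp) l μ hμ]

theorem zz_eq {a' b' : G} (h1 : BP x y a b) (h2 : BP x y a' b') : zz a b = zz a' b' := by
  rw [← h1.bd.tt_neg_one, ← h2.bd.tt_neg_one, h.tt_eq h1 h2]

theorem tt_sc (h1 : BP x y a b) (l : (ZMod C.p)ˣ) :
    Sc (C := C) (tt a b l) (E x) ((l : ZMod C.p) ^ 2) := fun _ he =>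
  (inv_mul_eq_one.1 (mem_bot.1 (h.2.1 ▸ w2 h1 l he))).symm

theorem tt_sc' (h1 : BP x y a b) (l : (ZMod C.p)ˣ) :
    Sc (C := C) (tt a b l) (E y) (((l⁻¹ : (ZMod C.p)ˣ) : ZMod C.p) ^ 2) := fun _ he =>
  (inv_mul_eq_one.1 (mem_bot.1 (h.2.2 ▸ w2' h1 l he))).symm

theorem zz_c0 (h1 : BP x y a b) : zz a b ∈ C0 x y := by
  refine mem_C0.2 ⟨mem_CC.2 fun c hc => ?_, h1.zz_y⟩
  have := h.tt_sc h1 (-1) c (M_le_E hc)
  rw [h1.bd.tt_neg_one, Units.val_neg, Units.val_one, neg_one_sq, pw_one] at this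
  exact mul_inv_eq_iff_eq_mul.1 this

theorem tt_cent (h1 : BP x y a b) (l : (ZMod C.p)ˣ) (gx : g • x = x) (gy : g • y = y) :
    g * tt a b l = tt a b l * g := by
  have := h1.smul g
  rw [gx, gy] at this
  rw [← mul_inv_eq_iff_eq_mul, conj_tt, h.tt_eq this h1]

theorem zz_cent (h1 : BP x y a b) (gx : g • x = x) (gy : g • y = y) :
    g * zz a b = zz a b * g := by
  rw [← h1.bd.tt_neg_one]
  exact h.tt_cent h1 _ gx gy

theorem sc_pt {k : (ZMod C.p)ˣ} (h1 : BP x y a b) (gy : g • y = y)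
    (e : g * a * g⁻¹ = pw a (k : ZMod C.p)) :
    g * b * g⁻¹ = pw b ((k⁻¹ : (ZMod C.p)ˣ) : ZMod C.p) := by
  have := h1.smul g
  rw [(smul_eq_iff h1.ha).2 (e ▸ pw_M h1.ha k), gy, e] at this
  exact h.unique this (h1.pw k)

theorem sc {k : (ZMod C.p)ˣ} (gy : g • y = y) (e : Sc (C := C) g (E x) (k : ZMod C.p)) :
    Sc (C := C) g (E y) ((k⁻¹ : (ZMod C.p)ˣ) : ZMod C.p) := Sc.of_M fun _ hb => by
  obtain ⟨a, k⟩ := exists_partner hb h.symm.1
  exact h.sc_pt k.symm gy (e a (M_le_E k.hb))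

end W1
end W

end Cfg

end Cfsg.Lib.PT
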