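import Cfsg.Agent.PT.SQ
import Cfsg.Agent.PT.W1

/-!
# Tower `PT`: pull-backs of the rank one theorem
-/

set_option autoImplicit false
set_option linter.unusedSectionVars false

namespace Cfsg.Lib.PT

open Matrix Subgroup
open scoped MatrixGroups commutatorElement

universe u

variable {G : Type u} [Group G]

namespace SQ

open Cfg

variable {C : Cfg G} {D' : Set G} {H : Type u} [Group H] {C' : Cfg H} {π : closure D' →* H}
  (q : SQ C D' H C' π) {u v : closure D'} {x : C'.Pt}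

theorem cm (π : closure D' →* H) (e : (u : G) * v = v * u) : π u * π v = π v * π u := by
  rw [← map_mul, ← map_mul, show u * v = v * u from Subtype.ext e]

theorem E'_le (a : G) : E' D' a ≤ closure D' := closure_mono fun _ h => h.1

include q

theorem memD (hu : (u : G) ∈ D') : π u ∈ C'.D := (q.D _).2 ⟨u, hu, rfl⟩

theorem memM (hu : (u : G) ∈ D') (hx : π u ∈ M x) (h : H) :
    h ∈ M x ↔ ∃ v : closure D', ((v : G) ∈ D' ∧ (v : G) * u = u * v) ∧ π v = h := by
  constructor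
  · intro hh
    obtain ⟨v, hv, rfl⟩ := (q.D _).1 (mem_D hh)
    exact ⟨v, ⟨hv, q.refl v u hv hu (Pp_refl x _ hh _ hx)⟩, rfl⟩
  · rintro ⟨v, ⟨hv, e⟩, rfl⟩
    exact SQp.mem_M q.r1 hx (q.memD hv) (cm π e)

theorem memE (hu : (u : G) ∈ D') (hx : π u ∈ M x) (h : H) :
    h ∈ E x ↔ ∃ v : closure D', (v : G) ∈ E' D' u ∧ π v = h := by
  have e1 : M x = π '' (Subtype.val ⁻¹' {c | c ∈ D' ∧ c * u = u * c}) :=
    Set.ext (q.memM hu hx)
  have e2 : E' D' u = (Subgroup.closure (Subtype.val ⁻¹' {c | c ∈ D' ∧ c * u = u * c})).map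
      (closure D').subtype := by
    rw [MonoidHom.map_closure, coe_subtype, Set.image_preimage_eq_of_subset]
    · rfl
    · exact fun c hc => ⟨⟨c, subset_closure hc.1⟩, rfl⟩
  rw [E, e1, ← MonoidHom.map_closure, e2]
  exact exists_congr fun v => and_congr_left fun _ =>
    (mem_map_iff_mem (closure D').subtype_injective).symm

theorem bp (hu : (u : G) ∈ D') (hv : (v : G) ∈ D') (h : C.BD u v) :
    BP (C'.pnt _ (q.memD hu)) (C'.pnt _ (q.memD hv)) (π u) (π v) :=
  BD.bp ⟨q.memD hu, q.memD hv, fun e => h.nc (q.refl u v hu hv e),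
    Br.map π (Subtype.ext h.br)⟩ (mem_pnt _) (mem_pnt _)

theorem zz_one (hz : Triv D' (zz (u : G) v)) : zz (π u) (π v) = 1 := by
  rw [← map_zz]
  exact (q.ker _).2 hz

end SQ

namespace PBp

theorem img_le {α β γ : Type*} [Nonempty α] [Finite β] {S : Set α} {f : α → β} {g : α → γ}
    (h : ∀ u ∈ S, ∀ v ∈ S, f u = f v → g u = g v) : (g '' S).ncard ≤ (f '' S).ncard := by
  refine le_trans (le_of_eq (congrArg Set.ncard ?_))
    (Set.ncard_image_le (f := fun y => g (Function.invFunOn f S y)))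
  rw [Set.image_image]
  exact Set.image_congr fun u hu =>
    h u hu _ (Function.invFunOn_apply_mem hu) (Function.invFunOn_apply_eq hu).symm

theorem not_dvd {K : Type} [Field K] [Finite K] {p : ℕ} (hp : p.Prime) (h5 : 5 ≤ p) [CharP K p]
    {T : Set K} (h0 : (0 : K) ∉ T) (h1 : T.Nonempty) (h2 : ∀ μ : Kˣ, ∀ s ∈ T, (μ : K) ^ 2 * s ∈ T) :
    ¬ p ∣ T.ncard := by
  let Sq : Subgroup Kˣ := (powMonoidHom 2 : Kˣ →* Kˣ).range
  let U : Set (Kˣ ⧸ Sq) := QuotientGroup.mk '' (Units.val ⁻¹' T)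
  have e : T = Units.val '' (QuotientGroup.mk ⁻¹' U) := by
    ext s
    constructor
    · exact fun hs => ⟨Units.mk0 s fun e => h0 (e ▸ hs), ⟨_, hs, rfl⟩, rfl⟩
    · rintro ⟨μ, ⟨ν, hν, k⟩, rfl⟩
      obtain ⟨κ, hκ⟩ := QuotientGroup.eq.1 k
      rw [show μ = κ ^ 2 * ν by rw [show κ ^ 2 = ν⁻¹ * μ from hκ, mul_comm, mul_inv_cancel_left]]
      exact h2 κ ν hν
  rw [e, Set.ncard_image_of_injective _ Units.val_injective, ← Nat.card_coe_set_eq,
    QuotientGroup.card_preimage_mk, hp.dvd_mul, not_or]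
  constructor
  · intro k
    have := Fintype.ofFinite K
    have k1 := k.trans Sq.card_subgroup_dvd_card
    rw [Nat.card_units, Nat.card_eq_fintype_card] at k1
    have k2 := (CharP.cast_eq_zero_iff K p _).1 (FiniteField.cast_card_eq_zero K)
    have := Nat.dvd_sub k2 k1
    rw [Nat.sub_sub_self Fintype.card_pos] at this
    exact hp.one_lt.ne' (Nat.dvd_one.1 this)
  · obtain ⟨s, hs⟩ := h1
    have : Nonempty U := ⟨⟨_, Units.mk0 s fun e => h0 (e ▸ hs), hs, rfl⟩⟩
    refine Nat.not_dvd_of_pos_of_lt Nat.card_pos ?_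
    have k1 : Nat.card U ≤ Sq.index := Nat.card_le_card_of_injective _ Subtype.val_injective
    have k2 : Sq.index ≤ 2 := by
      rw [IsCyclic.index_powMonoidHom_range]
      exact Nat.gcd_le_right _ two_pos
    omega

end PBp

namespace Cfg
variable {C : Cfg G} {x y s : C.Pt} {a b c e g : G}

section SQ
variable [Finite G] {D' : Set G}
variable (hs : C.Sub D') (hg : Good C D') (ha : a ∈ D') (hb : b ∈ D')
include hs hg ha hb

theorem pb0 (nc : a * b ≠ b * a) (he : e ∈ E' D' a)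
    (h : e * b * e⁻¹ * b = b * (e * b * e⁻¹)) : Triv D' e := by
  obtain ⟨H, _, _, C', π, q, rk⟩ := hg
  lift a to closure D' using subset_closure ha
  lift b to closure D' using subset_closure hb
  lift e to closure D' using SQ.E'_le _ he
  have hx := mem_pnt (q.memD ha)
  have hy := mem_pnt (q.memD hb)
  have ne := ne_of_opp fun k => nc (q.refl a b ha hb (k _ hx _ hy))
  refine (q.ker e).1 (mem_bot.1 ((rk.w1 _ _ ne).le (mem_S.2 ⟨(q.memE ha hx _).2 ⟨e, he, rfl⟩,
      (smul_eq_iff hy).2 ((q.memM hb hy _).2 ⟨e * b * e⁻¹, ⟨hs.conj _ hb _ e.2, h⟩, by simp⟩)⟩)))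

theorem pb1 (h : C.BD a b) (hz : Triv D' (zz a b)) (hc : c ∈ D') :
    c * a = a * c ∨ ∃ e ∈ E' D' a, e * b * e⁻¹ * c = c * (e * b * e⁻¹) := by
  obtain ⟨H, _, _, C', π, q, rk⟩ := hg
  lift a to closure D' using subset_closure ha
  lift b to closure D' using subset_closure hb
  lift c to closure D' using subset_closure hc
  have k := q.bp ha hb h
  have hu := mem_pnt (q.memD hc)
  rcases (rk.line _ _ _ _ k (q.zz_one hz)).1 (C'.pnt _ (q.memD hc)) with e | ⟨e, he, k'⟩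
  · exact Or.inl (q.refl c a hc ha (Pp_refl _ _ (e ▸ hu) _ k.ha))
  · obtain ⟨e, he', rfl⟩ := (q.memE ha k.ha _).1 he
    refine Or.inr ⟨e, he', q.refl (e * b * e⁻¹) c (hs.conj _ hb _ e.2) hc ?_⟩
    rw [map_mul, map_mul, map_inv]
    exact Pp_refl _ _ ((smul_eq_iff k.hb).1 k') _ hu

theorem pb2 (h : C.BD a b) (hc : c ∈ D') (h' : C.BD a c) :
    ∃ k, Triv D' ((zz a b * zz a c) ^ C.p ^ k) := by
  obtain ⟨H, _, _, C', π, q, rk⟩ := hg
  lift a to closure D' using subset_closure ha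
  lift b to closure D' using subset_closure hb
  lift c to closure D' using subset_closure hc
  have k := q.bp ha hb h
  have k' := q.bp ha hc h'
  obtain ⟨Q, hQ, hN, ht⟩ := rk.pq (C'.pnt _ (q.memD ha))
  obtain ⟨g, hg, gx, gy⟩ := ht _ _ (ne_of_opp k.opp).symm (ne_of_opp k'.opp).symm
  have k1 := k.smul g
  rw [gx, gy] at k1
  have e := (w1_of_S k'.opp (rk.w1 _ _ (ne_of_opp k'.opp))).zz_eq k' k1
  have m : zz (π a) (π b) * zz (π a) (π c) ∈ Q := by
    rw [e, ← conj_zz, ← mul_assoc, ← mul_assoc]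
    have := mul_mem (hN _ k.zz_x g hg) (inv_mem hg)
    rwa [inv_eq_of_mul_eq_one_right k.bd.zz_sq] at this
  obtain ⟨n, hn⟩ := hQ ⟨_, m⟩
  refine ⟨n, (q.ker ((zz a b * zz a c) ^ C.p ^ n)).1 ?_⟩
  rw [map_pow, map_mul, map_zz, map_zz, ← q.p]
  exact congrArg Subtype.val hn

theorem pb3a (h : C.BD a b) (hz : Triv D' (zz a b)) (A : Subgroup G)
    (hA : ∀ e, e ∈ A ↔ e ∈ E' D' a ∧ Triv D' e) :
    ¬ C.p ∣ ((fun g : G => (g : G ⧸ A)) '' {c | c ∈ D' ∧ c * a = a * c}).ncard := by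
  obtain ⟨H, _, _, C', π, q, rk⟩ := hg
  lift a to closure D' using subset_closure ha
  lift b to closure D' using subset_closure hb
  have k := q.bp ha hb h
  obtain ⟨K, _, _, f, hf⟩ := (rk.line _ _ _ _ k (q.zz_one hz)).2
  have := hf.rep.char
  have key : ∀ u ∈ Subtype.val ⁻¹' {c : G | c ∈ D' ∧ c * a = a * c},
      ∀ v ∈ Subtype.val ⁻¹' {c : G | c ∈ D' ∧ c * a = a * c},
      (((u : closure D') : G) : G ⧸ A) = ((v : closure D') : G) ↔ π u = π v := fun u hu v hv => by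
    rw [QuotientGroup.eq, hA, ← inv_mul_eq_one, ← map_inv, ← map_mul, q.ker]
    exact and_iff_right (mul_mem (inv_mem (subset_closure hu)) (subset_closure hv))
  rw [← Set.image_preimage_eq_of_subset (f := (Subtype.val : closure D' → G))
    (s := {c | c ∈ D' ∧ c * a = a * c}) fun c hc => ⟨⟨c, subset_closure hc.1⟩, rfl⟩,
    Set.image_image, le_antisymm (PBp.img_le fun u hu v hv => (key u hu v hv).2)
      (PBp.img_le fun u hu v hv => (key u hu v hv).1)]
  obtain ⟨α, hα⟩ := (hf.up _).1 (M_le_E k.ha)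
  have e : π '' (Subtype.val ⁻¹' {c : G | c ∈ D' ∧ c * a = a * c}) =
      (fun s => f (up s)) '' {s | f (up s) ∈ C'.D} := by
    ext t
    refine (q.memM ha k.ha t).symm.trans ?_
    constructor
    · intro ht
      obtain ⟨s, rfl⟩ := (hf.up _).1 (M_le_E ht)
      exact ⟨s, mem_D ht, rfl⟩
    · rintro ⟨s, hs, rfl⟩
      exact up_mem_M hf.rep (α := α) (by rw [hα]; exact k.ha) hs
  rw [e, Set.ncard_image_of_injective _ fun _ _ => hf.rep.up_inj C'.prime C'.five, ← q.p]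
  refine PBp.not_dvd C'.prime C'.five (fun e => ne_one e (by rw [up_zero, map_one]))
    ⟨α, (hα ▸ k.bd.ha : f (up α) ∈ C'.D)⟩ fun μ s hs => ?_
  rw [Set.mem_ofPred_eq, ← dg_up, map_mul, map_mul, map_inv]
  exact C'.conj _ hs _

end SQ

end Cfg

end Cfsg.Lib.PT
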