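import Cfsg.Agent.PT.T
import Cfsg.Agent.PT.PB
import Cfsg.Agent.PT.Defs3

/-!
# Tower `PT`: one pair of type `W1` makes all pairs at a point of type `W1`
-/

set_option autoImplicit false
set_option linter.unusedSectionVars false

namespace Cfsg.Lib.PT

open Matrix Subgroup
open scoped MatrixGroups commutatorElement

universe u

variable {G : Type u} [Group G]

theorem MXp.fix {X : Type*} [Finite X] {r k : ℕ} (hr : r.Prime) (φ : X → X) (Ω : Set X)
    (hm : Set.MapsTo φ Ω Ω) (hi : ∀ u ∈ Ω, φ^[r ^ k] u = u) (hn : ¬ r ∣ Ω.ncard) :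
    ∃ u ∈ Ω, φ u = u := by
  classical
  have := Fact.mk hr
  have := Fintype.ofFinite Ω
  let f : Function.End Ω := hm.restrict φ Ω Ω
  have hf : f ^ r ^ k = 1 := funext fun u => Subtype.ext (by
    change ((hm.restrict φ Ω Ω)^[r ^ k] u : X) = u
    rw [hm.coe_iterate_restrict]
    exact hi u u.2)
  by_contra! n
  have := Equiv.Perm.card_fixedPoints_modEq hf
  rw [Fintype.card_eq_zero_iff.2 ⟨fun u : Function.fixedPoints f => n _ u.1.2 (congrArg Subtype.val u.2)⟩,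
    Nat.modEq_zero_iff_dvd, ← Nat.card_eq_fintype_card] at this
  exact hn this

namespace Cfg
variable [Finite G] {C : Cfg G} {x y y' u v : C.Pt} {a b c e g : G} {r : ℕ} {l : (ZMod C.p)ˣ}

theorem RO.line_of_cent (h : C.RO) (h1 : BP x y a b) (c1 : c ≠ 1) (ca : c * a = a * c)
    (cb : c * b = b * c) (hz : zz a b = 1 ∨ zz a b = c) (he : e ∈ M u) (ce : c * e = e * c) :
    u ∈ ln x y := by
  have hs := sub_cent h.r1 {c}
  have m : ∀ d ∈ C.D, c * d = d * c → d ∈ C.D ∩ centralizer {c} := fun d hd e =>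
    ⟨hd, mem_centralizer_singleton_iff.2 e.symm⟩
  have ha := m a h1.bd.ha ca
  have hb := m b h1.bd.hb cb
  rcases pb1 hs (hs.good h.ih ha hb h1.bd.nc fun e => h.simple.cent_ne_top c1
    (eq_top_iff.2 (e.ge.trans ((closure_le _).2 Set.inter_subset_right)))) ha hb h1.bd
    (fun d hd => by
      rcases hz with hz | hz
      · simp [hz]
      · rw [hz, ← mem_centralizer_singleton_iff.1 hd.2, mul_inv_cancel_right])
    (m e (mem_D he) ce) with k | ⟨e', he', k⟩
  · exact Or.inl (h.r1 _ _ ((Pp_iff he h1.ha).2 k))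
  · exact Or.inr ⟨e', E'_le h.r1 hs.sub h1.ha he', h.r1 _ _ ((Pp_iff (conj_mem e' h1.hb) he).2 k)⟩

theorem RO.mx (h : C.RO) (h1 : W1 x y) (hu : u ≠ x) : W1 x u := by
  by_contra nw
  have o : ¬ Pp x u := fun k => hu (h.r1 _ _ k).symm
  obtain ⟨a, b', k⟩ := exists_BP o
  obtain ⟨r, l, hl⟩ := exists_par C.prime C.five
  obtain ⟨y, hy, ty⟩ := MXp.fix (k := 2) hl.prime (fun v => tt a b' l • v) {v | W1 x v}
    (fun v hv => by
      have := W1.smul hv (tt a b' l)
      rwa [k.tt_x] at this)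
    (fun v _ => by rw [smul_iterate_apply, Tp.tt_r hl k.bd, one_smul]) (t_card h.r1 hl h1)
  replace hy : W1 x y := hy
  obtain ⟨b, kb⟩ := exists_partner k.ha hy.1
  by_cases r2 : r = 2
  · subst r2
    have zy : zz a b' • y = y := by
      rw [← k.bd.tt_neg_one, ← hl.two.1, k.bd.tt_pow, pow_two, mul_smul, ty, ty]
    have := kb.smul (zz a b')
    rw [k.zz_x, zy, k.br.zz_a, mul_inv_cancel_right] at this
    rcases h.line_of_cent k (fun e => nw (w6 k e)) k.br.zz_a k.br.zz_b (Or.inr rfl) kb.hb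
      (mul_inv_eq_iff_eq_mul.1 (hy.unique this kb)) with e | ⟨e, he, rfl⟩
    · exact ne_of_opp hy.1 e.symm
    · have := hy.smul e⁻¹
      rw [inv_smul_smul, E_fix (Pp_refl x) (inv_mem he)] at this
      exact nw this
  have tb := hy.sc_pt (k := l ^ 2) kb ty (k.bd.tt_a l)
  have o' : ¬ Pp y u := fun e => nw (h.r1 _ _ e ▸ hy)
  obtain ⟨c0, hc0⟩ := exists_partner kb.hb o'
  obtain ⟨n, hn⟩ := w7 hc0.symm
  have it : ∀ c ∈ C.D, ∀ n : ℕ,
      (fun c => pw (tt a b' l * c * (tt a b' l)⁻¹) (((l ^ 2)⁻¹ : (ZMod C.p)ˣ) : ZMod C.p))^[n] c =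
        pw (tt a b' l ^ n * c * (tt a b' l ^ n)⁻¹)
          ((((l ^ 2)⁻¹) ^ n : (ZMod C.p)ˣ) : ZMod C.p) := fun c hc n => by
    induction n with
    | zero => simp [pw_one]
    | succ n ih =>
      rw [Function.iterate_succ_apply', ih, conj_pw, pw_pw (pow_p (C.conj _ (C.conj _ hc _) _)),
        ← Units.val_mul, ← pow_succ, pow_succ' (tt a b' l)]
      congr 1
      group
  obtain ⟨c, hc, e⟩ := MXp.fix (k := 1) hl.prime
    (fun c => pw (tt a b' l * c * (tt a b' l)⁻¹) (((l ^ 2)⁻¹ : (ZMod C.p)ˣ) : ZMod C.p))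
    {c | BP u y c b} (fun c hc => by
      have := (BP.smul hc (tt a b' l)).pw (l ^ 2)⁻¹
      rwa [k.tt_y, ty, tb, pw_pw (pow_p kb.bd.hb), ← Units.val_mul, mul_inv_cancel, Units.val_one,
        pw_one] at this)
    (fun c hc => by
      rw [it c (BP.bd hc).ha, pow_one, ← k.bd.tt_pow, _root_.inv_pow, ← pow_mul, mul_comm 2,
        pow_mul, hl.pow_r r2, k.bd.tt_one]
      simp [pw_one])
    (by
      rw [hn]
      exact fun d => hl.ne C.prime C.five
        ((Nat.prime_dvd_prime_iff_eq hl.prime C.prime).1 (hl.prime.dvd_of_dvd_pow d)))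
  replace hc : BP u y c b := hc
  have cp := pow_p hc.bd.ha
  have e1 : tt a b' l * c * (tt a b' l)⁻¹ = pw c ((l ^ 2 : (ZMod C.p)ˣ) : ZMod C.p) := by
    conv_rhs => rw [← e]
    rw [pw_pw (pow_p (C.conj _ hc.bd.ha _)), ← Units.val_mul, inv_mul_cancel, Units.val_one, pw_one]
  have e2 := (mem_S.1 (w2' k l (M_le_E hc.ha))).2
  rw [e1, ← pw_neg cp, ← pw_add cp] at e2
  refine o ((smul_fix_iff (pw_M hc.ha (Units.mk0 _ fun d => hl.four_ne r2 ?_))).1 e2).symm
  rw [neg_add_eq_zero, ← Units.val_pow_eq_pow_val, Units.val_inj, _root_.inv_pow,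
    inv_eq_iff_mul_eq_one] at d
  rw [pow_two, d]

end Cfg

end Cfsg.Lib.PT
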