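import Cfsg.Agent.PT.LNS
import Cfsg.Agent.PT.MX

/-!
# Tower `PT`: in rank one all pairs are of type `W1`
-/

set_option autoImplicit false
set_option linter.unusedSectionVars false

namespace Cfsg.Lib.PT

open Matrix Subgroup
open scoped MatrixGroups commutatorElement

universe u

variable {G : Type u} [Group G]

theorem AWp.cnt (B : Subgroup G) {T : Set G} (h : ∀ a ∈ T, ∀ e ∈ B, a * e ∈ T) :
    T.ncard = Nat.card B * ((fun g : G => (g : G ⧸ B)) '' T).ncard := by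
  rw [← Nat.card_coe_set_eq, ← Nat.card_coe_set_eq, ← QuotientGroup.card_preimage_mk]
  congr 2
  refine Set.Subset.antisymm (Set.subset_preimage_image _ _) ?_
  rintro g ⟨a, ha, e⟩
  simpa using h a ha _ (QuotientGroup.eq.1 e)

namespace Cfg
variable [Finite G] {C : Cfg G} {x y y' u v : C.Pt} {a b c e g : G} {r : ℕ} {l : (ZMod C.p)ˣ}

theorem AWp.inf (h : C.RO) (hK : ∀ u v : C.Pt, u ≠ v → KK u v ≠ ⊤) (ne : u ≠ v) :
    E u ⊓ E v = ⊥ := by
  refine eq_bot_iff.2 fun e he => h.simple.faith fun w => ?_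
  by_cases hw : w ∈ ln u v
  · obtain ⟨g, hg, rfl⟩ := (h.orbit_iff ne (hK _ _ ne)).1 hw
    exact WW_fix (LNSp.opp h.r1 ne) hg (mem_sup_left (mem_S.2 ⟨he.1, E_fix (Pp_refl v) he.2⟩))
  have m : ∀ u : C.Pt, w ∈ ln u w := fun u => Or.inr ⟨1, one_mem _, one_smul _ _⟩
  have n1 : u ≠ w := fun k => hw (Or.inl k.symm)
  have n2 : v ≠ w := fun k => hw (Or.inr ⟨1, one_mem _, (one_smul _ _).trans k⟩)
  by_contra n
  have e1 := (h.ln_eq n1 (hK _ _ n1) (h.ln_smul n1 (hK _ _ n1) (mem_sup_left he.1) (m u)) (m u) n).1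
  have e2 := (h.ln_eq n2 (hK _ _ n2) (h.ln_smul n2 (hK _ _ n2) (mem_sup_left he.2) (m v)) (m v) n).1
  refine hw ((h.ln_eq n1 (hK _ _ n1) (Or.inl rfl) ?_ ne).1 ▸ m u)
  rw [← e1, e2]
  exact Or.inl rfl

theorem RO.w1 (h : C.RO) (ne : x ≠ y) : W1 x y := by
  by_contra nw
  have hn : ∀ u v : C.Pt, ¬ W1 u v := fun u v k => by
    obtain ⟨g, rfl⟩ := h.simple.trans u x
    exact nw (h.mx (k.smul g) ne.symm)
  have hK : ∀ u v : C.Pt, u ≠ v → KK u v ≠ ⊤ := fun u v n e => by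
    have o := LNSp.opp h.r1 n
    have := h.simple.simple
    rcases (⟨fun m hm g => WW_norm o (e ▸ mem_top g) hm⟩ : (WW u v).Normal).eq_bot_or_eq_top with
      k | k
    · exact hn u v (w1_of_S o (eq_bot_iff.2 (le_sup_left.trans k.le)))
    · have := ((k ▸ WW_pgroup o : IsPGroup C.p (⊤ : Subgroup G)).of_equiv topEquiv).isNilpotent
      exact h.simple.not_solv inferInstance
  have k8 : ∀ v, x ≠ v → ∀ a ∈ M x, ∀ e ∈ S x v, a * e ∈ M x := fun v n a ha e he =>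
    w8 (LNSp.opp h.r1 n) (AWp.inf h hK n) ha he
  have hA : ∀ a ∈ M x, ∀ e ∈ ⨆ v : {v // x ≠ v}, S x v, a * e ∈ M x := fun a ha e he =>
    iSup_induction _ (C := fun e => ∀ a ∈ M x, a * e ∈ M x) he
      (fun v e he a ha => k8 v v.2 a ha e he) (by simp)
      (fun _ _ k1 k2 a ha => by rw [← mul_assoc]; exact k2 _ (k1 a ha)) a ha
  obtain ⟨n, hn'⟩ := IsPGroup.iff_card.1 ((E_pgroup x).to_le
    (iSup_le fun _ => inf_le_left : ⨆ v : {v // x ≠ v}, S x v ≤ E x))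
  have eq : ∀ v : {v // x ≠ v}, S x v = ⨆ v : {v // x ≠ v}, S x v := fun v => by
    refine eq_of_le_of_card_ge (le_iSup (fun v : {v // x ≠ v} => S x v) v)
      (Nat.le_of_dvd Nat.card_pos (Nat.Coprime.dvd_of_dvd_mul_right ?_
        ⟨_, (PT.AWp.cnt _ (k8 v v.2)).symm.trans (PT.AWp.cnt _ hA)⟩))
    rw [hn']
    exact ((C.prime.coprime_iff_not_dvd).2 (h.card_M v.2 (hK _ _ v.2))).pow_left n
  refine nw (w1_of_S (LNSp.opp h.r1 ne) (eq_bot_iff.2 fun e he => h.simple.faith fun w => ?_))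
  by_cases k : x = w
  · exact k ▸ E_fix (Pp_refl x) he.1
  · exact (mem_S.1 (((eq ⟨y, ne⟩).trans (eq ⟨w, k⟩).symm).le he)).2

theorem RO.r2 (h : C.RO) : C.R2 :=
  ⟨h, fun _ _ => h.w1, fun _ _ _ h1 h2 => t_trans h.r1 (h.w1 h1.symm) (h.w1 h2.symm)⟩

end Cfg

end Cfsg.Lib.PT
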