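import Cfsg.Agent.PT.Defs2
import Cfsg.Agent.Known.GL2Card

/-!
# Tower `PT`: two by two matrices and powers
-/

set_option autoImplicit false
set_option linter.unusedSimpArgs false
set_option linter.unusedSectionVars false

namespace Cfsg.Lib.PT

open Matrix Subgroup
open scoped MatrixGroups commutatorElement

universe u

variable {G : Type u} [Group G]

section Mat
variable {K : Type} [Field K]

theorem Mat.ext {x y : SL2 K} (h00 : x 0 0 = y 0 0) (h01 : x 0 1 = y 0 1) (h10 : x 1 0 = y 1 0)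
    (h11 : x 1 1 = y 1 1) : x = y := by
  ext i j
  fin_cases i <;> fin_cases j
  exacts [h00, h01, h10, h11]

theorem Mat.mul_apply (x y : SL2 K) (i j : Fin 2) : (x * y) i j = x i 0 * y 0 j + x i 1 * y 1 j := by
  simp [Matrix.mul_apply, Fin.sum_univ_two]

theorem Mat.det (x : SL2 K) : x 0 0 * x 1 1 - x 0 1 * x 1 0 = 1 := by
  rw [← det_fin_two]; exact x.det_coe


section ent
variable (x : K) (μ : Kˣ)
@[simp] theorem Mat.up00 : (up x).1 0 0 = 1 := rfl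
@[simp] theorem Mat.up01 : (up x).1 0 1 = x := rfl
@[simp] theorem Mat.up10 : (up x).1 1 0 = 0 := rfl
@[simp] theorem Mat.up11 : (up x).1 1 1 = 1 := rfl
@[simp] theorem Mat.lo00 : (lo x).1 0 0 = 1 := rfl
@[simp] theorem Mat.lo01 : (lo x).1 0 1 = 0 := rfl
@[simp] theorem Mat.lo10 : (lo x).1 1 0 = x := rfl
@[simp] theorem Mat.lo11 : (lo x).1 1 1 = 1 := rfl
@[simp] theorem Mat.dg00 : (dg μ).1 0 0 = μ := rfl
@[simp] theorem Mat.dg01 : (dg μ).1 0 1 = 0 := rfl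
@[simp] theorem Mat.dg10 : (dg μ).1 1 0 = 0 := rfl
@[simp] theorem Mat.dg11 : (dg μ).1 1 1 = (μ : K)⁻¹ := Units.val_inv_eq_inv_val μ
@[simp] theorem Mat.wy00 : (wy μ).1 0 0 = 0 := rfl
@[simp] theorem Mat.wy01 : (wy μ).1 0 1 = μ := rfl
@[simp] theorem Mat.wy10 : (wy μ).1 1 0 = -(μ : K)⁻¹ := congrArg Neg.neg (Units.val_inv_eq_inv_val μ)
@[simp] theorem Mat.wy11 : (wy μ).1 1 1 = 0 := rfl
end ent

theorem Mat.mm (x y : Matrix (Fin 2) (Fin 2) K) (i j : Fin 2) :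
    (x * y) i j = x i 0 * y 0 j + x i 1 * y 1 j := by
  simp [Matrix.mul_apply, Fin.sum_univ_two]

theorem up_add (x y : K) : up (x + y) = up x * up y :=
  Mat.ext (by simp [Mat.mm]) (by simp [Mat.mm, add_comm]) (by simp [Mat.mm]) (by simp [Mat.mm])
theorem lo_add (x y : K) : lo (x + y) = lo x * lo y :=
  Mat.ext (by simp [Mat.mm]) (by simp [Mat.mm]) (by simp [Mat.mm]) (by simp [Mat.mm])
theorem up_zero : up (0 : K) = 1 :=
  Mat.ext (by simp [Mat.mm]) (by simp [Mat.mm]) (by simp [Mat.mm]) (by simp [Mat.mm])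
theorem lo_zero : lo (0 : K) = 1 :=
  Mat.ext (by simp [Mat.mm]) (by simp [Mat.mm]) (by simp [Mat.mm]) (by simp [Mat.mm])
theorem up_neg (x : K) : up (-x) = (up x)⁻¹ :=
  eq_inv_of_mul_eq_one_left (by rw [← up_add, neg_add_cancel, up_zero])
theorem lo_neg (x : K) : lo (-x) = (lo x)⁻¹ :=
  eq_inv_of_mul_eq_one_left (by rw [← lo_add, neg_add_cancel, lo_zero])
theorem up_pow (x : K) (k : ℕ) : up x ^ k = up (k * x) := by
  induction k with
  | zero => rw [pow_zero, Nat.cast_zero, zero_mul, up_zero]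
  | succ k ih => rw [pow_succ, ih, ← up_add, Nat.cast_succ, add_one_mul]
theorem lo_pow (x : K) (k : ℕ) : lo x ^ k = lo (k * x) := by
  induction k with
  | zero => rw [pow_zero, Nat.cast_zero, zero_mul, lo_zero]
  | succ k ih => rw [pow_succ, ih, ← lo_add, Nat.cast_succ, add_one_mul]
theorem dg_mul (μ ν : Kˣ) : dg (μ * ν) = dg μ * dg ν :=
  Mat.ext (by simp [Mat.mm]) (by simp [Mat.mm]) (by simp [Mat.mm]) (by simp [Mat.mm, mul_comm])
theorem dg_one : dg (1 : Kˣ) = 1 :=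
  Mat.ext (by simp [Mat.mm]) (by simp [Mat.mm]) (by simp [Mat.mm]) (by simp [Mat.mm])
theorem dg_inv (μ : Kˣ) : dg μ⁻¹ = (dg μ)⁻¹ :=
  eq_inv_of_mul_eq_one_left (by rw [← dg_mul, inv_mul_cancel, dg_one])
theorem dg_neg_one : dg (-1 : Kˣ) = -1 :=
  Mat.ext (by simp [Mat.mm]) (by simp [Mat.mm]) (by simp [Mat.mm]) (by simp [Mat.mm])
theorem dg_up (μ : Kˣ) (x : K) : dg μ * up x * (dg μ)⁻¹ = up ((μ : K) ^ 2 * x) :=
  mul_inv_eq_iff_eq_mul.2 (Mat.ext (by simp [Mat.mm]) (by simp [Mat.mm]; field_simp)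
    (by simp [Mat.mm]) (by simp [Mat.mm]))
theorem dg_lo (μ : Kˣ) (x : K) : dg μ * lo x * (dg μ)⁻¹ = lo (((μ⁻¹ : Kˣ) : K) ^ 2 * x) :=
  mul_inv_eq_iff_eq_mul.2 (Mat.ext (by simp [Mat.mm]) (by simp [Mat.mm])
    (by simp [Mat.mm]; field_simp) (by simp [Mat.mm]))
theorem wy_eq (α : Kˣ) : ww (up (α : K)) (lo (-((α⁻¹ : Kˣ) : K))) = wy α :=
  Mat.ext (by simp [Mat.mm, ww]) (by simp [Mat.mm, ww]) (by simp [Mat.mm, ww])
    (by simp [Mat.mm, ww])
theorem wy_up (α : Kˣ) (x : K) :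
    wy α * up x * (wy α)⁻¹ = lo (-(((α⁻¹ : Kˣ) : K) ^ 2 * x)) :=
  mul_inv_eq_iff_eq_mul.2 (Mat.ext (by simp [Mat.mm]) (by simp [Mat.mm])
    (by simp [Mat.mm]) (by simp [Mat.mm]; field_simp))
theorem wy_lo (α : Kˣ) (x : K) : wy α * lo x * (wy α)⁻¹ = up (-((α : K) ^ 2 * x)) :=
  mul_inv_eq_iff_eq_mul.2 (Mat.ext (by simp [Mat.mm]; field_simp) (by simp [Mat.mm])
    (by simp [Mat.mm]) (by simp [Mat.mm]))
theorem wy_wy (α β : Kˣ) : wy α * (wy β)⁻¹ = dg (α * β⁻¹) :=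
  mul_inv_eq_iff_eq_mul.2 (Mat.ext (by simp [Mat.mm]) (by simp [Mat.mm])
    (by simp [Mat.mm]; field_simp) (by simp [Mat.mm]))
theorem wy_sq (α : Kˣ) : wy α * wy α = -1 :=
  Mat.ext (by simp [Mat.mm]) (by simp [Mat.mm]) (by simp [Mat.mm]) (by simp [Mat.mm])
theorem wy_dg (α μ : Kˣ) : wy α * dg μ * (wy α)⁻¹ = dg μ⁻¹ :=
  mul_inv_eq_iff_eq_mul.2 (Mat.ext (by simp [Mat.mm]) (by simp [Mat.mm, mul_comm])
    (by simp [Mat.mm, mul_comm]) (by simp [Mat.mm]))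
theorem bruhat (g : SL2 K) :
    (∃ (μ : Kˣ) (s : K), g = up s * dg μ) ∨ ∃ (s t : K) (μ : Kˣ), g = up s * wy μ * up t := by
  have hd := Mat.det g
  by_cases h : g 1 0 = 0
  · rw [h, mul_zero, sub_zero] at hd
    have h0 : g 0 0 ≠ 0 := left_ne_zero_of_mul_eq_one hd
    refine Or.inl ⟨Units.mk0 _ h0, g 0 1 * g 0 0, Mat.ext (by simp [Mat.mm]) (by simp [Mat.mm, h0])
      (by simp [Mat.mm, h]) ?_⟩
    simpa [Mat.mm] using eq_inv_of_mul_eq_one_right hd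
  · refine Or.inr ⟨g 0 0 / g 1 0, g 1 1 / g 1 0, -(Units.mk0 _ h)⁻¹, Mat.ext (by simp [Mat.mm, h]) ?_
      (by simp [Mat.mm]) (by simp [Mat.mm]; field_simp)⟩
    simp [Mat.mm]
    field_simp
    linear_combination -hd
theorem closure_up_lo : closure (Set.range (up (K := K)) ∪ Set.range (lo (K := K))) = ⊤ := by
  refine eq_top_iff.2 fun g _ => ?_
  set H := closure (Set.range (up (K := K)) ∪ Set.range (lo (K := K)))
  have h1 : ∀ s, up s ∈ H := fun s => subset_closure (Or.inl ⟨s, rfl⟩)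
  have h2 : ∀ s, lo s ∈ H := fun s => subset_closure (Or.inr ⟨s, rfl⟩)
  have h3 : ∀ μ, wy μ ∈ H := fun μ => wy_eq μ ▸ mul_mem (mul_mem (h1 _) (h2 _)) (h1 _)
  rcases bruhat g with ⟨μ, s, rfl⟩ | ⟨s, t, μ, rfl⟩
  · refine mul_mem (h1 _) ?_
    have := mul_mem (h3 μ) (inv_mem (h3 1))
    rwa [wy_wy, inv_one, mul_one] at this
  · exact mul_mem (mul_mem (h1 _) (h3 _)) (h1 _)
theorem closure_zmod (p : ℕ) [Fact p.Prime] :
    Subgroup.closure {up (1 : ZMod p), lo (-1 : ZMod p)} = ⊤ := by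
  refine eq_top_iff.2 (closure_up_lo.ge.trans ((closure_le _).2 ?_))
  rintro _ (⟨s, rfl⟩ | ⟨s, rfl⟩)
  · have := pow_mem (subset_closure (k := {up (1 : ZMod p), lo (-1 : ZMod p)}) (Or.inl rfl)) s.val
    rwa [up_pow, ZMod.natCast_zmod_val, mul_one] at this
  · have := pow_mem (subset_closure (k := {up (1 : ZMod p), lo (-1 : ZMod p)}) (Or.inr rfl))
      (-s).val
    rwa [lo_pow, ZMod.natCast_zmod_val, mul_neg_one, neg_neg] at this
theorem Mat.pow_mem (A : AddSubgroup K) {s : K} {n : ℕ} (hn : n ≠ 0)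
    (h : ∀ μ : Kˣ, (μ : K) ^ n * s ∈ A) (x : K) : x ^ n * s ∈ A := by
  by_cases hx : x = 0
  · rw [hx, zero_pow hn, zero_mul]; exact A.zero_mem
  · exact h (Units.mk0 x hx)
theorem sq_span [Finite K] (A : AddSubgroup K) {s : K} (hs : s ≠ 0)
    (h : ∀ μ : Kˣ, (μ : K) ^ 2 * s ∈ A) : A = ⊤ := by
  have h1 := Mat.pow_mem A two_ne_zero h
  refine eq_top_iff.2 fun y _ => ?_
  by_cases h2 : (2 : K) = 0
  · obtain ⟨x, hx⟩ := (Finite.injective_iff_surjective (f := fun d : K => d ^ 2)).1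
      (fun a b e => sub_eq_zero.1 (pow_eq_zero_iff two_ne_zero |>.1 (by
        have e' : a ^ 2 = b ^ 2 := e
        linear_combination e' + (b ^ 2 - a * b) * h2))) (y / s)
    have := h1 x
    rwa [show x ^ 2 = y / s from hx, div_mul_cancel₀ _ hs] at this
  · have := A.sub_mem (h1 ((y / s - 1) / 2 + 1)) (h1 ((y / s - 1) / 2))
    rwa [show ((y / s - 1) / 2 + 1) ^ 2 * s - ((y / s - 1) / 2) ^ 2 * s = y by
      field_simp; ring] at this
theorem Mat.cast_ne {p : ℕ} (K : Type) [Field K] [CharP K p] {n : ℕ} (h0 : 0 < n) (h : n < p) :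
    (n : K) ≠ 0 := fun e => (Nat.le_of_dvd h0 ((CharP.cast_eq_zero_iff K p n).1 e)).not_gt h
theorem four_span {p : ℕ} (hp : p.Prime) (h5 : 5 ≤ p) [CharP K p] (A : AddSubgroup K) {s : K}
    (hs : s ≠ 0) (h : ∀ μ : Kˣ, (μ : K) ^ 4 * s ∈ A) : A = ⊤ := by
  have _ := hp
  have h1 := Mat.pow_mem A four_ne_zero h
  have h2 : (2 : K) ≠ 0 := by simpa using Mat.cast_ne (p := p) K (n := 2) (by omega) (by omega)
  have h3 : (3 : K) ≠ 0 := by simpa using Mat.cast_ne (p := p) K (n := 3) (by omega) (by omega)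
  have h24 : (24 : K) ≠ 0 := by
    rw [show (24 : K) = 2 * 2 * 2 * 3 by norm_num]
    simp [h2, h3]
  refine eq_top_iff.2 fun y _ => ?_
  obtain ⟨x, rfl⟩ : ∃ x, y = (24 * x + 36) * s := ⟨(y / s - 36) / 24, by field_simp; ring⟩
  have := A.sub_mem (A.add_mem (A.sub_mem (h1 (x + 3)) (A.nsmul_mem (h1 (x + 2)) 3))
    (A.nsmul_mem (h1 (x + 1)) 3)) (h1 x)
  convert this using 1
  simp only [nsmul_eq_mul, Nat.cast_ofNat]
  ring
theorem card_pgroup_SL2_le {p : ℕ} (hp : p.Prime) [CharP K p] [Finite K] (P : Subgroup (SL2 K))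
    (hP : IsPGroup p P) : Nat.card P ≤ Nat.card K := by
  have := Fact.mk hp
  have := Fintype.ofFinite K
  obtain ⟨k, hk⟩ := hP.exists_card_eq
  obtain ⟨n, -, hn⟩ := FiniteField.card K p
  have h1 := card_subgroup_dvd_card P
  rw [Known.GL2.card_SL_two, hk, mul_assoc] at h1
  rw [hk, Nat.card_eq_fintype_card]
  have h2 : p ∣ Fintype.card K := hn ▸ dvd_pow_self p n.ne_zero
  have h3 : 1 ≤ Fintype.card K := Fintype.card_pos
  refine Nat.le_of_dvd h3 (Nat.Coprime.dvd_of_dvd_mul_right (Nat.Coprime.pow_left _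
    ((Nat.Prime.coprime_iff_not_dvd hp).2 fun h => hp.one_lt.ne' (Nat.dvd_one.1 ?_))) h1)
  rcases (Nat.Prime.dvd_mul hp).1 h with h | h
  · simpa [Nat.sub_sub_self h3] using Nat.dvd_sub h2 h
  · exact (Nat.dvd_add_right h2).1 h

theorem map_ww {H : Type*} [Group H] (φ : G →* H) (a b : G) : φ (ww a b) = ww (φ a) (φ b) := by
  simp only [ww, map_mul]
theorem map_zz {H : Type*} [Group H] (φ : G →* H) (a b : G) : φ (zz a b) = zz (φ a) (φ b) := by
  simp only [zz, map_mul, map_ww]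
theorem map_pw {H : Type*} [Group H] (φ : G →* H) {p : ℕ} (a : G) (k : ZMod p) :
    φ (pw a k) = pw (φ a) k := map_pow φ a _
theorem map_tt {H : Type*} [Group H] (φ : G →* H) {p : ℕ} (a b : G) (l : (ZMod p)ˣ) :
    φ (tt a b l) = tt (φ a) (φ b) l := by
  simp only [tt, map_mul, map_inv, map_ww, map_pw]
theorem Br.map {H : Type*} [Group H] (φ : G →* H) {a b : G} (h : Br a b) : Br (φ a) (φ b) := by
  simpa only [Br, map_mul] using congrArg φ h
theorem Br.symm {a b : G} (h : Br a b) : Br b a := Eq.symm h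
theorem Br.conj {a b : G} (h : Br a b) (g : G) : Br (g * a * g⁻¹) (g * b * g⁻¹) :=
  h.map (MulAut.conj g).toMonoidHom
theorem Br.ww_symm {a b : G} (h : Br a b) : ww b a = ww a b := Eq.symm h
theorem Br.zz_symm {a b : G} (h : Br a b) : zz b a = zz a b := by rw [zz, zz, h.ww_symm]
theorem Br.ww_b {a b : G} (h : Br a b) : ww a b * b * (ww a b)⁻¹ = a := by
  rw [mul_inv_eq_iff_eq_mul, ← h.ww_symm]
  calc _ = a * (b * a * b) := by rw [h.ww_symm, ww]; group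
    _ = _ := rfl
theorem Br.ww_a {a b : G} (h : Br a b) : ww a b * a * (ww a b)⁻¹ = b := by
  rw [← h.ww_symm]; exact h.symm.ww_b
theorem Br.zz_a {a b : G} (h : Br a b) : zz a b * a = a * zz a b := by
  rw [zz, mul_assoc, mul_inv_eq_iff_eq_mul.1 h.ww_a, ← mul_assoc, mul_inv_eq_iff_eq_mul.1 h.ww_b,
    mul_assoc]
theorem Br.zz_b {a b : G} (h : Br a b) : zz a b * b = b * zz a b := by
  rw [← h.zz_symm]; exact h.symm.zz_a
theorem conj_ww (g a b : G) : g * ww a b * g⁻¹ = ww (g * a * g⁻¹) (g * b * g⁻¹) :=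
  map_ww (MulAut.conj g).toMonoidHom a b
theorem conj_zz (g a b : G) : g * zz a b * g⁻¹ = zz (g * a * g⁻¹) (g * b * g⁻¹) :=
  map_zz (MulAut.conj g).toMonoidHom a b
theorem conj_tt {p : ℕ} (g a b : G) (l : (ZMod p)ˣ) :
    g * tt a b l * g⁻¹ = tt (g * a * g⁻¹) (g * b * g⁻¹) l :=
  map_tt (MulAut.conj g).toMonoidHom a b l
theorem ww_mem {H : Subgroup G} {a b : G} (ha : a ∈ H) (hb : b ∈ H) : ww a b ∈ H :=
  mul_mem (mul_mem ha hb) ha
theorem zz_mem {H : Subgroup G} {a b : G} (ha : a ∈ H) (hb : b ∈ H) : zz a b ∈ H :=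
  mul_mem (ww_mem ha hb) (ww_mem ha hb)
theorem pw_mem {H : Subgroup G} {p : ℕ} {a : G} (ha : a ∈ H) (k : ZMod p) : pw a k ∈ H :=
  pow_mem ha _
theorem tt_mem {H : Subgroup G} {p : ℕ} {a b : G} (ha : a ∈ H) (hb : b ∈ H) (l : (ZMod p)ˣ) :
    tt a b l ∈ H := mul_mem (ww_mem (pw_mem ha _) (pw_mem hb _)) (inv_mem (ww_mem ha hb))

section pw
variable {p : ℕ} [Fact p.Prime] {a : G}
theorem pw_zero (a : G) : pw a (0 : ZMod p) = 1 := by rw [pw, ZMod.val_zero, pow_zero]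
theorem pw_one (a : G) : pw a (1 : ZMod p) = a := by rw [pw, ZMod.val_one, pow_one]
theorem one_pw (k : ZMod p) : pw (1 : G) k = 1 := one_pow _
theorem pw_natCast (h : a ^ p = 1) (k : ℕ) : pw a (k : ZMod p) = a ^ k := by
  rw [pw, ZMod.val_natCast, ← pow_eq_pow_mod _ h]
theorem pw_add (h : a ^ p = 1) (k l : ZMod p) : pw a (k + l) = pw a k * pw a l := by
  rw [pw, ZMod.val_add, ← pow_eq_pow_mod _ h, pow_add, pw, pw]
theorem pw_neg (h : a ^ p = 1) (k : ZMod p) : pw a (-k) = (pw a k)⁻¹ :=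
  eq_inv_of_mul_eq_one_left (by rw [← pw_add h, neg_add_cancel, pw_zero])
theorem pw_pw (h : a ^ p = 1) (k l : ZMod p) : pw (pw a k) l = pw a (k * l) := by
  rw [pw, pw, pw, ZMod.val_mul, ← pow_eq_pow_mod _ h, pow_mul]
theorem pw_pow (h : a ^ p = 1) (k : ZMod p) : pw a k ^ p = 1 := by
  rw [pw, ← pow_mul, mul_comm, pow_mul, h, one_pow]
theorem pw_inj (h : a ^ p = 1) (h1 : a ≠ 1) {k l : ZMod p} (e : pw a k = pw a l) : k = l := by
  have h2 := orderOf_eq_prime h h1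
  exact ZMod.val_injective p (pow_injOn_Iio_orderOf (by rw [h2]; exact ZMod.val_lt k)
    (by rw [h2]; exact ZMod.val_lt l) e)
theorem mul_pw {b : G} (h : a * b = b * a) (k : ZMod p) : pw (a * b) k = pw a k * pw b k :=
  Commute.mul_pow h _
theorem inv_pw (a : G) (k : ZMod p) : pw a⁻¹ k = (pw a k)⁻¹ := inv_pow _ _
theorem conj_pw (g a : G) (k : ZMod p) : g * pw a k * g⁻¹ = pw (g * a * g⁻¹) k := conj_pow.symm
theorem up_pw [CharP K p] (x : K) (k : ZMod p) : pw (up x) k = up ((k.val : K) * x) := up_pow x _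
theorem lo_pw [CharP K p] (x : K) (k : ZMod p) : pw (lo x) k = lo ((k.val : K) * x) := lo_pow x _
end pw
end Mat

end Cfsg.Lib.PT
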