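import Cfsg.Agent.PT.Defs3
import Cfsg.Agent.PT.Mat
import Cfsg.Agent.Fr4.Util
import Cfsg.Agent.Block.ZStarElt
import Cfsg.Agent.Local.ProdCard
import Cfsg.Agent.Solv.Cores
import Cfsg.Agent.Trans.Quasisimple
import Cfsg.Agent.S0033

/-!
# Tower `PT`: abstract lemmas for the rank one case
-/

set_option autoImplicit false
set_option linter.unusedSectionVars false

namespace Cfsg.Lib.PT

open Subgroup
open scoped commutatorElement

universe u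

variable {G : Type u} [Group G]

section abstract
variable [Finite G] {p r : ℕ} {κ : ZMod p} {O E O0 Y0 Γ : Subgroup G} {z t : G}

theorem Ab.nm {B : Subgroup G} {g : G} (h : ∀ x ∈ B, g * x * g⁻¹ ∈ B) :
    g ∈ normalizer (B : Set G) := mem_normalizer_fintype h

omit [Finite G] in
theorem Ab.cj {B : Subgroup G} {g x : G} (h : g ∈ normalizer (B : Set G)) (hx : x ∈ B) :
    g * x * g⁻¹ ∈ B := (mem_normalizer_iff.1 h x).1 hx

theorem nil_of_fpf (hr : r.Prime) (ht : t ^ r = 1) (B : Subgroup G)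
    (h1 : ∀ g ∈ B, t * g * t⁻¹ ∈ B) (h2 : ∀ g ∈ B, g * t = t * g → g = 1) :
    Group.IsNilpotent B := by
  have := Fact.mk hr
  have h3 : MonoidHom.FixedPointFree (B.normalizerMonoidHom ⟨t, Ab.nm h1⟩) := fun g hg =>
    Subtype.ext (h2 g g.2 (mul_inv_eq_iff_eq_mul.1 (congrArg Subtype.val hg)).symm)
  by_cases h4 : B.normalizerMonoidHom ⟨t, Ab.nm h1⟩ = 1
  · have : Subsingleton B := ⟨fun a b => by rw [h3 a (by rw [h4]; rfl), h3 b (by rw [h4]; rfl)]⟩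
    infer_instance
  · exact Cfsg.Agent.S0033.result _ h3 r hr (orderOf_eq_prime (by
      rw [← map_pow, ← map_one B.normalizerMonoidHom]; exact congrArg _ (Subtype.ext ht)) h4)

theorem fix_coset (hr : r.Prime) (ht : t ^ r = 1) (N : Subgroup G) (hN : ¬ r ∣ Nat.card N)
    (h1 : ∀ n ∈ N, t * n * t⁻¹ ∈ N) {g : G} (h2 : g⁻¹ * (t * g * t⁻¹) ∈ N) :
    ∃ n ∈ N, g * n * t = t * (g * n) := by
  obtain ⟨b, h3, h4⟩ := Fr4.exists_fix_coset hr (Fr4.PE.of_pow_eq_one ht) hN h1 h2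
  exact ⟨_, h3, by rw [mul_inv_cancel_left, h4]⟩

omit [Finite G] in
theorem Ab.wcl {H : Type*} [Group H] {z : H} (z2 : z * z = 1)
    (iso : ∀ g, g * z * g⁻¹ * z = z * (g * z * g⁻¹) → g * z * g⁻¹ = z) (k : ℕ) :
    ∀ g w, g * z * g⁻¹ = w * z → w ^ 2 ^ k = 1 → w = 1 := by
  have key : ∀ g w, g * z * g⁻¹ = w * z → z * w⁻¹ = w * z := fun g w e => by
    have h1 : w * z * (w * z) = 1 := by rw [← e, conj_mul, z2, mul_one, mul_inv_cancel]
    rw [← inv_eq_of_mul_eq_one_right h1, mul_inv_rev, inv_eq_of_mul_eq_one_right z2]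
  induction k with
  | zero => exact fun g w _ h => by simpa using h
  | succ k ih =>
    intro g w e h
    have h1 := ih w (w * w) (by rw [mul_assoc, key g w e, mul_assoc])
      (by rwa [← pow_two, ← pow_mul, ← pow_succ'])
    have h2 := key g w e
    rw [inv_eq_of_mul_eq_one_right h1] at h2
    have := iso g (by rw [e, ← mul_assoc, h2])
    rwa [e, mul_eq_right] at this

theorem od_of_isolated (hp : p.Prime) (h2 : p ≠ 2) (EO : E ≤ O)
    (Ec : ∀ e ∈ E, ∀ g ∈ O, e * g = g * e) (Ep : IsPGroup p E) (hz : z ∈ O) (z2 : z * z = 1)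
    (iso : ∀ g ∈ O, g * z * g⁻¹ * z = z * (g * z * g⁻¹) → g * z * g⁻¹ = z)
    (cz : ∀ g ∈ O, g * z = z * g → g ∈ E ⊔ O0) : ∃ O', OD O E O0 O' := by
  have := Fact.mk hp
  have := Fact.mk Nat.prime_two
  have hN := Solv.normalizer_le_normalizer_map_pPrimeCore 2 O
  have hc := Solv.coprime_card_map_pPrimeCore 2 O
  have hE : E ≤ (pPrimeCore 2 O).map O.subtype := by
    obtain ⟨k, hk⟩ := Ep.exists_card_eq
    exact Solv.le_map_pPrimeCore EO (fun g hg => Ab.nm fun e he => by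
      rwa [← Ec e he g hg, mul_inv_cancel_right])
      (hk ▸ Nat.Coprime.pow_left _ ((Nat.coprime_primes hp Nat.prime_two).2 h2))
  refine ⟨_, map_subtype_le _, Nat.coprime_two_right.1 hc, fun g hg _ => Ab.cj (hN (Ab.nm hg)), hE,
    fun g hg => ?_⟩
  have z2' : (⟨z, hz⟩ : O) * ⟨z, hz⟩ = 1 := Subtype.ext z2
  obtain ⟨S, hS⟩ := IsPGroup.exists_le_sylow (p := 2) (P := zpowers (⟨z, hz⟩ : O)) (by
    rintro ⟨_, n, rfl⟩
    exact ⟨1, Subtype.ext (by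
      change (_ ^ n) ^ 2 ^ 1 = (1 : O)
      rw [pow_one, ← zpow_natCast, ← zpow_mul, mul_comm, zpow_mul, zpow_natCast, pow_two, z2',
        one_zpow])⟩)
  have h3 := Block.Princ.zstar_elt S (hS (mem_zpowers _)) (fun u hu => by
    obtain ⟨k, hk⟩ := S.isPGroup' ⟨_, mul_mem hu (inv_mem (hS (mem_zpowers _)))⟩
    exact mul_inv_eq_one.1 (Ab.wcl z2' (fun g e => Subtype.ext (iso g g.2 (congrArg Subtype.val e)))
      k u _ (inv_mul_cancel_right _ _).symm (congrArg Subtype.val hk))) (⟨g, hg⟩ : O)⁻¹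
  obtain ⟨n, hn, h4⟩ := fix_coset (t := z) Nat.prime_two (by rw [pow_two, z2]) _
    (Nat.prime_two.coprime_iff_not_dvd.1 hc.symm) (fun _ => Ab.cj (hN (le_normalizer hz)))
    (g := g) ⟨_, h3, by simp [mul_assoc]⟩
  exact (mul_mem_cancel_right (mem_sup_left hn)).1
    (sup_le_sup_right hE _ (cz _ (mul_mem hg (map_subtype_le _ hn)) h4))

omit [Finite G] in
theorem PD.conj_E (h : PD p r κ O E O0 Γ t) {g e : G} (hg : g ∈ O) (he : e ∈ E) :
    g * e * g⁻¹ = e := by rw [← h.Ec e he g hg, mul_inv_cancel_right]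

theorem PD.mem_sup (h : PD p r κ O E O0 Γ t) {g : G} :
    g ∈ E ⊔ O0 ↔ ∃ e ∈ E, ∃ c ∈ O0, g = e * c := by
  rw [Trans.mem_sup_of_le_normalizer fun c hc => Ab.nm fun e he => by
    rwa [h.conj_E (h.le0 hc) he]]
  simp only [eq_comm]

theorem PD.mem_sup' (h : PD p r κ O E O0 Γ t) (hY : Y0 ≤ O0) {g : G} :
    g ∈ E ⊔ Y0 ↔ ∃ e ∈ E, ∃ c ∈ Y0, g = e * c := by
  rw [Trans.mem_sup_of_le_normalizer fun c hc => Ab.nm fun e he => by
    rwa [h.conj_E (h.le0 (hY hc)) he]]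
  simp only [eq_comm]

theorem PD.sub (h : PD p r κ O E O0 Γ t) {O' : Subgroup G} (hO : OD O E O0 O') :
    PD p r κ O' E (O' ⊓ O0) Γ t := by
  refine ⟨h.prime, h.five, h.rp, h.rdvd, h.κ1, hO.EO, fun e he g hg => h.Ec e he g (hO.le hg), h.Ep,
    inf_le_left, fun e he h1 => h.dis e he h1.2, h.tΓ, h.tr, fun γ hγ => hO.norm γ (h.Γn γ hγ),
    fun γ hγ c hc => h.Γ0 γ hγ c hc.2, h.ΓE, h.irr, h.tE,
    fun g hg e => mem_inf.2 ⟨hg, h.ct g (hO.le hg) e⟩, fun c hc c1 g hg e => ?_,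
    fun h2 g hg k hk e => mem_inf.2 ⟨hg, h.fx h2 g (hO.le hg) k hk.2 e⟩, fun c hc c1 h1 => ?_⟩
  · obtain ⟨e', he, c', hc', rfl⟩ := h.mem_sup.1 (h.pt c hc.2 c1 g (hO.le hg) e.2)
    exact mul_mem (mem_sup_left he)
      (mem_sup_right (mem_inf.2 ⟨(mul_mem_cancel_left (hO.EO he)).1 hg, hc'⟩))
  · have h2 := h.b5 c hc.2 c1 fun e he => (h1 e he).imp fun g hg => ⟨hO.le hg.1, hg.2⟩
    have h3 := Local.CD.card_sup_mul_card_inf_of_le_normalizer (H := O0) (K := O')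
      fun c hc => Ab.nm (hO.norm c fun x hx => mul_mem (mul_mem (h.le0 hc) hx) (inv_mem (h.le0 hc)))
    have h4 := card_le_of_le hO.sup
    rw [sup_comm, inf_comm] at h3
    refine Nat.le_of_mul_le_mul_left (c := Nat.card O0) ?_ Nat.card_pos
    calc _ = Nat.card E ^ 3 * Nat.card O0 * Nat.card (O' ⊓ O0 : Subgroup G) := by ring
      _ ≤ _ := h3 ▸ Nat.mul_le_mul_right _ (h2.trans h4)

theorem PD.mem_O0 (h : PD p r κ O E O0 Γ t) {g : G} (hg : g ∈ E ⊔ O0) {n : ℕ} (hn : n.Coprime p)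
    (e : g ^ n = 1) : g ∈ O0 := by
  obtain ⟨u, hu, c, hc, rfl⟩ := h.mem_sup.1 hg
  rw [Commute.mul_pow (h.Ec u hu c (h.le0 hc)), mul_eq_one_iff_eq_inv] at e
  have h1 := pow_gcd_eq_one.2 ⟨h.dis _ (pow_mem hu n) (e ▸ inv_mem (pow_mem hc n)), h.Ep u hu⟩
  rw [hn.gcd_eq_one, pow_one] at h1
  rwa [h1, one_mul]

theorem PD.yd (h : PD p r κ O E O0 Γ t) {g : G} (hg : g ∈ O) (hg' : g ∉ E ⊔ O0)
    (hY : ∀ c, c ∈ Y0 ↔ c ∈ O0 ∧ g⁻¹ * c * g ∈ E ⊔ O0) (ne : Y0 ≠ ⊥) : YD p O E O0 Y0 := by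
  have key : ∀ c ∈ O0, g⁻¹ * c * g ∈ O0 → c = 1 := fun c hc h1 => by_contra fun c1 =>
    hg' (inv_mem_iff.1 (h.pt c hc c1 g⁻¹ (inv_mem hg) (by rwa [inv_inv])))
  have dec : ∀ c ∈ Y0, c ∈ O0 ∧ ∃ e ∈ E, ∃ c' ∈ O0, g⁻¹ * c * g = e * c' := fun c hc =>
    ⟨((hY c).1 hc).1, h.mem_sup.1 ((hY c).1 hc).2⟩
  refine ⟨fun c hc => (dec c hc).1, ne, fun c hc => ?_, fun c hc d hd => ?_, fun c hc c1 k hk e => ?_⟩
  · obtain ⟨h1, e, he, c', hc', h2⟩ := dec c hc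
    refine key _ (pow_mem h1 p) ?_
    rw [show g⁻¹ * c ^ p * g = (g⁻¹ * c * g) ^ p by simpa using (conj_pow (a := g⁻¹)).symm, h2,
      Commute.mul_pow (h.Ec e he c' (h.le0 hc')), h.Ep e he, one_mul]
    exact pow_mem hc' p
  · obtain ⟨h1, e, he, c', hc', h2⟩ := dec c hc
    obtain ⟨h3, f, hf, d', hd', h4⟩ := dec d hd
    have cm : ∀ {a b : G}, a ∈ O0 → b ∈ O0 → a * b * a⁻¹ * b⁻¹ ∈ O0 := fun ha hb =>
      mul_mem (mul_mem (mul_mem ha hb) (inv_mem ha)) (inv_mem hb)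
    refine commutatorElement_eq_one_iff_mul_comm.1 (key _ (cm h1 h3) ?_)
    convert cm hc' hd' using 1
    calc _ = g⁻¹ * c * g * (g⁻¹ * d * g) * (g⁻¹ * c * g)⁻¹ * (g⁻¹ * d * g)⁻¹ := by group
      _ = e * (c' * (f * d') * c'⁻¹) * e⁻¹ * (f * d')⁻¹ := by rw [h2, h4]; group
      _ = c' * f * c'⁻¹ * (c' * d' * c'⁻¹ * d'⁻¹) * f⁻¹ := by
        rw [h.Ec e he _ (mul_mem (mul_mem (h.le0 hc') (mul_mem (h.EO hf) (h.le0 hd')))
          (inv_mem (h.le0 hc')))]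
        group
      _ = _ := by
        rw [h.conj_E (h.le0 hc') hf, h.Ec f hf _ (h.le0 (cm hc' hd')), mul_inv_cancel_right]
  · obtain ⟨h1, u, hu, c', hc', h2⟩ := dec c hc
    obtain ⟨e1, he1, d, hd, rfl⟩ := h.mem_sup.1 (h.pt c h1 c1 k hk (by
      rwa [e, mul_inv_cancel_right]))
    have h3 : c' ≠ 1 := by
      rintro rfl
      refine c1 (h.dis c ?_ h1)
      rwa [show c = g * (g⁻¹ * c * g) * g⁻¹ by group, h2, mul_one, h.conj_E hg hu]
    have h4 : g⁻¹ * (e1 * d) * g ∈ O := mul_mem (mul_mem (inv_mem hg) hk) hg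
    have h5 := h.pt c' hc' h3 _ h4 (by
      have h6 : g⁻¹ * (e1 * d) * g * (u * c') * (g⁻¹ * (e1 * d) * g)⁻¹ = u * c' := by
        calc _ = g⁻¹ * (e1 * d * c) * (e1 * d)⁻¹ * g := by rw [← h2]; group
          _ = _ := by rw [e, ← h2]; group
      rw [← conj_mul, h.conj_E h4 hu, mul_right_inj] at h6
      rwa [h6])
    refine mul_mem (mem_sup_left he1) (mem_sup_right ((hY d).2 ⟨hd, ?_⟩))
    rw [show g⁻¹ * (e1 * d) * g = g⁻¹ * e1 * g⁻¹⁻¹ * (g⁻¹ * d * g) by group,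
      h.conj_E (inv_mem hg) he1] at h5
    exact (mul_mem_cancel_left (mem_sup_left he1)).1 h5

theorem YD.inf (h : PD p r κ O E O0 Γ t) (hY : YD p O E O0 Y0) {u : G} (h1 : u ∈ O0)
    (h2 : u ∈ E ⊔ Y0) : u ∈ Y0 := by
  obtain ⟨e, he, c, hc, rfl⟩ := (h.mem_sup' hY.le).1 h2
  rwa [h.dis e he ((mul_mem_cancel_right (hY.le hc)).1 h1), one_mul]

theorem YD.syl (h : PD p r κ O E O0 Γ t) (hY : YD p O E O0 Y0) (T : Subgroup G) (h1 : T ≤ O0)
    (h2 : IsPGroup p T) (h3 : Y0 ≤ T) : T = Y0 := by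
  have := Fact.mk h.prime
  have : Nontrivial T := (nontrivial_iff_ne_bot T).2 fun e => hY.ne (le_bot_iff.1 (e ▸ h3))
  have := h2.center_nontrivial
  obtain ⟨⟨z0, hz⟩, z1⟩ := exists_ne (1 : center T)
  obtain ⟨⟨c, hc⟩, c1⟩ := ne_bot_iff_exists_ne_one.1 hY.ne
  have h4 : ∀ u ∈ T, u * z0 = z0 * u := fun u hu => congrArg Subtype.val (mem_center_iff.1 hz ⟨u, hu⟩)
  have h5 := hY.inf h (h1 z0.2) (hY.cc c hc (fun e => c1 (Subtype.ext e)) z0 (h.le0 (h1 z0.2))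
    (h4 c (h3 hc)).symm)
  exact le_antisymm (fun u hu => hY.inf h (h1 hu) (hY.cc _ h5
    (fun e => z1 (Subtype.ext (Subtype.ext e))) u (h.le0 (h1 hu)) (h4 u hu))) h3

omit [Finite G] in
theorem PD.r_ne (h : PD p r κ O E O0 Γ t) : r ≠ p := fun e => by
  have := h.five
  have := Nat.le_of_dvd (by omega) h.rdvd
  omega

theorem PD.b0 (h : PD p r κ O E O0 Γ t)
    (hb : ∀ g ∈ O, g⁻¹ * (t * g * t⁻¹) ∈ pCoreOf p O) : NT O O0 := by
  have := Fact.mk h.prime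
  have hN := Solv.normalizer_le_normalizer_map_pCore p O
  have hP : IsPGroup p (pCoreOf p O) := Solv.isPGroup_map_pCore p O
  refine ⟨pCoreOf p O, map_subtype_le _, fun g hg _ => Ab.cj (hN (le_normalizer hg)),
    hP.isNilpotent, fun g hg => ?_⟩
  obtain ⟨k, hk⟩ := hP.exists_card_eq
  obtain ⟨n, hn, h1⟩ := fix_coset h.rp h.tr _ (fun e => h.r_ne ((Nat.prime_dvd_prime_iff_eq h.rp
    h.prime).1 (h.rp.dvd_of_dvd_pow (hk ▸ e)))) (fun _ => Ab.cj (hN (Ab.nm (h.Γn t h.tΓ)))) (hb g hg)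
  exact (mul_mem_cancel_right (mem_sup_left hn)).1
    (mem_sup_right (h.ct _ (mul_mem hg (map_subtype_le _ hn)) h1))

/-- A normal subgroup `A ≥ E` with `t` a power map on `A / E` and `C_O(A)` a `p`-group. -/
theorem PD.chain (h : PD p r κ O E O0 Γ t) (A : Subgroup G) (h1 : A ≤ O)
    (h2 : ∀ g ∈ O, ∀ a ∈ A, g * a * g⁻¹ ∈ A) (k : ℕ)
    (h3 : ∀ a ∈ A, (a ^ k)⁻¹ * (t * a * t⁻¹) ∈ E) (h3' : ∀ a ∈ A, t⁻¹ * a * t ∈ A)
    (h4 : IsPGroup p (O ⊓ centralizer (A : Set G) : Subgroup G)) : NT O O0 := by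
  have _ := h1
  let N : Subgroup G :=
    { carrier := {y | y ∈ O ∧ ∀ a ∈ A, ∃ e ∈ E, y * a * y⁻¹ = a * e}
      one_mem' := ⟨one_mem _, fun a _ => ⟨1, one_mem _, by simp⟩⟩
      mul_mem' := fun {y y'} hy hy' => ⟨mul_mem hy.1 hy'.1, fun a ha => by
        obtain ⟨e, he, e1⟩ := hy.2 a ha
        obtain ⟨e', he', e2⟩ := hy'.2 a ha
        refine ⟨e * e', mul_mem he he', ?_⟩
        calc _ = y * (y' * a * y'⁻¹) * y⁻¹ := by group
          _ = _ := by rw [e2, ← conj_mul, e1, h.conj_E hy.1 he', mul_assoc]⟩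
      inv_mem' := fun {y} hy => ⟨inv_mem hy.1, fun a ha => by
        obtain ⟨e, he, e1⟩ := hy.2 a ha
        refine ⟨e⁻¹, inv_mem he, ?_⟩
        calc _ = y⁻¹ * (a * e) * y * (y⁻¹ * e * y⁻¹⁻¹)⁻¹ := by group
          _ = _ := by rw [← e1, h.conj_E (inv_mem hy.1) he]; group⟩ }
  have hN : N ≤ pCoreOf p O := by
    refine Solv.le_map_pCore (fun y hy => hy.1) (fun g hg => Ab.nm fun y hy =>
      ⟨mul_mem (mul_mem hg hy.1) (inv_mem hg), fun a ha => ?_⟩) fun y => ?_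
    · obtain ⟨e, he, e1⟩ := hy.2 _ (h2 g⁻¹ (inv_mem hg) a ha)
      refine ⟨e, he, ?_⟩
      calc _ = g * (y * (g⁻¹ * a * g⁻¹⁻¹) * y⁻¹) * g⁻¹ := by group
        _ = a * (g * e * g⁻¹) := by rw [e1]; group
        _ = _ := by rw [h.conj_E hg he]
    · suffices h5 : (y : G) ^ p ∈ centralizer (A : Set G) by
        obtain ⟨n, hn⟩ := h4 ⟨(y : G) ^ p, mem_inf.2 ⟨pow_mem y.2.1 p, h5⟩⟩
        exact ⟨n + 1, Subtype.ext (by
          rw [pow_succ', pow_mul]; exact (congrArg Subtype.val hn :))⟩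
      intro a ha
      obtain ⟨e, he, e1⟩ := y.2.2 a ha
      have h5 : ∀ m : ℕ, (y : G) ^ m * a * ((y : G) ^ m)⁻¹ = a * e ^ m := fun m => by
        induction m with
        | zero => simp
        | succ m ih =>
          calc _ = y * ((y : G) ^ m * a * ((y : G) ^ m)⁻¹) * (y : G)⁻¹ := by group
            _ = _ := by rw [ih, ← conj_mul, e1, h.conj_E y.2.1 (pow_mem he m), pow_succ', mul_assoc]
      have h6 := h5 p
      rw [h.Ep e he, mul_one, mul_inv_eq_iff_eq_mul] at h6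
      exact h6.symm
  refine h.b0 fun g hg => hN ⟨mul_mem (inv_mem hg) (h.Γn t h.tΓ g hg), fun a ha => ?_⟩
  have h5 := h3 _ (h3' a ha)
  have h6 := h3 _ (h2 g hg _ (h3' a ha))
  refine ⟨_, mul_mem (inv_mem h5) h6, ?_⟩
  rw [← h.conj_E (inv_mem hg) h6, conj_pow]
  group

end abstract

end Cfsg.Lib.PT
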