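import Cfsg.Agent.PT.L1

/-!
# Tower `PT`: braid pairs
-/

set_option autoImplicit false
set_option linter.unusedSectionVars false
set_option linter.unusedSimpArgs false

namespace Cfsg.Lib.PT

open Matrix Subgroup
open scoped MatrixGroups commutatorElement

universe u

variable {G : Type u} [Group G]

namespace Cfg
variable {C : Cfg G} {x y s : C.Pt} {a b c e g : G}

namespace BD
variable (h : C.BD a b)
include h
theorem symm : C.BD b a := ⟨h.hb, h.ha, h.nc.symm, h.br.symm⟩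
theorem conj (g : G) : C.BD (g * a * g⁻¹) (g * b * g⁻¹) :=
  ⟨C.conj _ h.ha g, C.conj _ h.hb g, fun e => h.nc (by
    rwa [conj_mul, conj_mul, mul_left_inj, mul_right_inj] at e), h.br.conj g⟩
theorem rp : ∃ f, RP C.p a b f := (C.pair a h.ha b h.hb h.nc).rp C.five h.nc h.br
theorem bp (ha : a ∈ M x) (hb : b ∈ M y) : BP x y a b :=
  ⟨ha, hb, fun e => h.nc (e a ha b hb), h.br⟩
theorem pw (l : (ZMod C.p)ˣ) :
    C.BD (pw a (l : ZMod C.p)) (pw b ((l⁻¹ : (ZMod C.p)ˣ) : ZMod C.p)) := by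
  obtain ⟨f, r⟩ := h.rp
  refine ⟨pw_D h.ha l, pw_D h.hb l⁻¹, ?_, ?_⟩ <;> rw [r.pw_a, r.pw_b]
  · exact fun e => ((r.rep.comm_iff C.prime C.five).1 e).elim l.ne_zero
      (neg_ne_zero.2 l⁻¹.ne_zero)
  · rw [r.rep.br_iff C.prime C.five l.ne_zero, mul_neg, Units.mul_inv]
theorem pw_unique {k : ZMod C.p} (e : Br a (PT.pw b k)) : k = 1 := by
  obtain ⟨f, r⟩ := h.rp
  rw [r.pw_b, ← r.ea, r.rep.br_iff C.prime C.five one_ne_zero] at e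
  simpa using e
theorem zz_sq : zz a b * zz a b = 1 := by
  obtain ⟨f, r⟩ := h.rp
  rw [r.zz_eq, ← map_mul, neg_mul_neg, mul_one, map_one]
theorem ww_pw {f : SL2 (ZMod C.p) →* G} (r : RP C.p a b f) (l : (ZMod C.p)ˣ) :
    ww (PT.pw a (l : ZMod C.p)) (PT.pw b ((l⁻¹ : (ZMod C.p)ˣ) : ZMod C.p)) = f (wy l) := by
  rw [r.pw_a, r.pw_b, ← map_ww, wy_eq]
theorem zz_pw (l : (ZMod C.p)ˣ) :
    zz (PT.pw a (l : ZMod C.p)) (PT.pw b ((l⁻¹ : (ZMod C.p)ˣ) : ZMod C.p)) = zz a b := by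
  obtain ⟨f, r⟩ := h.rp
  rw [r.zz_eq, zz, h.ww_pw r, ← map_mul, wy_sq]
theorem tt_pw (k l : (ZMod C.p)ˣ) :
    tt (PT.pw a (k : ZMod C.p)) (PT.pw b ((k⁻¹ : (ZMod C.p)ˣ) : ZMod C.p)) l = tt a b l := by
  obtain ⟨f, r⟩ := h.rp
  rw [r.tt_eq, tt, pw_pw (pow_p h.ha), pw_pw (pow_p h.hb), ← Units.val_mul, ← Units.val_mul,
    ← mul_inv, h.ww_pw r, h.ww_pw r, ← map_inv, ← map_mul, wy_wy, mul_inv_cancel_comm]
theorem tt_symm (l : (ZMod C.p)ˣ) : tt b a l = tt a b l⁻¹ := by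
  rw [tt, tt, h.br.ww_symm, ← (h.pw l⁻¹).br.ww_symm, inv_inv]
theorem tt_mul (k l : (ZMod C.p)ˣ) : tt a b (k * l) = tt a b k * tt a b l := by
  obtain ⟨f, r⟩ := h.rp
  rw [r.tt_eq, r.tt_eq, r.tt_eq, dg_mul, map_mul]
theorem tt_one : tt a b (1 : (ZMod C.p)ˣ) = 1 := by
  obtain ⟨f, r⟩ := h.rp
  rw [r.tt_eq, dg_one, map_one]
theorem tt_inv (l : (ZMod C.p)ˣ) : tt a b l⁻¹ = (tt a b l)⁻¹ := by
  obtain ⟨f, r⟩ := h.rp
  rw [r.tt_eq, r.tt_eq, dg_inv, map_inv]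
theorem tt_pow (l : (ZMod C.p)ˣ) (n : ℕ) : tt a b (l ^ n) = tt a b l ^ n := by
  induction n with
  | zero => rw [pow_zero, pow_zero, h.tt_one]
  | succ n ih => rw [pow_succ, pow_succ, h.tt_mul, ih]
theorem tt_neg_one : tt a b (-1 : (ZMod C.p)ˣ) = zz a b := by
  obtain ⟨f, r⟩ := h.rp
  rw [r.tt_eq, r.zz_eq, dg_neg_one]
theorem tt_zz (l : (ZMod C.p)ˣ) : tt a b l * zz a b = zz a b * tt a b l := by
  rw [← h.tt_neg_one, ← h.tt_mul, mul_comm, h.tt_mul]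
theorem tt_a (l : (ZMod C.p)ˣ) :
    tt a b l * a * (tt a b l)⁻¹ = PT.pw a ((l : ZMod C.p) ^ 2) := by
  obtain ⟨f, r⟩ := h.rp
  rw [r.tt_eq, r.pw_a, ← r.ea, ← map_inv, ← map_mul, ← map_mul, dg_up, mul_one]
theorem tt_b (l : (ZMod C.p)ˣ) :
    tt a b l * b * (tt a b l)⁻¹ = PT.pw b (((l⁻¹ : (ZMod C.p)ˣ) : ZMod C.p) ^ 2) := by
  obtain ⟨f, r⟩ := h.rp
  rw [r.tt_eq, r.pw_b, ← r.eb, ← map_inv, ← map_mul, ← map_mul, dg_lo, mul_neg_one]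
theorem ww_tt (l : (ZMod C.p)ˣ) : ww a b * tt a b l * (ww a b)⁻¹ = tt a b l⁻¹ := by
  obtain ⟨f, r⟩ := h.rp
  rw [r.tt_eq, r.tt_eq, r.ww_eq, ← map_inv, ← map_mul, ← map_mul, wy_dg]
/-- A subgroup normalised by `a`, `b` and containing `tt a b l`, `l ^ 2 ≠ 1`, contains `a`, `b`. -/
theorem mem_of_tt (N : Subgroup G) (h1 : ∀ n ∈ N, a * n * a⁻¹ ∈ N) {l : (ZMod C.p)ˣ}
    (hl : l ^ 2 ≠ 1) (ht : tt a b l ∈ N) : a ∈ N := by
  have ha := pow_p h.ha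
  have h2 := inv_mem (mul_mem (h1 _ ht) (inv_mem ht))
  have h3 : (a * tt a b l * a⁻¹ * (tt a b l)⁻¹)⁻¹ = PT.pw a ((l : ZMod C.p) ^ 2 - 1) := by
    rw [sub_eq_add_neg, pw_add ha, pw_neg ha, pw_one, ← h.tt_a]; group
  have h4 : (l : ZMod C.p) ^ 2 - 1 ≠ 0 := fun e => hl (Units.ext (sub_eq_zero.1 e))
  have h5 := pw_mem h2 ((l : ZMod C.p) ^ 2 - 1)⁻¹
  rwa [h3, pw_pw ha, mul_inv_cancel₀ h4, pw_one] at h5
end BD

namespace BP
variable (h : BP x y a b)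
include h
theorem bd : C.BD a b := ⟨mem_D h.ha, mem_D h.hb, fun e => h.opp ((Pp_iff h.ha h.hb).2 e), h.br⟩
theorem symm : BP y x b a := h.bd.symm.bp h.hb h.ha
theorem smul (g : G) : BP (g • x) (g • y) (g * a * g⁻¹) (g * b * g⁻¹) :=
  (h.bd.conj g).bp (conj_mem g h.ha) (conj_mem g h.hb)
theorem pw (l : (ZMod C.p)ˣ) :
    BP x y (pw a (l : ZMod C.p)) (pw b ((l⁻¹ : (ZMod C.p)ˣ) : ZMod C.p)) :=
  (h.bd.pw l).bp (pw_M h.ha l) (pw_M h.hb l⁻¹)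
theorem ww_x : ww a b • x = y := (smul_eq_iff h.ha).2 (h.br.ww_a.symm ▸ h.hb)
theorem ww_y : ww a b • y = x := (smul_eq_iff h.hb).2 (h.br.ww_b.symm ▸ h.ha)
theorem zz_x : zz a b • x = x := fix_of_comm h.ha h.br.zz_a
theorem zz_y : zz a b • y = y := fix_of_comm h.hb h.br.zz_b
theorem tt_x (l : (ZMod C.p)ˣ) : tt a b l • x = x := by
  rw [tt, mul_smul, inv_smul_eq_iff.2 h.ww_y.symm, (h.pw l).ww_y]
theorem tt_y (l : (ZMod C.p)ˣ) : tt a b l • y = y := by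
  rw [tt, mul_smul, inv_smul_eq_iff.2 h.ww_x.symm, (h.pw l).ww_x]
theorem ww_KK : ww a b ∈ KK x y :=
  ww_mem (mem_sup_left (M_le_E h.ha)) (mem_sup_right (M_le_E h.hb))
theorem zz_KK : zz a b ∈ KK x y :=
  zz_mem (mem_sup_left (M_le_E h.ha)) (mem_sup_right (M_le_E h.hb))
theorem tt_KK (l : (ZMod C.p)ˣ) : tt a b l ∈ KK x y :=
  tt_mem (mem_sup_left (M_le_E h.ha)) (mem_sup_right (M_le_E h.hb)) l
end BP

namespace Simple
variable (h : C.Simple)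
include h
theorem trans (x y : C.Pt) : ∃ g : G, g • x = y := by
  have := h.simple
  obtain ⟨a, ha⟩ := M_nonempty x
  obtain ⟨b, hb⟩ := M_nonempty y
  have h1 : normalClosure ({a} : Set G) = ⊤ :=
    (IsSimpleGroup.eq_bot_or_eq_top_of_normal _ inferInstance).resolve_left fun e =>
      ne_one (mem_D ha) (mem_bot.1 (e.le (subset_normalClosure rfl)))
  by_cases h2 : ∀ g : G, Pp (g • x) y
  · refine absurd (h.cent_eq_one fun c _ => (mem_centralizer_singleton_iff.1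
      ((closure_le (centralizer {b})).2 (fun u hu => ?_) (h1.ge (mem_top c)))).symm) (ne_one (mem_D hb))
    obtain ⟨_, rfl, h3⟩ := Group.mem_conjugatesOfSet_iff.1 hu
    obtain ⟨g, rfl⟩ := isConj_iff.1 h3
    exact mem_centralizer_singleton_iff.2 (h2 g _ (conj_mem g ha) b hb)
  push Not at h2
  obtain ⟨g, h2⟩ := h2
  obtain ⟨u, v, h3⟩ := exists_BP h2
  exact ⟨ww u v * g, by rw [mul_smul, h3.ww_x]⟩
theorem perp_sub [Finite G] (hs : ∀ s, Pp s x → Pp s y) : x = y := by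
  obtain ⟨g, rfl⟩ := h.trans x y
  have h1 : {s | Pp s (g • x)} = (fun s => g • s) '' {s | Pp s x} := by
    ext s
    exact ⟨fun h => ⟨g⁻¹ • s, (Pp_smul g).1 (by rwa [smul_inv_smul]), smul_inv_smul g s⟩,
      by rintro ⟨s, h, rfl⟩; exact (Pp_smul g).2 h⟩
  have h2 := Set.eq_of_subset_of_ncard_le (s := {s | Pp s x}) (t := {s | Pp s (g • x)}) hs (by
    rw [h1, Set.ncard_image_of_injective _ (MulAction.injective g)])
  exact ext_Pp fun s => Set.ext_iff.1 h2 s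
end Simple

end Cfg

end Cfsg.Lib.PT
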