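import Cfsg.Agent.PT.Defs4

/-!
# Tower `PT`: Heisenberg coordinates
-/

set_option autoImplicit false

namespace Cfsg.Lib.PT

open Subgroup

universe u

variable {G : Type u} [Group G]

section HC
variable {K : Type} [Field K] {p : ℕ} {u : K → G} {h : Kˣ → G} {z : G} {Q : Subgroup G}

namespace HCx

theorem bilin [Finite K] {W : Type*} [AddCommGroup W] [Module K W] (B : W →+ W →+ K)
    (H : ∀ (s : K) w w', B (s • w) (s • w') = s ^ 2 * B w w') (s : K) (w w' : W) :
    B (s • w) w' = s * B w w' := by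
  have := Fintype.ofFinite K
  have pol : ∀ w, B w (s • w') + B (s • w) w' = 2 * s * B w w' := fun w => by
    have k := H (1 + s) w w'
    simp only [add_smul, one_smul, map_add, AddMonoidHom.add_apply, H] at k
    linear_combination k
  have d : ∀ n : ℕ, B (s ^ (n + 1) • w) w' - s * B (s ^ n • w) w' =
      s ^ n * (B (s • w) w' - s * B w w') := fun n => by
    induction n with
    | zero => simp
    | succ n ih =>
      have k := pol (s ^ (n + 1) • w)
      rw [smul_smul, ← pow_succ', pow_succ' s n, ← smul_smul s, H, smul_smul, ← pow_succ'] at k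
      linear_combination k + s * ih
  have m : ∀ n : ℕ, B (s ^ (n + 1) • w) w' =
      s ^ (n + 1) * B w w' + ((n + 1 : ℕ) : K) * s ^ n * (B (s • w) w' - s * B w w') := fun n => by
    induction n with
    | zero => simp
    | succ n ih =>
      push_cast at ih ⊢
      linear_combination d (n + 1) + s * ih
  obtain ⟨n, hn⟩ : ∃ n, Fintype.card K = n + 1 := ⟨_, (Nat.succ_pred_eq_of_pos Fintype.card_pos).symm⟩
  have k := m n
  rwa [← hn, FiniteField.pow_card, Nat.cast_card_eq_zero, zero_mul, zero_mul, add_zero] at k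

variable (H : HH p u h z Q)
include H

theorem two : (2 : K) ≠ 0 := fun e => by
  have := H.char
  have k := (CharP.cast_eq_zero_iff K p 2).1 (by exact_mod_cast e)
  have := Nat.le_of_dvd two_pos k
  have := H.five
  omega

theorem u0 : u 0 = 1 := by
  have := H.u_add 0 0
  rwa [add_zero, left_eq_mul] at this

theorem u_neg (s : K) : u (-s) = (u s)⁻¹ :=
  eq_inv_of_mul_eq_one_left (by rw [← H.u_add, neg_add_cancel, u0 H])

theorem h1 : h 1 = 1 := by
  have := H.h_mul 1 1
  rwa [mul_one, left_eq_mul] at this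

theorem zu (s : K) : z * u s * z⁻¹ = u s := by
  rw [← H.h_neg, H.h_u]
  simp

theorem hz (μ : Kˣ) : h μ * z = z * h μ := by
  rw [← H.h_neg, ← H.h_mul, ← H.h_mul, mul_comm]

theorem exists_W [Finite G] : ∃ (W : Type u) (_ : AddCommGroup W) (_ : Module K W) (_ : Finite W)
    (π : Q → W), (∀ g g', π (g * g') = π g + π g') ∧
      (∀ g g', π g = π g' ↔ ∃ s, g'.1 = g * u s) ∧ Function.Surjective π ∧
      ∀ (μ : Kˣ) (g : Q), π ⟨_, H.h_mem μ g g.2⟩ = (μ : K) • π g := by
  classical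
  let U : Multiplicative K →* Q := MonoidHom.mk' (fun s => ⟨u s.toAdd, H.u_mem _⟩) fun s t =>
    Subtype.ext (H.u_add _ _)
  have : U.range.Normal := ⟨by
    rintro _ ⟨s, rfl⟩ g
    exact ⟨s, Subtype.ext (eq_mul_inv_of_mul_eq (H.u_cent _ g g.2))⟩⟩
  have eq : ∀ g g' : Q, (g : Q ⧸ U.range) = g' ↔ ∃ s, g'.1 = g * u s := fun g g' => by
    rw [QuotientGroup.eq]
    exact ⟨fun ⟨s, e⟩ => ⟨s.toAdd, inv_mul_eq_iff_eq_mul.1 (congrArg Subtype.val e).symm⟩,
      fun ⟨s, e⟩ => ⟨.ofAdd s, Subtype.ext (inv_mul_eq_iff_eq_mul.2 e).symm⟩⟩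
  letI : CommGroup (Q ⧸ U.range) := { (inferInstance : Group (Q ⧸ U.range)) with
    mul_comm := fun a b => by
      obtain ⟨a, rfl⟩ := QuotientGroup.mk_surjective a
      obtain ⟨b, rfl⟩ := QuotientGroup.mk_surjective b
      exact ((eq (b * a) (a * b)).2 (H.comm a a.2 b b.2)).symm }
  let θ : Kˣ → Q →* Q := fun μ => MonoidHom.mk' (fun g => ⟨_, H.h_mem μ g g.2⟩) fun a b =>
    Subtype.ext (by simp [mul_assoc])
  let A : Kˣ → AddMonoid.End (Additive (Q ⧸ U.range)) := fun μ =>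
    MonoidHom.toAdditive (QuotientGroup.map U.range U.range (θ μ) (by
      rintro _ ⟨s, rfl⟩
      refine ⟨.ofAdd ((μ : K) ^ 2 * s.toAdd), Subtype.ext ?_⟩
      show u ((μ : K) ^ 2 * s.toAdd) = h μ * u s.toAdd * (h μ)⁻¹
      exact (H.h_u μ s.toAdd).symm))
  have ext : ∀ {f f' : AddMonoid.End (Additive (Q ⧸ U.range))},
      (∀ g : Q, f (.ofMul g) = f' (.ofMul g)) → f = f' := fun e => DFunLike.ext _ _ fun w => by
    obtain ⟨g, hg⟩ := QuotientGroup.mk_surjective w.toMul
    exact (show Additive.ofMul (g : Q ⧸ U.range) = w from congrArg Additive.ofMul hg) ▸ e g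
  have hA : ∀ μ (g : Q), A μ (.ofMul g) = .ofMul (θ μ g : Q ⧸ U.range) := fun _ _ => rfl
  have mul : ∀ μ ν, A (μ * ν) = A μ * A ν := fun μ ν => ext fun g =>
    congrArg (fun x : Q => Additive.ofMul (x : Q ⧸ U.range)) (Subtype.ext (by
      show h (μ * ν) * g * (h (μ * ν))⁻¹ = h μ * (h ν * g * (h ν)⁻¹) * (h μ)⁻¹
      rw [H.h_mul]; group))
  have neg : A (-1) = -1 := ext fun g => by
    obtain ⟨s, hs⟩ := H.z_inv g g.2
    refine congrArg Additive.ofMul ((eq g⁻¹ (θ (-1) g)).2 ⟨s, ?_⟩).symm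
    show h (-1) * g * (h (-1))⁻¹ = (g : G)⁻¹ * u s
    rw [← hs, H.h_neg, inv_mul_cancel_left]
  let ρ : K →+* AddMonoid.End (Additive (Q ⧸ U.range)) :=
    { toFun := fun k => if hk : k = 0 then 0 else A (Units.mk0 k hk)
      map_one' := by
        rw [dif_neg one_ne_zero, Units.mk0_one]
        exact ext fun g => congrArg (fun x : Q => Additive.ofMul (x : Q ⧸ U.range))
          (Subtype.ext (show h 1 * g * (h 1)⁻¹ = g by simp [h1 H]))
      map_mul' := fun a b => by
        by_cases ha : a = 0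
        · simp [ha]
        by_cases hb : b = 0
        · simp [hb]
        rw [dif_neg ha, dif_neg hb, dif_neg (mul_ne_zero ha hb), ← mul, Units.mk0_mul]
      map_zero' := dif_pos rfl
      map_add' := fun a b => by
        by_cases ha : a = 0
        · simp [ha]
        by_cases hb : b = 0
        · simp [hb]
        rw [dif_neg ha, dif_neg hb]
        by_cases hc : a + b = 0
        · rw [dif_pos hc, show Units.mk0 b hb = Units.mk0 a ha * -1 from
            Units.ext (by simpa using eq_neg_of_add_eq_zero_right hc), mul, neg]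
          exact DFunLike.ext _ _ fun w => show 0 = A _ w + A _ (-w) by
            rw [map_neg, add_neg_cancel]
        rw [dif_neg hc]
        exact ext fun g => congrArg Additive.ofMul ((eq (θ _ g * θ _ g) (θ _ g)).2
          (H.h_add (Units.mk0 a ha) (Units.mk0 b hb) (Units.mk0 _ hc) rfl g g.2)).symm }
  refine ⟨Additive (Q ⧸ U.range), inferInstance, Module.compHom _ ρ, inferInstance,
    fun g => .ofMul g, fun _ _ => rfl, eq, fun w => QuotientGroup.mk_surjective w.toMul,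
    fun μ g => ?_⟩
  show _ = (if hk : (μ : K) = 0 then 0 else A (Units.mk0 _ hk)) (.ofMul g)
  rw [dif_neg μ.ne_zero, Units.mk0_val]
  rfl

end HCx

open HCx in
theorem exists_hc [Finite K] [Finite G] (H : HH p u h z Q) :
    ∃ (W : Type u) (_ : AddCommGroup W) (_ : Module K W) (_ : Finite W)
      (φ : W →ₗ[K] W →ₗ[K] K) (q : W → K → G), HC u h z Q φ q := by
  obtain ⟨W, _, _, _, π, add, eq, surj, sm⟩ := exists_W H
  have h2 := two H
  have c : ∀ s (g : Q), u s * g = g * u s := fun s g => H.u_cent s g g.2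
  have uq : ∀ g g' : Q, π g = π g' → z * g * z⁻¹ = (g : G)⁻¹ → z * g' * z⁻¹ = (g' : G)⁻¹ →
      g = g' := fun g g' e i i' => by
    obtain ⟨s, hs⟩ := (eq g g').1 e
    rw [hs, ← conj_mul, i, zu H, ← c, mul_inv_rev, mul_right_inj, ← u_neg H] at i'
    have : s = 0 := by
      have := H.u_inj i'
      exact (mul_eq_zero.1 (by linear_combination this : 2 * s = 0)).resolve_left h2
    exact Subtype.ext (by rw [hs, this, u0 H, mul_one])
  have ex : ∀ w, ∃ g : Q, π g = w ∧ z * g * z⁻¹ = (g : G)⁻¹ := fun w => by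
    obtain ⟨g, rfl⟩ := surj w
    obtain ⟨s, hs⟩ := H.z_inv g g.2
    refine ⟨g * ⟨u (-(s / 2)), H.u_mem _⟩, ((eq _ _).2 ⟨_, rfl⟩).symm, ?_⟩
    show z * (g * u (-(s / 2))) * z⁻¹ = (g * u (-(s / 2)))⁻¹
    rw [← conj_mul, zu H, eq_inv_mul_of_mul_eq hs, ← c, mul_inv_rev, mul_assoc, ← H.u_add,
      ← u_neg H]
    congr 2
    field_simp
    ring
  choose v vπ vi using ex
  choose cm hcm using fun w w' => H.comm (v w) (v w).2 (v w') (v w').2
  have π1 : π 1 = 0 := by simpa using add 1 1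
  have πu : ∀ (g : Q) s, π (g * ⟨u s, H.u_mem s⟩) = π g := fun g s => ((eq _ _).2 ⟨_, rfl⟩).symm
  have v0 : v 0 = 1 := uq _ _ (by rw [vπ, π1]) (vi 0) (by simp)
  have vm : ∀ w w', (v w : G) * v w' = v (w + w') * u (cm w w' / 2) := fun w w' => by
    have k := uq (v w * v w' * ⟨u (-(cm w w' / 2)), H.u_mem _⟩) (v (w + w'))
      (by rw [πu, add, vπ, vπ, vπ]) (by
        show z * (v w * v w' * u (-(cm w w' / 2))) * z⁻¹ = (v w * v w' * u (-(cm w w' / 2)))⁻¹
        rw [← conj_mul, ← conj_mul, vi, vi, zu H, ← mul_inv_rev]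
        conv_rhs => rw [hcm, mul_assoc, ← H.u_add, ← coe_mul, ← c, mul_inv_rev, ← u_neg H]
        congr 2
        field_simp
        ring) (vi _)
    rw [← k]
    show _ = v w * v w' * u (-(cm w w' / 2)) * _
    rw [mul_assoc, ← H.u_add, neg_add_cancel, u0 H, mul_one]
  have vh : ∀ (μ : Kˣ) w, h μ * v w * (h μ)⁻¹ = v ((μ : K) • w) := fun μ w =>
    congrArg Subtype.val (uq ⟨_, H.h_mem μ _ (v w).2⟩ _ (by rw [sm, vπ, vπ]) (by
      show z * (h μ * v w * (h μ)⁻¹) * z⁻¹ = (h μ * v w * (h μ)⁻¹)⁻¹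
      rw [show z * (h μ * v w * (h μ)⁻¹) * z⁻¹ = z * h μ * v w * (z * h μ)⁻¹ by group, ← hz H,
        show h μ * z * v w * (h μ * z)⁻¹ = h μ * (z * v w * z⁻¹) * (h μ)⁻¹ by group, vi]
      group) (vi _))
  have cu : ∀ w w' s, (v w : G) * v w' = v w' * v w * u s → cm w w' = s := fun w w' s e =>
    H.u_inj (mul_left_cancel ((hcm w w').symm.trans e))
  have sk : ∀ w w', cm w' w = -cm w w' := fun w w' => cu _ _ _ (by
    rw [hcm w w', mul_assoc, ← H.u_add, add_neg_cancel, u0 H, mul_one])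
  have ar : ∀ w a b, cm w (a + b) = cm w a + cm w b := fun w a b => cu _ _ _ (by
    apply mul_right_cancel (b := u (cm a b / 2))
    calc (v w : G) * v (a + b) * u (cm a b / 2) = v w * v a * v b := by
          rw [mul_assoc, ← vm, mul_assoc]
      _ = v a * (v w * v b) * u (cm w a) := by rw [hcm w a, mul_assoc, c]; group
      _ = v a * v b * v w * (u (cm w b) * u (cm w a)) := by rw [hcm w b]; group
      _ = _ := by
        rw [vm a b, mul_assoc (v (a + b) : G), c, ← H.u_add, ← mul_assoc, mul_assoc, mul_assoc,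
          mul_assoc (_ * _), ← H.u_add, ← H.u_add, ← mul_assoc]
        congr 2
        ring)
  let B : W →+ W →+ K := AddMonoidHom.mk' (fun w => AddMonoidHom.mk' (fun w' => cm w w' / 2)
    fun a b => by rw [ar, add_div]) fun a b => AddMonoidHom.ext fun w => by
      show cm (a + b) w / 2 = cm a w / 2 + cm b w / 2
      rw [sk w, sk w a, sk w b, ar]
      ring
  have sc : ∀ (s : K) w w', B (s • w) (s • w') = s ^ 2 * B w w' := fun s w w' => by
    by_cases hs : s = 0
    · simp [hs]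
    show cm (s • w) (s • w') / 2 = s ^ 2 * (cm w w' / 2)
    rw [cu _ _ (s ^ 2 * cm w w'), mul_div_assoc]
    have k1 := vh (Units.mk0 s hs) w
    have k2 := vh (Units.mk0 s hs) w'
    have k3 := H.h_u (Units.mk0 s hs) (cm w w')
    rw [Units.val_mk0] at k1 k2 k3
    rw [← k1, ← k2, ← k3, conj_mul, conj_mul, conj_mul, hcm]
  refine ⟨W, inferInstance, inferInstance, inferInstance, LinearMap.mk₂ K (fun w w' => B w w')
    (fun a b w => by simp) (fun s w w' => bilin B sc s w w') (fun w a b => by simp)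
    (fun s w w' => bilin B.flip (fun s w w' => sc s w' w) s w' w), fun w k => v w * u k,
    fun w => ?_, fun w k w' k' => ?_, fun k => by simp [v0], fun g => ⟨fun hg => ?_, ?_⟩,
    fun w k w' k' e => ?_, fun w k => ?_, fun μ w k => by rw [← conj_mul, vh, H.h_u]⟩
  · show cm w w / 2 = 0
    rw [cu w w 0 (by rw [u0 H, mul_one]), zero_div]
  · show _ = v (w + w') * u (k + k' + cm w w' / 2)
    rw [mul_assoc, ← mul_assoc (u k), c, mul_assoc, ← mul_assoc, vm, mul_assoc, ← H.u_add,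
      ← H.u_add, add_comm (cm w w' / 2)]
  · obtain ⟨s, hs⟩ := (eq _ ⟨g, hg⟩).1 (vπ (π ⟨g, hg⟩))
    exact ⟨_, s, hs.symm⟩
  · rintro ⟨w, k, rfl⟩
    exact mul_mem (v w).2 (H.u_mem k)
  · obtain rfl : w = w' := by
      rw [← vπ w, ← vπ w', ← πu _ k, ← πu (v w') k']
      exact congrArg π (Subtype.ext e)
    exact ⟨rfl, H.u_inj (mul_left_cancel e)⟩
  · have k1 := vh (-1) w
    rw [H.h_neg] at k1
    rw [← conj_mul, k1, zu H]
    simp

variable {W : Type u} [AddCommGroup W] [Module K W] {φ : W →ₗ[K] W →ₗ[K] K} {q : W → K → G}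

theorem HC.one (H : HC u h z Q φ q) : q 0 0 = 1 := by
  have := H.mul 0 0 0 0
  simpa using this

theorem HC.inv (H : HC u h z Q φ q) (w : W) (k : K) : (q w k)⁻¹ = q (-w) (-k) :=
  inv_eq_of_mul_eq_one_right (by simp [H.mul, H.alt, H.one])

theorem HC.skew (H : HC u h z Q φ q) (w w' : W) : φ w w' = - φ w' w := by
  have := H.alt (w + w')
  simp only [map_add, LinearMap.add_apply, H.alt] at this
  linear_combination this

theorem HC.split (H : HC u h z Q φ q) (w : W) (k : K) : q w k = q w 0 * u k := by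
  simp [← H.q0, H.mul]

theorem HC.comm_iff (H : HC u h z Q φ q) (h2 : (2 : K) ≠ 0) (w w' : W) (k k' : K) :
    q w k * q w' k' = q w' k' * q w k ↔ φ w w' = 0 := by
  rw [H.mul, H.mul, H.skew w' w]
  refine ⟨fun e => (mul_eq_zero.1 ?_).resolve_left h2, fun e => by
    rw [e, neg_zero, add_comm w, add_comm k]⟩
  linear_combination (H.inj _ _ _ _ e).2

theorem HC.inv_iff (H : HC u h z Q φ q) (h2 : (2 : K) ≠ 0) (w : W) (k : K) :
    z * q w k * z⁻¹ = (q w k)⁻¹ ↔ k = 0 := by
  rw [H.zq, H.inv]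
  refine ⟨fun e => (mul_eq_zero.1 ?_).resolve_left h2, fun e => by rw [e, neg_zero]⟩
  linear_combination (H.inj _ _ _ _ e).2

theorem HC.lin (H : HC u h z Q φ q) (h2 : (2 : K) ≠ 0) {g : G} (h1 : ∀ x ∈ Q, g * x * g⁻¹ ∈ Q)
    (hu : ∀ s, g * u s = u s * g) (hh : ∀ μ, g * h μ = h μ * g) (hz : g * z = z * g) :
    ∃ L : W →ₗ[K] W, (∀ w k, g * q w k * g⁻¹ = q (L w) k) ∧ ∀ w w', φ (L w) (L w') = φ w w' := by
  have sw : ∀ {a : G}, g * a = a * g → ∀ x, g * (a * x * a⁻¹) * g⁻¹ = a * (g * x * g⁻¹) * a⁻¹ :=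
    fun {a} e x => by
      rw [show g * (a * x * a⁻¹) * g⁻¹ = g * a * x * (g * a)⁻¹ by group, e]
      group
  have ex : ∀ w, ∃ w', g * q w 0 * g⁻¹ = q w' 0 := fun w => by
    obtain ⟨w', k, e⟩ := (H.mem _).1 (h1 _ ((H.mem _).2 ⟨w, 0, rfl⟩))
    obtain rfl : k = 0 := (H.inv_iff h2 w' k).1 (by
      rw [e, ← sw hz, (H.inv_iff h2 w 0).2 rfl]
      group)
    exact ⟨w', e.symm⟩
  choose L hL using ex
  have hq : ∀ w k, g * q w k * g⁻¹ = q (L w) k := fun w k => by
    rw [H.split w, ← conj_mul, hL, hu, mul_inv_cancel_right, ← H.split]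
  have ad : ∀ w w', L (w + w') = L w + L w' ∧ 0 + 0 + φ w w' = 0 + 0 + φ (L w) (L w') :=
    fun w w' => H.inj _ _ _ _ (by rw [← hq, ← H.mul, ← H.mul, ← conj_mul, hq, hq])
  refine ⟨⟨⟨L, fun w w' => (ad w w').1⟩, fun c w => ?_⟩, hq, fun w w' => by
    simpa using (ad w w').2.symm⟩
  by_cases hc : c = 0
  · simpa [hc] using (ad 0 0).1
  have k := sw (hh (Units.mk0 c hc)) (q w 0)
  rw [H.hq, hq, hq, H.hq] at k
  exact (H.inj _ _ _ _ k).1

end HC

end Cfsg.Lib.PT
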