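import Cfsg.Agent.PT.PB

/-!
# Tower `PT`: lifting the line group
-/

set_option autoImplicit false
set_option linter.unusedSectionVars false

namespace Cfsg.Lib.PT

open Matrix Subgroup
open scoped MatrixGroups commutatorElement

universe u

variable {G : Type u} [Group G]

namespace PB3p

open Cfg

theorem span_of {K : Type} [Field K] (r : K → G) (hr : ∀ s t, r (s + t) = r s * r t)
    (A : Subgroup G) : ∃ B : AddSubgroup K, ∀ s, s ∈ B ↔ r s ∈ A :=
  ⟨(A.comap (MonoidHom.mk' (fun s : Multiplicative K => r s.toAdd) hr)).toAddSubgroup',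
    fun _ => Iff.rfl⟩

theorem onto {K K' : Type} [Finite K] [Finite K'] {H : Type u} {A : Subgroup G} {r : K' → G}
    (hr : Function.Injective r) (hA : ∀ s, r s ∈ A) (φ : A → H) (hφ : Function.Injective φ)
    (t : K → H) (ht : ∀ e, ∃ s, t s = φ e) (hc : Nat.card K ≤ Nat.card K') (e : G) :
    e ∈ A ↔ ∃ s, r s = e := by
  choose c hc' using ht
  have hi : Function.Injective c := fun u v k => hφ (by rw [← hc', k, hc'])
  have := Finite.of_injective c hi
  refine ⟨fun he => ?_, fun ⟨s, k⟩ => k ▸ hA s⟩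
  obtain ⟨s, k⟩ := (Function.Injective.bijective_of_nat_card_le (f := fun s => (⟨r s, hA s⟩ : A))
    (fun u v k => hr (congrArg Subtype.val k))
    ((Nat.card_le_card_of_injective c hi).trans hc)).2 ⟨e, he⟩
  exact ⟨s, congrArg Subtype.val k⟩

theorem card_le {K K' : Type} [Field K] [Finite K] [Field K'] [Finite K'] {H : Type u} [Group H]
    {p : ℕ} (hp : p.Prime) (h5 : 5 ≤ p) [CharP K' p] {f : SL2 K →* H} (hf : Rep p K f)
    (φ : SL2 K' →* H) {α γ : Kˣ} (hγ : ∀ μ, μ ∈ zpowers γ) (h1 : f (up (α : K)) ∈ φ.range)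
    (h2 : f (dg (γ ^ 2)) ∈ φ.range) {P : Subgroup H} (hP : IsPGroup p P)
    (h3 : ∀ s, f (up s) ∈ P) : Nat.card K ≤ Nat.card K' := by
  have := hf.char
  have := Fact.mk hp
  obtain ⟨B, hB⟩ := span_of (fun s => f (up s)) (fun s t => by rw [up_add, map_mul]) φ.range
  have hT := four_span hp h5 B α.ne_zero fun μ => by
    obtain ⟨k, rfl⟩ := hγ μ
    have := zpow_mem h2 k
    rw [← map_zpow, ← show _ = dg (γ ^ 2) ^ k from map_zpow (MonoidHom.mk' dg dg_mul) (γ ^ 2) k]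
      at this
    have := mul_mem (mul_mem this h1) (inv_mem this)
    rw [← map_inv, ← map_mul, ← map_mul] at this
    rw [hB]
    convert this using 2
    change _ = dg _ * _ * (dg _)⁻¹
    rw [dg_up, pow_two γ, mul_zpow, ← pow_two, Units.val_pow_eq_pow_val, ← pow_mul]
  have : Finite φ.range := Finite.of_surjective _ φ.rangeRestrict_surjective
  obtain ⟨R, hR⟩ := (hP.comap_subtype (K := φ.range)).exists_le_sylow
  let T : Sylow p (SL2 K') := default
  calc Nat.card K ≤ Nat.card R := Nat.card_le_card_of_injective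
        (fun s => ⟨⟨f (up s), (hB s).1 (hT ▸ AddSubgroup.mem_top s)⟩, hR (h3 s)⟩)
        fun s t e => hf.up_inj hp h5 (congrArg (fun z : R => ((z : φ.range) : H)) e)
    _ = Nat.card (T.mapSurjective φ.rangeRestrict_surjective) :=
        Nat.card_congr (Sylow.equiv _ _).toEquiv
    _ ≤ Nat.card T := Nat.le_of_dvd Nat.card_pos (card_map_dvd _ _)
    _ ≤ Nat.card K' := card_pgroup_SL2_le hp _ T.2

theorem conj_E' {C : Cfg G} {D' : Set G} (hs : C.Sub D') {g a e : G} (hg : g ∈ closure D')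
    (he : e ∈ E' D' a) : g * e * g⁻¹ ∈ E' D' (g * a * g⁻¹) := by
  refine (closure_le ((E' D' (g * a * g⁻¹)).comap (MulAut.conj g).toMonoidHom)).2
    (fun c hc => subset_closure ⟨hs.conj c hc.1 g hg, ?_⟩) he
  change g * c * g⁻¹ * _ = _ * (g * c * g⁻¹)
  rw [conj_mul, conj_mul, hc.2]

end PB3p

namespace Cfg
variable {C : Cfg G} {x y s : C.Pt} {a b c e g : G}

section SQ
variable [Finite G] {D' : Set G}
variable (hs : C.Sub D') (hg : Good C D') (ha : a ∈ D') (hb : b ∈ D')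
include hs hg ha hb

theorem pb3b (h : C.BD a b) (hz : Triv D' (zz a b)) (h1 : ∀ e ∈ E' D' a, Triv D' e → e = 1) :
    HasLn (E' D' a) (E' D' b) C.p := by
  obtain ⟨H, _, _, C', π, q, rk⟩ := hg
  lift a to closure D' using subset_closure ha
  lift b to closure D' using subset_closure hb
  have k := q.bp ha hb h
  obtain ⟨K, _, _, F, hF⟩ := (rk.line _ _ _ _ k (q.zz_one hz)).2
  have h2 : ∀ e ∈ E' D' b, Triv D' e → e = 1 := fun e he t => by
    lift e to closure D' using SQ.E'_le _ he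
    have := PB3p.conj_E' hs (ww a b).2 he
    rw [show ((ww a b : closure D') : G) * b * ((ww a b : closure D') : G)⁻¹ = a from h.br.ww_b]
      at this
    have := h1 _ this ((q.ker (ww a b * e * (ww a b)⁻¹)).1 (by
      rw [map_mul, map_mul, (q.ker e).2 t, mul_one, map_inv, mul_inv_cancel]))
    exact conj_eq_one_iff.1 this
  have inj : ∀ d : G, (∀ e ∈ E' D' d, Triv D' e → e = 1) →
      Function.Injective fun e : E' D' d => π ⟨e, SQ.E'_le _ e.2⟩ := fun d hd u v e =>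
    Subtype.ext (inv_mul_eq_one.1 (hd _ (mul_mem (inv_mem u.2) v.2)
      ((q.ker (⟨u, SQ.E'_le _ u.2⟩⁻¹ * ⟨v, SQ.E'_le _ v.2⟩)).1 (by
        rw [map_mul, map_inv, inv_mul_eq_one]; exact e))))
  have hp := C'.prime
  have h5 := C'.five
  obtain ⟨α, hα⟩ := (hF.up _).1 (M_le_E k.ha)
  obtain ⟨β, hβ⟩ := (hF.lo _).1 (M_le_E k.hb)
  have α0 : α ≠ 0 := fun e => ne_one k.bd.ha (by rw [← hα, e, up_zero, map_one])
  have αβ : α * β = -1 := (hF.rep.br_iff hp h5 α0).1 (by rw [hα, hβ]; exact k.br)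
  have β0 : β ≠ 0 := fun e => by simp [e] at αβ
  obtain ⟨γ, hγ⟩ := IsCyclic.exists_generator (α := Kˣ)
  have hD : F (lo ((γ : K) ^ 2 * β)) ∈ C'.D := by
    have := C'.conj _ k.bd.hb (F (dg γ⁻¹))
    rwa [← hβ, ← map_inv, ← map_mul, ← map_mul, dg_lo, inv_inv] at this
  obtain ⟨b', ⟨hb', cb⟩, eb⟩ := (q.memM hb k.hb _).1
    (lo_mem_M hF.rep (α := β) (by rw [hβ]; exact k.hb) hD)
  have nc : (a : G) * b' ≠ b' * a := fun e => by
    have := SQ.cm π e
    rw [← hα, eb, hF.rep.comm_iff hp h5] at this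
    simp [α0, β0] at this
  obtain ⟨K', _, _, f, α', β', hf, ea, eb', er⟩ := C.pair a (hs.sub ha) b' (hs.sub hb') nc
  have fL : ∀ g, f g ∈ closure D' := fun g =>
    closure_mono (Set.pair_subset ha hb') (er.le ⟨g, rfl⟩)
  have α0' : α' ≠ 0 := fun e => ne_one (hs.sub ha) (by rw [← ea, e, up_zero, map_one])
  have β0' : β' ≠ 0 := fun e => ne_one (hs.sub hb') (by rw [← eb', e, lo_zero, map_one])
  have hu : ∀ s, f (up s) ∈ E' D' a := fun s => by
    obtain ⟨B, hB⟩ := PB3p.span_of (fun s => f (up s)) (fun s t => by rw [up_add, map_mul])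
      (E' D' a)
    refine (hB s).1 (sq_span B α0' (fun μ => (hB _).2 (subset_closure ⟨?_, ?_⟩)) ▸
      AddSubgroup.mem_top s)
    · rw [← dg_up, map_mul, map_mul, map_inv, ea]
      exact hs.conj _ ha _ (fL _)
    · rw [← ea, ← map_mul, ← map_mul, ← up_add, ← up_add, add_comm]
  have hl : ∀ s, f (lo s) ∈ E' D' b := fun s => by
    obtain ⟨B, hB⟩ := PB3p.span_of (fun s => f (lo s)) (fun s t => by rw [lo_add, map_mul])
      (E' D' b)
    refine (hB s).1 (sq_span B β0' (fun μ => (hB _).2 ?_) ▸ AddSubgroup.mem_top s)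
    have m : f (lo ((μ : K') ^ 2 * β')) ∈ D' := by
      have := hs.conj _ hb' _ (fL (dg μ⁻¹))
      rwa [← eb', ← map_inv, ← map_mul, ← map_mul, dg_lo, inv_inv] at this
    exact subset_closure ⟨m, hs.r1 _ m _ hb' _ hb
      (by rw [← eb', ← map_mul, ← map_mul, ← lo_add, ← lo_add, add_comm]) cb⟩
  let ψ : SL2 K' →* closure D' := f.codRestrict _ fL
  have pa : π (ψ (up α')) = F (up α) := by rw [hα]; exact congrArg π (Subtype.ext ea)
  have pb : π (ψ (lo β')) = F (lo ((γ : K) ^ 2 * β)) := by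
    rw [← eb]; exact congrArg π (Subtype.ext eb')
  have br : ∀ s t : K', s ≠ 0 → s * t = -1 → Br (π (ψ (up s))) (π (ψ (lo t))) := fun s t s0 e =>
    Br.map π (Subtype.ext ((hf.br_iff C.prime C.five s0).2 e))
  obtain ⟨t, ht⟩ := (hF.lo _).1 ((q.memE hb k.hb _).2 ⟨ψ (lo (-α'⁻¹)), hl _, rfl⟩)
  obtain ⟨s, hs'⟩ := (hF.up _).1 ((q.memE ha k.ha _).2 ⟨ψ (up (-β'⁻¹)), hu _, rfl⟩)
  have b1 := br α' (-α'⁻¹) α0' (by field_simp)
  have b2 := br (-β'⁻¹) β' (by simpa using β0') (by field_simp)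
  rw [pa, ← ht, hF.rep.br_iff hp h5 α0] at b1
  rw [pb, ← hs'] at b2
  have s0 : s ≠ 0 := fun e => ne_one hD (by
    rw [e, up_zero, map_one, Br, one_mul, mul_one] at b2
    exact left_eq_mul.1 b2)
  rw [hF.rep.br_iff hp h5 s0] at b2
  have w : ∀ (μ : Kˣ) (ν : K), μ * ν = -1 → F (up (μ : K)) ∈ (π.comp ψ).range →
      F (lo ν) ∈ (π.comp ψ).range → F (wy μ) ∈ (π.comp ψ).range := fun μ ν e m1 m2 => by
    rw [← wy_eq, map_ww, show -((μ⁻¹ : Kˣ) : K) = ν by
      rw [← mul_neg_one, ← e, Units.inv_mul_cancel_left]]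
    exact ww_mem m1 m2
  have w3 := mul_mem (w (Units.mk0 α α0) t b1 ⟨_, pa⟩ ⟨_, ht.symm⟩)
    (inv_mem (w (Units.mk0 s s0) _ b2 ⟨_, hs'.symm⟩ ⟨_, pb⟩))
  rw [← map_inv, ← map_mul, wy_wy, show Units.mk0 α α0 * (Units.mk0 s s0)⁻¹ = γ ^ 2 by
    rw [mul_inv_eq_iff_eq_mul]
    ext
    simp only [Units.val_mk0, Units.val_mul, Units.val_pow_eq_pow_val]
    exact mul_right_cancel₀ β0 (by linear_combination αβ - b2)] at w3
  have : CharP K' C'.p := q.p ▸ hf.char
  have hc := PB3p.card_le hp h5 hF.rep (π.comp ψ) (α := Units.mk0 α α0) hγ ⟨_, pa⟩ w3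
    (E_pgroup _) fun s => (hF.up _).2 ⟨s, rfl⟩
  exact ⟨K', _, inferInstance, f, hf,
    PB3p.onto (fun _ _ => hf.up_inj C.prime C.five) hu _ (inj _ h1) (fun s => F (up s))
      (fun e => (hF.up _).1 ((q.memE ha k.ha _).2 ⟨_, e.2, rfl⟩)) hc,
    PB3p.onto (fun _ _ => hf.lo_inj C.prime C.five) hl _ (inj _ h2) (fun s => F (lo s))
      (fun e => (hF.lo _).1 ((q.memE hb k.hb _).2 ⟨_, e.2, rfl⟩)) hc⟩

end SQ

end Cfg

end Cfsg.Lib.PT
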