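import Cfsg.Agent.PT.HT
import Cfsg.Agent.PT.PB3

/-!
# Tower `PT`: hyperbolic lines
-/

set_option autoImplicit false
set_option linter.unusedSectionVars false

namespace Cfsg.Lib.PT

open Matrix Subgroup

universe u

variable {G : Type u} [Group G]

namespace Cfg
variable {C : Cfg G} {x y r r' s u v : C.Pt} {a b c d e g n m ζ z : G}

variable [Finite G]

theorem W1.orbit_opp (w : W1 x y) (hg : g ∈ KK x y) (hP : Pp (g • x) x) : g • x = x := by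
  by_cases h1 : Pp (g • x) y
  · have := CC_fix (KK_le_CC (r := g • x) ⟨hP, h1⟩ (inv_mem hg))
    rw [inv_smul_smul] at this
    exact this.symm
  by_contra ne
  obtain ⟨a, b, k⟩ := exists_BP w.1
  obtain ⟨c, k'⟩ := exists_partner k.hb fun e => h1 e.symm
  obtain ⟨n, m, ζ, H, h2, -⟩ := exists_heis k.bd k'.bd.symm (hP _ k'.hb _ k.ha).symm
    fun e => ne (ext_M k'.hb (e ▸ k.ha))
  have h3 : c ∈ KK x y := by
    simpa [mul_assoc] using mul_mem (mul_mem hg (mem_sup_left (M_le_E (mem_M_smul.1 k'.hb)) :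
      _ ∈ KK x y)) (inv_mem hg)
  have h4 := H.zn
  rw [w.c0_KK (w.zz_c0 k) ((closure_le _).2 (by
    rintro _ (rfl | rfl | rfl)
    exacts [mem_sup_left (M_le_E k.ha), mem_sup_right (M_le_E k.hb), h3]) h2),
    mul_inv_cancel_right] at h4
  exact H.n_ne (L1.eq_one (k := 1) C.prime C.five (by rw [pow_one, H.np])
    (mul_eq_one_iff_eq_inv.2 h4))

theorem W1.orbit_eq (w : W1 x y) {k : G} (hg : g ∈ KK x y) (hk : k ∈ KK x y)
    (hP : Pp (g • x) (k • x)) : g • x = k • x := by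
  have := w.orbit_opp (mul_mem (inv_mem hk) hg) (by
    rwa [← Pp_smul k, mul_smul, smul_inv_smul])
  rwa [mul_smul, inv_smul_eq_iff] at this

theorem W1.sub (w : W1 x y) : C.Sub (DK x y) :=
  ⟨fun _ ⟨_, _, h⟩ => mem_D h, fun _ ⟨g, hg, h⟩ k hk =>
    ⟨k * g, mul_mem (SQp.DK_le x y hk) hg, mul_smul k g x ▸ conj_mem k h⟩,
    fun _ ⟨g, hg, h⟩ _ hk => ⟨g, hg, pow_M h hk⟩,
    fun _ ⟨_, h1, ha⟩ _ ⟨_, h2, hb⟩ _ ⟨_, h3, hc⟩ e e' => Pp_refl _ _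
      (w.orbit_eq h1 h2 ((Pp_iff ha hb).2 e) ▸ ha) _ (w.orbit_eq h3 h2 ((Pp_iff hc hb).2 e'.symm) ▸ hc)⟩

theorem W1.E'_eq (w : W1 x y) (hg : g ∈ KK x y) (ha : a ∈ M (g • x)) :
    E' (DK x y) a = E (g • x) :=
  le_antisymm (closure_mono fun _ ⟨⟨_, hk, hc⟩, e⟩ => w.orbit_eq hk hg ((Pp_iff hc ha).2 e) ▸ hc)
    (closure_mono fun c hc => ⟨⟨g, hg, hc⟩, Pp_refl _ c hc a ha⟩)

theorem W1.hasLn (w : W1 x y) (ih : IH2.{u} C.p) : HasLn (E x) (E y) C.p := by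
  obtain ⟨a, b, k⟩ := exists_BP w.1
  have ha := (M_sub_DK w.1).1 k.ha
  have hb := (M_sub_DK w.1).2 k.hb
  have h1 := w.E'_eq (one_mem _) (a := a) (by rw [one_smul]; exact k.ha)
  have h2 := w.E'_eq k.ww_KK (a := b) (by rw [k.ww_x]; exact k.hb)
  rw [one_smul] at h1
  rw [k.ww_x] at h2
  rw [← h1, ← h2]
  refine pb3b w.sub (w.sub.good' (fun _ H _ _ C' hp _ h h' => (ih H C' hp h h').1) ha hb k.bd.nc)
    ha hb k.bd (fun c hc => ?_) fun e he h => ?_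
  · rw [w.c0_KK (w.zz_c0 k) (SQp.DK_le x y (subset_closure hc)), mul_inv_cancel_right]
  · rw [h1] at he
    have := w.orbit_eq (mul_mem (mem_sup_left he) k.ww_KK) k.ww_KK (by
      rw [mul_smul, k.ww_x]; exact (Pp_iff (conj_mem e k.hb) k.hb).2 (h b hb))
    rw [mul_smul, k.ww_x] at this
    exact w.free he this

theorem pb4 {D' : Set G} (hs : C.Sub D') (ih : IH2.{u} C.p) (ha : a ∈ D') (hb : b ∈ D')
    (h : C.BD a b) (hz : ¬ Triv D' (zz a b)) (A : Subgroup G) (h1 : A ≤ closure D')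
    (h2 : IsPGroup C.p A) (h3 : ∀ g ∈ A, ∀ k ∈ A, g * k = k * g)
    (h4 : ∀ g ∈ A, g * a * g⁻¹ * a = a * (g * a * g⁻¹))
    (h5 : ∀ c ∈ D', c * a ≠ a * c → ∃ g ∈ A, g * b * g⁻¹ * c = c * (g * b * g⁻¹)) : False := by
  obtain ⟨H, _, _, C', π, q⟩ := hs.sq ha hb h.nc
  lift a to closure D' using subset_closure ha
  lift b to closure D' using subset_closure hb
  have k := q.bp ha hb h
  refine (ih H C' q.p q.simple q.r1).2 _ _ _ _ k (fun e => hz ((q.ker (zz a b)).1 (by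
    rwa [map_zz]))) ((A.subgroupOf _).map π) (q.p ▸ (h2.comap_subtype).map π) ?_ ?_ fun u hu => ?_
  · rintro _ ⟨g, hg, rfl⟩
    exact (smul_eq_iff k.ha).2 ((q.memM ha k.ha _).2
      ⟨g * a * g⁻¹, ⟨hs.conj _ ha _ g.2, h4 g hg⟩, by simp⟩)
  · rintro _ ⟨g, hg, rfl⟩ _ ⟨g', hg', rfl⟩
    exact SQ.cm π (h3 g hg g' hg')
  · obtain ⟨d, hd⟩ := M_nonempty u
    obtain ⟨c, hc, rfl⟩ := (q.D _).1 (mem_D hd)
    obtain ⟨g, hg, e⟩ := h5 c hc fun e => hu (ext_M hd ((q.memM ha k.ha _).2 ⟨c, ⟨hc, e⟩, rfl⟩))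
    refine ⟨π ⟨g, h1 hg⟩, ⟨_, hg, rfl⟩, q.r1 _ _ ((Pp_iff (conj_mem _ k.hb) hd).2 ?_)⟩
    rw [← map_inv, ← π.map_mul, ← π.map_mul]
    exact SQ.cm π e

section ln
variable {K : Type} [Field K] [Finite K] {f : SL2 K →* G} (hL : Ln (E x) (E y) C.p K f)
  (opp : ¬ Pp x y)
include hL opp

theorem ln_bp' (h : BP x y a b) :
    ∃ α : Kˣ, a = f (up (α : K)) ∧ b = f (lo (-((α⁻¹ : Kˣ) : K))) := by
  have _ := opp
  obtain ⟨α, rfl⟩ := (hL.up a).1 (M_le_E h.ha)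
  obtain ⟨β, rfl⟩ := (hL.lo b).1 (M_le_E h.hb)
  have h1 := up_ne (mem_D h.ha)
  refine ⟨Units.mk0 α h1, rfl, ?_⟩
  have h2 := (hL.rep.br_iff C.prime C.five h1).1 h.br
  rw [show β = -α⁻¹ by field_simp; linear_combination h2]
  simp

theorem ln_bp : ∃ α : Kˣ, BP x y (f (up (α : K))) (f (lo (-((α⁻¹ : Kˣ) : K)))) := by
  obtain ⟨a, b, h⟩ := exists_BP opp
  obtain ⟨α, rfl, rfl⟩ := ln_bp' hL opp h
  exact ⟨α, h⟩

theorem ln_zz (h : BP x y a b) : zz a b = f (-1) := by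
  obtain ⟨α, rfl, rfl⟩ := ln_bp' hL opp h
  exact hL.rep.zz_eq C.prime C.five (by simp)

theorem ln_KK (g : G) : g ∈ KK x y ↔ ∃ k, f k = g := by
  have _ := opp
  refine ⟨fun h => (sup_le (fun e he => ?_) fun e he => ?_ : KK x y ≤ f.range) h, ?_⟩
  · obtain ⟨s, rfl⟩ := (hL.up e).1 he
    exact ⟨_, rfl⟩
  · obtain ⟨s, rfl⟩ := (hL.lo e).1 he
    exact ⟨_, rfl⟩
  · rintro ⟨k, rfl⟩
    refine (closure_up_lo.ge.trans ((closure_le ((KK x y).comap f)).2 ?_)) (mem_top k)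
    rintro _ (⟨s, rfl⟩ | ⟨s, rfl⟩)
    exacts [mem_sup_left ((hL.up _).2 ⟨s, rfl⟩), mem_sup_right ((hL.lo _).2 ⟨s, rfl⟩)]

theorem ln_act (k : SL2 K) :
    ((∀ s, ∃ t, k * up s * k⁻¹ = up t) → f k • x = x) ∧
    ((∀ s, ∃ t, k * lo s * k⁻¹ = lo t) → f k • y = y) ∧
    ((∀ s, ∃ t, k * up s * k⁻¹ = lo t) → f k • x = y) ∧
    ((∀ s, ∃ t, k * lo s * k⁻¹ = up t) → f k • y = x) := by
  obtain ⟨α, h⟩ := ln_bp hL opp
  have key : ∀ {l l' : SL2 K}, f l ∈ C.D → k * l * k⁻¹ = l' →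
      f k * f l * (f k)⁻¹ = f l' ∧ f l' ∈ C.D := fun hl e => by
    have := C.conj _ hl (f k)
    rw [← e, map_mul, map_mul, map_inv]
    exact ⟨rfl, this⟩
  refine ⟨fun e => ?_, fun e => ?_, fun e => ?_, fun e => ?_⟩ <;> obtain ⟨t, e⟩ := e _
  · exact (smul_eq_iff h.ha).2 ((key h.bd.ha e).1 ▸ up_mem_M hL.rep h.ha (key h.bd.ha e).2)
  · exact (smul_eq_iff h.hb).2 ((key h.bd.hb e).1 ▸ lo_mem_M hL.rep h.hb (key h.bd.hb e).2)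
  · exact (smul_eq_iff h.ha).2 ((key h.bd.ha e).1 ▸ lo_mem_M hL.rep h.hb (key h.bd.ha e).2)
  · exact (smul_eq_iff h.hb).2 ((key h.bd.hb e).1 ▸ up_mem_M hL.rep h.ha (key h.bd.hb e).2)

theorem ln_dg (μ : Kˣ) : f (dg μ) • x = x ∧ f (dg μ) • y = y :=
  ⟨(ln_act hL opp _).1 fun s => ⟨_, dg_up μ s⟩, (ln_act hL opp _).2.1 fun s => ⟨_, dg_lo μ s⟩⟩

theorem ln_wy (μ : Kˣ) : f (wy μ) • x = y ∧ f (wy μ) • y = x :=
  ⟨(ln_act hL opp _).2.2.1 fun s => ⟨_, wy_up μ s⟩,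
    (ln_act hL opp _).2.2.2 fun s => ⟨_, wy_lo μ s⟩⟩

theorem ln_lo {t : K} (ht : t ≠ 0) : f (lo t) • x = f (up t⁻¹) • y := by
  have h1 : lo t = up t⁻¹ * wy (-(Units.mk0 t ht)⁻¹) * up t⁻¹ := by
    rw [← wy_eq]
    simp [ww, up_neg, mul_assoc]
  rw [h1, map_mul, map_mul, mul_smul, mul_smul, E_fix (Pp_refl x) ((hL.up _).2 ⟨_, rfl⟩),
    (ln_wy hL opp _).1]

theorem ln_symm : Ln (E y) (E x) C.p K (f.comp (MulAut.conj (wy 1)).toMonoidHom) := by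
  have _ := opp
  have h1 : ∀ s, (f.comp (MulAut.conj (wy 1)).toMonoidHom) (lo (-s)) = f (up s) := fun s =>
    congrArg f ((wy_lo 1 _).trans (by simp))
  refine ⟨hL.rep.conj _, fun e => (hL.lo e).trans ⟨?_, ?_⟩, fun e => (hL.up e).trans ⟨?_, ?_⟩⟩ <;>
    rintro ⟨s, rfl⟩
  exacts [⟨-s, tw_up f s⟩, ⟨-s, by rw [← tw_up, neg_neg]⟩, ⟨-s, h1 s⟩, ⟨-s, by rw [← h1, neg_neg]⟩]

end ln

end Cfg

end Cfsg.Lib.PT
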