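import Cfsg.Agent.PT.JW
import Cfsg.Agent.PT.KL

/-!
# Tower `PT`: the torus acts linearly on the group of a singular line
-/

set_option autoImplicit false
set_option linter.unusedVariables false
set_option linter.unusedSectionVars false

namespace Cfsg.Lib.PT

open Matrix Subgroup Cfsg.Lib.Class.Form
open scoped MatrixGroups commutatorElement

universe u

variable {G : Type u} [Group G]

namespace Cfg
variable {C : Cfg G} {x y r r' s u v : C.Pt} {a b c d e g n m ζ z : G}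

namespace NATp

theorem VV_EL (x r : C.Pt) (z : G) : VV x r z ≤ EL x r := (closure_le _).2 fun _ h => h.1

theorem cx (hP : Pp r x) (hn : n ∈ VV x r z) : n ∈ CC x :=
  EL_le_CC (Pp_refl x) hP.symm (VV_EL _ _ _ hn)

theorem cr (hP : Pp r x) (hn : n ∈ VV x r z) : n ∈ CC r :=
  EL_le_CC hP (Pp_refl r) (VV_EL _ _ _ hn)

theorem cj (h : g * c = c * g) : g * c * g⁻¹ = c := by rw [h, mul_inv_cancel_right]

theorem dg_wy {K : Type} [Field K] (μ t : Kˣ) : dg μ * wy t = wy (μ * t) := by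
  rw [← mul_inv_cancel_right μ t, ← wy_wy, mul_inv_cancel_right, inv_mul_cancel_right]

theorem dw {K : Type} [Field K] (f : SL2 K →* G) (μ t : Kˣ) (m : G) :
    f (dg μ) * (f (wy t) * m * (f (wy t))⁻¹) * (f (dg μ))⁻¹ =
      f (wy (μ * t)) * m * (f (wy (μ * t)))⁻¹ := by
  rw [← dg_wy, map_mul]; group

variable [Finite G]

theorem back (h : C.HR) (h1 : BP x y a b) (hr : r ∈ Δ x y) (hg : g ∈ KK x y) (gy : g • y = x)
    (hm : m ∈ VV y r (zz a b)) : g * m * g⁻¹ ∈ VV x r (zz a b) := by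
  rw [← h1.br.zz_symm] at hm ⊢
  exact h.VV_ww h1.symm (Δ_symm x y ▸ hr) (KK_symm x y ▸ hg) gy hm

theorem ec (h : C.HR) (h1 : BP x y a b) (hr : r ∈ Δ x y) (hm : m ∈ VV y r (zz a b))
    (he : e ∈ E x) : ∃ A ∈ VV x r (zz a b), ∃ ζ ∈ E r, e * m * e⁻¹ = A * m * ζ := by
  let P : Subgroup G :=
    { carrier := {e | e ∈ E x ∧ ∃ A ∈ VV x r (zz a b), ∃ ζ ∈ E r, e * m * e⁻¹ = A * m * ζ}
      one_mem' := ⟨one_mem _, 1, one_mem _, 1, one_mem _, by simp⟩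
      mul_mem' := fun {e e'} ⟨k1, A, hA, ζ, hζ, k2⟩ ⟨k3, A', hA', ζ', hζ', k4⟩ =>
        ⟨mul_mem k1 k3, A' * A, mul_mem hA' hA, ζ * ζ', mul_mem hζ hζ', by
          calc e * e' * m * (e * e')⁻¹ = e * (e' * m * e'⁻¹) * e⁻¹ := by group
            _ = e * A' * e⁻¹ * (e * m * e⁻¹) * (e * ζ' * e⁻¹) := by rw [k4]; group
            _ = _ := by
              rw [k2, cj (CC_comm (cx hr.1 hA') k1).symm, cj (CC_comm (E_le_CC hr.1.symm k1) hζ')]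
              group⟩
      inv_mem' := fun {e} ⟨k1, A, hA, ζ, hζ, k2⟩ =>
        ⟨inv_mem k1, A⁻¹, inv_mem hA, ζ⁻¹, inv_mem hζ, by
          have : e * (A⁻¹ * m * ζ⁻¹) * e⁻¹ = m := by
            calc e * (A⁻¹ * m * ζ⁻¹) * e⁻¹
                = e * A⁻¹ * e⁻¹ * (e * m * e⁻¹) * (e * ζ⁻¹ * e⁻¹) := by group
              _ = m := by
                rw [k2, cj (CC_comm (cx hr.1 (inv_mem hA)) k1).symm,
                  cj (CC_comm (E_le_CC hr.1.symm k1) (inv_mem hζ))]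
                group
          calc e⁻¹ * m * e⁻¹⁻¹ = e⁻¹ * (e * (A⁻¹ * m * ζ⁻¹) * e⁻¹) * e⁻¹⁻¹ := by rw [this]
            _ = _ := by group⟩ }
  refine ((closure_le P).2 (fun a' ha' => ?_) he).2
  obtain ⟨b', h2⟩ := exists_partner ha' h1.opp
  have ez := (h.w1 h1.opp).zz_eq h1 h2
  refine (inv_mem_iff (H := P)).1 ⟨inv_mem (M_le_E ha'), ?_⟩
  by_cases m1 : m = 1
  · exact ⟨1, one_mem _, 1, one_mem _, by simp [m1]⟩
  rw [ez] at hm ⊢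
  have hn := back h h2 hr (inv_mem h2.ww_KK) (inv_smul_eq_iff.2 h2.ww_x.symm) hm
  obtain ⟨ζ, hζ, H⟩ := h.VV_heis h2 hr hn (fun k => m1 (conj_eq_one_iff.1 k))
  have k := H.ck 1
  refine ⟨_, hn, ζ, M_le_E hζ, ?_⟩
  generalize hN : (ww a' b')⁻¹ * m * (ww a' b')⁻¹⁻¹ = N at k
  rw [show ww a' b' * N * (ww a' b')⁻¹ = m by rw [← hN]; group] at k
  simp only [pow_one, one_pow] at k
  rw [mul_assoc N, CC_comm (cr hr.2 hm) (M_le_E hζ)]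
  calc a'⁻¹ * m * a'⁻¹⁻¹ = a'⁻¹ * (m * a' * m⁻¹) * m := by group
    _ = _ := by rw [k]; group

theorem uniq (h : C.HR) (h1 : BP x y a b) (hr : r ∈ Δ x y) {A A' e₁ e₁' e₂ e₂' : G}
    (h2 : e₁ ∈ E x) (h2' : e₁' ∈ E x) (hA : A ∈ VV x r (zz a b)) (hA' : A' ∈ VV x r (zz a b))
    (h3 : e₂ ∈ E r) (h3' : e₂' ∈ E r) (e : e₁ * A * e₂ = e₁' * A' * e₂') : A = A' := by
  refine (inv_mul_eq_one.1 (h.EL_uniq h1 hr (mul_mem (inv_mem h2') h2) (mul_mem (inv_mem hA') hA)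
    (mul_mem h3 (inv_mem h3')) ?_).2.1).symm
  rw [← mul_assoc _ A'⁻¹, ← CC_comm (cx hr.1 (inv_mem hA')) (mul_mem (inv_mem h2') h2)]
  calc A'⁻¹ * (e₁'⁻¹ * e₁) * A * (e₂ * e₂'⁻¹) = A'⁻¹ * e₁'⁻¹ * (e₁ * A * e₂) * e₂'⁻¹ := by group
    _ = 1 := by rw [e]; group

end NATp

open NATp

variable [Finite G]

namespace HR
variable (h : C.HR) {a' b' : G}
include h

section NAT
variable {K : Type} [Field K] [Finite K] {f : SL2 K →* G} (hL : Ln (E x) (E y) C.p K f)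
  (opp : ¬ Pp x y) (hr : r ∈ Δ x y)
include hL opp hr

theorem n0 (hm : m ∈ VV y r (f (-1))) (t : Kˣ) :
    ∃ ζ ∈ E r, f (up (t : K)) * m * (f (up (t : K)))⁻¹ = f (wy t) * m * (f (wy t))⁻¹ * m * ζ := by
  obtain ⟨α, h1⟩ := ln_bp hL opp
  have hw : f (wy t) * m * (f (wy t))⁻¹ ∈ VV x r (f (-1)) := by
    rw [← ln_zz hL opp h1] at hm ⊢
    exact back h h1 hr ((ln_KK hL opp _).2 ⟨_, rfl⟩) (ln_wy hL opp t).2 hm
  have ew : f (wy t) = f (up (t : K)) * f (lo (-((t⁻¹ : Kˣ) : K))) * f (up (t : K)) := by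
    rw [← wy_eq, map_ww, ww]
  have he : f (up (t : K)) ∈ E x := (hL.up _).2 ⟨_, rfl⟩
  have he' : f (lo (-((t⁻¹ : Kˣ) : K))) ∈ E y := (hL.lo _).2 ⟨_, rfl⟩
  rw [← ln_zz hL opp h1] at hm hw
  generalize f (up (α : K)) = a at h1 hm hw
  generalize f (lo (-((α⁻¹ : Kˣ) : K))) = b at h1 hm hw
  generalize f (wy t) = w at hw ew
  generalize f (up (t : K)) = e at he ew
  generalize f (lo (-((t⁻¹ : Kˣ) : K))) = e' at he' ew
  have hr' : r ∈ Δ y x := Δ_symm x y ▸ hr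
  obtain ⟨A, hA, ζ₁, k1, e1⟩ := ec h h1 hr hm he
  obtain ⟨B, hB, ζ₂, k2, e2⟩ := ec h h1.symm hr' (h1.br.zz_symm ▸ hA) he'
  have hB' := mul_mem hB (h1.br.zz_symm ▸ hm)
  rw [h1.br.zz_symm] at hB
  obtain ⟨A₂, hA₂, ζ₃, k3, e3⟩ := ec h h1 hr (mul_mem hB hm) he
  have hc := h.VV_comm h1 hr hA hB
  have hη := mul_mem (mul_mem hc k2) k1
  have s1 : e' * (A * m * ζ₁) * e'⁻¹ = A * (B * m) * (⁅B, A⁆ * ζ₂ * ζ₁) := by
    calc e' * (A * m * ζ₁) * e'⁻¹ = e' * A * e'⁻¹ * (e' * m * e'⁻¹) * (e' * ζ₁ * e'⁻¹) := by group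
      _ = ⁅B, A⁆ * (A * B) * (ζ₂ * m) * ζ₁ := by
        rw [e2, cj (CC_comm (cx hr.2 hm) he').symm, cj (CC_comm (E_le_CC hr.2.symm he') k1),
          commutatorElement_def]
        group
      _ = ⁅B, A⁆ * (A * (B * m)) * ζ₂ * ζ₁ := by rw [← CC_comm (cr hr.2 hm) k2]; group
      _ = _ := by
        rw [← CC_comm (mul_mem (cr hr.1 hA) (cr hr.2 (mul_mem hB hm))) hc]; group
  generalize ⁅B, A⁆ * ζ₂ * ζ₁ = η at hη s1
  have s2 : w * m * w⁻¹ = A * (e * (B * m) * e⁻¹) * η := by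
    calc w * m * w⁻¹ = e * (e' * (e * m * e⁻¹) * e'⁻¹) * e⁻¹ := by rw [ew]; group
      _ = e * A * e⁻¹ * (e * (B * m) * e⁻¹) * (e * η * e⁻¹) := by rw [e1, s1]; group
      _ = _ := by
        rw [cj (CC_comm (cx hr.1 hA) he).symm, cj (CC_comm (E_le_CC hr.1.symm he) hη)]
  have s3 : B * m = 1 := by
    refine h.VV_free h1.symm hr' hB' (CC_fix ?_)
    have : B * m = (A * A₂)⁻¹ * (w * m * w⁻¹) * (ζ₃ * η)⁻¹ := by rw [s2, e3]; group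
    rw [this]
    exact mul_mem (cx hr.1 (mul_mem (inv_mem (mul_mem hA hA₂)) hw))
      (E_le_CC hr.1 (inv_mem (mul_mem k3 hη)))
  rw [uniq h h1 hr (one_mem _) (one_mem _) hw hA (one_mem _) hη (by rw [s2, s3]; group)]
  exact ⟨ζ₁, k1, e1⟩

theorem nat (hn : n ∈ VV x r (f (-1))) (μ ν l : Kˣ) (e : (l : K) = μ + ν) :
    f (dg l) * n * (f (dg l))⁻¹ =
      f (dg μ) * n * (f (dg μ))⁻¹ * (f (dg ν) * n * (f (dg ν))⁻¹) := by
  obtain ⟨α, h1⟩ := ln_bp hL opp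
  have ez := ln_zz hL opp h1
  obtain ⟨m, rfl⟩ : ∃ m, n = f (wy 1) * m * (f (wy 1))⁻¹ :=
    ⟨(f (wy 1))⁻¹ * n * f (wy 1), by group⟩
  have hm : m ∈ VV y r (f (-1)) := by
    rw [← ez] at hn ⊢
    have := h.VV_ww h1 hr (inv_mem ((ln_KK hL opp _).2 ⟨_, rfl⟩))
      (inv_smul_eq_iff.2 (ln_wy hL opp 1).2.symm) hn
    simpa [mul_assoc] using this
  have hw : ∀ t, f (wy t) * m * (f (wy t))⁻¹ ∈ VV x r (f (-1)) := fun t => by
    rw [← ez] at hm ⊢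
    exact back h h1 hr ((ln_KK hL opp _).2 ⟨_, rfl⟩) (ln_wy hL opp t).2 hm
  simp only [dw, mul_one]
  obtain ⟨ζ₁, k1, e1⟩ := h.n0 hL opp hr hm μ
  obtain ⟨ζ₂, k2, e2⟩ := h.n0 hL opp hr hm ν
  obtain ⟨ζ₃, k3, e3⟩ := h.n0 hL opp hr hm l
  have he : f (up (ν : K)) ∈ E x := (hL.up _).2 ⟨_, rfl⟩
  have hA := hw μ
  have hB := hw ν
  have hC := hw l
  rw [e, add_comm, up_add, map_mul] at e3
  generalize f (wy μ) * m * (f (wy μ))⁻¹ = A at *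
  generalize f (wy ν) * m * (f (wy ν))⁻¹ = B at *
  generalize f (wy l) * m * (f (wy l))⁻¹ = D at *
  generalize f (up (μ : K)) = e₁ at *
  generalize f (up (ν : K)) = e₂ at *
  have s : D * m * ζ₃ = A * B * m * (ζ₂ * ζ₁) := by
    calc D * m * ζ₃ = e₂ * (e₁ * m * e₁⁻¹) * e₂⁻¹ := by rw [← e3]; group
      _ = e₂ * A * e₂⁻¹ * (e₂ * m * e₂⁻¹) * (e₂ * ζ₁ * e₂⁻¹) := by rw [e1]; group
      _ = _ := by
        rw [e2, cj (CC_comm (cx hr.1 hA) he).symm, cj (CC_comm (E_le_CC hr.1.symm he) k1)]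
        group
  rw [mul_assoc, mul_assoc _ m, CC_comm (cr hr.2 hm) k3, CC_comm (cr hr.2 hm) (mul_mem k2 k1),
    ← mul_assoc, ← mul_assoc, mul_left_inj] at s
  rw [← ez] at hA hB hC
  exact uniq h h1 hr (one_mem _) (one_mem _) hC (mul_mem hA hB) k3 (mul_mem k2 k1)
    (by rw [one_mul, one_mul, s])

theorem nat_comp (hm : m ∈ VV y r (f (-1))) (hn : n ∈ VV x r (f (-1))) (n1 : n ≠ 1) :
    (∃ e₁ ∈ E x, ∃ e₂ ∈ E r, e₁ * n * e₂ ∈ E (m • x)) ↔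
      ∃ μ : Kˣ, n = f (wy μ) * m * (f (wy μ))⁻¹ := by
  obtain ⟨α, h1⟩ := ln_bp hL opp
  have ez := ln_zz hL opp h1
  have key : ∀ t : Kˣ, ∃ ζ ∈ E r, m * (f (up (t : K)))⁻¹ * m⁻¹ =
      (f (up (t : K)))⁻¹ * (f (wy t) * m * (f (wy t))⁻¹) * ζ := fun t => by
    obtain ⟨ζ, k, e⟩ := h.n0 hL opp hr hm t
    rw [mul_assoc _ m ζ, CC_comm (cr hr.2 hm) k] at e
    refine ⟨ζ, k, ?_⟩
    calc m * (f (up (t : K)))⁻¹ * m⁻¹
        = (f (up (t : K)))⁻¹ * (f (up (t : K)) * m * (f (up (t : K)))⁻¹) * m⁻¹ := by group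
      _ = _ := by rw [e]; group
  have hE : ∀ t : K, (f (up t))⁻¹ ∈ E x := fun t => inv_mem ((hL.up _).2 ⟨_, rfl⟩)
  constructor
  · rintro ⟨e₁, k1, e₂, k2, k⟩
    obtain ⟨s, hs⟩ := (hL.up _).1 (inv_mem (mem_E_smul.1 k))
    have e : e₁ * n * e₂ = m * (f (up s))⁻¹ * m⁻¹ := by rw [hs]; group
    rw [← ez] at hn
    by_cases s0 : s = 0
    · exact (n1 (h.EL_uniq h1 hr k1 hn k2 (by rw [e, s0, up_zero, map_one]; group)).2.1).elim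
    · obtain ⟨ζ, k3, e3⟩ := key (Units.mk0 s s0)
      rw [← ez] at hm
      exact ⟨_, uniq h h1 hr k1 (hE _) hn
        (back h h1 hr ((ln_KK hL opp _).2 ⟨_, rfl⟩) (ln_wy hL opp _).2 hm) k2 k3 (e.trans e3)⟩
  · rintro ⟨t, rfl⟩
    obtain ⟨ζ, k, e⟩ := key t
    exact ⟨_, hE t, ζ, k, e ▸ conj_E m (hE t)⟩

/-- The torus of the pair `r`, `r'` preserves the `K`-lines of `VV x r`, and conversely. -/
theorem lines {K' : Type} [Field K'] [Finite K'] {f' : SL2 K' →* G} (hr' : r' ∈ Δ x y)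
    (opp' : ¬ Pp r r') (hL' : Ln (E r) (E r') C.p K' f') (hn : n ∈ VV x r (f (-1))) :
    (∀ μ' : K'ˣ, ∃ μ : Kˣ, f' (dg μ') * n * (f' (dg μ'))⁻¹ = f (dg μ) * n * (f (dg μ))⁻¹) ∧
      ∀ μ : Kˣ, ∃ μ' : K'ˣ, f' (dg μ') * n * (f' (dg μ'))⁻¹ = f (dg μ) * n * (f (dg μ))⁻¹ := by
  by_cases n1 : n = 1
  · exact ⟨fun _ => ⟨1, by simp [n1]⟩, fun _ => ⟨1, by simp [n1]⟩⟩
  obtain ⟨α, h1⟩ := ln_bp hL opp
  have ez := ln_zz hL opp h1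
  obtain ⟨α', h2⟩ := ln_bp hL' opp'
  have ez' := ln_zz hL' opp' h2
  have eV : VV x r (f (-1)) = VV r x (f' (-1)) := by
    rw [← ez, ← ez']; exact h.VV_symm h1 hr hr' h2
  have hx : x ∈ Δ r r' := ⟨hr.1.symm, hr'.1.symm⟩
  obtain ⟨m, rfl⟩ : ∃ m, n = f (wy 1) * m * (f (wy 1))⁻¹ :=
    ⟨(f (wy 1))⁻¹ * n * f (wy 1), by group⟩
  have hm : m ∈ VV y r (f (-1)) := by
    rw [← ez] at hn ⊢
    have := h.VV_ww h1 hr (inv_mem ((ln_KK hL opp _).2 ⟨_, rfl⟩))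
      (inv_smul_eq_iff.2 (ln_wy hL opp 1).2.symm) hn
    simpa [mul_assoc] using this
  have m1 : m ≠ 1 := fun k => n1 (by simp [k])
  have hm0 := hm
  rw [← ez, ← h1.br.zz_symm] at hm0
  have hu := h.VV_pres h1.symm (Δ_symm x y ▸ hr) hm0 (left_mem_pl x r)
  obtain ⟨m', hm', e⟩ := h.VV_trans h2.symm (Δ_symm r r' ▸ hx) (pl_symm x r ▸ hu)
    (fun k => m1 (h.VV_free h1.symm (Δ_symm x y ▸ hr) hm0 k))
  rw [h2.br.zz_symm, ez'] at hm'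
  have m1' : m' ≠ 1 := fun k => opp (by
    rw [k, one_smul, ← CC_fix (cr hr.2 hm), smul_left_cancel_iff] at e
    exact e ▸ hr.2)
  have key : ∀ A ∈ VV x r (f (-1)), A ≠ 1 → ((∃ μ : Kˣ, A = f (wy μ) * m * (f (wy μ))⁻¹) ↔
      ∃ μ : K'ˣ, A = f' (wy μ) * m' * (f' (wy μ))⁻¹) := fun A hA A1 => by
    rw [← h.nat_comp hL opp hr hm hA A1, ← h.nat_comp hL' opp' hx hm' (eV ▸ hA) A1, e]
    have sw : ∀ e₁ ∈ E x, ∀ e₂ ∈ E r, e₁ * A * e₂ = e₂ * A * e₁ := fun e₁ k1 e₂ k2 => by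
      rw [← CC_comm (mul_mem (E_le_CC hr.1 k2) (cx hr.1 hA)) k1 |>.symm, mul_assoc,
        CC_comm (cr hr.1 hA) k2]
    exact ⟨fun ⟨e₁, k1, e₂, k2, k⟩ => ⟨e₂, k2, e₁, k1, sw e₁ k1 e₂ k2 ▸ k⟩,
      fun ⟨e₂, k2, e₁, k1, k⟩ => ⟨e₁, k1, e₂, k2, (sw e₁ k1 e₂ k2).symm ▸ k⟩⟩
  obtain ⟨t, et⟩ := (key _ hn n1).1 ⟨1, rfl⟩
  refine ⟨fun μ' => ?_, fun μ => ?_⟩
  · obtain ⟨μ, k⟩ := (key (f' (wy (μ' * t)) * m' * (f' (wy (μ' * t)))⁻¹) (by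
      rw [eV, ← ez']
      rw [← ez'] at hm'
      exact back h h2 hx ((ln_KK hL' opp' _).2 ⟨_, rfl⟩) (ln_wy hL' opp' _).2 hm')
      (fun k => m1' (by simpa using k))).2 ⟨_, rfl⟩
    exact ⟨μ, by rw [dw, mul_one, ← k, et, dw]⟩
  · obtain ⟨μ', k⟩ := (key (f (wy μ) * m * (f (wy μ))⁻¹) (by
      rw [← ez] at hm ⊢
      exact back h h1 hr ((ln_KK hL opp _).2 ⟨_, rfl⟩) (ln_wy hL opp _).2 hm)
      (fun k => m1 (by simpa using k))).1 ⟨_, rfl⟩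
    exact ⟨μ' * t⁻¹, by rw [dw, mul_one, k, et, dw, inv_mul_cancel_right]⟩

end NAT
end HR
end Cfg

end Cfsg.Lib.PT
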