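import Cfsg.Agent.PT.ND
import Cfsg.Agent.PT.NAT
import Cfsg.Agent.PT.HC

/-!
# Tower `PT`: coordinates on the unipotent radical
-/

set_option autoImplicit false
set_option linter.unusedSectionVars false

namespace Cfsg.Lib.PT

open Matrix Subgroup Cfsg.Lib.Class.Form
open scoped MatrixGroups commutatorElement

universe u

variable {G : Type u} [Group G]

theorem CO1.addS {Q E : Subgroup G} (cent : ∀ e ∈ E, ∀ g ∈ Q, e * g = g * e)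
    (comm : ∀ g ∈ Q, ∀ g' ∈ Q, ∃ e ∈ E, g * g' = g' * g * e) (A B L : G →* G)
    (hA : ∀ g ∈ Q, A g ∈ Q) (hB : ∀ g ∈ Q, B g ∈ Q) :
    ∃ S : Subgroup G, ∀ g, g ∈ S ↔ g ∈ Q ∧ ∃ e ∈ E, L g = A g * B g * e := by
  refine ⟨{ carrier := {g | g ∈ Q ∧ ∃ e ∈ E, L g = A g * B g * e}
            one_mem' := ⟨one_mem _, 1, one_mem _, by simp⟩
            mul_mem' := ?_
            inv_mem' := ?_ }, fun _ => Iff.rfl⟩
  · rintro g g' ⟨hg, e, he, h1⟩ ⟨hg', e', he', h2⟩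
    obtain ⟨k, hk, h3⟩ := comm _ (hB g hg) _ (hA g' hg')
    refine ⟨mul_mem hg hg', k * e * e', mul_mem (mul_mem hk he) he', ?_⟩
    calc L (g * g') = A g * B g * (e * (A g' * B g')) * e' := by rw [map_mul, h1, h2]; group
      _ = A g * (B g * A g') * B g' * e * e' := by
        rw [cent e he _ (mul_mem (hA g' hg') (hB g' hg'))]; group
      _ = A g * A g' * B g * (k * B g') * e * e' := by rw [h3]; group
      _ = _ := by rw [cent k hk _ (hB g' hg'), map_mul, map_mul]; group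
  · rintro g ⟨hg, e, he, h1⟩
    obtain ⟨k, hk, h3⟩ := comm _ (hB _ (inv_mem hg)) _ (hA _ (inv_mem hg))
    refine ⟨inv_mem hg, k * e⁻¹, mul_mem hk (inv_mem he), ?_⟩
    rw [← mul_assoc, ← h3, ← cent _ (inv_mem he) _ (mul_mem (hB _ (inv_mem hg)) (hA _ (inv_mem hg))),
      map_inv, h1, map_inv, map_inv]
    group

namespace Cfg
variable [Finite G] {C : Cfg G} {x y : C.Pt} {K : Type} [Field K] [Finite K] {f : SL2 K →* G}

theorem CO1.bp (opp : ¬ Pp x y) (hL : Ln (E x) (E y) C.p K f) :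
    ∃ a b, BP x y a b ∧ f (-1) = zz a b :=
  let ⟨_, h⟩ := ln_bp hL opp
  ⟨_, _, h, (ln_zz hL opp h).symm⟩

theorem CO1.two (hL : Ln (E x) (E y) C.p K f) : (2 : K) ≠ 0 :=
  haveI := hL.rep.char
  Mat.two_ne K C.five

theorem CO1.VQ {r : C.Pt} {z n : G} (hr : r ∈ Δ x y) (hn : n ∈ VV x r z) : n ∈ QQ x y z :=
  mem_sup_right (Subgroup.subset_closure ⟨r, hr, hn⟩)

theorem CO1.hh (h : C.HR) (opp : ¬ Pp x y) (hL : Ln (E x) (E y) C.p K f) :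
    HH C.p (fun s => f (up s)) (fun μ => f (dg μ)) (f (-1)) (QQ x y (f (-1))) := by
  obtain ⟨a, b, bp, ez⟩ := CO1.bp opp hL
  have mE : ∀ s, f (up s) ∈ E x := fun s => (hL.up _).2 ⟨s, rfl⟩
  have cent : ∀ e ∈ E x, ∀ g ∈ QQ x y (f (-1)), e * g = g * e := fun e he g hg =>
    (CC_comm (h.Q_cc bp (ez ▸ hg)) he).symm
  have comm : ∀ g ∈ QQ x y (f (-1)), ∀ g' ∈ QQ x y (f (-1)), ∃ e ∈ E x, g * g' = g' * g * e :=
    fun g hg g' hg' => ⟨_, h.Q_comm bp (inv_mem (ez ▸ hg)) (inv_mem (ez ▸ hg')), by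
      rw [commutatorElement_def]; group⟩
  have hm : ∀ μ, ∀ g ∈ QQ x y (f (-1)), f (dg μ) * g * (f (dg μ))⁻¹ ∈ QQ x y (f (-1)) :=
    fun μ g hg => ez ▸ h.Q_norm bp (ln_dg hL opp μ).1 (ln_dg hL opp μ).2 (ez ▸ hg)
  have hu : ∀ (μ : Kˣ) s, f (dg μ) * f (up s) * (f (dg μ))⁻¹ = f (up ((μ : K) ^ 2 * s)) :=
    fun μ s => by rw [← dg_up, map_mul, map_mul, map_inv]
  refine ⟨C.prime, C.five, hL.rep.char, fun s t => by rw [up_add, map_mul],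
    fun s t e => hL.rep.up_inj C.prime C.five e, fun s => mem_sup_left (mE s), fun s => cent _ (mE s),
    fun g hg g' hg' => ?_, fun g hg => ?_, fun μ ν => by rw [dg_mul, map_mul],
    by rw [dg_neg_one], hm, hu, fun g hg => ?_, fun μ ν l e g hg => ?_⟩
  · obtain ⟨e, he, h1⟩ := comm g hg g' hg'
    obtain ⟨s, rfl⟩ := (hL.up _).1 he
    exact ⟨s, h1⟩
  · exact ((hL.up _).1 (h.Q_pow bp (ez ▸ hg))).imp fun _ => Eq.symm
  · exact ((hL.up _).1 (ez ▸ h.Q_inv bp (ez ▸ hg))).imp fun _ => Eq.symm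
  obtain ⟨S, hS⟩ := CO1.addS cent comm (MulAut.conj (f (dg μ))).toMonoidHom
    (MulAut.conj (f (dg ν))).toMonoidHom (MulAut.conj (f (dg l))).toMonoidHom (hm μ) (hm ν)
  have le : QQ x y (f (-1)) ≤ S := by
    refine sup_le (fun e he => (hS e).2 ⟨mem_sup_left he, ?_⟩) ((closure_le _).2 ?_)
    · obtain ⟨s, rfl⟩ := (hL.up _).1 he
      refine ⟨_, mE (((l : K) ^ 2 - μ ^ 2 - ν ^ 2) * s), ?_⟩
      change f (dg l) * _ * (f (dg l))⁻¹ = f (dg μ) * _ * (f (dg μ))⁻¹ * (f (dg ν) * _ * (f (dg ν))⁻¹) * _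
      rw [hu, hu, hu, ← map_mul, ← map_mul, ← up_add, ← up_add]
      congr 2
      ring
    · rintro n ⟨r, hr, hn⟩
      exact (hS n).2 ⟨CO1.VQ hr hn, 1, one_mem _, (h.nat hL opp hr hn μ ν l e).trans (mul_one _).symm⟩
  obtain ⟨-, e, he, h1⟩ := (hS g).1 (le hg)
  obtain ⟨s, rfl⟩ := (hL.up _).1 he
  exact ⟨s, h1⟩

theorem HR.exists_cx (h : C.HR) (opp : ¬ Pp x y) (hL : Ln (E x) (E y) C.p K f) :
    ∃ (W : Type u) (_ : AddCommGroup W) (_ : Module K W) (_ : Finite W)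
      (φ : W →ₗ[K] W →ₗ[K] K) (q : W → K → G) (V : C.Pt → Submodule K W), CX x y f φ q V := by
  obtain ⟨W, _, _, _, φ, q, H⟩ := exists_hc (CO1.hh h opp hL)
  obtain ⟨a, b, bp, ez⟩ := CO1.bp opp hL
  have h2 := CO1.two hL
  have hV : ∀ r, ∃ S : Submodule K W, r ∈ Δ x y → ∀ w, w ∈ S ↔ q w 0 ∈ VV x r (f (-1)) := fun r => by
    by_cases hr : r ∈ Δ x y
    swap
    · exact ⟨⊥, fun e => absurd e hr⟩
    have z0 : q 0 0 ∈ VV x r (f (-1)) := H.one ▸ one_mem _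
    refine ⟨{ carrier := {w | q w 0 ∈ VV x r (f (-1))}
              zero_mem' := z0
              add_mem' := fun {w w'} hw hw' => ?_
              smul_mem' := fun c w hw => ?_ }, fun _ _ => Iff.rfl⟩
    · have : q w 0 * q w' 0 ∈ VV x r (f (-1)) := mul_mem hw hw'
      rw [H.mul] at this
      exact (H.inv_iff h2 _ _).1 ((mem_VV hr.1.symm).1 this).2 ▸ this
    · rcases eq_or_ne c 0 with rfl | hc
      · rwa [zero_smul]
      have := conj_VV (f (dg (Units.mk0 c hc))) hw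
      rw [(ln_dg hL opp _).1, CC_fix (KK_le_CC hr ((ln_KK hL opp _).2 ⟨_, rfl⟩)),
        ← hL.rep.neg_comm, mul_inv_cancel_right, H.hq, mul_zero] at this
      exact this
  choose V hV using hV
  refine ⟨W, _, _, ‹_›, φ, q, V, h, opp, hL, H, fun w e => ?_, hV⟩
  obtain ⟨s, hs⟩ := (hL.up _).1 (h.Q_nd bp (ez ▸ (H.mem _).2 ⟨w, 0, rfl⟩) fun k hk => by
    obtain ⟨w', k', rfl⟩ := (H.mem _).1 (ez ▸ hk)
    exact (H.comm_iff h2 _ _ _ _).2 (e w'))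
  exact (H.inj _ _ _ _ ((H.q0 s).trans hs)).1.symm

variable {W : Type u} [AddCommGroup W] [Module K W] {φ : W →ₗ[K] W →ₗ[K] K} {q : W → K → G}
  {V : C.Pt → Submodule K W}

theorem CX.exV (h : CX x y f φ q V) {r : C.Pt} (hr : r ∈ Δ x y) {n : G}
    (hn : n ∈ VV x r (f (-1))) : ∃ v ∈ V r, q v 0 = n := by
  obtain ⟨w, k, rfl⟩ := (h.hc.mem _).1 (CO1.VQ hr hn)
  obtain rfl := (h.hc.inv_iff (CO1.two h.ln) _ _).1 ((mem_VV hr.1.symm).1 hn).2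
  exact ⟨w, (h.hV r hr w).2 hn, rfl⟩

theorem CX.ne_y (h : CX x y f φ q V) {r : C.Pt} (hr : r ∈ Δ x y) : y ≠ r := fun e =>
  h.opp (e ▸ hr.1.symm)

theorem CX.exV_ne (h : CX x y f φ q V) {r : C.Pt} (hr : r ∈ Δ x y) : ∃ v ∈ V r, v ≠ 0 := by
  obtain ⟨a, b, bp, ez⟩ := CO1.bp h.opp h.ln
  obtain ⟨u, hu, u1, u2⟩ := h.hr.simple.third hr.2.symm (h.ne_y hr)
  obtain ⟨n, hn, e⟩ := h.hr.VV_trans bp hr hu u2
  obtain ⟨v, hv, rfl⟩ := h.exV hr (ez ▸ hn)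
  exact ⟨v, hv, fun e' => u1 (by rw [← e, e', h.hc.one, one_smul])⟩

theorem CX.VV_eq (h : CX x y f φ q V) {r r' : C.Pt} (hr : r ∈ Δ x y) (hr' : r' ∈ Δ x y)
    {a' b' : G} (h2 : BP r r' a' b') :
    VV x r (f (-1)) = VV r x (zz a' b') ∧ VV x r' (f (-1)) = VV r' x (zz a' b') := by
  obtain ⟨a, b, bp, ez⟩ := CO1.bp h.opp h.ln
  rw [ez, h.hr.VV_symm bp hr hr' h2, h.hr.VV_symm bp hr' hr h2.symm, h2.br.zz_symm]
  exact ⟨rfl, rfl⟩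

theorem CX.nc_ww (h : CX x y f φ q V) {r r' : C.Pt} (hr : r ∈ Δ x y) (hr' : r' ∈ Δ x y)
    {a' b' : G} (h2 : BP r r' a' b') {v : W} (hv : v ∈ V r) (v0 : v ≠ 0) :
    ∃ v' ∈ V r', ww a' b' * q v 0 * (ww a' b')⁻¹ = q v' 0 ∧ φ v' v ≠ 0 := by
  obtain ⟨e1, e2⟩ := h.VV_eq hr hr' h2
  have hx : x ∈ Δ r r' := ⟨hr.1.symm, hr'.1.symm⟩
  have hn := e1 ▸ (h.hV r hr v).1 hv
  obtain ⟨v', hv', e⟩ := h.exV hr' (e2 ▸ h.hr.VV_ww h2 hx h2.ww_KK h2.ww_x hn)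
  obtain ⟨ζ, hζ, H⟩ := h.hr.VV_heis h2 hx hn fun e => v0 (h.hc.inj _ _ _ _ (e.trans h.hc.one.symm)).1
  refine ⟨v', hv', e.symm, fun e' => ?_⟩
  have k := H.comm
  rw [← e, (h.hc.comm_iff (CO1.two h.ln) _ _ _ _).2 e', mul_inv_cancel_right, mul_inv_cancel] at k
  have := Nat.le_of_dvd two_pos (C.ord ζ (mem_D hζ) ▸ orderOf_dvd_of_pow_eq_one k.symm)
  have := C.five
  omega

theorem CX.cd (h : CX x y f φ q V) : CD x y φ q V := by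
  obtain ⟨a, b, bp, ez⟩ := CO1.bp h.opp h.ln
  have H := h.hc
  have h2 := CO1.two h.ln
  have mq : ∀ w k, q w k ∈ QQ x y (zz a b) := fun w k => ez ▸ (H.mem _).2 ⟨w, k, rfl⟩
  refine ⟨fun w k => CC_fix (h.hr.Q_cc bp (mq w k)), fun u hu => ?_,
    fun w k e => H.inj _ _ _ _ ((h.hr.Q_free bp (mq w k) e).trans H.one.symm),
    fun r hr w k => h.hr.Q_line bp (mq w k) hr (right_mem_pl x r), fun r hr w k => ?_,
    fun r hr u hu ne => ?_, fun r hr u => ⟨fun ⟨hu, ne⟩ => ?_, ?_⟩,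
    fun r hr r' hr' => ⟨fun e v hv v' hv' => ?_, fun e => by_contra fun opp => ?_⟩⟩
  · obtain ⟨g, hg, e⟩ := h.hr.Q_trans bp hu
    obtain ⟨w, k, rfl⟩ := (H.mem _).1 (ez ▸ hg)
    exact ⟨w, k, e⟩
  · rw [h.hr.Q_stab bp (mq w k) hr, ← ez]
    refine ⟨fun e v hv => (H.comm_iff h2 _ _ _ _).1 (e _ ((h.hV r hr v).1 hv)), fun e n hn => ?_⟩
    obtain ⟨v, hv, rfl⟩ := h.exV hr hn
    exact (H.comm_iff h2 _ _ _ _).2 (e v hv)
  · obtain ⟨r', hr', opp⟩ := h.hr.simple.Δ_opp h.opp hr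
    obtain ⟨g, hg, e⟩ := h.hr.Q_trl bp hr hr' opp hu ne
    obtain ⟨v, -, rfl⟩ := h.exV hr' (ez ▸ hg)
    exact ⟨v, e⟩
  · obtain ⟨n, hn, e⟩ := h.hr.VV_trans bp hr hu ne
    obtain ⟨v, hv, rfl⟩ := h.exV hr (ez ▸ hn)
    exact ⟨v, hv, e⟩
  · rintro ⟨v, hv, rfl⟩
    have hn := (h.hV r hr v).1 hv
    refine ⟨h.hr.VV_pres bp hr (ez ▸ hn) (left_mem_pl y r), fun e => h.ne_y hr ?_⟩
    rw [← CC_fix (EL_le_CC hr.1 (Pp_refl r) ((mem_VV hr.1.symm).1 hn).1)] at e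
    exact smul_left_cancel _ e
  · refine (H.comm_iff h2 _ _ 0 0).1 (HTL.cl_comm ?_ ((mem_VV hr.1.symm).1 ((h.hV r hr v).1 hv)).1
      ((mem_VV hr'.1.symm).1 ((h.hV r' hr' v').1 hv')).1)
    rintro _ ⟨u, hu, h3⟩ _ ⟨s, hs, h4⟩
    exact hs u (hu x (Pp_refl x) hr.1.symm).symm (hu r' hr'.1 e.symm).symm _ h3 _ h4
  · obtain ⟨a', b', h3⟩ := exists_BP opp
    obtain ⟨v, hv, v0⟩ := h.exV_ne hr
    obtain ⟨v', hv', -, k⟩ := h.nc_ww hr hr' h3 hv v0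
    exact k (by rw [H.skew, e v hv v' hv', neg_zero])

theorem CX.span (h : CX x y f φ q V) : ⨆ r : Δ x y, V r = ⊤ := by
  have H := h.hc
  let S : Subgroup G :=
    { carrier := {g | ∃ w ∈ ⨆ r : Δ x y, V r, ∃ k, q w k = g}
      one_mem' := ⟨0, zero_mem _, 0, H.one⟩
      mul_mem' := by
        rintro _ _ ⟨w, hw, k, rfl⟩ ⟨w', hw', k', rfl⟩
        exact ⟨_, add_mem hw hw', _, (H.mul _ _ _ _).symm⟩
      inv_mem' := by
        rintro _ ⟨w, hw, k, rfl⟩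
        exact ⟨_, neg_mem hw, _, (H.inv _ _).symm⟩ }
  have le : QQ x y (f (-1)) ≤ S := by
    refine sup_le (fun e he => ?_) ((closure_le _).2 ?_)
    · obtain ⟨s, rfl⟩ := (h.ln.up _).1 he
      exact ⟨0, zero_mem _, s, H.q0 s⟩
    · rintro n ⟨r, hr, hn⟩
      obtain ⟨v, hv, rfl⟩ := h.exV hr hn
      exact ⟨v, Submodule.mem_iSup_of_mem (⟨r, hr⟩ : Δ x y) hv, 0, rfl⟩
  refine eq_top_iff.2 fun w _ => ?_
  obtain ⟨w', hw, k, e⟩ := le ((H.mem _).2 ⟨w, 0, rfl⟩)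
  exact (H.inj _ _ _ _ e).1 ▸ hw

end Cfg

end Cfsg.Lib.PT
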