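import Cfsg.Agent.PT.CO1

/-!
# Tower `PT`: the linear data on `Q / E`
-/

set_option autoImplicit false
set_option linter.unusedSectionVars false

namespace Cfsg.Lib.PT

open Matrix Subgroup Cfsg.Lib.Class.Form
open scoped MatrixGroups commutatorElement

universe u

variable {G : Type u} [Group G]

namespace CO2

variable {K : Type} [Field K] {W : Type u} [AddCommGroup W] [Module K W]

theorem scalar {S : Submodule K W} {L : W →ₗ[K] W} (h : ∀ v ∈ S, ∃ c : Kˣ, L v = (c : K) • v) :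
    ∃ c : Kˣ, ∀ v ∈ S, L v = (c : K) • v := by
  by_cases h0 : ∀ v ∈ S, v = 0
  · exact ⟨1, fun v hv => by rw [h0 v hv, map_zero, smul_zero]⟩
  push Not at h0
  obtain ⟨v0, h1, h2⟩ := h0
  obtain ⟨c0, e0⟩ := h v0 h1
  refine ⟨c0, fun v hv => ?_⟩
  obtain ⟨c, e⟩ := h v hv
  obtain ⟨c', e'⟩ := h _ (add_mem hv h1)
  rw [map_add, e, e0] at e'
  have k : ((c : K) - c') • v = ((c' : K) - c0) • v0 := by linear_combination (norm := module) e'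
  by_cases hc : (c : K) - c' = 0
  · rw [hc, zero_smul, eq_comm, smul_eq_zero, or_iff_left h2] at k
    rw [e, sub_eq_zero.1 hc, sub_eq_zero.1 k]
  · rw [← inv_smul_smul₀ hc v, k, map_smul, map_smul, e0]
    module

theorem wy_mul (α s : Kˣ) : wy α * (wy 1 * wy s * (wy 1)⁻¹) = dg (-α * s) := by
  have : wy α * wy 1 = dg (-α) := by
    rw [← mul_neg_one, dg_mul, dg_neg_one, ← wy_sq 1, ← mul_assoc, ← mul_one α, ← inv_one,
      ← wy_wy, inv_one, mul_one, inv_mul_cancel_right]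
  rw [mul_assoc, wy_wy, ← mul_assoc, this, inv_one, mul_one, dg_mul]

/-- `g` acts on the coordinates by `L` -/
def Lin (q : W → K → G) (g : G) (L : W →ₗ[K] W) : Prop := ∀ w k, g * q w k * g⁻¹ = q (L w) k

theorem Lin.mul {q : W → K → G} {g g' : G} {L L' : W →ₗ[K] W} (h : Lin q g L) (h' : Lin q g' L') :
    Lin q (g * g') (L ∘ₗ L') := fun w k => by
  rw [LinearMap.comp_apply, ← h, ← h']; group

end CO2

namespace Cfg
variable [Finite G] {C : Cfg G} {x y : C.Pt} {K : Type} [Field K] [Finite K] {f : SL2 K →* G}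
  {W : Type u} [AddCommGroup W] [Module K W] {φ : W →ₗ[K] W →ₗ[K] K} {q : W → K → G}
  {V : C.Pt → Submodule K W}

open CO2

namespace CX
variable (h : CX x y f φ q V) {r r' : C.Pt} {g e a : G} {L L' : W →ₗ[K] W}
include h

theorem lin_eq (h1 : Lin q g L) (h2 : Lin q g L') (w : W) : L w = L' w :=
  (h.hc.inj _ _ _ _ ((h1 w 0).symm.trans (h2 w 0))).1

theorem good (hr : r ∈ Δ x y) (hr' : r' ∈ Δ x y) (hg : g ∈ KK r r') :
    g • x = x ∧ g • y = y ∧ ∀ k, g * f k = f k * g :=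
  ⟨CC_fix (KK_le_CC ⟨hr.1.symm, hr'.1.symm⟩ hg), CC_fix (KK_le_CC ⟨hr.2.symm, hr'.2.symm⟩ hg),
    fun k => (KK_comm hr hr' ((ln_KK h.ln h.opp _).2 ⟨k, rfl⟩) hg).symm⟩

theorem exL (hr : r ∈ Δ x y) (hr' : r' ∈ Δ x y) (hg : g ∈ KK r r') :
    ∃ L, Lin q g L ∧ ∀ w w', φ (L w) (L w') = φ w w' := by
  obtain ⟨a, b, bp, ez⟩ := CO1.bp h.opp h.ln
  obtain ⟨h1, h2, h3⟩ := h.good hr hr' hg
  exact h.hc.lin (CO1.two h.ln) (fun k hk => ez ▸ h.hr.Q_norm bp h1 h2 (ez ▸ hk))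
    (fun _ => h3 _) (fun _ => h3 _) (h3 _)

theorem mapV (hr : r ∈ Δ x y) (hr' : r' ∈ Δ x y) (hg : g ∈ KK r r') {s : C.Pt} {n : G}
    (hn : n ∈ VV x s (f (-1))) : g * n * g⁻¹ ∈ VV x (g • s) (f (-1)) := by
  obtain ⟨h1, -, h3⟩ := h.good hr hr' hg
  have := conj_VV g hn
  rwa [h1, h3, mul_inv_cancel_right] at this

theorem smul_Δ (hr : r ∈ Δ x y) (hr' : r' ∈ Δ x y) (hg : g ∈ KK r r') {s : C.Pt}
    (hs : s ∈ Δ x y) : g • s ∈ Δ x y := by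
  obtain ⟨h1, h2, -⟩ := h.good hr hr' hg
  exact ⟨h1 ▸ (Pp_smul g).2 hs.1, h2 ▸ (Pp_smul g).2 hs.2⟩

section ln
variable {K' : Type} [Field K'] [Finite K'] {f' : SL2 K' →* G} (hr : r ∈ Δ x y) (hr' : r' ∈ Δ x y)
  (opp : ¬ Pp r r') (hL : Ln (E r) (E r') C.p K' f')
include hr hr' opp hL

theorem exL' (k : SL2 K') : ∃ L, Lin q (f' k) L :=
  (h.exL hr hr' ((ln_KK hL opp _).2 ⟨k, rfl⟩)).imp fun _ => And.left

theorem key (t : K'ˣ) (h1 : Lin q (f' (up (t : K'))) L) (h2 : Lin q (f' (wy t)) L') {v : W}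
    (hv : v ∈ V r') : L v - v = L' v ∧ L' v ∈ V r := by
  obtain ⟨a, b, bp, ez⟩ := CO1.bp opp hL
  have hn := (h.hV r' hr' v).1 hv
  obtain ⟨ζ, hζ, e⟩ := h.hr.n0 hL opp ⟨hr.1.symm, hr'.1.symm⟩ (ez ▸ (h.VV_eq hr hr' bp).2 ▸ hn) t
  obtain ⟨s, rfl⟩ := (h.ln.up _).1 hζ
  rw [h1, h2, ← h.hc.q0, h.hc.mul, h.hc.mul] at e
  refine ⟨by rw [(h.hc.inj _ _ _ _ e).1, add_zero, add_sub_cancel_right], (h.hV r hr _).2 ?_⟩
  have := h.mapV hr hr' ((ln_KK hL opp _).2 ⟨wy t, rfl⟩) hn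
  rwa [h2, (ln_wy hL opp t).2] at this

theorem torus (μ : K'ˣ) (h1 : Lin q (f' (dg μ)) L) : ∃ c : Kˣ, ∀ v ∈ V r, L v = (c : K) • v :=
  scalar fun v hv => by
    obtain ⟨c, e⟩ := (h.hr.lines h.ln h.opp hr hr' opp hL ((h.hV r hr v).1 hv)).1 μ
    rw [h1, h.hc.hq] at e
    exact ⟨c, (h.hc.inj _ _ _ _ e).1⟩

theorem torus' (c : Kˣ) : ∃ μ : K'ˣ, ∀ L, Lin q (f' (dg μ)) L → ∀ v ∈ V r, L v = (c : K) • v := by
  obtain ⟨v, hv, v0⟩ := h.exV_ne hr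
  obtain ⟨μ, e⟩ := (h.hr.lines h.ln h.opp hr hr' opp hL ((h.hV r hr v).1 hv)).2 c
  refine ⟨μ, fun L h1 => ?_⟩
  obtain ⟨c', e'⟩ := h.torus hr hr' opp hL μ h1
  rw [h1, h.hc.hq] at e
  rwa [smul_left_injective K v0 ((h.hc.inj _ _ _ _ e).1.symm.trans (e' v hv))]

end ln

theorem exLn (opp : ¬ Pp r r') : HasLn (E r) (E r') C.p := (h.hr.w1 opp).hasLn h.hr.ih

theorem lin_one (h1 : Lin q 1 L) (w : W) : L w = w :=
  h.lin_eq h1 (L' := LinearMap.id) (fun _ _ => by simp) w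

theorem rng (hr : r ∈ Δ x y) (he : e ∈ E r) (h1 : Lin q e L) (w : W) : L w - w ∈ V r := by
  have : ⨆ s : Δ x y, V s ≤ (V r).comap (L - LinearMap.id) := iSup_le fun s v hv => by
    change L v - v ∈ V r
    by_cases hP : Pp r s
    · have := h1 v 0
      rw [← CC_comm (EL_le_CC hr.1 hP ((mem_VV s.2.1.symm).1 ((h.hV s s.2 v).1 hv)).1) he,
        mul_inv_cancel_right] at this
      rw [← (h.hc.inj _ _ _ _ this).1, sub_self]
      exact zero_mem _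
    obtain ⟨K', _, _, f', hL⟩ := h.exLn hP
    obtain ⟨t, rfl⟩ := (hL.up _).1 he
    rcases eq_or_ne t 0 with rfl | ht
    · rw [h.lin_one (by rwa [up_zero, map_one] at h1), sub_self]
      exact zero_mem _
    obtain ⟨L', h2⟩ := h.exL' hr s.2 hP hL (wy (Units.mk0 t ht))
    obtain ⟨k1, k2⟩ := h.key hr s.2 hP hL (Units.mk0 t ht) h1 h2 hv
    exact k1 ▸ k2
  exact this (h.span ▸ Submodule.mem_top)

theorem sym (hr : r ∈ Δ x y) (he : e ∈ E r) (h1 : Lin q e L) (w w' : W) :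
    φ (L w - w) w' = φ (L w' - w') w := by
  obtain ⟨L', h2, h3⟩ := h.exL hr hr (mem_sup_left he)
  have k1 := h3 w w'
  rw [← h.lin_eq h1 h2, ← h.lin_eq h1 h2] at k1
  have k2 := (h.cd.perp r hr r hr).1 (Pp_refl r) _ (h.rng hr he h1 w) _ (h.rng hr he h1 w')
  rw [h.hc.skew (L w' - w')]
  simp only [map_sub, LinearMap.sub_apply] at k2 ⊢
  linear_combination k1 - k2

theorem ext (hr : r ∈ Δ x y) (hr' : r' ∈ Δ x y) (opp : ¬ Pp r r') (he : e ∈ E r) (ha : a ∈ E r)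
    (h1 : Lin q e L) (h2 : Lin q a L') {c : K} (k : ∀ v ∈ V r', L v - v = c • (L' v - v)) (w : W) :
    L w - w = c • (L' w - w) := by
  obtain ⟨a', b', bp⟩ := exists_BP opp
  by_contra ne
  obtain ⟨v', hv', -, k1⟩ := h.nc_ww hr hr' bp
    (sub_mem (h.rng hr he h1 w) (Submodule.smul_mem _ c (h.rng hr ha h2 w))) (sub_ne_zero.2 ne)
  refine k1 ?_
  rw [h.hc.skew, map_sub φ, map_smul, LinearMap.sub_apply, LinearMap.smul_apply,
    h.sym hr he h1, h.sym hr ha h2, k v' hv', map_smul, LinearMap.smul_apply, sub_self, neg_zero]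

theorem prop (hr : r ∈ Δ x y) (ha : a ∈ E r) (a1 : a ≠ 1) (h2 : Lin q a L') :
    (∀ e ∈ E r, e ≠ 1 → ∀ L, Lin q e L → ∃ c : K, c ≠ 0 ∧ ∀ w, L w - w = c • (L' w - w)) ∧
      ∀ c : K, ∃ e ∈ E r, ∀ L, Lin q e L → ∀ w, L w - w = c • (L' w - w) := by
  obtain ⟨r', hr', opp⟩ := h.hr.simple.Δ_opp h.opp hr
  obtain ⟨K', _, _, f', hL⟩ := h.exLn opp
  have un : ∀ e ∈ E r, e ≠ 1 → ∃ t : K'ˣ, f' (up (t : K')) = e := fun e he e1 => by
    obtain ⟨t, rfl⟩ := (hL.up _).1 he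
    exact ⟨Units.mk0 t fun e => e1 (by rw [e, up_zero, map_one]), rfl⟩
  obtain ⟨α, rfl⟩ := un a ha a1
  obtain ⟨A, hA⟩ := h.exL' hr hr' opp hL (wy α)
  have k : ∀ (t : K'ˣ) (c : K), (∀ H, Lin q (f' (dg (t * α⁻¹))) H → ∀ v ∈ V r, H v = c • v) →
      ∀ L, Lin q (f' (up (t : K'))) L → ∀ w, L w - w = c • (L' w - w) := fun t c hc L h1 => by
    obtain ⟨H, hH⟩ := h.exL' hr hr' opp hL (dg (t * α⁻¹))
    refine h.ext hr hr' opp ((hL.up _).2 ⟨_, rfl⟩) ha h1 h2 fun v hv => ?_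
    have h3 := hH.mul hA
    rw [← map_mul, ← wy_wy, inv_mul_cancel_right] at h3
    obtain ⟨k1, k2⟩ := h.key hr hr' opp hL α h2 hA hv
    rw [(h.key hr hr' opp hL t h1 h3 hv).1, k1, LinearMap.comp_apply, hc H hH _ k2]
  refine ⟨fun e he e1 L h1 => ?_, fun c => ?_⟩
  · obtain ⟨t, rfl⟩ := un e he e1
    obtain ⟨H, hH⟩ := h.exL' hr hr' opp hL (dg (t * α⁻¹))
    obtain ⟨c, hc⟩ := h.torus hr hr' opp hL _ hH
    exact ⟨c, c.ne_zero, k t c (fun H' h3 v hv => (h.lin_eq h3 hH v).trans (hc v hv)) L h1⟩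
  rcases eq_or_ne c 0 with rfl | hc
  · exact ⟨1, one_mem _, fun L h1 w => by rw [h.lin_one h1, sub_self, zero_smul]⟩
  obtain ⟨μ, hμ⟩ := h.torus' hr hr' opp hL (Units.mk0 c hc)
  exact ⟨_, (hL.up _).2 ⟨_, rfl⟩, k (μ * α) c (by rwa [mul_inv_cancel_right])⟩

end CX

theorem CX.ld (h : CX x y f φ q V) :
    ∃ T : Δ x y → W →ₗ[K] W, LD φ (fun r r' : Δ x y => Pp r.1 r'.1) (fun r => V r) T := by
  choose a ha using fun r : Δ x y => M_nonempty r.1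
  have hE := fun r => M_le_E (ha r)
  have a1 := fun r => ne_one (mem_D (ha r))
  choose L hL _ using fun r : Δ x y => h.exL r.2 r.2 (mem_sup_left (hE r))
  refine ⟨fun r => L r - LinearMap.id, h.hc.alt, h.nd, (h.hr.Δ_ne h.opp).elim fun r hr => ⟨⟨r, hr⟩⟩,
    fun _ _ => Pp.symm, fun r => Pp_refl _, h.span, fun r e => ?_, fun r => h.rng r.2 (hE r) (hL r),
    fun r => h.sym r.2 (hE r) (hL r), fun r r' => (h.cd.perp r r.2 r' r'.2).1, fun r r' opp => ?_,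
    fun r r' opp v hv e => by_contra fun v0 => ?_, fun r r' => ?_, fun r r' t => ?_⟩
  · obtain ⟨v, hv, v0⟩ := h.exV_ne r.2
    exact v0 ((Submodule.eq_bot_iff _).1 e v hv)
  · obtain ⟨K', _, _, f', hn⟩ := h.exLn opp
    have hn' := ln_symm hn opp
    obtain ⟨α, e1⟩ := (hn.up _).1 (hE r)
    obtain ⟨s, e2⟩ := (hn'.up _).1 (hE r')
    lift α to K'ˣ using (IsUnit.mk0 _ fun e => a1 r (by rw [← e1, e, up_zero, map_one]))
    lift s to K'ˣ using (IsUnit.mk0 _ fun e => a1 r' (by rw [← e2, e, up_zero, map_one]))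
    obtain ⟨A, hA⟩ := h.exL' r.2 r'.2 opp hn (wy α)
    obtain ⟨B, hB⟩ := h.exL' r'.2 r.2 (mt Pp.symm opp) hn' (wy s)
    have h3 := hA.mul hB
    rw [MonoidHom.comp_apply, ← map_mul, MulEquiv.coe_toMonoidHom, MulAut.conj_apply, wy_mul] at h3
    obtain ⟨c, hc⟩ := h.torus r.2 r'.2 opp hn _ h3
    refine ⟨c, c.ne_zero, fun v hv => ?_⟩
    obtain ⟨k1, k2⟩ := h.key r'.2 r.2 (mt Pp.symm opp) hn' s (e2 ▸ hL r') hB hv
    change L r (L r' v - v) - (L r' v - v) = _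
    rw [k1, (h.key r.2 r'.2 opp hn α (e1 ▸ hL r) hA k2).1, ← hc v hv, LinearMap.comp_apply]
  · obtain ⟨K', _, _, f', hn⟩ := h.exLn opp
    obtain ⟨b, bp⟩ := exists_partner (ha r) opp
    obtain ⟨α, e1, e2⟩ := ln_bp' hn opp bp
    obtain ⟨A, hA⟩ := h.exL' r.2 r'.2 opp hn (wy α)
    obtain ⟨v', -, k1, k2⟩ := h.nc_ww r'.2 r.2 bp.symm hv v0
    rw [bp.br.ww_symm, e1, e2, ← map_ww, wy_eq, hA] at k1
    refine k2 ?_
    rw [← (h.hc.inj _ _ _ _ k1).1, ← (h.key r.2 r'.2 opp hn α (e1 ▸ hL r) hA hv).1]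
    exact e
  · obtain ⟨s, hs, k⟩ := h.hr.Δ_two h.opp r.2 r'.2
    exact ⟨⟨s, hs⟩, k⟩
  obtain ⟨e, he, k⟩ := (h.prop r.2 (hE r) (a1 r) (hL r)).2 t
  have eK : e ∈ KK r.1 r.1 := mem_sup_left he
  obtain ⟨A, hA, -⟩ := h.exL r.2 r.2 eK
  have kA : ∀ w, w + t • (L r - LinearMap.id : W →ₗ[K] W) w = A w := fun w =>
    add_eq_of_eq_sub' (k A hA w).symm
  have hr'' := h.smul_Δ r.2 r.2 eK r'.2
  have hE' := conj_E e (hE r')
  obtain ⟨B, hB, -⟩ := h.exL hr'' hr'' (mem_sup_left hE')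
  obtain ⟨l, l0, kl⟩ := (h.prop hr'' hE' (by simpa using a1 r') hB).1 _ (hE ⟨_, hr''⟩) (a1 _) _ (hL _)
  refine ⟨⟨_, hr''⟩, l, l0, fun v => ⟨fun hv => ?_, ?_⟩, fun w => ?_⟩
  · have := h.mapV r.2 r.2 (inv_mem eK) ((h.hV _ hr'' v).1 hv)
    rw [inv_smul_smul] at this
    obtain ⟨v', hv', e'⟩ := h.exV r'.2 this
    refine ⟨v', hv', (kA v').symm ▸ (h.hc.inj _ 0 _ 0 ?_).1⟩
    rw [← hA, e']
    group
  · rintro ⟨v', hv', rfl⟩
    rw [kA]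
    exact (h.hV _ hr'' _).2 (hA v' 0 ▸ h.mapV r.2 r.2 eK ((h.hV _ r'.2 _).1 hv'))
  · have h3 := hB.mul hA
    rw [inv_mul_cancel_right] at h3
    rw [kA, kA]
    change L _ (A w) - A w = l • A (L r' w - w)
    rw [kl, map_sub]
    exact congrArg (fun z => l • (z - A w)) (h.lin_eq h3 (hA.mul (hL r')) w)

end Cfg

end Cfsg.Lib.PT
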