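import Cfsg.Agent.PT.DLb
import Cfsg.Agent.PT.BD

/-!
# Tower `PT`: the delta lemma
-/

set_option autoImplicit false
set_option linter.unusedSectionVars false

namespace Cfsg.Lib.PT

open Matrix Subgroup
open scoped MatrixGroups commutatorElement

universe u

variable {G : Type u} [Group G]

namespace DLp

theorem mem {K : Type} [Field K] {p : ℕ} (hp : p.Prime) (h5 : 5 ≤ p) [CharP K p]
    (f : SL2 K →* G) {a ζ : G} (hζ : ∀ m, Commute ζ (f m)) {m₁ m₂ : SL2 K}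
    (h : Subgroup.closure {m₁, m₂, -1} = ⊤)
    (h1 : ∃ x, ∃ s ∈ zpowers ζ, a * f m₁ * a⁻¹ = f x * s)
    (h2 : ∃ x, ∃ s ∈ zpowers ζ, a * f m₂ * a⁻¹ = f x * s) (m : SL2 K) :
    a * f m * a⁻¹ ∈ f.range := by
  have cm : ∀ s ∈ zpowers ζ, ∀ m, Commute s (f m) := by
    rintro _ ⟨k, rfl⟩ m
    exact (hζ m).zpow_left k
  have key : ∀ m : SL2 K, ∃ y, (m = y ∨ m = -y) ∧ ∃ x, ∃ s ∈ zpowers ζ,
      a * f y * a⁻¹ = f x * s := fun m => by
    have hm : m ∈ Subgroup.closure {m₁, m₂, -1} := h ▸ mem_top m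
    induction hm using closure_induction with
    | mem m hm =>
      rcases hm with rfl | rfl | rfl
      exacts [⟨_, Or.inl rfl, h1⟩, ⟨_, Or.inl rfl, h2⟩,
        ⟨1, Or.inr rfl, 1, 1, one_mem _, by simp⟩]
    | one => exact ⟨1, Or.inl rfl, 1, 1, one_mem _, by simp⟩
    | mul u v _ _ k1 k2 =>
      obtain ⟨y, e, x, s, hs, k⟩ := k1
      obtain ⟨y', e', x', s', hs', k'⟩ := k2
      refine ⟨y * y', ?_, x * x', s * s', mul_mem hs hs', ?_⟩
      · rcases e with rfl | rfl <;> rcases e' with rfl | rfl <;> simp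
      · rw [map_mul, ← conj_mul, k, k', map_mul, ← mul_assoc, mul_assoc (f x), (cm s hs x').eq]
        group
    | inv u _ k1 =>
      obtain ⟨y, e, x, s, hs, k⟩ := k1
      refine ⟨y⁻¹, e.imp (congrArg _) fun e => by rw [e, inv_neg], x⁻¹, s⁻¹, inv_mem hs, ?_⟩
      rw [map_inv, ← conj_inv, k, ← (cm s hs x).eq, _root_.mul_inv_rev, map_inv]
  have : commutator (SL2 K) ≤ (f.range.comap (MulAut.conj a).toMonoidHom).comap f :=
    commutator_le.2 fun u _ v _ => by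
      obtain ⟨y, e, x, s, hs, k⟩ := key u
      obtain ⟨y', e', x', s', hs', k'⟩ := key v
      have : ⁅u, v⁆ = ⁅y, y'⁆ := by
        rcases e with rfl | rfl <;> rcases e' with rfl | rfl <;>
          simp [commutatorElement_def, inv_neg]
      refine ⟨⁅x, x'⁆, ?_⟩
      change _ = a * f _ * a⁻¹
      have c : Commute s s' := by
        obtain ⟨n, rfl⟩ := hs
        obtain ⟨n', rfl⟩ := hs'
        exact Commute.zpow_zpow_self ζ n n'
      rw [this, map_commutatorElement, map_commutatorElement, conjugate_commutatorElement, k, k',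
        commutatorElement_def, commutatorElement_def, mul_assoc (f x) s,
        ((cm s hs x').mul_right c).eq, _root_.mul_inv_rev (f x), _root_.mul_inv_rev (f x')]
      calc _ = f x * f x' * (s' * (f x)⁻¹ * s'⁻¹) * (f x')⁻¹ := by
            rw [(cm s' hs' x).inv_right.eq, mul_inv_cancel_right]
        _ = _ := by group
  exact this ((perfect_SL2 hp h5).ge (mem_top m))

open Cfg

variable {C : Cfg G} {a b c ζ : G} {i : (ZMod C.p)ˣ}

theorem rel (hab : C.BD a b) (hac : C.BD a c) (hi : i ^ 2 = -1)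
    (hζ : ζ = (tt a c i)⁻¹ * tt a b i) (ha : ζ * a = a * ζ) (hc : ζ * c = c * ζ) {j : ZMod C.p}
    (hj : j ≠ 0) : (pw c (-(i : ZMod C.p) * j))⁻¹ * pw b (-(i : ZMod C.p) * j) =
      ζ * (pw a (((i : ZMod C.p) - 1) * j⁻¹) * ((pw c j)⁻¹ * pw b j) *
        (pw a (((i : ZMod C.p) - 1) * j⁻¹))⁻¹) := by
  lift j to (ZMod C.p)ˣ using hj.isUnit
  have k : ∀ (b : G) (j : (ZMod C.p)ˣ), pw b (j : ZMod C.p) =
      (pw a ((j⁻¹ : (ZMod C.p)ˣ) : ZMod C.p))⁻¹ * (tt a b j⁻¹ * ww a b) *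
        (pw a ((j⁻¹ : (ZMod C.p)ˣ) : ZMod C.p))⁻¹ := fun b j => by
    rw [tt, inv_inv, inv_mul_cancel_right, ww]
    group
  have e : -(i : ZMod C.p) * j = ((i⁻¹ * j : (ZMod C.p)ˣ) : ZMod C.p) := by
    rw [inv_eq_of_mul_eq_one_right (by rw [mul_neg, ← pow_two, hi, neg_neg] : i * -i = 1)]
    simp
  have c1 : Commute ζ (tt a c j⁻¹ * ww a c) := mem_centralizer_singleton_iff.1 (mul_mem
    (tt_mem (mem_centralizer_singleton_iff.2 ha.symm) (mem_centralizer_singleton_iff.2 hc.symm) _)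
    (ww_mem (mem_centralizer_singleton_iff.2 ha.symm) (mem_centralizer_singleton_iff.2 hc.symm)))
    |>.symm
  have c2 : Commute ζ (pw a ((i * j⁻¹ : (ZMod C.p)ˣ) : ZMod C.p)) := Commute.pow_right ha _
  rw [e, k b, k c, k b j, k c j, _root_.mul_inv_rev i⁻¹, inv_inv, mul_comm j⁻¹, hab.tt_mul,
    hac.tt_mul, sub_mul, one_mul, sub_eq_add_neg, pw_add (pow_p hab.ha), pw_neg (pow_p hab.ha),
    ← Units.val_inv_eq_inv_val, ← Units.val_mul, mul_assoc (tt a b i), mul_assoc (tt a c i)]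
  generalize tt a c j⁻¹ * ww a c = w' at c1
  generalize pw a ((i * j⁻¹ : (ZMod C.p)ˣ) : ZMod C.p) = A' at c2
  calc _ = A' * (w'⁻¹ * ζ) * (tt a b j⁻¹ * ww a b) * A'⁻¹ := by rw [hζ]; group
    _ = ζ * A' * w'⁻¹ * (tt a b j⁻¹ * ww a b) * A'⁻¹ := by
      rw [← c1.inv_right.eq, c2.eq, ← mul_assoc A']
    _ = _ := by group

end DLp

namespace Cfg
variable [Finite G] {C : Cfg G} {x y y' u v : C.Pt} {a b c e g : G} {r : ℕ} {l : (ZMod C.p)ˣ}

theorem dl (hab : C.BD a b) (hac : C.BD a c) (nc : b * c ≠ c * b) {i : (ZMod C.p)ˣ}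
    (hi : i ^ 2 = -1) (h3 : ¬ 3 ∣ C.p - 1) {ζ : G} (hζ : ζ = (tt a c i)⁻¹ * tt a b i)
    (ha : ζ * a = a * ζ) (hb : ζ * b = b * ζ) (hc : ζ * c = c * ζ) : False := by
  obtain ⟨K, _, _, f, γ, β, hf, ec, eb, er⟩ := C.pair c hac.hb b hab.hb nc.symm
  have := hf.char
  have hp := C.prime
  have h5 := C.five
  have β0 : β ≠ 0 := fun e => ne_one hab.hb (by rw [← eb, e, lo_zero, map_one])
  have γ0 : γ ≠ 0 := fun e => ne_one hac.hb (by rw [← ec, e, up_zero, map_one])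
  have hi' : (i : ZMod C.p) ^ 2 = -1 := by
    rw [← Units.val_pow_eq_pow_val, hi, Units.val_neg, Units.val_one]
  have cz : ∀ m, Commute ζ (f m) := fun m => (mem_centralizer_singleton_iff.1
    ((closure_le (centralizer {ζ})).2 (Set.pair_subset (mem_centralizer_singleton_iff.2 hc.symm)
      (mem_centralizer_singleton_iff.2 hb.symm)) (er.le ⟨m, rfl⟩))).symm
  have δ : ∀ j : ZMod C.p, f (up (-((j.val : K) * γ)) * lo ((j.val : K) * β)) =
      (pw c j)⁻¹ * pw b j := fun j => by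
    rw [map_mul, up_neg, map_inv, ← up_pw, ← lo_pw, map_pw, map_pw, ec, eb]
  have R := fun j hj => DLp.rel hab hac hi hζ ha hc (j := j) hj
  let φ := ZMod.castHom (dvd_refl C.p) K
  have hv : ∀ k : ZMod C.p, (k.val : K) = φ k := fun k => ZMod.natCast_val k
  by_cases hρ : β * γ ∈ (⊥ : Subfield K)
  · obtain ⟨ρ, e⟩ : β * γ ∈ φ.fieldRange := bot_le (a := φ.fieldRange) hρ
    obtain ⟨j, N, hj, e1, e2, e3⟩ := dl_tr h5 hi' h3 (β := β) (γ := γ) (ρ := ρ)
      (fun k => mul_ne_zero β0 γ0 (by rw [← e, k, map_zero])) (e.symm.trans (hv ρ).symm)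
    have k : f ((up (-(((-i * j).val : K) * γ)) * lo (((-i * j).val : K) * β)) ^ N) = ζ ^ N := by
      have c : Commute ζ (pw a (((i : ZMod C.p) - 1) * j⁻¹)) := Commute.pow_right ha _
      rw [map_pow, δ, R j hj, ← δ, ((c.mul_right (cz _)).mul_right c.inv_right).mul_pow,
        conj_pow, ← map_pow, e1]
      simp
    generalize (up (-(((-i * j).val : K) * γ)) * lo (((-i * j).val : K) * β)) ^ N = m at k e2 e3
    exact (hf.cent2 hp h5 γ0 β0 (x := m) (by rw [k]; exact ((cz _).pow_left N).eq)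
      (by rw [k]; exact ((cz _).pow_left N).eq)).elim e2 e3
  have top : Subgroup.closure {up γ, lo β, -1} = ⊤ := eq_top_iff.2 fun m _ => by
    have : f m ∈ (Subgroup.closure {up γ, lo β}).map f := by
      rw [MonoidHom.map_closure, Set.image_pair, ec, eb, ← er]
      exact ⟨m, rfl⟩
    obtain ⟨y, hy, e⟩ := this
    have hy : y ∈ Subgroup.closure {up γ, lo β, -1} :=
      closure_mono (Set.pair_subset (by simp) (by simp)) hy
    rcases hf.eq e.symm with rfl | rfl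
    · exact hy
    · rw [← neg_one_mul y]
      exact mul_mem (subset_closure (show (-1 : SL2 K) ∈ _ by simp)) hy
  have i1 : (i : ZMod C.p) - 1 ≠ 0 := fun e => by
    rw [sub_eq_zero.1 e, one_pow, eq_neg_iff_add_eq_zero, one_add_one_eq_two] at hi'
    exact Mat.cast_ne (p := C.p) (ZMod C.p) two_pos (by omega) (by exact_mod_cast hi')
  have r1 := R _ i1
  have r2 := R _ (neg_ne_zero.2 i1)
  rw [mul_inv_cancel₀ i1, pw_one, ← δ, ← δ] at r1
  rw [inv_neg, mul_neg _ _⁻¹, mul_inv_cancel₀ i1, pw_neg (pow_p hab.ha), pw_one, ← δ, ← δ,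
    show -(i : ZMod C.p) * -(i - 1) = -1 - i by linear_combination hi'] at r2
  rw [hv, map_sub, map_neg, map_one] at r2
  have aux : ∀ m m', f m = ζ * (a⁻¹ * f m' * a⁻¹⁻¹) → a * f m * a⁻¹ = f m' * ζ := fun m m' e => by
    rw [e, ← (cz _).eq, ← mul_assoc, ← ha]
    group
  have gen := dl_gen h5 (i := φ i) (by rw [← map_pow, hi', map_neg, map_one])
    (hv i ▸ natCast_mem _ _) hρ top
  have hm := DLp.mem hp h5 f (a := a) cz gen
    ⟨_, _, inv_mem (mem_zpowers ζ), by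
      rw [← (cz _).inv_left.eq, r1, inv_mul_cancel_left, hv, map_sub, map_one]⟩
    ⟨_, _, mem_zpowers ζ, aux _ _ r2⟩ (lo β)
  obtain ⟨A, hA⟩ : a ∈ f.range := by
    have := mul_mem (mul_mem (⟨_, eb⟩ : b ∈ f.range) hm) (inv_mem (⟨_, eb⟩ : b ∈ f.range))
    rwa [eb, ← mul_assoc, ← mul_assoc, ← hab.br, show a * b * a * a⁻¹ * b⁻¹ = a by group] at this
  obtain ⟨g, s, e⟩ := hf.unip hp h5 (hA ▸ pow_p hab.ha)
  rw [hA] at e
  rcases bruhat g with ⟨μ, s', rfl⟩ | ⟨s', t, μ, rfl⟩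
  · refine hac.nc ?_
    rw [e, ← ec, show up s' * dg μ * up s * (up s' * dg μ)⁻¹ =
      up s' * (dg μ * up s * (dg μ)⁻¹) * (up s')⁻¹ by group, dg_up, ← up_neg, ← map_mul,
      ← map_mul]
    simp only [← up_add]
    rw [add_comm]
  rw [show up s' * wy μ * up t * up s * (up s' * wy μ * up t)⁻¹ =
    up s' * (wy μ * (up t * up s * (up t)⁻¹) * (wy μ)⁻¹) * (up s')⁻¹ by group, ← up_neg,
    ← up_add, ← up_add, wy_up, map_mul, map_mul, map_inv] at e
  generalize -(((μ⁻¹ : Kˣ) : K) ^ 2 * (t + s + -t)) = ν at e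
  have e' : c = f (up s') * f (up γ) * (f (up s'))⁻¹ := by
    rw [← ec, ← map_mul, ← up_add, add_comm, up_add, map_mul, mul_inv_cancel_right]
  have br := hac.br.symm.conj (f (up s'))⁻¹
  rw [e, e'] at br
  simp only [inv_inv, ← mul_assoc, inv_mul_cancel, one_mul, inv_mul_cancel_right] at br
  rw [hf.br_iff hp h5 γ0] at br
  obtain ⟨κ, hκ⟩ := hf.exists_unit hp h5 i⁻¹
  have i2 : ((i⁻¹ : (ZMod C.p)ˣ) : ZMod C.p) ^ 2 = -1 := by
    rw [← Units.val_pow_eq_pow_val, _root_.inv_pow, hi, inv_neg_one, Units.val_neg, Units.val_one]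
  have κ2 : (κ : K) ^ 2 = -1 := by rw [hκ, hv, ← map_pow, i2, map_neg, map_one]
  have κ2' : ((κ⁻¹ : Kˣ) : K) ^ 2 = -1 := by
    rw [Units.val_inv_eq_inv_val, _root_.inv_pow, κ2, inv_neg_one]
  have e1 : tt a c i = f (up s') * f (dg κ) * (f (up s'))⁻¹ := by
    rw [← hf.tt_eq hp h5 br i⁻¹ κ hκ, conj_tt, ← e, ← e', hac.tt_symm, inv_inv]
  have e2 : tt a c i * b * (tt a c i)⁻¹ = b⁻¹ := by
    rw [← pw_one (p := C.p) b⁻¹, inv_pw, ← pw_neg (pow_p hab.hb), ← i2, ← hab.tt_b,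
      eq_inv_mul_iff_mul_eq.1 hζ |>.symm]
    calc _ = tt a c i * (b * ζ * ζ⁻¹) * (tt a c i)⁻¹ := by group
      _ = _ := by rw [← hb]; group
  have d1 := congrArg f (dg_up κ s')
  have d2 := congrArg f (dg_lo κ β)
  rw [κ2, neg_one_mul, up_neg, map_inv, map_mul, map_mul, map_inv] at d1
  rw [κ2', neg_one_mul, lo_neg, map_inv, map_mul, map_mul, map_inv, eb] at d2
  have e3 : f (up (s' + s')) * b = b * f (up (s' + s')) := by
    rw [up_add, map_mul]
    rw [e1] at e2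
    generalize f (up s') = U at d1 e2
    generalize f (dg κ) = D at d1 d2 e2
    rw [show U * D * U⁻¹ * b * (U * D * U⁻¹)⁻¹ =
      U * (D * U * D⁻¹)⁻¹ * (D * b * D⁻¹) * (D * U * D⁻¹) * U⁻¹ by group, d1, d2] at e2
    calc U * U * b = b * b⁻¹ * (U * U * b) := by group
      _ = _ := by rw [← e2]; group
  rw [← eb, hf.comm_iff hp h5, ← two_mul] at e3
  have s0 : s' = 0 := (mul_eq_zero.1 (e3.resolve_right β0)).resolve_left
    (by exact_mod_cast Mat.cast_ne (p := C.p) K two_pos (by omega))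
  refine hab.nc ?_
  rw [e, s0, up_zero, map_one, one_mul, inv_one, mul_one, ← eb, ← map_mul, ← map_mul, ← lo_add,
    ← lo_add, add_comm]

end Cfg

end Cfsg.Lib.PT
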