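import Cfsg.Agent.PT.Rep

/-!
# Tower `PT`: pairs generating `(P)SL₂`
-/

set_option autoImplicit false
set_option linter.unusedSectionVars false
set_option linter.unusedSimpArgs false

namespace Cfsg.Lib.PT

open Matrix Subgroup
open scoped MatrixGroups commutatorElement

universe u

variable {G : Type u} [Group G]

section Rep
variable {K : Type} [Field K] {p : ℕ} {f : SL2 K →* G}

theorem Mat.range_conj (f : SL2 K →* G) (g : SL2 K) :
    (f.comp (MulAut.conj g).toMonoidHom).range = f.range := by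
  rw [MonoidHom.range_comp, MonoidHom.range_eq_top_of_surjective _ (MulAut.conj g).surjective,
    MonoidHom.range_eq_map]

theorem Mat.up_comm (s t : K) : up s * up t = up t * up s := by rw [← up_add, add_comm, up_add]

theorem Mat.lo_comm (s t : K) : lo s * lo t = lo t * lo s := by rw [← lo_add, add_comm, lo_add]

theorem Gen2.symm {a b : G} (h : Gen2 p a b) : Gen2 p b a := by
  obtain ⟨K, _, _, f, α, β, h, rfl, rfl, e⟩ := h
  refine ⟨K, inferInstance, inferInstance, _, -β, -α, h.conj (wy 1), ?_, ?_, ?_⟩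
  · exact congrArg f ((wy_up 1 _).trans (by simp))
  · exact congrArg f ((wy_lo 1 _).trans (by simp))
  · rw [Mat.range_conj, e, Set.pair_comm]
theorem Gen2.conj {a b : G} (h : Gen2 p a b) (g : G) :
    Gen2 p (g * a * g⁻¹) (g * b * g⁻¹) := by
  obtain ⟨K, _, _, f, α, β, h, rfl, rfl, e⟩ := h
  exact ⟨K, inferInstance, inferInstance, _, α, β, h.gconj g, rfl, rfl, by
    rw [MonoidHom.range_comp, e, MonoidHom.map_closure, Set.image_pair]; rfl⟩
theorem Gen2.map (hp : p.Prime) (h5 : 5 ≤ p) {H : Type u} [Group H] (φ : G →* H) {a b : G}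
    (h : Gen2 p a b) (nc : φ a * φ b ≠ φ b * φ a) : Gen2 p (φ a) (φ b) := by
  obtain ⟨K, _, _, f, α, β, h, rfl, rfl, e⟩ := h
  exact ⟨K, inferInstance, inferInstance, _, α, β, h.map hp h5 φ nc, rfl, rfl, by
    rw [MonoidHom.range_comp, e, MonoidHom.map_closure, Set.image_pair]⟩
theorem Gen2.sub (H : Subgroup G) {a b : H} (h : Gen2 p (a : G) (b : G)) : Gen2 p a b := by
  obtain ⟨K, _, _, f, α, β, h, ea, eb, e⟩ := h
  have h1 : ∀ x, f x ∈ H := fun x => (closure_le H).2 (by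
    rintro _ (rfl | rfl)
    exacts [a.2, b.2]) (e ▸ ⟨x, rfl⟩ : f x ∈ closure {(a : G), (b : G)})
  refine ⟨K, inferInstance, inferInstance, f.codRestrict H h1, α, β,
    ⟨h.char, fun x hx => h.ker x (congrArg Subtype.val hx)⟩, Subtype.ext ea, Subtype.ext eb,
    map_injective H.subtype_injective ?_⟩
  rw [← MonoidHom.range_comp, MonoidHom.map_closure, Set.image_pair]
  exact e

section tw
variable {L : Type} [Field L] (σ : L →+* K) (α : Kˣ)

/-- Change of field followed by conjugation by `diag(α, 1)`. -/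
def Mat.twf (x : SL2 L) : SL2 K :=
  ⟨!![σ (x.1 0 0), α * σ (x.1 0 1); (α : K)⁻¹ * σ (x.1 1 0), σ (x.1 1 1)], by
    have := congrArg σ (Mat.det x)
    rw [map_sub, map_mul, map_mul, map_one] at this
    rw [det_fin_two_of, ← this]
    field_simp⟩

@[simp] theorem Mat.twf00 (x : SL2 L) : (Mat.twf σ α x).1 0 0 = σ (x.1 0 0) := rfl
@[simp] theorem Mat.twf01 (x : SL2 L) : (Mat.twf σ α x).1 0 1 = α * σ (x.1 0 1) := rfl
@[simp] theorem Mat.twf10 (x : SL2 L) : (Mat.twf σ α x).1 1 0 = (α : K)⁻¹ * σ (x.1 1 0) := rfl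
@[simp] theorem Mat.twf11 (x : SL2 L) : (Mat.twf σ α x).1 1 1 = σ (x.1 1 1) := rfl

/-- `Mat.twf` as a homomorphism. -/
def Mat.tw : SL2 L →* SL2 K := MonoidHom.mk' (Mat.twf σ α) fun x y => by
  refine Mat.ext ?_ ?_ ?_ ?_ <;> simp [Mat.mm] <;> field_simp

theorem Mat.tw_apply (x : SL2 L) : Mat.tw σ α x = Mat.twf σ α x := rfl

theorem Mat.tw_inj : Function.Injective (Mat.tw σ α) := fun _ _ h =>
  Mat.ext (σ.injective (Mat.ent h 0 0)) (σ.injective (mul_left_cancel₀ α.ne_zero (Mat.ent h 0 1)))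
    (σ.injective (mul_left_cancel₀ (inv_ne_zero α.ne_zero) (Mat.ent h 1 0)))
    (σ.injective (Mat.ent h 1 1))
end tw

/-- A braid pair comes from `SL₂(p)`. -/
theorem Gen2.rp [Fact p.Prime] (h5 : 5 ≤ p) {a b : G} (h : Gen2 p a b) (nc : a * b ≠ b * a)
    (br : Br a b) : ∃ f, RP p a b f := by
  obtain ⟨K, _, _, f, α, β, h, rfl, rfl, -⟩ := h
  have hp : p.Prime := Fact.out
  have := h.char
  have hα : α ≠ 0 := fun e => nc ((h.comm_iff hp h5).2 (Or.inl e))
  have e := (h.br_iff hp h5 hα).1 br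
  obtain ⟨ψ, inj, h1, h2, h3⟩ : ∃ ψ : SL2 (ZMod p) →* SL2 K, Function.Injective ψ ∧ ψ (-1) = -1 ∧
      ψ (up 1) = up α ∧ ψ (lo (-1)) = lo β := by
    refine ⟨Mat.tw (ZMod.castHom dvd_rfl K) (Units.mk0 α hα), Mat.tw_inj _ _, ?_, ?_, ?_⟩ <;>
      rw [Mat.tw_apply] <;> generalize ZMod.castHom _ K = σ <;> refine Mat.ext ?_ ?_ ?_ ?_ <;> simp
    field_simp
    linear_combination -e
  refine ⟨f.comp ψ, ⟨inferInstance, fun x hx => (h.ker _ hx).imp (fun e => inj (e.trans
    (map_one ψ).symm)) fun e => inj (e.trans h1.symm)⟩, congrArg f h2, congrArg f h3, ?_⟩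
  rw [MonoidHom.range_eq_map, ← closure_zmod, MonoidHom.map_closure, Set.image_pair,
    MonoidHom.comp_apply, MonoidHom.comp_apply, h2, h3]

theorem Rep.gen2 [Finite K] (h : Rep p K f) (hp : p.Prime) (h5 : 5 ≤ p) {a b : G} (ha : a ^ p = 1)
    (hb : b ^ p = 1) (nc : a * b ≠ b * a) (e : f.range = closure {a, b}) : Gen2 p a b := by
  obtain ⟨x, rfl⟩ : a ∈ f.range := e ▸ subset_closure (Or.inl rfl)
  obtain ⟨y, rfl⟩ : b ∈ f.range := e ▸ subset_closure (Or.inr rfl)
  obtain ⟨g, s, hx⟩ := h.unip hp h5 ha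
  obtain ⟨k, t, hy⟩ := h.unip hp h5 hb
  rcases bruhat (g⁻¹ * k) with ⟨μ, r, h1⟩ | ⟨r, r', μ, h1⟩ <;> rw [inv_mul_eq_iff_eq_mul] at h1
  · refine absurd ?_ nc
    have h2 : k * up t * k⁻¹ = g * up ((μ : K) ^ 2 * t) * g⁻¹ := by
      calc _ = g * (up r * (dg μ * up t * (dg μ)⁻¹) * (up r)⁻¹) * g⁻¹ := by rw [h1]; group
        _ = _ := by rw [dg_up, Mat.up_comm, mul_inv_cancel_right]
    rw [hx, hy, h2, ← map_mul, ← map_mul, conj_mul, conj_mul, Mat.up_comm]
  · refine ⟨K, inferInstance, inferInstance, _, s, -(((μ⁻¹ : Kˣ) : K) ^ 2 * t), h.conj (g * up r),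
      (congrArg f ?_).trans hx.symm, (congrArg f ?_).trans hy.symm, (Mat.range_conj _ _).trans e⟩
    · calc _ = g * (up r * up s * (up r)⁻¹) * g⁻¹ := by
            change g * up r * up s * (g * up r)⁻¹ = _; group
        _ = _ := by rw [Mat.up_comm, mul_inv_cancel_right]
    · rw [← wy_up]
      calc _ = g * up r * wy μ * (up r' * up t * (up r')⁻¹) * (g * up r * wy μ)⁻¹ := by
            rw [Mat.up_comm r', mul_inv_cancel_right]
            change g * up r * (wy μ * up t * (wy μ)⁻¹) * (g * up r)⁻¹ = _; group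
        _ = _ := by rw [h1]; group

theorem gen2_of_iso (hp : p.Prime) (h5 : 5 ≤ p) {a b : G} (ha : orderOf a = p)
    (hb : orderOf b = p) (nc : a * b ≠ b * a) (K : Type) [Field K] [Fintype K] {m : ℕ}
    (hK : Fintype.card K = p ^ m)
    (e : Nonempty (closure ({a, b} : Set G) ≃* PSL(2, K)) ∨
      Nonempty (closure ({a, b} : Set G) ≃* SL(2, K))) : Gen2 p a b := by
  have := Fact.mk hp
  have hc : CharP K p := charP_of_card_eq_prime_pow hK
  have key : ∀ φ : SL2 K →* closure ({a, b} : Set G), Function.Surjective φ →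
      (∀ x, φ x = 1 → x = 1 ∨ x = -1) → Gen2 p a b := fun φ h1 h2 =>
    Rep.gen2 (f := (Subgroup.subtype _).comp φ) ⟨hc, fun x hx => h2 x (Subtype.ext hx)⟩ hp h5
      (ha ▸ pow_orderOf_eq_one a) (hb ▸ pow_orderOf_eq_one b) nc (by
        rw [MonoidHom.range_comp, MonoidHom.range_eq_top_of_surjective _ h1,
          ← MonoidHom.range_eq_map, range_subtype])
  rcases e with ⟨⟨e⟩⟩ | ⟨⟨e⟩⟩
  · refine key (e.symm.toMonoidHom.comp (QuotientGroup.mk' _))
      (e.symm.surjective.comp (QuotientGroup.mk'_surjective _)) fun x hx => ?_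
    have h1 : x ∈ center SL(2, K) :=
      (QuotientGroup.eq_one_iff x).1 (e.symm.injective (hx.trans (map_one _).symm))
    exact Rep.cent (f := MonoidHom.id _) ⟨hc, fun _ e => Or.inl e⟩ hp h5
      fun y => (mem_center_iff.1 h1 y).symm
  · exact key e.symm.toMonoidHom e.symm.surjective
      fun x hx => Or.inl (e.symm.injective (hx.trans (map_one _).symm))

namespace RP
variable [Fact p.Prime] {a b : G} {φ : SL2 (ZMod p) →* G} (h : RP p a b φ)
include h
theorem pw_a (k : ZMod p) : pw a k = φ (up k) := by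
  rw [← h.ea, ← map_pw, up_pw, ZMod.natCast_zmod_val, mul_one]
theorem pw_b (k : ZMod p) : pw b k = φ (lo (-k)) := by
  rw [← h.eb, ← map_pw, lo_pw, ZMod.natCast_zmod_val, mul_neg_one]
theorem ww_eq : ww a b = φ (wy 1) := by
  rw [← h.ea, ← h.eb, ← map_ww, ← wy_eq, inv_one, Units.val_one]
theorem zz_eq : zz a b = φ (-1) := by rw [zz, h.ww_eq, ← map_mul, wy_sq]
theorem tt_eq (l : (ZMod p)ˣ) : tt a b l = φ (dg l) := by
  rw [tt, h.pw_a, h.pw_b, ← map_ww, wy_eq, h.ww_eq, ← map_inv, ← map_mul, wy_wy, inv_one, mul_one]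
end RP
end Rep

end Cfsg.Lib.PT
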