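import Cfsg.Agent.PT.Defs3
import Cfsg.Agent.PT.Gen2

/-!
# Tower `PT`: traces of products of transvections
-/

set_option autoImplicit false
set_option linter.unusedVariables false
set_option linter.unusedSectionVars false

namespace Cfsg.Lib.PT

open Matrix Subgroup
open scoped MatrixGroups

section DL
variable {K : Type} [Field K] {p : ℕ} [Fact p.Prime] [CharP K p]

theorem DLa.e00 (x y : K) : ((up (-x) * lo y) ^ 3).1 0 0 =
    ((2 - x * y) ^ 2 - 1) * (1 - x * y) - (2 - x * y) := by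
  simp [pow_succ, Mat.mm]; ring
theorem DLa.e01 (x y : K) : ((up (-x) * lo y) ^ 3).1 0 1 = -(((2 - x * y) ^ 2 - 1) * x) := by
  simp [pow_succ, Mat.mm]; ring
theorem DLa.e10 (x y : K) : ((up (-x) * lo y) ^ 3).1 1 0 = ((2 - x * y) ^ 2 - 1) * y := by
  simp [pow_succ, Mat.mm]; ring
theorem DLa.e11 (x y : K) : ((up (-x) * lo y) ^ 3).1 1 1 =
    ((2 - x * y) ^ 2 - 1) - (2 - x * y) := by
  simp [pow_succ, Mat.mm]; ring

theorem DLa.a {x y : K} (h : x * y = 1) : (up (-x) * lo y) ^ (3 * 2) = 1 := by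
  rw [pow_mul, show (_ ^ 3 : SL2 K) = -1 from Mat.ext ((DLa.e00 x y).trans (by simp [h]; ring))
    ((DLa.e01 x y).trans (by simp [h]; left; ring)) ((DLa.e10 x y).trans (by simp [h]; left; ring))
    ((DLa.e11 x y).trans (by simp [h]; ring)), neg_one_sq]

theorem DLa.b (h2 : (2 : K) ≠ 0) (h3 : (3 : K) ≠ 0) {x y : K} (h : x * y = -1) :
    ((up (-x) * lo y) ^ (3 * 2)).1 0 1 ≠ 0 := fun e => by
  rw [pow_mul, sq] at e
  have e1 := (Mat.mul_apply _ _ 0 1).symm.trans e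
  rw [DLa.e00, DLa.e01, DLa.e11, h] at e1
  have : (2 : K) ^ 4 * 3 ^ 2 * x = 0 := by linear_combination -e1
  rw [(mul_eq_zero.1 this).resolve_left (by positivity), zero_mul] at h
  simp at h

theorem DLa.c {x y : K} (h : x * y = 3) : (up (-x) * lo y) ^ 3 = 1 :=
  Mat.ext ((DLa.e00 x y).trans (by simp [h]; ring))
    ((DLa.e01 x y).trans (by simp [h]; left; ring)) ((DLa.e10 x y).trans (by simp [h]; left; ring))
    ((DLa.e11 x y).trans (by simp [h]; ring))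

theorem DLa.d (h2 : (2 : K) ≠ 0) (h3 : (3 : K) ≠ 0) {x y : K} (h : x * y = -3) :
    ((up (-x) * lo y) ^ 3).1 0 1 ≠ 0 := fun e => by
  rw [DLa.e01, h] at e
  have : (2 : K) ^ 3 * 3 * x = 0 := by linear_combination -e
  rw [(mul_eq_zero.1 this).resolve_left (by positivity), zero_mul] at h
  exact h3 (neg_eq_zero.1 h.symm)

theorem DLa.ne {A : SL2 K} (h : A.1 0 1 ≠ 0) : A ≠ 1 ∧ A ≠ -1 :=
  ⟨fun e => h (by simp [e]), fun e => h (by simp [e])⟩

theorem DLa.three (h5 : 5 ≤ p) {i : ZMod p} (hi : i ^ 2 = -1) (h3 : ¬ 3 ∣ p - 1) :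
    ¬ IsSquare (3 : ZMod p) := by
  rintro ⟨a, ha⟩
  have h2 : (2 : ZMod p) ≠ 0 := by simpa using Mat.cast_ne (p := p) (ZMod p) (n := 2) (by omega) (by omega)
  have h4 : (3 : ZMod p) ≠ 0 := by simpa using Mat.cast_ne (p := p) (ZMod p) (n := 3) (by omega) (by omega)
  obtain ⟨w, hw⟩ : ∃ w : ZMod p, w ^ 2 + w + 1 = 0 := ⟨(i * a - 1) / 2, by
    field_simp
    linear_combination a ^ 2 * hi + ha⟩
  have := Fact.mk Nat.prime_three
  refine h3 (orderOf_eq_prime (x := w) (p := 3) (by linear_combination (w - 1) * hw)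
    (fun e => h4 (by rw [e] at hw; linear_combination hw)) ▸ ZMod.orderOf_dvd_card_sub_one ?_)
  rintro rfl
  simp at hw

theorem dl_tr (h5 : 5 ≤ p) {i : ZMod p} (hi : i ^ 2 = -1) (h3 : ¬ 3 ∣ p - 1) {β γ : K}
    {ρ : ZMod p} (hρ : ρ ≠ 0) (e : β * γ = (ρ.val : K)) :
    ∃ (j : ZMod p) (N : ℕ), j ≠ 0 ∧ (up (-((j.val : K) * γ)) * lo ((j.val : K) * β)) ^ N = 1 ∧
      (up (-(((-i * j).val : K) * γ)) * lo (((-i * j).val : K) * β)) ^ N ≠ 1 ∧
      (up (-(((-i * j).val : K) * γ)) * lo (((-i * j).val : K) * β)) ^ N ≠ -1 := by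
  have hv : ∀ k : ZMod p, (k.val : K) = ZMod.castHom dvd_rfl K k := fun k => by
    rw [ZMod.castHom_apply, ZMod.natCast_val]
  simp only [hv] at e ⊢
  generalize ZMod.castHom dvd_rfl K = σ at *
  have h2 : (2 : K) ≠ 0 := by simpa using Mat.cast_ne (p := p) K (n := 2) (by omega) (by omega)
  have h4 : (3 : K) ≠ 0 := by simpa using Mat.cast_ne (p := p) K (n := 3) (by omega) (by omega)
  have key : ∀ j s : ZMod p, j ^ 2 * ρ = s → σ j * γ * (σ j * β) = σ s ∧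
      σ (-i * j) * γ * (σ (-i * j) * β) = -σ s := fun j s h => by
    have h1 := congrArg σ hi
    rw [map_pow, map_neg, map_one] at h1
    rw [← h, map_mul, map_mul, map_pow, map_neg, ← e]
    exact ⟨by ring, by linear_combination σ j ^ 2 * β * γ * h1⟩
  by_cases hs : IsSquare ρ
  · obtain ⟨r, rfl⟩ := hs
    have r0 := left_ne_zero_of_mul hρ
    obtain ⟨k1, k2⟩ := key r⁻¹ 1 (by field_simp)
    rw [map_one] at k1 k2
    exact ⟨r⁻¹, 3 * 2, inv_ne_zero r0, DLa.a k1, DLa.ne (DLa.b h2 h4 k2)⟩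
  · have h6 : IsSquare (3 * ρ) := by
      have h7 : (3 : ZMod p) ≠ 0 := fun e => DLa.three h5 hi h3 (e ▸ IsSquare.zero)
      rw [← quadraticChar_one_iff_isSquare (mul_ne_zero h7 hρ), map_mul,
        quadraticChar_neg_one_iff_not_isSquare.2 hs,
        quadraticChar_neg_one_iff_not_isSquare.2 (DLa.three h5 hi h3)]
      rfl
    obtain ⟨r, hr⟩ := h6
    obtain ⟨k1, k2⟩ := key (r / ρ) 3 (by field_simp; linear_combination -hr)
    rw [map_ofNat] at k1 k2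
    exact ⟨r / ρ, 3, fun e => h4 (by rw [← k1, e, map_zero, zero_mul, zero_mul]), DLa.c k1,
      DLa.ne (DLa.d h2 h4 k2)⟩

theorem sub_top (h5 : 5 ≤ p) {β γ : K} (h : Subgroup.closure {up γ, lo β, -1} = ⊤)
    (F : Subfield K) (hF : β * γ ∈ F) : F = ⊤ := by
  let H : Subgroup (SL2 K) :=
    { carrier := {x | x.1 0 0 ∈ F ∧ x.1 1 1 ∈ F ∧ (∃ f ∈ F, x.1 0 1 = f * γ) ∧ x.1 1 0 * γ ∈ F}
      one_mem' := ⟨by simp, by simp, ⟨0, zero_mem _, by simp⟩, by simp⟩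
      mul_mem' := fun {x y} ⟨a1, a2, ⟨f, a3, a4⟩, a5⟩ ⟨b1, b2, ⟨g, b3, b4⟩, b5⟩ => by
        simp only [Set.mem_ofPred_eq, Mat.mul_apply, a4, b4]
        refine ⟨?_, ?_, ⟨_, add_mem (mul_mem a1 b3) (mul_mem a3 b2), by ring⟩, ?_⟩
        · convert add_mem (mul_mem a1 b1) (mul_mem a3 b5) using 1; ring
        · convert add_mem (mul_mem a5 b3) (mul_mem a2 b2) using 1; ring
        · convert add_mem (mul_mem a5 b1) (mul_mem a2 b5) using 1; ring
      inv_mem' := fun {x} ⟨a1, a2, ⟨f, a3, a4⟩, a5⟩ => by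
        simp only [Set.mem_ofPred_eq, Matrix.SpecialLinearGroup.coe_inv, adjugate_fin_two]
        exact ⟨by simpa, by simpa, ⟨-f, neg_mem a3, by simp [a4]⟩, by simpa⟩ }
  have hH : ∀ x, x ∈ H := fun x => (closure_le H).2 (by
    rintro _ (rfl | rfl | rfl)
    · exact ⟨by simp, by simp, ⟨1, one_mem _, by simp⟩, by simp⟩
    · exact ⟨by simp, by simp, ⟨0, zero_mem _, by simp⟩, by simpa⟩
    · exact ⟨by simp, by simp, ⟨0, zero_mem _, by simp⟩, by simp⟩) (h.ge trivial)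
  obtain ⟨f, -, e⟩ := (hH (up 1)).2.2.1
  refine eq_top_iff.2 fun s _ => ?_
  obtain ⟨g, hg, e'⟩ := (hH (up (s * γ))).2.2.1
  rwa [mul_right_cancel₀ (right_ne_zero_of_mul_eq_one e.symm) e']

end DL

end Cfsg.Lib.PT
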