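import Cfsg.Agent.PT.DLa
import Cfsg.Agent.Class.PGL2Rho

/-!
# Tower `PT`: two products of transvections generate `SL₂(K)` (Dickson)
-/

set_option autoImplicit false
set_option linter.unusedVariables false
set_option linter.unusedSectionVars false

namespace Cfsg.Lib.PT

open Matrix Subgroup
open scoped MatrixGroups

section DL
variable {K : Type} [Field K] {p : ℕ} [Fact p.Prime] [CharP K p]

open Cfsg.Lib.Class

theorem DLb.res {L : Type} [Field L] {a b c d a' b' c' d' X Y : L} (hv : X ≠ 0 ∨ Y ≠ 0)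
    (e1 : (a * X + b * Y) * Y = (c * X + d * Y) * X)
    (e2 : (a' * X + b' * Y) * Y = (c' * X + d' * Y) * X) :
    (b' * c - b * c') ^ 2 = (b * (a' - d') - b' * (a - d)) * ((a' - d') * c - (a - d) * c') := by
  by_cases hX : X = 0
  · have hY : Y ≠ 0 := hv.resolve_left (fun h => h hX)
    have h1 : b = 0 := mul_right_cancel₀ (mul_ne_zero hY hY) (by rw [hX] at e1; linear_combination e1)
    have h2 : b' = 0 := mul_right_cancel₀ (mul_ne_zero hY hY) (by rw [hX] at e2; linear_combination e2)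
    rw [h1, h2]; ring
  by_cases hY : Y = 0
  · have h1 : c = 0 := mul_right_cancel₀ (mul_ne_zero hX hX) (by rw [hY] at e1; linear_combination -e1)
    have h2 : c' = 0 := mul_right_cancel₀ (mul_ne_zero hX hX) (by rw [hY] at e2; linear_combination -e2)
    rw [h1, h2]; ring
  have r1 : (b' * c - b * c') * X + (b * (a' - d') - b' * (a - d)) * Y = 0 :=
    mul_right_cancel₀ hX (by linear_combination b * e2 - b' * e1)
  have r2 : ((a' - d') * c - (a - d) * c') * X + (b' * c - b * c') * Y = 0 :=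
    mul_right_cancel₀ hY (by linear_combination c * e2 - c' * e1)
  exact mul_right_cancel₀ hX (by
    linear_combination (b' * c - b * c') * r1 - (b * (a' - d') - b' * (a - d)) * r2)

theorem DLb.fix {A B : SL2 K} {x : P1 (Kb K)} (hA : bar (SpecialLinearGroup.toPGL A) • x = x)
    (hB : bar (SpecialLinearGroup.toPGL B) • x = x) :
    (B 0 1 * A 1 0 - A 0 1 * B 1 0) ^ 2 = (A 0 1 * (B 0 0 - B 1 1) - B 0 1 * (A 0 0 - A 1 1)) *
      ((B 0 0 - B 1 1) * A 1 0 - (A 0 0 - A 1 1) * B 1 0) := by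
  induction x using Projectivization.ind with
  | h v hv =>
    rw [toPGL_eq_mob, map_mob, mob_smul_mk_eq_mk_iff] at hA hB
    apply (algebraMap K (Kb K)).injective
    simp only [map_pow, map_mul, map_sub]
    exact DLb.res (vec2_ne_zero_iff.1 hv) hA hB

theorem DLb.lin {x : K} (hx : x ∉ (⊥ : Subfield K)) (u v : ℤ) (h : (u : K) * x = v) :
    (u : K) = 0 ∧ (v : K) = 0 := by
  have hu : (u : K) = 0 := by
    by_contra hu
    refine hx ?_
    rw [show x = (v : K) / u by rw [← h]; field_simp]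
    exact div_mem (intCast_mem _ v) (intCast_mem _ u)
  exact ⟨hu, by rw [← h, hu, zero_mul]⟩

theorem DLb.ne {x : K} (hx : x ∉ (⊥ : Subfield K)) (v : ℤ) : x ≠ v := fun e =>
  hx (e ▸ intCast_mem _ v)

theorem DLb.nsq {A : SL2 K} (hx : A.1.trace ∉ (⊥ : Subfield K)) :
    SpecialLinearGroup.toPGL A ≠ 1 ∧
      SpecialLinearGroup.toPGL A * SpecialLinearGroup.toPGL A ≠ 1 := by
  have h1 : SpecialLinearGroup.toPGL A ≠ 1 := fun e => by
    have := rho_toPGL A
    rw [e, rho_one] at this
    rcases mul_eq_zero.1 (show (A.1.trace - 2) * (A.1.trace + 2) = 0 by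
      linear_combination -this) with h | h
    · exact DLb.ne hx 2 (by push_cast; linear_combination h)
    · exact DLb.ne hx (-2) (by push_cast; linear_combination h)
  refine ⟨h1, fun e => ?_⟩
  have := rho_of_mul_self e h1
  rw [rho_toPGL] at this
  exact DLb.ne hx 0 (by simpa using this)

theorem DLb.small {A : SL2 K} (hx : A.1.trace ∉ (⊥ : Subfield K))
    (h : SpecialLinearGroup.toPGL A ^ 2 = 1 ∨ SpecialLinearGroup.toPGL A ^ 3 = 1 ∨
      SpecialLinearGroup.toPGL A ^ 4 = 1 ∨ SpecialLinearGroup.toPGL A ^ 5 = 1) :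
    A.1.trace ^ 2 = 2 ∨ A.1.trace ^ 2 = A.1.trace + 1 ∨ A.1.trace ^ 2 = -A.1.trace + 1 := by
  obtain ⟨h1, h2⟩ := DLb.nsq hx
  rcases h with h | h | h | h
  · exact (h2 (by rw [← sq, h])).elim
  · have := rho_of_pow_three h h1
    rw [rho_toPGL] at this
    rcases mul_eq_zero.1 (show (A.1.trace - 1) * (A.1.trace + 1) = 0 by
      linear_combination this) with h | h
    · exact (DLb.ne hx 1 (by push_cast; linear_combination h)).elim
    · exact (DLb.ne hx (-1) (by push_cast; linear_combination h)).elim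
  · have := rho_of_pow_four h (by rwa [sq])
    rw [rho_toPGL] at this
    exact Or.inl this
  · have := rho_of_pow_five h h1
    rw [rho_toPGL] at this
    rcases mul_eq_zero.1 (show (A.1.trace ^ 2 - A.1.trace - 1) *
      (A.1.trace ^ 2 + A.1.trace - 1) = 0 by linear_combination this) with h | h
    · exact Or.inr (Or.inl (by linear_combination h))
    · exact Or.inr (Or.inr (by linear_combination h))

theorem DLb.arith (h2 : (2 : K) ≠ 0) (h3 : (3 : K) ≠ 0) {x y : K} (hx : x ∉ (⊥ : Subfield K))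
    (e : x + y = 4) (h : x ^ 2 = 2 ∨ x ^ 2 = x + 1 ∨ x ^ 2 = -x + 1)
    (h' : y ^ 2 = 2 ∨ y ^ 2 = y + 1 ∨ y ^ 2 = -y + 1) : False := by
  obtain rfl : y = 4 - x := by linear_combination e
  have h8 : (8 : K) ≠ 0 := by rw [show (8 : K) = 2 ^ 3 by norm_num]; exact pow_ne_zero _ h2
  have h9 : (9 : K) ≠ 0 := by rw [show (9 : K) = 3 ^ 2 by norm_num]; exact pow_ne_zero _ h3
  have h6 : (6 : K) ≠ 0 := by rw [show (6 : K) = 2 * 3 by norm_num]; exact mul_ne_zero h2 h3
  rcases h with h | h | h <;> rcases h' with h' | h' | h'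
  · exact h8 (by simpa using (DLb.lin hx 8 16 (by push_cast; linear_combination h - h')).1)
  · obtain ⟨a, b⟩ := DLb.lin hx 7 13 (by push_cast; linear_combination h - h')
    push_cast at a b
    exact one_ne_zero (α := K) (by linear_combination 2 * a - b)
  · exact h9 (by simpa using (DLb.lin hx 9 21 (by push_cast; linear_combination h - h')).1)
  · obtain ⟨a, b⟩ := DLb.lin hx 7 15 (by push_cast; linear_combination h - h')
    push_cast at a b
    exact one_ne_zero (α := K) (by linear_combination b - 2 * a)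
  · exact h6 (by simpa using (DLb.lin hx 6 12 (by push_cast; linear_combination h - h')).1)
  · exact h8 (by simpa using (DLb.lin hx 8 20 (by push_cast; linear_combination h - h')).1)
  · exact h9 (by simpa using (DLb.lin hx 9 15 (by push_cast; linear_combination h - h')).1)
  · exact h8 (by simpa using (DLb.lin hx 8 12 (by push_cast; linear_combination h - h')).1)
  · obtain ⟨a, -⟩ := DLb.lin hx 10 20 (by push_cast; linear_combination h - h')
    push_cast at a
    have h5 : (5 : K) = 0 := mul_left_cancel₀ h2 (by linear_combination a)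
    have : (x - 2) ^ 2 = 0 := by linear_combination h + (1 - x) * h5
    exact DLb.ne hx 2 (by push_cast; linear_combination pow_eq_zero_iff two_ne_zero |>.1 this)

theorem DLb.top (H : Subgroup (SL2 K)) (h1 : -1 ∈ H)
    (h : psl2 K ≤ H.map SpecialLinearGroup.toPGL) : H = ⊤ := by
  refine eq_top_iff.2 fun g _ => ?_
  obtain ⟨g', hg', e⟩ := h ⟨g, rfl⟩
  rw [toPGL_eq_pm, toPGL_eq_pm, pm_eq_pm_iff] at e
  obtain ⟨u, -, e⟩ := e
  have hd := congrArg Matrix.det e
  rw [det_smul_two, g.2, g'.2, mul_one] at hd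
  rcases sq_eq_one_iff.1 hd.symm with rfl | rfl
  · rw [one_smul] at e
    rwa [show g = g' from Subtype.ext e]
  · rw [show g = -1 * g' from Subtype.ext (by rw [e]; simp)]
    exact mul_mem h1 hg'

theorem dl_gen [Finite K] (h5 : 5 ≤ p) {i β γ : K} (hi : i ^ 2 = -1) (hi' : i ∈ (⊥ : Subfield K))
    (hρ : β * γ ∉ (⊥ : Subfield K)) (h : Subgroup.closure {up γ, lo β, -1} = ⊤) :
    Subgroup.closure {up (-((i - 1) * γ)) * lo ((i - 1) * β),
      up (-((-1 - i) * γ)) * lo ((-1 - i) * β), -1} = ⊤ := by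
  have h2 : (2 : K) ≠ 0 := by simpa using Mat.cast_ne (p := p) K (n := 2) (by omega) (by omega)
  have h3 : (3 : K) ≠ 0 := by simpa using Mat.cast_ne (p := p) K (n := 3) (by omega) (by omega)
  have i0 : i ≠ 0 := fun e => by rw [e] at hi; simp at hi
  have ρ0 : β * γ ≠ 0 := fun e => hρ (e ▸ zero_mem _)
  set A : SL2 K := up (-((i - 1) * γ)) * lo ((i - 1) * β) with hA
  set B : SL2 K := up (-((-1 - i) * γ)) * lo ((-1 - i) * β) with hB
  have ent : ∀ x y : K, (up (-x) * lo y : SL2 K) 0 0 = 1 - x * y ∧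
      (up (-x) * lo y : SL2 K) 0 1 = -x ∧ (up (-x) * lo y : SL2 K) 1 0 = y ∧
      (up (-x) * lo y : SL2 K) 1 1 = 1 := fun x y => by
    refine ⟨?_, ?_, ?_, ?_⟩ <;> simp [Mat.mm]
    ring
  obtain ⟨a0, a1, a2, a3⟩ := ent ((i - 1) * γ) ((i - 1) * β)
  obtain ⟨b0, b1, b2, b3⟩ := ent ((-1 - i) * γ) ((-1 - i) * β)
  rw [← hA] at a0 a1 a2 a3
  rw [← hB] at b0 b1 b2 b3
  have tA : A.1.trace = 2 + 2 * i * (β * γ) := by
    rw [trace_fin_two]
    change A 0 0 + A 1 1 = _
    rw [a0, a3]; linear_combination (-(β * γ)) * hi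
  have tB : B.1.trace = 2 - 2 * i * (β * γ) := by
    rw [trace_fin_two]
    change B 0 0 + B 1 1 = _
    rw [b0, b3]; linear_combination (-(β * γ)) * hi
  have two : (2 : K) ∈ (⊥ : Subfield K) := by exact_mod_cast natCast_mem (⊥ : Subfield K) 2
  have xA : A.1.trace ∉ (⊥ : Subfield K) := fun e => hρ (by
    have := div_mem (sub_mem e two) (mul_mem two hi')
    rwa [tA, add_sub_cancel_left, mul_div_cancel_left₀ _ (mul_ne_zero h2 i0)] at this)
  have xB : B.1.trace ∉ (⊥ : Subfield K) := fun e => hρ (by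
    have := div_mem (sub_mem two e) (mul_mem two hi')
    rwa [tB, sub_sub_cancel, mul_div_cancel_left₀ _ (mul_ne_zero h2 i0)] at this)
  have nofix : ∀ x : P1 (Kb K), bar (SpecialLinearGroup.toPGL A) • x = x →
      bar (SpecialLinearGroup.toPGL B) • x = x → False := fun x e1 e2 => by
    have := DLb.fix e1 e2
    rw [a0, a1, a2, a3, b0, b1, b2, b3] at this
    have h16 : (2 : K) ^ 4 * (β * γ) ^ 3 = 0 := by
      linear_combination -this + (4 * i ^ 4 - 12 * i ^ 2 + 16) * (β * γ) ^ 3 * hi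
    exact mul_ne_zero (pow_ne_zero _ h2) (pow_ne_zero _ ρ0) h16
  set S : Subgroup (SL2 K) := Subgroup.closure {A, B, -1} with hS
  have mA : SpecialLinearGroup.toPGL A ∈ S.map SpecialLinearGroup.toPGL :=
    mem_map_of_mem _ (subset_closure (by simp))
  have mB : SpecialLinearGroup.toPGL B ∈ S.map SpecialLinearGroup.toPGL :=
    mem_map_of_mem _ (subset_closure (by simp))
  refine DLb.top S (subset_closure (by simp)) ?_
  generalize S.map SpecialLinearGroup.toPGL = H at mA mB ⊢
  rcases dickson_pgl' p H with ⟨x, hx⟩ | ⟨x, y, hxy, -, hH⟩ | ⟨-, hH⟩ | ⟨h3', -⟩ |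
    ⟨F, c, -, hH⟩
  · exact (nofix (barPt x) (by rw [bar_smul_barPt, hx mA]) (by rw [bar_smul_barPt, hx mB])).elim
  · exact (nofix x (mem_fixPair_of_mul_self_ne hxy.ne (hH mA) (DLb.nsq xA).2).1
      (mem_fixPair_of_mul_self_ne hxy.ne (hH mB) (DLb.nsq xB).2).1).elim
  · have key : ∀ g ∈ H, g ^ 2 = 1 ∨ g ^ 3 = 1 ∨ g ^ 4 = 1 ∨ g ^ 5 = 1 := fun g hg => by
      have c : ∀ n : ℕ, (⟨g, hg⟩ : H) ^ n = 1 → g ^ n = 1 := fun n e => congrArg Subtype.val e
      rcases hH with e | e | e
      · rcases pow_of_equiv_A4 e ⟨g, hg⟩ with e | e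
        exacts [.inl (c _ e), .inr (.inl (c _ e))]
      · rcases pow_of_equiv_S4 e ⟨g, hg⟩ with e | e
        exacts [.inr (.inl (c _ e)), .inr (.inr (.inl (c _ e)))]
      · rcases pow_of_equiv_A5 e ⟨g, hg⟩ with e | e | e
        exacts [.inl (c _ e), .inr (.inl (c _ e)), .inr (.inr (.inr (c _ e)))]
    exact (DLb.arith h2 h3 xA (by rw [tA, tB]; ring) (DLb.small xA (key _ mA))
      (DLb.small xB (key _ mB))).elim
  · omega
  · have hle : H ≤ (pglSub F).map (MulAut.conj c).toMonoidHom := by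
      rcases hH with rfl | rfl
      · exact le_rfl
      · exact map_mono (pslSub_le_pglSub F)
    have rA := rho_mem_of_mem_pglSub_conj (hle mA)
    have rB := rho_mem_of_mem_pglSub_conj (hle mB)
    rw [rho_toPGL] at rA rB
    have twoF : (2 : K) ∈ F := bot_le (a := F) two
    have : β * γ ∈ F := by
      have := div_mem (sub_mem rA rB) (mul_mem (pow_mem twoF 4) (bot_le (a := F) hi'))
      rwa [tA, tB, show (2 + 2 * i * (β * γ)) ^ 2 - (2 - 2 * i * (β * γ)) ^ 2 =
        2 ^ 4 * i * (β * γ) by ring,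
        mul_div_cancel_left₀ _ (mul_ne_zero (pow_ne_zero _ h2) i0)] at this
    obtain rfl := sub_top h5 h F this
    rcases hH with rfl | rfl
    · rw [pglSub_top_map_conj]; exact le_top
    · rw [pslSub_top_map_conj]

end DL

end Cfsg.Lib.PT
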