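import Cfsg.Prelude.Def_Classical
import Mathlib

/-!
# Classes of elements of order `p ≥ 5` any two of which commute or generate `(P)SL₂(p^m)`

Definitions for the tower `PT` (statement S3235).
-/

set_option autoImplicit false

namespace Cfsg.Lib.PT

open Matrix Subgroup

universe u

/-- `SL₂(K)`. -/
abbrev SL2 (K : Type) [Field K] : Type := SpecialLinearGroup (Fin 2) K

section mat
variable {K : Type} [Field K]

/-- Upper unitriangular matrix. -/
def up (x : K) : SL2 K := ⟨!![1, x; 0, 1], by simp [det_fin_two]⟩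
/-- Lower unitriangular matrix. -/
def lo (x : K) : SL2 K := ⟨!![1, 0; x, 1], by simp [det_fin_two]⟩
/-- Diagonal matrix. -/
def dg (x : Kˣ) : SL2 K := ⟨!![(x : K), 0; 0, ((x⁻¹ : Kˣ) : K)], by simp [det_fin_two]⟩
/-- Weyl element. -/
def wy (x : Kˣ) : SL2 K := ⟨!![0, (x : K); -((x⁻¹ : Kˣ) : K), 0], by simp [det_fin_two]⟩

end mat

variable {G : Type u} [Group G]

/-- A homomorphism from `SL₂(K)`, `K` of characteristic `p`, with central kernel. -/
structure Rep (p : ℕ) (K : Type) [Field K] (f : SL2 K →* G) : Prop where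
  char : CharP K p
  ker : ∀ x, f x = 1 → x = 1 ∨ x = -1

/-- `a`, `b` are images of an upper and a lower unitriangular matrix and generate the image. -/
def Gen2 (p : ℕ) (a b : G) : Prop :=
  ∃ (K : Type) (_ : Field K) (_ : Finite K) (f : SL2 K →* G) (α β : K),
    Rep p K f ∧ f (up α) = a ∧ f (lo β) = b ∧ f.range = closure {a, b}

/-- The configuration. -/
structure Cfg (G : Type u) [Group G] where
  p : ℕ
  D : Set G
  prime : p.Prime
  five : 5 ≤ p
  ord : ∀ a ∈ D, orderOf a = p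
  conj : ∀ a ∈ D, ∀ g : G, g * a * g⁻¹ ∈ D
  pow : ∀ a ∈ D, ∀ k : ℕ, ¬ p ∣ k → a ^ k ∈ D
  pair : ∀ a ∈ D, ∀ b ∈ D, a * b ≠ b * a → Gen2 p a b

/-- Braid relation. -/
def Br (a b : G) : Prop := a * b * a = b * a * b
/-- Weyl word. -/
def ww (a b : G) : G := a * b * a
/-- The image of `-1`. -/
def zz (a b : G) : G := ww a b * ww a b
/-- Power with exponent in `ZMod p`. -/
def pw {p : ℕ} (a : G) (k : ZMod p) : G := a ^ k.val
/-- The image of `diag(l, l⁻¹)`. -/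
def tt {p : ℕ} (a b : G) (l : (ZMod p)ˣ) : G :=
  ww (pw a (l : ZMod p)) (pw b ((l⁻¹ : (ZMod p)ˣ) : ZMod p)) * (ww a b)⁻¹

/-- The conclusion of the theorem. -/
def Concl (G : Type u) [Group G] (p : ℕ) : Prop :=
  ∃ (F : Type) (_ : Field F) (_ : Fintype F), ringChar F = p ∧
    ((∃ m : ℕ, 1 ≤ m ∧ Nonempty (G ≃* Cfsg.PSp m F)) ∨
      (∃ (n q : ℕ), 2 ≤ n ∧ Fintype.card F = q ^ 2 ∧ Nonempty (G ≃* Cfsg.PSU n F q)))

/-- The Heisenberg group attached to `a`, `c` commuting, both braiding with `b`. -/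
structure Heis (p : ℕ) (a b c n m ζ : G) : Prop where
  n_ne : n ≠ 1
  np : n ^ p = 1
  mp : m ^ p = 1
  ζp : ζ ^ p = 1
  ζa : ζ * a = a * ζ
  ζb : ζ * b = b * ζ
  ζn : ζ * n = n * ζ
  ζm : ζ * m = m * ζ
  na : n * a = a * n
  mb : m * b = b * m
  c_eq : c = a * n * ζ
  m_eq : m = ww a b * n * (ww a b)⁻¹
  wm : ww a b * m * (ww a b)⁻¹ = n⁻¹
  comm : m * n * m⁻¹ * n⁻¹ = ζ ^ 2
  ck : ∀ k : ℕ, m ^ k * a * (m ^ k)⁻¹ = a * n ^ k * ζ ^ (k ^ 2)
  bk : ∀ k : ℕ, (n ^ k)⁻¹ * b * n ^ k = b * m ^ k * ζ ^ (k ^ 2)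
  zn : zz a b * n * (zz a b)⁻¹ = n⁻¹
  zm : zz a b * m * (zz a b)⁻¹ = m⁻¹
  tn : ∀ l : (ZMod p)ˣ, tt a b l * n * (tt a b l)⁻¹ = pw n (l : ZMod p)
  tm : ∀ l : (ZMod p)ˣ, tt a b l * m * (tt a b l)⁻¹ = pw m ((l⁻¹ : (ZMod p)ˣ) : ZMod p)

namespace Cfg

variable (C : Cfg G)

instance : Fact C.p.Prime := ⟨C.prime⟩

/-- Members of `D` commuting with `a`. -/
def perp (a : G) : Set G := {c | c ∈ C.D ∧ c * a = a * c}
/-- The point of `a`. -/
def pt (a : G) : Set G := {b | b ∈ C.D ∧ C.perp b = C.perp a}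
/-- Points. -/
def Pt : Type u := {M : Set G // ∃ a ∈ C.D, M = C.pt a}

theorem mem_perp_conj (g a c : G) : c ∈ C.perp (g * a * g⁻¹) ↔ g⁻¹ * c * g ∈ C.perp a := by
  constructor
  · rintro ⟨h1, h2⟩
    refine ⟨by simpa using C.conj c h1 g⁻¹, ?_⟩
    calc g⁻¹ * c * g * a = g⁻¹ * (c * (g * a * g⁻¹)) * g := by group
      _ = g⁻¹ * (g * a * g⁻¹ * c) * g := by rw [h2]
      _ = a * (g⁻¹ * c * g) := by group
  · rintro ⟨h1, h2⟩
    refine ⟨by simpa [mul_assoc] using C.conj _ h1 g, ?_⟩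
    calc c * (g * a * g⁻¹) = g * (g⁻¹ * c * g * a) * g⁻¹ := by group
      _ = g * (a * (g⁻¹ * c * g)) * g⁻¹ := by rw [h2]
      _ = g * a * g⁻¹ * c := by group

theorem mem_pt_conj (g a b : G) : b ∈ C.pt (g * a * g⁻¹) ↔ g⁻¹ * b * g ∈ C.pt a := by
  have key : ∀ x y : G, C.perp x = C.perp y → ∀ g : G,
      C.perp (g * x * g⁻¹) = C.perp (g * y * g⁻¹) := fun x y h g => by
    ext c; rw [mem_perp_conj, mem_perp_conj, h]
  constructor
  · rintro ⟨h1, h2⟩
    refine ⟨by simpa using C.conj b h1 g⁻¹, ?_⟩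
    simpa [mul_assoc] using key _ _ h2 g⁻¹
  · rintro ⟨h1, h2⟩
    refine ⟨by simpa [mul_assoc] using C.conj _ h1 g, ?_⟩
    simpa [mul_assoc] using key _ _ h2 g

instance : MulAction G C.Pt where
  smul g x := ⟨{b | g⁻¹ * b * g ∈ x.1}, by
    obtain ⟨a, ha, e⟩ := x.2
    exact ⟨g * a * g⁻¹, C.conj a ha g, by ext b; rw [mem_pt_conj, e]; rfl⟩⟩
  one_smul x := Subtype.ext (by ext b; change 1⁻¹ * b * 1 ∈ x.1 ↔ _; simp)
  mul_smul g h x := Subtype.ext (by
    ext b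
    change (g * h)⁻¹ * b * (g * h) ∈ x.1 ↔ h⁻¹ * (g⁻¹ * b * g) * h ∈ x.1
    simp [mul_assoc])

/-- The point of a member of `D`. -/
def pnt (a : G) (ha : a ∈ C.D) : C.Pt := ⟨C.pt a, a, ha, rfl⟩

variable {C}

/-- The members of `D` in a point. -/
def M (x : C.Pt) : Set G := x.1
/-- The root group of a point. -/
def E (x : C.Pt) : Subgroup G := closure (M x)
/-- Collinear or equal. -/
def Pp (x y : C.Pt) : Prop := ∀ a ∈ M x, ∀ b ∈ M y, a * b = b * a
/-- The stabiliser of `y` in the root group of `x`. -/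
def S (x y : C.Pt) : Subgroup G := E x ⊓ MulAction.stabilizer G y
/-- The group generated by two root groups. -/
def KK (x y : C.Pt) : Subgroup G := E x ⊔ E y
/-- The centraliser of a root group. -/
def CC (x : C.Pt) : Subgroup G := centralizer (E x : Set G)
/-- Two-point stabiliser in `CC x`. -/
def C0 (x y : C.Pt) : Subgroup G := CC x ⊓ MulAction.stabilizer G y
/-- A braid pair between two opposite points. -/
structure BP (x y : C.Pt) (a b : G) : Prop where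
  ha : a ∈ M x
  hb : b ∈ M y
  opp : ¬ Pp x y
  br : Br a b
/-- Opposite with trivial mutual stabilisers. -/
def W1 (x y : C.Pt) : Prop := ¬ Pp x y ∧ S x y = ⊥ ∧ S y x = ⊥
/-- The hyperbolic line. -/
def ln (x y : C.Pt) : Set C.Pt := {u | u = x ∨ ∃ e ∈ E x, e • y = u}
/-- The singular line. -/
def pl (x v : C.Pt) : Set C.Pt := {u | ∀ s : C.Pt, Pp s x → Pp s v → Pp s u}
/-- `g` acts on the subgroup `A` as the power map `k`. -/
def Sc (g : G) (A : Subgroup G) (k : ZMod C.p) : Prop := ∀ e ∈ A, g * e * g⁻¹ = pw e k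

theorem mem_M_smul {g b : G} {x : C.Pt} : b ∈ M (g • x) ↔ g⁻¹ * b * g ∈ M x := Iff.rfl

/-- The two root groups are the unitriangular groups of a copy of `(P)SL₂(K)`. -/
structure Ln (A B : Subgroup G) (p : ℕ) (K : Type) [Field K] (f : SL2 K →* G) : Prop where
  rep : Rep p K f
  up : ∀ e, e ∈ A ↔ ∃ s, f (up s) = e
  lo : ∀ e, e ∈ B ↔ ∃ s, f (lo s) = e

def HasLn (A B : Subgroup G) (p : ℕ) : Prop :=
  ∃ (K : Type) (_ : Field K) (_ : Finite K) (f : SL2 K →* G), Ln A B p K f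

variable (C)

/-- Simple configuration. -/
structure Simple : Prop where
  gen : closure C.D = ⊤
  simple : IsSimpleGroup G
  nc : ∃ a ∈ C.D, ∃ b ∈ C.D, a * b ≠ b * a

/-- Rank one. -/
def R1 : Prop := ∀ x y : C.Pt, Pp x y → x = y

/-- All pairs of distinct points have trivial mutual stabilisers. -/
def AllW1 : Prop := ∀ x y : C.Pt, x ≠ y → S x y = ⊥

/-- The conclusions in rank one. -/
structure RK : Prop where
  w1 : C.AllW1
  line : ∀ (x y : C.Pt) (a b : G), BP x y a b → zz a b = 1 →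
    (∀ u, u ∈ ln x y) ∧ HasLn (E x) (E y) C.p
  pq : ∀ x : C.Pt, ∃ Q : Subgroup G, IsPGroup C.p Q ∧
    (∀ g : G, g • x = x → ∀ u ∈ Q, g * u * g⁻¹ ∈ Q) ∧
    ∀ y u : C.Pt, y ≠ x → u ≠ x → ∃ g ∈ Q, g • x = x ∧ g • y = u
  iso : Concl G C.p

/-- A rank one subconfiguration. -/
structure Sub (D' : Set G) : Prop where
  sub : D' ⊆ C.D
  conj : ∀ a ∈ D', ∀ g ∈ closure D', g * a * g⁻¹ ∈ D'
  pow : ∀ a ∈ D', ∀ k : ℕ, ¬ C.p ∣ k → a ^ k ∈ D'
  r1 : ∀ a ∈ D', ∀ b ∈ D', ∀ c ∈ D', a * b = b * a → b * c = c * b → a * c = c * a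

/-- A nilpotent normal subgroup of the stabiliser, transitive on the other points. -/
structure NU (x : C.Pt) (U : Subgroup G) : Prop where
  le : E x ≤ U
  cc : U ≤ CC x
  norm : ∀ g : G, g • x = x → ∀ u ∈ U, g * u * g⁻¹ ∈ U
  nil : Group.IsNilpotent U
  trans : ∀ y u : C.Pt, y ≠ x → u ≠ x → ∃ g ∈ U, g • y = u

end Cfg

/-- Root group inside a subconfiguration. -/
def E' (D' : Set G) (a : G) : Subgroup G := closure {c | c ∈ D' ∧ c * a = a * c}
/-- `g` fixes every point of the subconfiguration. -/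
def Triv (D' : Set G) (g : G) : Prop := ∀ c ∈ D', g * c * g⁻¹ * c = c * (g * c * g⁻¹)

/-- The rank one theorem for groups of order less than `n`. -/
def IH (p n : ℕ) : Prop :=
  ∀ (H : Type u) [Group H] [Finite H] (C : Cfg H), C.p = p → Nat.card H < n →
    C.Simple → C.R1 → C.RK

/-- The parameters `r`, `l` of the torus argument. -/
def Par (p r : ℕ) (l : (ZMod p)ˣ) : Prop :=
  r.Prime ∧ ((r ≠ 2 ∧ orderOf l = r) ∨ (r = 2 ∧ l ^ 2 = -1 ∧ ¬ 3 ∣ p - 1))

end Cfsg.Lib.PT
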