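import Cfsg.Agent.PT.Defs

/-!
# Tower `PT`: further definitions
-/

set_option autoImplicit false

namespace Cfsg.Lib.PT

open Subgroup

universe u

variable {G : Type u} [Group G]

/-- `f : SL₂(p) → G` is the representation attached to a braid pair. -/
structure RP (p : ℕ) [Fact p.Prime] (a b : G) (f : SL2 (ZMod p) →* G) : Prop where
  rep : Rep p (ZMod p) f
  ea : f (up 1) = a
  eb : f (lo (-1)) = b
  range : f.range = closure {a, b}

/-- Members of `D` which braid and do not commute. -/
structure Cfg.BD (C : Cfg G) (a b : G) : Prop where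
  ha : a ∈ C.D
  hb : b ∈ C.D
  nc : a * b ≠ b * a
  br : Br a b

/-- The subgroup generated by the mutual stabilisers. -/
def Cfg.WW {C : Cfg G} (x y : C.Pt) : Subgroup G := Cfg.S x y ⊔ Cfg.S y x

/-- The members of `D` whose points lie in the orbit of `x` under `KK x y`. -/
def Cfg.DK {C : Cfg G} (x y : C.Pt) : Set G := {c | ∃ g ∈ Cfg.KK x y, c ∈ Cfg.M (g • x)}

/-- A simple quotient of the group generated by a rank one subconfiguration. -/
structure SQ (C : Cfg G) (D' : Set G) (H : Type u) [Group H] (C' : Cfg H)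
    (π : closure D' →* H) : Prop where
  p : C'.p = C.p
  surj : Function.Surjective π
  D : ∀ h, h ∈ C'.D ↔ ∃ a : closure D', (a : G) ∈ D' ∧ π a = h
  refl : ∀ a b : closure D', (a : G) ∈ D' → (b : G) ∈ D' → π a * π b = π b * π a →
    (a : G) * b = b * a
  ker : ∀ g : closure D', π g = 1 ↔ Triv D' g
  simple : C'.Simple
  r1 : C'.R1

/-- The subconfiguration has a simple quotient satisfying the rank one theorem. -/
def Good (C : Cfg G) (D' : Set G) : Prop :=
  ∃ (H : Type u) (_ : Group H) (_ : Finite H) (C' : Cfg H) (π : closure D' →* H),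
    SQ C D' H C' π ∧ C'.RK

end Cfsg.Lib.PT
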