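import Cfsg.Agent.PT.Defs3
import Cfsg.Agent.Class.HermTransv

/-!
# Tower `PT`: definitions for the case of rank at least two
-/

set_option autoImplicit false

namespace Cfsg.Lib.PT

open Subgroup Cfsg.Lib.Class.Form

universe u

variable {G : Type u} [Group G]

namespace Cfg

variable {C : Cfg G}

/-- Simple configuration of rank at least two. -/
structure HR (C : Cfg G) : Prop where
  simple : C.Simple
  nr1 : ¬ C.R1
  ih : IH2.{u} C.p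

/-- The group of a singular line. -/
def EL (x r : C.Pt) : Subgroup G := closure {c | ∃ u ∈ pl x r, c ∈ M u}
/-- The part of the group of a singular line inverted by `z`. -/
def VV (x r : C.Pt) (z : G) : Subgroup G := closure {n | n ∈ EL x r ∧ z * n * z⁻¹ = n⁻¹}
/-- Points collinear with both `x` and `y`. -/
def Δ (x y : C.Pt) : Set C.Pt := {r | Pp r x ∧ Pp r y}
/-- The unipotent radical of the stabiliser of `x`. -/
def QQ (x y : C.Pt) (z : G) : Subgroup G := E x ⊔ closure {n | ∃ r ∈ Δ x y, n ∈ VV x r z}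

end Cfg

section coord

variable {K : Type} [Field K] {W : Type u} [AddCommGroup W] [Module K W]

/-- Hypotheses for Heisenberg coordinates on `Q`. -/
structure HH (p : ℕ) (u : K → G) (h : Kˣ → G) (z : G) (Q : Subgroup G) : Prop where
  prime : p.Prime
  five : 5 ≤ p
  char : CharP K p
  u_add : ∀ s t, u (s + t) = u s * u t
  u_inj : Function.Injective u
  u_mem : ∀ s, u s ∈ Q
  u_cent : ∀ s, ∀ g ∈ Q, u s * g = g * u s
  comm : ∀ g ∈ Q, ∀ g' ∈ Q, ∃ s, g * g' = g' * g * u s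
  pow : ∀ g ∈ Q, ∃ s, g ^ p = u s
  h_mul : ∀ μ ν, h (μ * ν) = h μ * h ν
  h_neg : h (-1) = z
  h_mem : ∀ μ, ∀ g ∈ Q, h μ * g * (h μ)⁻¹ ∈ Q
  h_u : ∀ μ s, h μ * u s * (h μ)⁻¹ = u ((μ : K) ^ 2 * s)
  z_inv : ∀ g ∈ Q, ∃ s, g * (z * g * z⁻¹) = u s
  h_add : ∀ (μ ν l : Kˣ), (l : K) = μ + ν → ∀ g ∈ Q,
    ∃ s, h l * g * (h l)⁻¹ = h μ * g * (h μ)⁻¹ * (h ν * g * (h ν)⁻¹) * u s

/-- Heisenberg coordinates on `Q`. -/
structure HC (u : K → G) (h : Kˣ → G) (z : G) (Q : Subgroup G) (φ : W →ₗ[K] W →ₗ[K] K)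
    (q : W → K → G) : Prop where
  alt : ∀ w, φ w w = 0
  mul : ∀ w k w' k', q w k * q w' k' = q (w + w') (k + k' + φ w w')
  q0 : ∀ k, q 0 k = u k
  mem : ∀ g, g ∈ Q ↔ ∃ w k, q w k = g
  inj : ∀ w k w' k', q w k = q w' k' → w = w' ∧ k = k'
  zq : ∀ w k, z * q w k * z⁻¹ = q (-w) k
  hq : ∀ (μ : Kˣ) w k, h μ * q w k * (h μ)⁻¹ = q ((μ : K) • w) ((μ : K) ^ 2 * k)

/-- The linear data on `Q / E`. -/
structure LD (φ : W →ₗ[K] W →ₗ[K] K) {ι : Type u} (P : ι → ι → Prop) (V : ι → Submodule K W)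
    (T : ι → W →ₗ[K] W) : Prop where
  alt : ∀ w, φ w w = 0
  nd : ∀ w, (∀ w', φ w w' = 0) → w = 0
  ne : Nonempty ι
  symm : ∀ r r', P r r' → P r' r
  refl : ∀ r, P r r
  span : ⨆ r, V r = ⊤
  nb : ∀ r, V r ≠ ⊥
  rng : ∀ r w, T r w ∈ V r
  sym : ∀ r w w', φ (T r w) w' = φ (T r w') w
  perp : ∀ r r', P r r' → ∀ v ∈ V r, ∀ v' ∈ V r', φ v v' = 0
  sc : ∀ r r', ¬ P r r' → ∃ l : K, l ≠ 0 ∧ ∀ v ∈ V r, T r (T r' v) = l • v
  aniso : ∀ r r', ¬ P r r' → ∀ v ∈ V r', φ (T r v) v = 0 → v = 0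
  two : ∀ r r', ∃ s, ¬ P s r ∧ ¬ P s r'
  clos : ∀ r r' (t : K), ∃ (r'' : ι) (l : K), l ≠ 0 ∧
    (∀ v, v ∈ V r'' ↔ ∃ v' ∈ V r', v = v' + t • T r v') ∧
    ∀ w, T r'' (w + t • T r w) = l • (T r' w + t • T r (T r' w))

/-- The sesquilinear structure on `Q / E`. -/
structure FD (φ : W →ₗ[K] W →ₗ[K] K) {ι : Type u} (V : ι → Submodule K W) (F : Type) [Field F]
    [Algebra K F] [Module F W] (σ : F →+* F) (s : W →ₛₗ[σ] W →ₗ[F] F) (v : ι → W) : Prop where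
  tower : ∀ (k : K) (w : W), algebraMap K F k • w = k • w
  invol : ∀ a, σ (σ a) = a
  fixed : ∀ a, σ a = a ↔ ∃ k, algebraMap K F k = a
  skew : ∀ w w', s w w' = - σ (s w' w)
  re : ∀ w w', s w w' + σ (s w w') = 2 * algebraMap K F (φ w w')
  ne : ∀ r, v r ≠ 0
  span : ∀ r w, w ∈ V r ↔ ∃ a : F, w = a • v r
  kind : σ = RingHom.id F ∨ (σ ≠ RingHom.id F ∧ Nat.card F = Nat.card K ^ 2)

def HasFD (φ : W →ₗ[K] W →ₗ[K] K) {ι : Type u} (V : ι → Submodule K W) : Prop :=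
  ∃ (F : Type) (_ : Field F) (_ : Finite F) (_ : Algebra K F) (_ : Module F W) (σ : F →+* F)
    (s : W →ₛₗ[σ] W →ₗ[F] F) (v : ι → W), FD φ V F σ s v

end coord

section model

variable {F : Type} [Field F] {σ : F →+* F} {X : Type u} [AddCommGroup X] [Module F X]

/-- Non-degenerate skew-Hermitian (for `σ = id`: alternating) forms. -/
structure SK (B : X →ₛₗ[σ] X →ₗ[F] F) : Prop where
  invol : ∀ a, σ (σ a) = a
  skew : ∀ u v, B u v = - σ (B v u)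
  sep : ∀ u, (∀ v, B u v = 0) → u = 0

/-- `γ` is the transvection with vector `v` and parameter `c`. -/
def Tv (B : X →ₛₗ[σ] X →ₗ[F] F) (v : X) (c : F) (γ : isomGroup B) : Prop :=
  ∀ P, (γ : X ≃ₗ[F] X) P = P + (c * B v P) • v

/-- The model space of the sesquilinear structure `s` on `W`. -/
structure MD {K : Type} [Field K] [Algebra K F] {W : Type u} [AddCommGroup W] [Module K W]
    [Module F W] (φ : W →ₗ[K] W →ₗ[K] K) (s : W →ₛₗ[σ] W →ₗ[F] F) (B : X →ₛₗ[σ] X →ₗ[F] F)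
    (e f : X) (j : W →ₗ[F] X) (ρ : W → K → isomGroup B) : Prop where
  sk : SK B
  ee : B e e = 0
  ff : B f f = 0
  ef : B e f = 1
  ej : ∀ w, B e (j w) = 0
  fj : ∀ w, B f (j w) = 0
  jj : ∀ w w', B (j w) (j w') = s w w'
  dec : ∀ P, ∃ (a : F) (w : W) (b : F), P = a • e + j w + b • f
  ind : ∀ (a : F) (w : W) (b : F), a • e + j w + b • f = 0 → a = 0 ∧ w = 0 ∧ b = 0
  mul : ∀ w k w' k', ρ w k * ρ w' k' = ρ (w + w') (k + k' + φ w w')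
  ρe : ∀ w k, (ρ w k : X ≃ₗ[F] X) e = e
  ρj : ∀ w k w', (ρ w k : X ≃ₗ[F] X) (j w') = j w' + s w w' • e
  ρf : ∀ w k, (ρ w k : X ≃ₗ[F] X) f = f + j w + (s w w / 2 + algebraMap K F k) • e

variable {C : Cfg G}

/-- `g` and `γ` act compatibly. -/
def Cmp (B : X →ₛₗ[σ] X →ₗ[F] F) (ψ : C.Pt → X) (g : G) (γ : isomGroup B) : Prop :=
  ∀ u, ∃ l : F, (γ : X ≃ₗ[F] X) (ψ u) = l • ψ (g • u)

open Cfg in
/-- The embedding of the points in the model space. -/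
structure GD (x y : C.Pt) (B : X →ₛₗ[σ] X →ₗ[F] F) (ψ : C.Pt → X) : Prop where
  sk : SK B
  opp : ¬ Pp x y
  ne : ∀ u, ψ u ≠ 0
  pres : ∀ u v, Pp u v → B (ψ u) (ψ v) = 0
  inj : ∀ u v (l : F), ψ u = l • ψ v → u = v
  refl : ∀ u v, Pp u y → Pp v y → B (ψ u) (ψ v) = 0 → Pp u v
  xo : ∀ u, B (ψ x) (ψ u) = 0 → Pp x u
  line : ∀ u v s, Pp u v → u ≠ v → s ∈ pl u v → (∃ t ∈ pl u v, t = x ∨ ¬ Pp x t) →
    ∃ a b : F, ψ s = a • ψ u + b • ψ v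
  mv : ∀ u, ¬ Pp x u → ∃ (g : G) (γ : isomGroup B), g • x = x ∧ g • y = u ∧ Cmp B ψ g γ
  all : ∀ P, B P P = 0 → B (ψ x) P ≠ 0 → ∃ (u : C.Pt) (l : F), P = l • ψ u
  ex : ∀ e ∈ E x, ∃ (c : F) (γ : isomGroup B), Tv B (ψ x) c γ ∧ Cmp B ψ e γ
  ex' : ∀ (c : F) (γ : isomGroup B), σ c = c → Tv B (ψ x) c γ → ∃ e ∈ E x, Cmp B ψ e γ
  ey : ∀ e ∈ E y, ∃ c l : F, σ c = c ∧ ψ x + (c * B (ψ y) (ψ x)) • ψ y = l • ψ (e • x)
  ey' : ∀ c : F, σ c = c → ∃ e ∈ E y, ∃ l : F, ψ x + (c * B (ψ y) (ψ x)) • ψ y = l • ψ (e • x)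

end model

namespace Cfg

variable {C : Cfg G} {K : Type} [Field K] {W : Type u} [AddCommGroup W] [Module K W]

/-- The coordinatised situation. -/
structure CX (x y : C.Pt) (f : SL2 K →* G) (φ : W →ₗ[K] W →ₗ[K] K) (q : W → K → G)
    (V : C.Pt → Submodule K W) : Prop where
  hr : C.HR
  opp : ¬ Pp x y
  ln : Ln (E x) (E y) C.p K f
  hc : HC (fun s => f (up s)) (fun μ => f (dg μ)) (f (-1)) (QQ x y (f (-1))) φ q
  nd : ∀ w, (∀ w', φ w w' = 0) → w = 0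
  hV : ∀ r ∈ Δ x y, ∀ w, w ∈ V r ↔ q w 0 ∈ VV x r (f (-1))

/-- The action of `Q` on the points, in coordinates. -/
structure CD (x y : C.Pt) (φ : W →ₗ[K] W →ₗ[K] K) (q : W → K → G)
    (V : C.Pt → Submodule K W) : Prop where
  qx : ∀ w k, q w k • x = x
  tr : ∀ u, ¬ Pp x u → ∃ w k, q w k • y = u
  free : ∀ w k, q w k • y = y → w = 0 ∧ k = 0
  lin : ∀ r ∈ Δ x y, ∀ w k, q w k • r ∈ pl x r
  stab : ∀ r ∈ Δ x y, ∀ w k, q w k • r = r ↔ ∀ v ∈ V r, φ w v = 0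
  trl : ∀ r ∈ Δ x y, ∀ u ∈ pl x r, u ≠ x → ∃ w, q w 0 • r = u
  col : ∀ r ∈ Δ x y, ∀ u, (u ∈ pl y r ∧ u ≠ r) ↔ ∃ v ∈ V r, q v 0 • y = u
  perp : ∀ r ∈ Δ x y, ∀ r' ∈ Δ x y, Pp r r' ↔ ∀ v ∈ V r, ∀ v' ∈ V r', φ v v' = 0

end Cfg

end Cfsg.Lib.PT
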