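import Cfsg.Agent.PT.Ab
import Cfsg.Agent.Solv.FittingOf
import Cfsg.Agent.Solv.SchurZassenhaus
import Cfsg.Agent.Solv.CoprimeBasic
import Cfsg.Agent.FT.Final

/-!
# Tower `PT`: a complement to `O_p` in the preimage of `F(O / O_p)`
-/

set_option autoImplicit false
set_option linter.unusedSectionVars false

namespace Cfsg.Lib.PT

open Subgroup
open scoped commutatorElement Pointwise

universe u

variable {G : Type u} [Group G] [Finite G] {p : ℕ} {O : Subgroup G}

/-- `R` is a complement to `P = O_p(O)` in the preimage of `F(O / P)`. -/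
structure F2 (p : ℕ) (O R : Subgroup G) : Prop where
  le : R ≤ O
  nil : Group.IsNilpotent R
  cop : (Nat.card R).Coprime p
  norm : normalizer (O : Set G) ≤ normalizer ((pCoreOf p O ⊔ R : Subgroup G) : Set G)
  cent : ∀ x ∈ O, (∀ y ∈ R, x * y * x⁻¹ * y⁻¹ ∈ pCoreOf p O) → x ∈ pCoreOf p O ⊔ R

theorem F2.cop' (hp : p.Prime) {A : Subgroup G} (h : (Nat.card A).Coprime p) :
    (Nat.card A).Coprime (Nat.card (pCoreOf p O)) := by
  have := Fact.mk hp
  obtain ⟨k, hk⟩ := (Solv.isPGroup_map_pCore p O).exists_card_eq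
  exact hk ▸ h.pow_right k

theorem F2.solv (hp : p.Prime) : Group.IsSolvable (pCoreOf p O) := by
  have := Fact.mk hp
  have := (Solv.isPGroup_map_pCore p O).isNilpotent
  change Group.IsSolvable ((pCore p O).map O.subtype)
  infer_instance

theorem F2.fr {R : Subgroup G} (hp : p.Prime) (h : F2 p O R) {g : G}
    (hg : g ∈ normalizer (O : Set G)) :
    ∃ k ∈ pCoreOf p O, MulAut.conj k • R = MulAut.conj g • R := by
  have hN := Solv.normalizer_le_normalizer_map_pCore p O
  refine Solv.Coprime.exists_conj_eq (h.le.trans (le_normalizer.trans hN)) (F2.cop' hp h.cop)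
    (Or.inr (F2.solv hp)) ?_ (Solv.card_conj_smul _ _)
  exact Solv.conj_smul_le_iff.2 fun y hy => Ab.cj (h.norm hg) (mem_sup_right hy)

theorem F2.ex (hp : p.Prime) (odd : Odd (Nat.card O)) (A : Subgroup G)
    (hA : A ≤ normalizer (O : Set G)) (hc : (Nat.card A).Coprime p) :
    ∃ R, F2 p O R ∧ A ≤ normalizer (R : Set G) := by
  have := Fact.mk hp
  have := FT.odd_order_solvable odd
  have hN := Solv.normalizer_le_normalizer_map_pCore p O
  let π := QuotientGroup.mk' (pCore p O)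
  let F := (fittingSubgroup (O ⧸ pCore p O)).comap π
  have : F.Characteristic := Characteristic.comap_quotient_mk inferInstance
  have h1 : pCoreOf p O ≤ F.map O.subtype := map_mono fun x hx => by
    change π x ∈ fittingSubgroup _
    rw [show π x = 1 from (QuotientGroup.eq_one_iff x).2 hx]
    exact one_mem _
  have h2 : (pCoreOf p O).relIndex (F.map O.subtype) =
      Nat.card (fittingSubgroup (O ⧸ pCore p O)) := by
    have h3 := Solv.card_mul_relIndex_of_le h1
    rw [Solv.card_map_subtype F, Solv.card_comap_mk', pCoreOf, Solv.card_map_subtype,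
      mul_comm] at h3
    exact Nat.eq_of_mul_eq_mul_right Nat.card_pos h3
  have h3 : (Nat.card (fittingSubgroup (O ⧸ pCore p O))).Coprime p := by
    refine ((Nat.Prime.coprime_iff_not_dvd hp).2 fun h => ?_).symm
    obtain ⟨x, hx⟩ := exists_prime_orderOf_dvd_card' p h
    have h4 := Solv.le_pCore_of_le_fitting (p := p) (P := zpowers (x : O ⧸ pCore p O))
      (IsPGroup.of_card (n := 1) (by rw [Nat.card_zpowers, orderOf_coe, hx, pow_one]))
      (zpowers_le.2 x.2) (mem_zpowers _)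
    rw [Solv.pCore_quotient_pCore, mem_bot] at h4
    rw [show x = 1 from Subtype.ext h4, orderOf_one] at hx
    exact hp.one_lt.ne hx
  have key : ∀ R : Subgroup G, pCoreOf p O ⊔ R = F.map O.subtype → (Nat.card R).Coprime p →
      F2 p O R := fun R e hR => by
    have h4 : R ≤ F.map O.subtype := e ▸ le_sup_right
    have h5 : R ≤ O := h4.trans (map_subtype_le _)
    refine ⟨h5, ?_, hR, e ▸ Solv.normalizer_le_normalizer_map_subtype_of_char F, fun x hx h => ?_⟩
    · have h6 : Function.Injective (π.comp (inclusion h5)) :=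
        (injective_iff_map_eq_one _).2 fun y hy => Subtype.ext (mem_bot.1
          (Solv.inf_eq_bot_of_coprime_card (F2.cop' hp hR) ▸ mem_inf.2
            ⟨y.2, ⟨_, (QuotientGroup.eq_one_iff _).1 hy, rfl⟩⟩))
      have := Solv.isNilpotent_of_le_fitting (N := (π.comp (inclusion h5)).range) (by
        rintro _ ⟨y, rfl⟩
        obtain ⟨y', h7, h8⟩ := h4 y.2
        rwa [show (π.comp (inclusion h5)) y = π y' from congrArg π (Subtype.ext h8.symm)])
      exact Group.nilpotent_of_mulEquiv (MonoidHom.ofInjective h6).symm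
    · rw [e]
      refine ⟨⟨x, hx⟩, Solv.centralizer_fitting_le _ fun y hy => ?_, rfl⟩
      obtain ⟨y, rfl⟩ := QuotientGroup.mk'_surjective _ y
      obtain ⟨n, hn, s, hs, h6⟩ := (Solv.mem_sup_of_le_normalizer
        (h5.trans (le_normalizer.trans hN))).1 (e.ge ⟨y, hy, rfl⟩)
      obtain ⟨n, hn, rfl⟩ := hn
      obtain rfl : y = n * ⟨s, h5 hs⟩ := Subtype.ext h6.symm
      obtain ⟨m, hm, h7⟩ := h s hs
      have h8 : m = ⟨x, hx⟩ * ⟨s, h5 hs⟩ * ⟨x, hx⟩⁻¹ * ⟨s, h5 hs⟩⁻¹ := Subtype.ext h7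
      have h9 : π m = 1 := (QuotientGroup.eq_one_iff _).2 hm
      rw [h8, map_mul, map_mul, map_mul, map_inv, map_inv, mul_inv_eq_one,
        mul_inv_eq_iff_eq_mul] at h9
      rw [map_mul, show QuotientGroup.mk' _ n = 1 from (QuotientGroup.eq_one_iff _).2 hn, one_mul]
      exact h9.symm
  obtain ⟨R, -, h4, -, h5⟩ := Solv.exists_complement_ambient _ _ h1
    ((map_subtype_le _).trans (le_normalizer.trans hN)) (by
      obtain ⟨k, hk⟩ := (Solv.isPGroup_map_pCore p O).exists_card_eq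
      rw [h2, pCoreOf, hk]
      exact h3.symm.pow_left k)
  have h6 := key R h4 (by rwa [h5, h2])
  obtain ⟨k, hk, h7⟩ := Solv.Coprime.exists_conj_invariant (hA.trans hN) (F2.cop' hp hc)
    (Or.inr (F2.solv hp)) (P := R) fun a ha => h6.fr hp (hA ha)
  refine ⟨_, key _ ?_ (by rw [Solv.card_conj_smul]; exact h6.cop), h7⟩
  rw [← Solv.conj_smul_eq_of_mem_normalizer (H := pCoreOf p O) (le_normalizer hk), ← smul_sup, h4]
  exact Solv.conj_smul_eq_of_mem_normalizer (le_normalizer (h1 hk))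

theorem F2.dis {R : Subgroup G} (hp : p.Prime) (h : F2 p O R) {y : G} (h1 : y ∈ R)
    (h2 : y ∈ pCoreOf p O) : y = 1 :=
  mem_bot.1 (Solv.inf_eq_bot_of_coprime_card (F2.cop' hp h.cop) ▸ mem_inf.2 ⟨h1, h2⟩)

theorem F2.dec {R : Subgroup G} (h : F2 p O R) {y : G} (hy : y ∈ pCoreOf p O ⊔ R) :
    ∃ u ∈ pCoreOf p O, ∃ s ∈ R, u * s = y :=
  (Solv.mem_sup_of_le_normalizer (h.le.trans (le_normalizer.trans
    (Solv.normalizer_le_normalizer_map_pCore p O)))).1 hy

theorem F2.sup_le {R : Subgroup G} (h : F2 p O R) : pCoreOf p O ⊔ R ≤ O :=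
  _root_.sup_le (map_subtype_le _) h.le

theorem F2.center {R : Subgroup G} (h : F2 p O R) {d : G} (hd : d ∈ R) (d1 : d ≠ 1) :
    ∃ c ∈ R, c ≠ 1 ∧ ∀ y ∈ R, y * c = c * y := by
  have := h.nil
  have : Nontrivial R := ⟨⟨d, hd⟩, 1, fun e => d1 (congrArg Subtype.val e)⟩
  obtain ⟨⟨c, hc⟩, c1⟩ := ne_bot_iff_exists_ne_one.1 (Group.IsNilpotent.center_ne_bot (G := R))
  exact ⟨c, c.2, fun e => c1 (Subtype.ext (Subtype.ext e)),
    fun y hy => congrArg Subtype.val (mem_center_iff.1 hc ⟨y, hy⟩)⟩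

theorem F2.nt {O0 : Subgroup G} (hp : p.Prime) (h : O ≤ pCoreOf p O ⊔ O0) : NT O O0 := by
  have := Fact.mk hp
  exact ⟨pCoreOf p O, map_subtype_le _, fun g hg _ => Ab.cj
    (Solv.normalizer_le_normalizer_map_pCore p O (le_normalizer hg)),
    (Solv.isPGroup_map_pCore p O).isNilpotent, h⟩

theorem F2.fit (hS : ∀ s : ℕ, s.Prime → s ≠ p → pCoreOf s O = ⊥) :
    fittingOf O ≤ pCoreOf p O :=
  Solv.fittingOf_le_of_forall_pCore_le fun s hs => by
    by_cases e : s = p
    · exact e ▸ le_rfl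
    · exact (hS s hs.out e).le.trans bot_le

theorem F2.cp (odd : Odd (Nat.card O))
    (hS : ∀ s : ℕ, s.Prime → s ≠ p → pCoreOf s O = ⊥) {g : G} (hg : g ∈ O)
    (h : ∀ u ∈ pCoreOf p O, u * g = g * u) : g ∈ pCoreOf p O := by
  have := FT.odd_order_solvable odd
  exact F2.fit hS (Solv.inf_centralizer_fittingOf_le O
    (mem_inf.2 ⟨hg, fun u hu => h u (F2.fit hS hu)⟩))

end Cfsg.Lib.PT
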