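import Cfsg.Agent.PT.RIG

/-!
# Tower `PT`: the isomorphism with the group generated by the transvections
-/

set_option autoImplicit false
set_option linter.unusedSectionVars false

namespace Cfsg.Lib.PT

open Matrix Subgroup Cfsg.Lib.Class.Form
open scoped MatrixGroups commutatorElement

universe u

variable {G : Type u} [Group G]

section model
variable {F : Type} [Field F] {σ : F →+* F}
variable {X : Type u} [AddCommGroup X] [Module F X] {B : X →ₛₗ[σ] X →ₗ[F] F}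
variable {C : Cfg G} {x y : C.Pt} {ψ : C.Pt → X}

namespace FINp

open Cfg RIGp

theorem tv_conj {v : X} {c : F} {γ : isomGroup B} (h : Tv B v c γ) (g : isomGroup B) :
    Tv B ((g : X ≃ₗ[F] X) v) c (g * γ * g⁻¹) := fun P => by
  rw [isom_mul_apply, isom_mul_apply, h, map_add, map_smul, isom_apply_inv, isom_apply_left]

theorem tv_smul {v : X} {c l : F} {γ : isomGroup B} (h : Tv B (l • v) c γ) :
    Tv B v (c * σ l * l) γ := fun P => by
  rw [h, map_smulₛₗ, LinearMap.smul_apply, smul_smul, smul_eq_mul]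
  congr 2; ring

theorem cmp_conj (ne : ∀ u, ψ u ≠ 0) {g e : G} {γ τ : isomGroup B} (h : Cmp B ψ g γ)
    (h' : Cmp B ψ e (γ⁻¹ * τ * γ⁻¹⁻¹)) : Cmp B ψ (g * e * g⁻¹) τ := by
  have := (h.mul h').mul (h.inv ne)
  rwa [show γ * (γ⁻¹ * τ * γ⁻¹⁻¹) * γ⁻¹ = τ by group] at this

variable [Finite G] (hs : C.HR) (h : GD x y B ψ)
include hs h

theorem cmp_one {g : G} (e : Cmp B ψ g 1) : g = 1 :=
  hs.simple.faith fun u => by
    obtain ⟨l, hl⟩ := e u
    exact (h.inj _ _ l hl).symm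

theorem cmp_uniq {g g' : G} {γ : isomGroup B} (e : Cmp B ψ g γ) (e' : Cmp B ψ g' γ) : g = g' := by
  have := (e.inv h.ne).mul e'
  rw [inv_mul_cancel] at this
  exact inv_mul_eq_one.1 (cmp_one hs h this)

theorem t0 {u : C.Pt} (hu : ¬ Pp x u) {c : F} {τ : isomGroup B} (hτ : Tv B (ψ u) c τ) :
    ∃ g : G, Cmp B ψ g τ := by
  obtain ⟨g, γ, -, gy, k⟩ := h.mv u hu
  obtain ⟨l, hl⟩ := k.inv h.ne u
  rw [← gy, inv_smul_smul, gy] at hl
  have h1 := tv_conj hτ γ⁻¹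
  rw [hl] at h1
  have h2 := tv_smul h1
  obtain ⟨e, he, l', hl'⟩ := h.ey' _ (h.sk.tv_fixed (h.ne y) (h.pres _ _ (Pp_refl y)) h2)
  exact ⟨_, cmp_conj h.ne k (h.rig hs he h2 hl')⟩

theorem t1 {v : X} (hv : B v v = 0) (xv : B (ψ x) v ≠ 0) {c : F} {τ : isomGroup B}
    (hτ : Tv B v c τ) : ∃ g : G, Cmp B ψ g τ := by
  obtain ⟨u, l, rfl⟩ := h.all v hv xv
  refine t0 hs h (u := u) (fun k => xv ?_) (tv_smul hτ)
  rw [map_smul, h.pres _ _ k, smul_zero]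

theorem mvv (h2 : (2 : F) ≠ 0) {v : X} (h0 : v ≠ 0) :
    ∃ (g : G) (γ : isomGroup B), Cmp B ψ g γ ∧ B (ψ x) ((γ : X ≃ₗ[F] X) v) ≠ 0 := by
  by_cases xv : B (ψ x) v = 0
  · obtain ⟨Y, hY, k1, k2⟩ := h.sk.exists_iso h2 (h.ne x) (h.pres _ _ (Pp_refl x)) h0 xv
    obtain ⟨γ, hγ⟩ := h.sk.exists_tv hY (map_one σ)
    obtain ⟨g, hg⟩ := t1 hs h hY k1 hγ
    refine ⟨g, γ, hg, ?_⟩
    rw [hγ, map_add, map_smul, xv, zero_add, one_mul, smul_eq_mul]
    exact mul_ne_zero (sk_ne h.sk k2) k1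
  · exact ⟨1, 1, Cmp.one, xv⟩

theorem t2 (h2 : (2 : F) ≠ 0) {v : X} (hv : B v v = 0) {c : F} {τ : isomGroup B}
    (hτ : Tv B v c τ) : ∃ g : G, Cmp B ψ g τ := by
  by_cases h0 : v = 0
  · refine ⟨1, ?_⟩
    rw [show τ = 1 from isom_ext fun P => by rw [hτ, h0, smul_zero, add_zero]; rfl]
    exact Cmp.one
  obtain ⟨g, γ, k, k'⟩ := mvv hs h h2 h0
  obtain ⟨e, he⟩ := t1 hs h (by rw [isom_apply, hv]) k' (tv_conj hτ γ)
  exact ⟨_, cmp_conj h.ne (k.inv h.ne) (τ := τ) (e := e) (by rw [inv_inv]; exact he)⟩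

theorem pt_of (h2 : (2 : F) ≠ 0) {v : X} (h0 : v ≠ 0) (hv : B v v = 0) :
    ∃ (u : C.Pt) (l : F), v = l • ψ u := by
  obtain ⟨g, γ, k, k'⟩ := mvv hs h h2 h0
  obtain ⟨u, l, e⟩ := h.all _ (by rw [isom_apply, hv]) k'
  obtain ⟨l', e'⟩ := k.inv h.ne u
  refine ⟨g⁻¹ • u, l * l', ?_⟩
  rw [← isom_inv_apply γ v, e, map_smul, e', smul_smul]

theorem ex_cmp (h2 : (2 : F) ≠ 0) {γ : isomGroup B} (hγ : γ ∈ transvGroup B) :
    ∃ g : G, Cmp B ψ g γ := by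
  induction hγ using closure_induction with
  | mem τ hτ =>
    obtain ⟨v, c, hv, hτ⟩ := hτ
    exact t2 hs h h2 hv hτ
  | one => exact ⟨1, Cmp.one⟩
  | mul _ _ _ _ k k' =>
    obtain ⟨g, k⟩ := k
    obtain ⟨g', k'⟩ := k'
    exact ⟨_, k.mul k'⟩
  | inv _ _ k =>
    obtain ⟨g, k⟩ := k
    exact ⟨_, k.inv h.ne⟩

theorem surj (g : G) : ∃ γ ∈ transvGroup B, Cmp B ψ g γ := by
  let H : Subgroup G :=
    { carrier := {g | ∃ γ ∈ transvGroup B, Cmp B ψ g γ}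
      mul_mem' := fun ⟨_, a, k⟩ ⟨_, a', k'⟩ => ⟨_, mul_mem a a', k.mul k'⟩
      one_mem' := ⟨1, one_mem _, Cmp.one⟩
      inv_mem' := fun ⟨_, a, k⟩ => ⟨_, inv_mem a, k.inv h.ne⟩ }
  have Hy : E y ≤ H := fun e he => by
    obtain ⟨c, l, hc, k⟩ := h.ey e he
    obtain ⟨γ, hγ⟩ := h.sk.exists_tv (h.pres _ _ (Pp_refl y)) hc
    exact ⟨γ, IsTransv.mem_transvGroup ⟨_, c, h.pres _ _ (Pp_refl y), hγ⟩, h.rig hs he hγ k⟩
  have Hu : ∀ u, ¬ Pp x u → E u ≤ H := fun u hu e he => by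
    obtain ⟨g, γ, -, gy, k⟩ := h.mv u hu
    rw [← gy, mem_E_smul] at he
    obtain ⟨τ, a, k'⟩ := Hy he
    refine ⟨γ * τ * γ⁻¹, (transvGroup_normal B).conj_mem τ a γ, ?_⟩
    have := (k.mul k').mul (k.inv h.ne)
    rwa [show g * (g⁻¹ * e * g) * g⁻¹ = e by group] at this
  have Hv : ∀ v, E v ≤ H := fun v e he => by
    by_cases hv : Pp x v
    · obtain ⟨y', k1, k2⟩ := hs.simple.z0 hv
      obtain ⟨b, hb⟩ := M_nonempty y'
      have bH : b ∈ H := Hu y' k1 (M_le_E hb)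
      have := Hu (b • v) (fun k => k1 (br_perp k2 hb hv k)) (conj_E b he)
      have := mul_mem (mul_mem (inv_mem bH) this) bH
      rwa [show b⁻¹ * (b * e * b⁻¹) * b = e by group] at this
    · exact Hu v hv he
  exact (iSup_le Hv : _ ≤ H) (hs.simple.iSup_E.ge (mem_top g))

theorem ker_le (h2 : (2 : F) ≠ 0) {γ τ : isomGroup B} (k : Cmp B ψ (1 : G) γ)
    (hτ : τ ∈ transvGroup B) : τ * γ = γ * τ := by
  refine mem_centralizer_singleton_iff.1 ((closure_le (centralizer {γ})).2 ?_ hτ)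
  rintro τ ⟨v, c, hv, hτ⟩
  refine mem_centralizer_singleton_iff.2 ?_
  by_cases h0 : v = 0
  · rw [show τ = 1 from isom_ext fun P => by rw [hτ, h0, smul_zero, add_zero]; rfl,
      one_mul, mul_one]
  obtain ⟨g, hg⟩ := t2 hs h h2 hv hτ
  obtain ⟨u, l, e⟩ := pt_of hs h h2 h0 hv
  obtain ⟨m, hm⟩ := k u
  have e1 : (γ : X ≃ₗ[F] X) v = m • v := by rw [e, map_smul, hm, one_smul, smul_comm]
  have h1 := tv_conj hτ γ
  rw [e1] at h1
  have h3 := tv_smul h1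
  have hg' : Cmp B ψ g (γ * τ * γ⁻¹) := by
    have := (k.mul hg).mul (k.inv h.ne)
    rwa [inv_one, one_mul, mul_one] at this
  obtain ⟨t, ht⟩ : ∃ t, B v (ψ t) ≠ 0 := by
    by_cases xv : B (ψ x) v = 0
    · obtain ⟨Y, hY, k1, k2⟩ := h.sk.exists_iso h2 (h.ne x) (h.pres _ _ (Pp_refl x)) h0 xv
      obtain ⟨t, l, rfl⟩ := h.all Y hY k1
      exact ⟨t, fun k => k2 (by rw [map_smul, k, smul_zero])⟩
    · exact ⟨x, sk_ne h.sk xv⟩
  obtain ⟨l1, a1⟩ := hg t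
  obtain ⟨l2, a2⟩ := hg' t
  rw [hτ] at a1
  rw [h3] at a2
  have b1 := congrArg (B v) a1
  have b2 := congrArg (B v) a2
  simp only [map_add, map_smul, hv, mul_zero, add_zero, smul_eq_mul] at b1 b2
  have l12 : l1 = l2 := mul_right_cancel₀ (b := B v (ψ (g • t)))
    (fun k => ht (by rw [b1, k, mul_zero])) (b1.symm.trans b2)
  rw [← l12, ← a1, add_right_inj] at a2
  have c12 := mul_right_cancel₀ ht (smul_left_injective F h0 a2)
  rw [c12] at h3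
  have : γ * τ * γ⁻¹ = τ := isom_ext fun P => by rw [h3, hτ]
  exact (mul_inv_eq_iff_eq_mul.1 this).symm

end FINp

open FINp in
theorem GD.iso [Finite G] (hs : C.HR) (h : GD x y B ψ) (h2 : (2 : F) ≠ 0) :
    Nonempty (G ≃* (transvGroup B ⧸ center (transvGroup B))) := by
  choose θ hθ using fun γ : transvGroup B => ex_cmp hs h h2 γ.2
  let Θ : transvGroup B →* G := MonoidHom.mk' θ fun a b =>
    cmp_uniq hs h (hθ (a * b)) ((hθ a).mul (hθ b))
  have sj : Function.Surjective Θ := fun g => by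
    obtain ⟨γ, a, k⟩ := surj hs h g
    exact ⟨⟨γ, a⟩, cmp_uniq hs h (hθ _) k⟩
  have kr : Θ.ker = center (transvGroup B) := by
    ext γ
    rw [MonoidHom.mem_ker, mem_center_iff]
    refine ⟨fun e τ => Subtype.ext (ker_le hs h h2 ?_ τ.2), fun e => ?_⟩
    · have := hθ γ
      rwa [show θ γ = 1 from e] at this
    · refine hs.simple.cent_eq_one fun a _ => ?_
      obtain ⟨τ, rfl⟩ := sj a
      rw [← map_mul, ← map_mul, e]
  exact ⟨(QuotientGroup.quotientKerEquivOfSurjective Θ sj).symm.trans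
    (QuotientGroup.quotientMulEquivOfEq kr)⟩

end model

end Cfsg.Lib.PT
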