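import Cfsg.Agent.PT.BD

/-!
# Tower `PT`: simple quotients of rank one subconfigurations
-/

set_option autoImplicit false
set_option linter.unusedSectionVars false

namespace Cfsg.Lib.PT

open Matrix Subgroup
open scoped MatrixGroups commutatorElement

universe u

variable {G : Type u} [Group G]

namespace SQp

theorem exists_simple (G : Type*) [Group G] [Finite G] [Nontrivial G] :
    ∃ (N : Subgroup G) (_ : N.Normal), N ≠ ⊤ ∧ IsSimpleGroup (G ⧸ N) := by
  obtain ⟨N, ⟨hN, hN'⟩, hmax⟩ := Set.Finite.exists_maximal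
    (s := {N : Subgroup G | N.Normal ∧ N ≠ ⊤}) (Set.toFinite _) ⟨⊥, inferInstance, bot_ne_top⟩
  refine ⟨N, hN, hN', ?_⟩
  have : Nontrivial (G ⧸ N) := QuotientGroup.nontrivial_iff.2 hN'
  refine ⟨fun L hL => ?_⟩
  have hle : N ≤ L.comap (QuotientGroup.mk' N) := fun x hx => by
    rw [mem_comap, show QuotientGroup.mk' N x = 1 from (QuotientGroup.eq_one_iff x).2 hx]
    exact L.one_mem
  have hL' := map_comap_eq_self_of_surjective (QuotientGroup.mk'_surjective N) L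
  by_cases h : L.comap (QuotientGroup.mk' N) = ⊤
  · right
    rw [← hL', h, map_top_of_surjective _ (QuotientGroup.mk'_surjective N)]
  · left
    rw [← hL', Subgroup.map_eq_bot_iff, QuotientGroup.ker_mk']
    exact hmax ⟨hL.comap _, h⟩ hle

open Cfg

variable {C : Cfg G}

theorem mem_M (r1 : C.R1) {x : C.Pt} {a c : G} (ha : a ∈ M x) (hc : c ∈ C.D)
    (e : c * a = a * c) : c ∈ M x :=
  r1 _ _ ((Pp_iff (mem_pnt hc) ha).2 e) ▸ mem_pnt hc

theorem tr (r1 : C.R1) {a b c : G} (ha : a ∈ C.D) (hb : b ∈ C.D) (hc : c ∈ C.D)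
    (e1 : a * b = b * a) (e2 : b * c = c * b) : a * c = c * a :=
  Pp_refl _ _ (mem_M r1 (mem_pnt hb) ha e1) _ (mem_M r1 (mem_pnt hb) hc e2.symm)

theorem DK_le (x y : C.Pt) : closure (DK x y) ≤ KK x y := by
  refine (closure_le _).2 ?_
  rintro c ⟨g, hg, hc⟩
  have := mul_mem (mul_mem hg (mem_sup_left (M_le_E (mem_M_smul.1 hc)) : _ ∈ KK x y)) (inv_mem hg)
  rwa [show g * (g⁻¹ * c * g) * g⁻¹ = c by group] at this

end SQp

namespace Cfg
variable {C : Cfg G} {x y s : C.Pt} {a b c e g : G}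

section SQ
variable [Finite G] {D' : Set G}

theorem Sub.sq (hs : C.Sub D') (ha : a ∈ D') (hb : b ∈ D') (nc : a * b ≠ b * a) :
    ∃ (H : Type u) (_ : Group H) (_ : Finite H) (C' : Cfg H) (π : closure D' →* H),
      SQ C D' H C' π := by
  have : Nontrivial (closure D') := ⟨⟨a, subset_closure ha⟩, ⟨b, subset_closure hb⟩, fun e =>
    nc (by rw [show a = b from congrArg Subtype.val e])⟩
  obtain ⟨N, _, hN, hS⟩ := SQp.exists_simple (closure D')
  have mem : ∀ u : closure D', (u : G) ∈ N.map (closure D').subtype ↔ u ∈ N := fun u =>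
    mem_map_iff_mem (closure D').subtype_injective
  have nm : ∀ g ∈ closure D', ∀ n ∈ N.map (closure D').subtype,
      g * n * g⁻¹ ∈ N.map (closure D').subtype := by
    rintro g hg _ ⟨n, hn, rfl⟩
    exact ⟨_, Normal.conj_mem inferInstance n hn ⟨g, hg⟩, rfl⟩
  have key : ∀ c ∈ D', ∀ d ∈ D', c ∉ N.map (closure D').subtype →
      ⁅c, d⁆ ∈ N.map (closure D').subtype → c * d = d * c := fun c hc d hd =>
    reflect _ (hs.sub hc) (hs.sub hd) fun g hg =>
      nm g (closure_mono (Set.pair_subset hc hd) hg)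
  have step : ∀ d ∈ D', d ∈ N.map (closure D').subtype → ∀ c ∈ D', c * d ≠ d * c →
      c ∈ N.map (closure D').subtype := fun d hd dN c hc n => by
    by_contra k
    exact n (key c hc d hd k (mul_mem (nm c (subset_closure hc) d dN) (inv_mem dN)))
  have nd : ∀ d ∈ D', d ∉ N.map (closure D').subtype := fun d hd dN => by
    obtain ⟨b0, hb0, n⟩ : ∃ b0 ∈ D', b0 * d ≠ d * b0 := by
      by_contra! k
      exact nc (hs.r1 a ha d hd b hb (k a ha) (k b hb).symm)
    refine hN (eq_top_iff.2 fun u _ => (mem u).1 ((closure_le _).2 (fun c hc => ?_) u.2))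
    by_cases k : c * d = d * c
    · exact step b0 hb0 (step d hd dN b0 hb0 n) c hc fun e => n (hs.r1 b0 hb0 c hc d hd e.symm k)
    · exact step d hd dN c hc k
  let π := QuotientGroup.mk' N
  have rf : ∀ a b : closure D', (a : G) ∈ D' → (b : G) ∈ D' → π a * π b = π b * π a →
      (a : G) * b = b * a := fun a b ha hb e => key a ha b hb (nd a ha) ((mem ⁅a, b⁆).2 (by
    rw [← QuotientGroup.ker_mk' N, MonoidHom.mem_ker, map_commutatorElement]
    exact commutatorElement_eq_one_iff_mul_comm.2 e))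
  have cm : ∀ a b : closure D', (a : G) * b = b * a → π a * π b = π b * π a := fun a b e => by
    rw [← map_mul, ← map_mul, show a * b = b * a from Subtype.ext e]
  let C' : Cfg (closure D' ⧸ N) :=
    { p := C.p
      D := π '' (Subtype.val ⁻¹' D')
      prime := C.prime
      five := C.five
      ord := by
        rintro _ ⟨u, hu, rfl⟩
        refine orderOf_eq_prime ?_ fun e => nd u hu ((mem u).2 ((QuotientGroup.eq_one_iff u).1 e))
        rw [← map_pow, show u ^ C.p = 1 from Subtype.ext (pow_p (hs.sub hu)), map_one]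
      conj := by
        rintro _ ⟨u, hu, rfl⟩ g
        obtain ⟨g, rfl⟩ := QuotientGroup.mk'_surjective N g
        exact ⟨g * u * g⁻¹, hs.conj u hu g g.2, rfl⟩
      pow := by
        rintro _ ⟨u, hu, rfl⟩ k hk
        exact ⟨u ^ k, hs.pow u hu k hk, map_pow _ _ _⟩
      pair := by
        rintro _ ⟨u, hu, rfl⟩ _ ⟨v, hv, rfl⟩ n
        exact (Gen2.sub _ (C.pair u (hs.sub hu) v (hs.sub hv) fun e => n (cm u v e))).map
          C.prime C.five π n }
  have h1 : C'.Simple := ⟨by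
    change closure (π '' _) = ⊤
    rw [← MonoidHom.map_closure, closure_closure_coe_preimage,
      map_top_of_surjective _ (QuotientGroup.mk'_surjective N)], hS,
    _, ⟨⟨a, subset_closure ha⟩, ha, rfl⟩, _, ⟨⟨b, subset_closure hb⟩, hb, rfl⟩,
    fun e => nc (rf _ _ ha hb e)⟩
  have h2 : C'.R1 := fun x y h => by
    obtain ⟨u, hu⟩ := M_nonempty x
    obtain ⟨v, hv⟩ := M_nonempty y
    have e := h u hu v hv
    refine ext_M ((mem_M_iff hu).2 ⟨mem_D hv, ?_⟩) hv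
    obtain ⟨u, hu', rfl⟩ := mem_D hu
    obtain ⟨v, hv', rfl⟩ := mem_D hv
    rintro _ ⟨w, hw, rfl⟩
    exact ⟨fun k => cm _ _ (hs.r1 w hw v hv' u hu' (rf _ _ hw hv' k) (rf _ _ hu' hv' e).symm),
      fun k => cm _ _ (hs.r1 w hw u hu' v hv' (rf _ _ hw hu' k) (rf _ _ hu' hv' e))⟩
  refine ⟨_, inferInstance, inferInstance, C', π, rfl, QuotientGroup.mk'_surjective N,
    fun _ => Iff.rfl, rf, fun g => ⟨fun e c hc => ?_, fun e => h1.faith fun x => ?_⟩, h1, h2⟩
  · exact rf (g * ⟨c, subset_closure hc⟩ * g⁻¹) ⟨c, subset_closure hc⟩ (hs.conj c hc g g.2) hc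
      (by rw [map_mul, map_mul, map_inv, e, one_mul, inv_one, mul_one])
  · obtain ⟨u, hu⟩ := M_nonempty x
    refine h2 _ _ ((Pp_iff (conj_mem _ hu) hu).2 ?_)
    obtain ⟨u, hu', rfl⟩ := mem_D hu
    exact cm (g * u * g⁻¹) u (e u hu')

theorem Sub.good (hs : C.Sub D') (ih : IH.{u} C.p (Nat.card G)) (ha : a ∈ D') (hb : b ∈ D')
    (nc : a * b ≠ b * a) (ne : closure D' ≠ ⊤) : Good C D' := by
  obtain ⟨H, _, _, C', π, h⟩ := hs.sq ha hb nc
  refine ⟨H, _, inferInstance, C', π, h, ih H C' h.p ((Nat.card_le_card_of_surjective π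
    h.surj).trans_lt ?_) h.simple h.r1⟩
  rw [← card_top (G := G)]
  exact lt_of_le_of_ne (card_le_of_le le_top) fun e => ne (eq_of_le_of_card_ge le_top e.ge)

theorem Sub.good' (hs : C.Sub D') (ih : ∀ n, IH.{u} C.p n) (ha : a ∈ D') (hb : b ∈ D')
    (nc : a * b ≠ b * a) : Good C D' := by
  obtain ⟨H, _, _, C', π, h⟩ := hs.sq ha hb nc
  exact ⟨H, _, inferInstance, C', π, h, ih _ H C' h.p (Nat.lt_succ_self _) h.simple h.r1⟩

theorem sub_cent (r1 : C.R1) (X : Set G) : C.Sub (C.D ∩ centralizer X) :=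
  ⟨Set.inter_subset_left, fun a ha g hg =>
    have hg := (closure_le (centralizer X)).2 Set.inter_subset_right hg
    ⟨C.conj a ha.1 g, mul_mem (mul_mem hg ha.2) (inv_mem hg)⟩,
    fun a ha k hk => ⟨C.pow a ha.1 k hk, pow_mem ha.2 k⟩,
    fun _ ha _ hb _ hc => SQp.tr r1 ha.1 hb.1 hc.1⟩

theorem sub_DK (r1 : C.R1) (x y : C.Pt) : C.Sub (DK x y) :=
  ⟨fun _ ⟨_, _, h⟩ => mem_D h, fun _ ⟨g, hg, h⟩ k hk =>
    ⟨k * g, mul_mem (SQp.DK_le x y hk) hg, mul_smul k g x ▸ conj_mem k h⟩,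
    fun _ ⟨g, hg, h⟩ _ hk => ⟨g, hg, pow_M h hk⟩,
    fun _ ⟨_, _, ha⟩ _ ⟨_, _, hb⟩ _ ⟨_, _, hc⟩ => SQp.tr r1 (mem_D ha) (mem_D hb) (mem_D hc)⟩

theorem M_sub_DK (opp : ¬ Pp x y) : M x ⊆ DK x y ∧ M y ⊆ DK x y := by
  obtain ⟨a, b, h⟩ := exists_BP opp
  exact ⟨fun c hc => ⟨1, one_mem _, by rwa [one_smul]⟩,
    fun c hc => ⟨_, h.ww_KK, by rwa [h.ww_x]⟩⟩

theorem closure_DK (opp : ¬ Pp x y) : closure (DK x y) = KK x y :=
  (SQp.DK_le x y).antisymm
    ((KK_eq x y).trans_le (closure_mono (Set.union_subset (M_sub_DK opp).1 (M_sub_DK opp).2)))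

theorem E'_le (r1 : C.R1) (hs : D' ⊆ C.D) (ha : a ∈ M x) : E' D' a ≤ E x :=
  closure_mono fun _ hc => SQp.mem_M r1 ha (hs hc.1) hc.2

theorem E'_eq (r1 : C.R1) (hs : D' ⊆ C.D) (ha : a ∈ M x) (h : M x ⊆ D') : E' D' a = E x :=
  (E'_le r1 hs ha).antisymm (closure_mono fun c hc => ⟨h hc, Pp_refl x c hc a ha⟩)

theorem triv_iff (r1 : C.R1) (hs : D' ⊆ C.D) :
    Triv D' g ↔ ∀ u : C.Pt, (∃ c ∈ D', c ∈ M u) → g • u = u :=
  ⟨fun h _ ⟨c, hc, hu⟩ => r1 _ _ ((Pp_iff (conj_mem g hu) hu).2 (h c hc)), fun h c hc =>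
    have k := mem_pnt (hs hc)
    Pp_refl _ _ ((smul_eq_iff k).1 (h _ ⟨c, hc, k⟩)) c k⟩

end SQ

end Cfg

end Cfsg.Lib.PT
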