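import Cfsg.Agent.PT.Defs4
import Cfsg.Agent.PT.W1
import Cfsg.Agent.PT.SQ

/-!
# Tower `PT`: Heisenberg tools and singular lines
-/

set_option autoImplicit false
set_option linter.unusedSectionVars false

namespace Cfsg.Lib.PT

open Matrix Subgroup Cfsg.Lib.Class.Form
open scoped MatrixGroups commutatorElement

universe u

variable {G : Type u} [Group G]

namespace HTL

variable {p : ℕ} [Fact p.Prime] {a b c n m ζ : G}

/-- coordinates on the abelian group generated by `a`, `n`, `ζ` -/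
def F (a n ζ : G) (i j k : ZMod p) : G := pw a i * pw n j * pw ζ k

theorem cpw {x y : G} (h : x * y = y * x) (i j : ZMod p) : Commute (pw x i) (pw y j) :=
  Commute.pow_pow h _ _

theorem F_mul (H : Heis p a b c n m ζ) (ha : a ^ p = 1) (i j k i' j' k' : ZMod p) :
    F a n ζ i j k * F a n ζ i' j' k' = F a n ζ (i + i') (j + j') (k + k') := by
  simp only [F, pw_add ha, pw_add H.np, pw_add H.ζp]
  rw [Commute.mul_mul_mul_comm ((cpw H.ζa k i').mul_right (cpw H.ζn k j')),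
    (cpw H.na j i').mul_mul_mul_comm]

theorem F_nat (H : Heis p a b c n m ζ) (k : ℕ) :
    F a n ζ (1 : ZMod p) k (k ^ 2) = m ^ k * a * (m ^ k)⁻¹ := by
  rw [H.ck, F, pw_one, pw_natCast H.np, ← Nat.cast_pow, pw_natCast H.ζp]

theorem of_pw {U : Subgroup G} (ha : a ^ p = 1) {k : ZMod p} (hk : k ≠ 0) (h : pw a k ∈ U) :
    a ∈ U := by
  have := pw_mem h k⁻¹
  rwa [pw_pw ha, mul_inv_cancel₀ hk, pw_one] at this

theorem F_sub (H : Heis p a b c n m ζ) (ha : a ^ p = 1) {U : Subgroup G} {i j k i' j' k' : ZMod p}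
    (h : F a n ζ i j k ∈ U) (h' : F a n ζ i' j' k' ∈ U) :
    F a n ζ (i - i') (j - j') (k - k') ∈ U := by
  rw [← mul_mem_cancel_right h', F_mul H ha, sub_add_cancel, sub_add_cancel, sub_add_cancel]
  exact h

theorem vand (H : Heis p a b c n m ζ) (ha : a ^ p = 1) (h5 : 5 ≤ p) {U : Subgroup G}
    {i j : ZMod p} (hij : i ≠ j) (h1 : F a n ζ 1 i (i ^ 2) ∈ U) (h2 : F a n ζ 1 j (j ^ 2) ∈ U)
    (h3 : F a n ζ 1 (2 * j - i) ((2 * j - i) ^ 2) ∈ U) : a ∈ U ∧ n ∈ U ∧ ζ ∈ U := by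
  have d := sub_ne_zero.2 hij.symm
  have k1 := F_sub H ha h2 h1
  have k2 := F_sub H ha (F_sub H ha h3 h2) k1
  rw [show 2 * j - i - j - (j - i) = 0 by ring, show (2 * j - i) ^ 2 - j ^ 2 - (j ^ 2 - i ^ 2) =
    2 * (j - i) ^ 2 by ring, sub_self, F, pw_zero, one_mul, pw_zero, one_mul] at k2
  have hz := of_pw H.ζp (mul_ne_zero (Mat.two_ne _ h5) (pow_ne_zero 2 d)) k2
  rw [sub_self, F, pw_zero, one_mul, mul_mem_cancel_right (pw_mem hz _)] at k1
  have hn := of_pw H.np d k1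
  rw [F, pw_one, mul_mem_cancel_right (pw_mem hz _), mul_mem_cancel_right (pw_mem hn _)] at h1
  exact ⟨h1, hn, hz⟩

theorem F_ker (H : Heis p a b c n m ζ) (ha : a ^ p = 1) (h5 : 5 ≤ p) (br : Br a b)
    (nc : a * b ≠ b * a) {i j k : ZMod p} (e : F a n ζ i j k = 1) : i = 0 := by
  have zζ : zz a b * ζ = ζ * zz a b :=
    mem_centralizer_singleton_iff.1 (zz_mem (H := centralizer {ζ})
      (mem_centralizer_singleton_iff.2 H.ζa.symm) (mem_centralizer_singleton_iff.2 H.ζb.symm))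
  have e' : F a n ζ i (-j) k = 1 := by
    have := congrArg (fun x => zz a b * x * (zz a b)⁻¹) e
    simp only [F, ← conj_mul, conj_pw, H.zn, br.zz_a, zζ, mul_inv_cancel_right, mul_one,
      mul_inv_cancel, inv_pw] at this
    rwa [F, pw_neg H.np]
  have k1 := F_mul H ha i j k i (-j) k
  rw [e, e', one_mul, add_neg_cancel, F, pw_zero, mul_one] at k1
  by_contra hi
  refine nc (mem_centralizer_singleton_iff.1 (of_pw (U := centralizer {b}) ha (k := i + i)
    (by rw [← two_mul]; exact mul_ne_zero (Mat.two_ne _ h5) hi) ?_))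
  rw [eq_inv_of_mul_eq_one_left k1.symm]
  exact inv_mem (pw_mem (mem_centralizer_singleton_iff.2 H.ζb) _)

theorem cl_comm {S T : Set G} (h : ∀ s ∈ S, ∀ t ∈ T, s * t = t * s) {x y : G} (hx : x ∈ closure S)
    (hy : y ∈ closure T) : x * y = y * x :=
  mem_centralizer_singleton_iff.1 ((closure_le (centralizer {y})).2 (fun s hs =>
    mem_centralizer_singleton_iff.2 (mem_centralizer_singleton_iff.1
      ((closure_le (centralizer {s})).2
        (fun t ht => mem_centralizer_singleton_iff.2 (h s hs t ht).symm) hy)).symm) hx)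

theorem cl_conj {S : Set G} {U : Subgroup G} (g : G) (h : ∀ s ∈ S, g * s * g⁻¹ ∈ U) {x : G}
    (hx : x ∈ closure S) : g * x * g⁻¹ ∈ U :=
  (closure_le (U.comap (MulAut.conj g).toMonoidHom)).2 h hx

end HTL

namespace Cfg
variable {C : Cfg G} {x y r r' s u v : C.Pt} {a b c d e g n m ζ z : G}

open HTL

theorem heis_swap (H : Heis C.p a b c n m ζ) (h : C.BD a b) :
    Heis C.p b a (b * m * ζ) m n⁻¹ ζ := by
  refine heis_of h.symm (fun e => H.n_ne ?_) H.mp H.ζp H.ζb.symm H.ζa.symm H.ζm.symm H.mb.symm rfl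
    (by rw [h.br.ww_symm, H.wm]) (by rw [h.br.ww_symm, H.m_eq]; group) ?_
    (by simpa using H.bk 1)
  · simpa [e] using H.wm
  · calc _ = n⁻¹ * (m * n * m⁻¹ * n⁻¹) * n := by group
      _ = _ := by rw [H.comm, mul_assoc, (Commute.pow_left H.ζn 2).eq, inv_mul_cancel_left]

theorem heis_D (H : Heis C.p a b c n m ζ) (h : C.BD a b) (k : ℕ) :
    a * n ^ k * ζ ^ (k ^ 2) ∈ C.D := H.ck k ▸ C.conj a h.ha _

theorem heis_two (H : Heis C.p a b c n m ζ) (h : C.BD a b) (hd : d ∈ C.D) {i j : ℕ}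
    (hij : (i : ZMod C.p) ≠ j) (hi : d * (m ^ i * a * (m ^ i)⁻¹) = m ^ i * a * (m ^ i)⁻¹ * d)
    (hj : d * (m ^ j * a * (m ^ j)⁻¹) = m ^ j * a * (m ^ j)⁻¹ * d) :
    d * a = a * d ∧ d * n = n * d ∧ d * ζ = ζ * d := by
  have ha := pow_p h.ha
  rw [← F_nat H] at hi hj
  have h1 := mem_centralizer_singleton_iff.2 hi.symm
  have h2 := mem_centralizer_singleton_iff.2 hj.symm
  have hD : ∀ k : ZMod C.p, F a n ζ 1 k (k ^ 2) ∈ C.D := fun k => by
    rw [← ZMod.natCast_zmod_val k, F_nat H]; exact C.conj a h.ha _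
  generalize (i : ZMod C.p) = i at *
  generalize (j : ZMod C.p) = j at *
  refine (vand H ha C.five hij h1 h2 (by_contra fun h3 => ?_)).imp
    (fun e => (mem_centralizer_singleton_iff.1 e).symm) (And.imp
      (fun e => (mem_centralizer_singleton_iff.1 e).symm)
      fun e => (mem_centralizer_singleton_iff.1 e).symm)
  have h4 := F_sub H ha (F_sub H ha (F_sub H ha h1 h2) h2) h2
  have p3 : ¬ C.p ∣ 3 := fun e => by have := Nat.le_of_dvd (by omega) e; have := C.five; omega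
  have h5 := C.pow _ (hD (2 * j - i)) 3 p3
  have h6 : F a n ζ 1 (2 * j - i) ((2 * j - i) ^ 2) ^ 3 ∉ centralizer {d} := fun e => h3
    (of_pw (pow_p (hD _)) (k := (3 : ℕ)) (mt (ZMod.natCast_eq_zero_iff _ _).1 p3)
      (by rwa [pw_natCast (pow_p (hD _))]))
  simp only [pow_succ _ (_ + 1), pow_one (F _ _ _ _ _ _), zero_add, F_mul H ha] at h5 h6
  have h7 := F_ker H ha C.five h.br h.nc (l1 h5 hd (mt mem_centralizer_singleton_iff.2 h6) (k := 1)
    (by
      rw [pow_one, F, ((cpw H.ζa _ _).mul_right (cpw H.ζn _ _)).symm.mul_pow,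
        (cpw H.na _ _).symm.mul_pow, pw_pow ha, pw_pow H.np, pw_pow H.ζp, one_mul, one_mul])
    (by rw [F_mul H ha, F_mul H ha]; congr 1 <;> ring) (mem_centralizer_singleton_iff.1 h4)
    (by rw [F_mul H ha]; convert hD (3 * j - 2 * i) using 2 <;> ring))
  exact Mat.two_ne (ZMod C.p) C.five (by linear_combination -h7)

theorem br_perp (opp : ¬ Pp x y) (hb : b ∈ M y) (h1 : Pp v x) (h2 : Pp v (b • x)) : Pp v y := by
  obtain ⟨a, h⟩ := exists_partner hb (mt Pp.symm opp)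
  obtain ⟨d, hd⟩ := M_nonempty v
  have k1 : Commute d a := h1 d hd a h.hb
  have k2 : Commute d (b * a * b⁻¹) := h2 d hd _ (conj_mem b h.hb)
  have e : b = a * (b * a * b⁻¹) * a⁻¹ := by
    rw [← mul_assoc, ← mul_assoc, ← show b * a * b = a * b * a from h.br]; group
  rw [Pp_iff hd hb]
  exact e ▸ ((k1.mul_right k2).mul_right k1.inv_right).eq

theorem Simple.conn (h : C.Simple) (A : Set C.Pt) (hx : x ∈ A)
    (hA : ∀ u ∈ A, ∀ v, ¬ Pp u v → v ∈ A) (u : C.Pt) : u ∈ A := by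
  have k : ∀ a ∈ C.D, ∀ u ∈ A, a • u ∈ A := fun a ha u hu => by
    obtain ⟨s, hs⟩ := exists_pt ha
    by_cases e : Pp s u
    · rwa [(smul_fix_iff hs).2 e]
    · refine hA s (hA u hu s (mt Pp.symm e)) _ fun e' => e ((Pp_smul a).1 ?_)
      rwa [(smul_fix_iff hs).2 (Pp_refl s)]
  have k2 : ∀ g ∈ closure C.D, ∀ u, u ∈ A ↔ g • u ∈ A := fun g hg => by
    induction hg using closure_induction with
    | mem a ha => exact fun u => ⟨k a ha u, fun e => by simpa using k _ (inv_D ha) _ e⟩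
    | one => simp
    | mul a b _ _ ha hb => intro u; rw [mul_smul, ← ha, ← hb]
    | inv a _ ha => intro u; rw [ha (a⁻¹ • u), smul_inv_smul]
  obtain ⟨g, rfl⟩ := h.trans x u
  exact (k2 g (h.gen ▸ mem_top g) x).1 hx

theorem exists_triple (h : Pp x v) (ne : x ≠ v) (h1 : BP x y a b) (opp : ¬ Pp v y) :
    ∃ c n m ζ, BP v y c b ∧ Heis C.p a b c n m ζ ∧ m • x = v ∧ m • y = y := by
  obtain ⟨c, h2⟩ := exists_partner h1.hb (mt Pp.symm opp)
  obtain ⟨n, m, ζ, H, -⟩ := exists_heis h1.bd h2.symm.bd (h a h1.ha c h2.hb)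
    fun e => ne (ext_M h1.ha (e ▸ h2.hb))
  refine ⟨c, n, m, ζ, h2.symm, H, (smul_eq_iff h1.ha).2 ?_, fix_of_comm h1.hb H.mb⟩
  have := H.ck 1
  rw [pow_one, pow_one, one_pow, pow_one, ← H.c_eq] at this
  exact this ▸ h2.hb

theorem Simple.z0 (h : C.Simple) (hP : Pp x v) : ∃ y, ¬ Pp x y ∧ ¬ Pp v y := by
  refine (h.conn {s | ¬ Pp x s ∨ ∃ u, ¬ Pp x u ∧ ¬ Pp s u} (x := x)
    (Or.inr ((h.exists_opp x).imp fun _ e => ⟨e, e⟩)) (fun s hs t ht => ?_) v).resolve_left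
      (not_not.2 hP)
  refine or_iff_not_imp_left.2 fun h1 => ?_
  rw [not_not] at h1
  by_cases h2 : Pp x s
  swap
  · exact ⟨s, h2, mt Pp.symm ht⟩
  obtain ⟨y, y1, y2⟩ := hs.resolve_left (not_not.2 h2)
  by_cases h3 : Pp t y
  swap
  · exact ⟨y, y1, h3⟩
  obtain ⟨a, b, bp⟩ := exists_BP y1
  obtain ⟨c, n, m, ζ, bp', H, -⟩ := exists_triple h2 (fun e => ht (e ▸ h1)) bp y2
  refine ⟨n⁻¹ • y, fun e => y1 ((Pp_smul n⁻¹).1 ?_), fun e => ht ?_⟩
  · rwa [fix_of_comm bp.ha (Commute.inv_left H.na).eq]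
  obtain ⟨d, hd⟩ := M_nonempty t
  obtain ⟨k1, k2, k3⟩ := heis_two (heis_swap H bp.bd) bp.bd.symm (mem_D hd) (i := 0) (j := 1)
    (by simp) (by simpa using h3 d hd b bp.hb)
    (by rw [pow_one]; exact e d hd _ (conj_mem _ bp.hb))
  have k0 : Commute d a := h1.symm d hd a bp.ha
  have k4 : Commute d (ww a b) := (k0.mul_right k1).mul_right k0
  have k5 : Commute d n := Commute.inv_right_iff.1
    (H.wm ▸ (k4.mul_right k2).mul_right k4.inv_right)
  rw [Pp_iff bp'.ha hd, H.c_eq]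
  exact ((k0.mul_right k5).mul_right k3).symm.eq

theorem left_mem_pl (x v : C.Pt) : x ∈ pl x v := fun _ h _ => h
theorem right_mem_pl (x v : C.Pt) : v ∈ pl x v := fun _ _ h => h
theorem pl_symm (x v : C.Pt) : pl x v = pl v x :=
  Set.ext fun _ => ⟨fun h s h1 h2 => h s h2 h1, fun h s h1 h2 => h s h2 h1⟩
theorem pl_perp (h : Pp x v) (hu : u ∈ pl x v) (hs : s ∈ pl x v) : Pp u s :=
  hs u (hu x (Pp_refl x) h).symm (hu v h.symm (Pp_refl v)).symm
theorem pl_sub (hu : u ∈ pl x v) (hs : s ∈ pl x v) : pl u s ⊆ pl x v :=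
  fun _ ht r h1 h2 => ht r (hu r h1 h2) (hs r h1 h2)
theorem smul_mem_pl (g : G) : g • u ∈ pl (g • x) (g • v) ↔ u ∈ pl x v :=
  ⟨fun h s h1 h2 => (Pp_smul g).1 (h _ ((Pp_smul g).2 h1) ((Pp_smul g).2 h2)), fun h s h1 h2 => by
    rw [← smul_inv_smul g s, Pp_smul] at h1 h2 ⊢
    exact h _ h1 h2⟩

theorem heis_pl (h1 : BP x y a b) (h2 : BP v y c b) (H : Heis C.p a b c n m ζ) (k : ℕ) :
    m ^ k • x ∈ pl x v := fun s s1 s2 => by
  obtain ⟨d, hd⟩ := M_nonempty s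
  obtain ⟨k1, k2, k3⟩ := heis_two H h1.bd (mem_D hd) (i := 0) (j := 1) (by simp)
    (by simpa using s1 d hd a h1.ha)
    (by rw [H.ck, pow_one, one_pow, pow_one, ← H.c_eq]; exact s2 d hd c h2.ha)
  rw [Pp_iff hd (conj_mem _ h1.ha), H.ck]
  exact ((Commute.mul_right k1 (Commute.pow_right k2 k)).mul_right (Commute.pow_right k3 _)).eq

theorem heis_EL (h1 : BP x y a b) (h2 : BP v y c b) (H : Heis C.p a b c n m ζ) :
    n ∈ EL x v ∧ ζ ∈ EL x v := by
  have k : ∀ k : ZMod C.p, F a n ζ 1 k (k ^ 2) ∈ EL x v := fun k => by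
    rw [← ZMod.natCast_zmod_val k, F_nat H]
    exact subset_closure ⟨_, heis_pl h1 h2 H _, conj_mem _ h1.ha⟩
  exact (vand H (pow_p h1.bd.ha) C.five zero_ne_one (k _) (k _) (k _)).2

theorem E_le_EL (hu : u ∈ pl x v) : E u ≤ EL x v := closure_mono fun _ h => ⟨u, hu, h⟩
theorem EL_symm (x v : C.Pt) : EL x v = EL v x := by rw [EL, pl_symm, EL]
theorem EL_comm (h : Pp x v) (he : e ∈ EL x v) (hg : g ∈ EL x v) : e * g = g * e :=
  cl_comm (by rintro _ ⟨_, hu, h1⟩ _ ⟨_, hs, h2⟩; exact pl_perp h hu hs _ h1 _ h2) he hg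
theorem EL_pow (h : Pp x v) (he : e ∈ EL x v) : e ^ C.p = 1 := by
  induction he using closure_induction with
  | mem a ha => exact pow_p (mem_D ha.choose_spec.2)
  | one => exact one_pow _
  | mul a b h1 h2 ha hb => rw [Commute.mul_pow (EL_comm h h1 h2), ha, hb, one_mul]
  | inv a _ ha => rw [inv_pow, ha, inv_one]
theorem EL_le_CC (h1 : Pp s x) (h2 : Pp s v) : EL x v ≤ CC s :=
  (closure_le _).2 fun _ ⟨_, hu, hc⟩ => mem_CC.2 fun a ha => (hu s h1 h2 a ha _ hc).symm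
theorem conj_EL (g : G) (he : e ∈ EL x v) : g * e * g⁻¹ ∈ EL (g • x) (g • v) :=
  cl_conj g (by
    rintro _ ⟨_, hu, hc⟩
    exact Subgroup.subset_closure ⟨_, (smul_mem_pl g).2 hu, conj_mem g hc⟩) he
theorem mem_VV (h : Pp x v) : n ∈ VV x v z ↔ n ∈ EL x v ∧ z * n * z⁻¹ = n⁻¹ := by
  refine ⟨fun hn => ?_, fun hn => subset_closure hn⟩
  induction hn using closure_induction with
  | mem a ha => exact ha
  | one => exact ⟨one_mem _, by simp⟩
  | mul a b _ _ ha hb =>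
    exact ⟨mul_mem ha.1 hb.1, by rw [← conj_mul, ha.2, hb.2, EL_comm h ha.1 hb.1, _root_.mul_inv_rev]⟩
  | inv a _ ha => exact ⟨inv_mem ha.1, by rw [← conj_inv, ha.2]⟩
theorem conj_VV (g : G) (hn : n ∈ VV x v z) :
    g * n * g⁻¹ ∈ VV (g • x) (g • v) (g * z * g⁻¹) :=
  cl_conj g (by
    rintro s ⟨h1, h2⟩
    exact Subgroup.subset_closure ⟨conj_EL g h1, by rw [conj_inv (a := s), ← h2]; group⟩) hn
theorem Δ_symm (x y : C.Pt) : Δ x y = Δ y x := Set.ext fun _ => and_comm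
theorem KK_le_CC (hr : r ∈ Δ x y) : KK x y ≤ CC r := sup_le (E_le_CC hr.1.symm) (E_le_CC hr.2.symm)
theorem KK_comm (hr : r ∈ Δ x y) (hr' : r' ∈ Δ x y) (hg : g ∈ KK x y) (he : e ∈ KK r r') :
    g * e = e * g :=
  (mem_centralizer_singleton_iff.1 ((sup_le (c := centralizer {g})
    (fun _ h => mem_centralizer_singleton_iff.2 (CC_comm (KK_le_CC hr hg) h).symm)
    fun _ h => mem_centralizer_singleton_iff.2 (CC_comm (KK_le_CC hr' hg) h).symm) he)).symm

end Cfg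

end Cfsg.Lib.PT
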