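import Cfsg.Agent.PT.BD

/-!
# Tower `PT`: the Heisenberg group of two commuting partners
-/

set_option autoImplicit false
set_option linter.unusedSectionVars false

namespace Cfsg.Lib.PT

open Subgroup

universe u

variable {G : Type u} [Group G]

theorem Heis.aux {Q : Type*} [Group Q] {A B N M : Q} (h1 : Commute A N) (h2 : Commute B M)
    (h3 : Commute N M) (h4 : A * M * A⁻¹ = N⁻¹ * M) (h5 : B * N * B⁻¹ = N * M) {i j : ℕ}
    (h6 : M ^ (j * i) = M) :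
    A ^ i * B ^ j * A ^ i * M⁻¹ * (A ^ i * B ^ j * A ^ i)⁻¹ = N ^ i := by
  have e1 : ∀ i : ℕ, A ^ i * M * (A ^ i)⁻¹ = (N ^ i)⁻¹ * M := fun i => by
    induction i with
    | zero => simp
    | succ i ih =>
      calc _ = A * (A ^ i * M * (A ^ i)⁻¹) * A⁻¹ := by group
        _ = A * (N ^ i)⁻¹ * A⁻¹ * (A * M * A⁻¹) := by rw [ih]; group
        _ = _ := by rw [(h1.pow_right i).inv_right.eq, h4]; group
  have e2 : ∀ j : ℕ, B ^ j * N * (B ^ j)⁻¹ = N * M ^ j := fun j => by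
    induction j with
    | zero => simp
    | succ j ih =>
      calc _ = B * (B ^ j * N * (B ^ j)⁻¹) * B⁻¹ := by group
        _ = B * N * B⁻¹ * (B * M ^ j * B⁻¹) := by rw [ih]; group
        _ = _ := by rw [(h2.pow_right j).eq, h5]; group
  calc _ = A ^ i * (B ^ j * (A ^ i * M * (A ^ i)⁻¹)⁻¹ * (B ^ j)⁻¹) * (A ^ i)⁻¹ := by group
    _ = A ^ i * ((B ^ j * M * (B ^ j)⁻¹)⁻¹ * (B ^ j * N * (B ^ j)⁻¹) ^ i) * (A ^ i)⁻¹ := by
      rw [e1, conj_pow]; group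
    _ = A ^ i * N ^ i * (A ^ i)⁻¹ := by
      rw [e2, (h2.pow_left j).eq, (h3.pow_right j).eq, (h3.pow_right j).symm.mul_pow, ← pow_mul, h6]
      group
    _ = _ := by rw [(h1.pow_pow i i).eq, mul_inv_cancel_right]

theorem Heis.aux' {a b n m ζ : G} (ζa : Commute a ζ) (ζb : Commute b ζ) (ζn : Commute n ζ)
    (ζm : Commute m ζ) (h1 : Commute a n) (h2 : Commute b m) (h3 : m * n = ζ ^ 2 * n * m)
    (h4 : a * m * a⁻¹ = n⁻¹ * ζ⁻¹ * m) (h5 : b * n * b⁻¹ = n * m * ζ) {i j : ℕ}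
    (h6 : m ^ (j * i) = m) : ∃ u ∈ zpowers ζ,
      a ^ i * b ^ j * a ^ i * m⁻¹ * (a ^ i * b ^ j * a ^ i)⁻¹ = n ^ i * u := by
  let H := centralizer ({ζ} : Set G)
  have mem : ∀ {g : G}, Commute g ζ → g ∈ H := fun h => mem_centralizer_singleton_iff.2 h
  let Z := (zpowers ζ).subgroupOf H
  have : Z.Normal := ⟨fun u hu g => by
    obtain ⟨k, hk⟩ := hu
    refine ⟨k, ?_⟩
    change ζ ^ k = g * u * (g : G)⁻¹
    rw [show (u : G) = ζ ^ k from hk.symm,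
      (Commute.zpow_right (mem_centralizer_singleton_iff.1 g.2) k).eq, mul_inv_cancel_right]⟩
  let π := QuotientGroup.mk' Z
  have z1 : π ⟨ζ, mem (Commute.refl ζ)⟩ = 1 := (QuotientGroup.eq_one_iff _).2 (mem_zpowers ζ)
  have cm : ∀ {g h : G} (hg : Commute g ζ) (hh : Commute h ζ), Commute g h →
      Commute (π ⟨g, mem hg⟩) (π ⟨h, mem hh⟩) := fun hg hh e =>
    Commute.map (show Commute (⟨_, mem hg⟩ : H) ⟨_, mem hh⟩ from Subtype.ext e) π
  have := Heis.aux (A := π ⟨a, mem ζa⟩) (B := π ⟨b, mem ζb⟩) (N := π ⟨n, mem ζn⟩)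
    (M := π ⟨m, mem ζm⟩) (cm ζa ζn h1) (cm ζb ζm h2)
    (by have := congrArg π (show (⟨m, mem ζm⟩ * ⟨n, mem ζn⟩ : H) =
          ⟨ζ, mem (Commute.refl ζ)⟩ ^ 2 * ⟨n, mem ζn⟩ * ⟨m, mem ζm⟩ from Subtype.ext h3)
        simp only [map_mul, map_pow, z1, one_pow, one_mul] at this
        exact this.symm)
    (by have := congrArg π (show (⟨a, mem ζa⟩ * ⟨m, mem ζm⟩ * (⟨a, mem ζa⟩ : H)⁻¹ : H) =
          (⟨n, mem ζn⟩ : H)⁻¹ * (⟨ζ, mem (Commute.refl ζ)⟩ : H)⁻¹ * ⟨m, mem ζm⟩ from Subtype.ext h4)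
        simpa only [map_mul, map_inv, z1, inv_one, mul_one] using this)
    (by have := congrArg π (show (⟨b, mem ζb⟩ * ⟨n, mem ζn⟩ * (⟨b, mem ζb⟩ : H)⁻¹ : H) =
          ⟨n, mem ζn⟩ * ⟨m, mem ζm⟩ * ⟨ζ, mem (Commute.refl ζ)⟩ from Subtype.ext h5)
        simpa only [map_mul, map_inv, z1, mul_one] using this)
    (i := i) (j := j) (by rw [← map_pow]; exact congrArg π (Subtype.ext h6))
  simp only [← map_pow, ← map_mul, ← map_inv] at this
  rw [eq_comm, QuotientGroup.mk'_apply, QuotientGroup.mk'_apply, QuotientGroup.eq] at this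
  exact ⟨_, this, (mul_inv_cancel_left _ _).symm⟩

namespace Cfg
variable {C : Cfg G} {a b c : G}

theorem heis_of (hab : C.BD a b) {n m ζ : G} (n1 : n ≠ 1) (np : n ^ C.p = 1) (ζp : ζ ^ C.p = 1)
    (ζa : Commute a ζ) (ζb : Commute b ζ) (ζn : Commute n ζ) (an : Commute a n)
    (hc : c = a * n * ζ) (hm : m = ww a b * n * (ww a b)⁻¹) (wm : ww a b * m * (ww a b)⁻¹ = n⁻¹)
    (mn : m * n * m⁻¹ * n⁻¹ = ζ ^ 2) (ma : m * a * m⁻¹ = a * n * ζ) : Heis C.p a b c n m ζ := by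
  have wζ : ww a b * ζ * (ww a b)⁻¹ = ζ :=
    mul_inv_eq_iff_eq_mul.2 ((ζa.mul_left ζb).mul_left ζa).eq
  have cj : ∀ {g h : G}, Commute g h →
      Commute (ww a b * g * (ww a b)⁻¹) (ww a b * h * (ww a b)⁻¹) :=
    fun h => h.map (MulAut.conj (ww a b))
  have ζm : Commute m ζ := by have := cj ζn; rwa [wζ, ← hm] at this
  have bm : Commute b m := by have := cj an; rwa [hab.br.ww_a, ← hm] at this
  have mp : m ^ C.p = 1 := by rw [hm, conj_pow, np, mul_one, mul_inv_cancel]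
  have mn' : m * n * m⁻¹ = n * ζ ^ 2 := by
    rw [mul_inv_eq_iff_eq_mul.1 mn, (ζn.pow_right 2).eq]
  have ck : ∀ k : ℕ, m ^ k * a * (m ^ k)⁻¹ = a * n ^ k * ζ ^ (k ^ 2) := fun k => by
    induction k with
    | zero => simp
    | succ k ih =>
      calc _ = m * (m ^ k * a * (m ^ k)⁻¹) * m⁻¹ := by group
        _ = m * a * m⁻¹ * (m * n * m⁻¹) ^ k * (m * ζ ^ (k ^ 2) * m⁻¹) := by
          rw [ih, conj_pow]; group
        _ = a * n * (ζ * n ^ k) * (ζ ^ 2) ^ k * ζ ^ (k ^ 2) := by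
          rw [ma, mn', (ζn.pow_right 2).mul_pow, (ζm.pow_right _).eq]; group
        _ = _ := by rw [← (ζn.pow_left k).eq]; group
  have bk : ∀ k : ℕ, (n ^ k)⁻¹ * b * n ^ k = b * m ^ k * ζ ^ (k ^ 2) := fun k => by
    have := congrArg (MulAut.conj (ww a b)) (ck k)
    simpa only [map_mul, map_pow, map_inv, MulAut.conj_apply, wm, hab.br.ww_a, ← hm, wζ, inv_pow,
      inv_inv] using this
  have zn : zz a b * n * (zz a b)⁻¹ = n⁻¹ := by rw [← wm, hm, zz]; group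
  have zζ : ∀ u ∈ zpowers ζ, zz a b * u * (zz a b)⁻¹ = u := by
    rintro _ ⟨k, rfl⟩
    have := (ζa.mul_left ζb).mul_left ζa
    exact mul_inv_eq_iff_eq_mul.2 ((this.mul_left this).zpow_right k).eq
  have tn : ∀ l : (ZMod C.p)ˣ, tt a b l * n * (tt a b l)⁻¹ = pw n (l : ZMod C.p) := fun l => by
    obtain ⟨u, hu, e⟩ := Heis.aux' ζa ζb ζn ζm an bm (by rw [← mn]; group)
      (by calc _ = a * m * a⁻¹ * m⁻¹ * m := by group
            _ = a * (m * a * m⁻¹)⁻¹ * m := by group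
            _ = a * (a * (ζ * n))⁻¹ * m := by rw [ma, ← ζn.eq, mul_assoc a n]
            _ = a * (n⁻¹ * ζ⁻¹) * a⁻¹ * m := by group
            _ = _ := by rw [(an.inv_right.mul_right ζa.inv_right).eq, mul_inv_cancel_right])
      (by have := bk 1
          simp only [pow_one, one_pow] at this
          calc _ = n * (n⁻¹ * b * n) * b⁻¹ := by group
            _ = n * (b * (m * ζ) * b⁻¹) := by rw [this]; group
            _ = _ := by rw [(bm.mul_right ζb).eq, mul_inv_cancel_right, mul_assoc])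
      (i := (l : ZMod C.p).val) (j := ((l⁻¹ : (ZMod C.p)ˣ) : ZMod C.p).val) (by
        rw [pow_mul]
        exact (pw_pw mp _ _).trans (by rw [Units.inv_mul, pw_one]))
    have e1 : tt a b l * n * (tt a b l)⁻¹ = pw n (l : ZMod C.p) * u := by
      rw [pw, ← e, ← inv_inv n, ← wm, tt, ww, pw, pw]; group
    have e2 : (pw n (l : ZMod C.p) * u)⁻¹ = (pw n (l : ZMod C.p))⁻¹ * u := by
      calc _ = tt a b l * (zz a b * n * (zz a b)⁻¹) * (tt a b l)⁻¹ := by rw [← e1, zn]; group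
        _ = tt a b l * zz a b * n * (tt a b l * zz a b)⁻¹ := by group
        _ = zz a b * (tt a b l * n * (tt a b l)⁻¹) * (zz a b)⁻¹ := by rw [hab.tt_zz]; group
        _ = _ := by rw [e1, ← conj_mul, zζ u hu, conj_pw, zn, inv_pw]
    obtain ⟨k, rfl⟩ := mem_zpowers_iff.1 hu
    have e3 : Commute (pw n (l : ZMod C.p)) (ζ ^ k) := (ζn.pow_left _).zpow_right k
    rw [e3.eq, mul_inv_rev, mul_right_inj, inv_eq_iff_mul_eq_one] at e2
    rw [e1, L1.eq_one (k := 1) C.prime C.five (e := ζ ^ k) (by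
      rw [pow_one, ← zpow_natCast, ← zpow_mul, mul_comm, zpow_mul, zpow_natCast, ζp, one_zpow]) e2,
      mul_one]
  refine ⟨n1, np, mp, ζp, ζa.symm, ζb.symm, ζn.symm, ζm.symm, an.symm, bm.symm, hc, hm, wm, mn, ck,
    bk, zn, ?_, tn, fun l => ?_⟩
  · calc _ = ww a b * (ww a b * m * (ww a b)⁻¹) * (ww a b)⁻¹ := by rw [zz]; group
      _ = _ := by rw [wm, hm]; group
  · calc _ = ww a b * (tt a b l⁻¹ * n * (tt a b l⁻¹)⁻¹) * (ww a b)⁻¹ := by
          rw [← inv_inv l, ← hab.ww_tt, inv_inv, hm]; group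
      _ = _ := by rw [tn, conj_pw, ← hm]

theorem exists_heis (hab : C.BD a b) (hcb : C.BD c b) (ac : a * c = c * a) (ne : c ≠ a) :
    ∃ n m ζ : G, Heis C.p a b c n m ζ ∧ n ∈ closure ({a, b, c} : Set G) ∧
      m ∈ closure ({a, b, c} : Set G) ∧ ζ ∈ closure ({a, b, c} : Set G) := by
  obtain ⟨x, rfl⟩ : ∃ x, c = a * x := ⟨a⁻¹ * c, by group⟩
  have ax : Commute a x := mul_left_cancel (a := a) (by rw [ac, mul_assoc])
  obtain ⟨m, hm⟩ : ∃ m, m = ww a b * x * (ww a b)⁻¹ := ⟨_, rfl⟩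
  have bm : Commute b m := by
    have := ax.map (MulAut.conj (ww a b))
    rwa [MulAut.conj_apply, MulAut.conj_apply, hab.br.ww_a, ← hm] at this
  have bx : b * x * b⁻¹ = x * m := by
    have h1 : b * m = x⁻¹ * b * x := by
      calc _ = ww a b * (a * x) * (ww a b)⁻¹ := by rw [hm, ← conj_mul, hab.br.ww_a]
        _ = a * b * (a * (a * x) * a⁻¹) * b⁻¹ * a⁻¹ := by rw [ww]; group
        _ = a * (a * x)⁻¹ * (a * x * b * (a * x)) * b⁻¹ * a⁻¹ := by rw [ac]; group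
        _ = (a * x * a⁻¹)⁻¹ * b * (a * x * a⁻¹) := by rw [hcb.br]; group
        _ = _ := by rw [ax.eq, mul_inv_cancel_right]
    rw [mul_inv_eq_iff_eq_mul, mul_assoc, ← bm.eq, h1]; group
  have am : a * m * a⁻¹ = x⁻¹ * m := by
    calc _ = x⁻¹ * (a * x * a⁻¹ * (a * m * a⁻¹)) := by rw [ax.eq]; group
      _ = x⁻¹ * (a * (b * (a * x * a⁻¹) * b⁻¹) * a⁻¹) := by
        rw [conj_mul, ← bx, ax.eq, mul_inv_cancel_right]
      _ = _ := by rw [hm, ww]; group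
  have wm : ww a b * m * (ww a b)⁻¹ = m⁻¹ * x⁻¹ * m := by
    calc _ = a * (b * (a * m * a⁻¹) * b⁻¹) * a⁻¹ := by rw [ww]; group
      _ = a * ((b * x * b⁻¹)⁻¹ * (b * m * b⁻¹)) * a⁻¹ := by rw [am]; group
      _ = (a * m * a⁻¹)⁻¹ * (a * x * a⁻¹)⁻¹ * (a * m * a⁻¹) := by
        rw [bx, bm.eq]; group
      _ = _ := by rw [am, ax.eq]; group
  obtain ⟨k, hk⟩ : ∃ k, k = x * m⁻¹ * x⁻¹ * m := ⟨_, rfl⟩
  have ka : Commute a k := mul_inv_eq_iff_eq_mul.1 (by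
    calc _ = a * x * a⁻¹ * (a * m * a⁻¹)⁻¹ * (a * x * a⁻¹)⁻¹ * (a * m * a⁻¹) := by rw [hk]; group
      _ = _ := by rw [am, ax.eq, hk]; group)
  have kb : Commute b k := mul_inv_eq_iff_eq_mul.1 (by
    calc _ = b * x * b⁻¹ * (b * m * b⁻¹)⁻¹ * (b * x * b⁻¹)⁻¹ * (b * m * b⁻¹) := by rw [hk]; group
      _ = _ := by rw [bx, bm.eq, hk]; group)
  have kw : Commute (ww a b) k := (ka.mul_left kb).mul_left ka
  have kx : Commute x k := by
    have h1 : ∀ g, MulAut.conj (ww a b) (MulAut.conj (ww a b) (MulAut.conj (ww a b)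
        (MulAut.conj (ww a b) g))) = g := fun g => by
      calc _ = zz a b * zz a b * g * (zz a b * zz a b)⁻¹ := by
            simp only [MulAut.conj_apply, zz]; group
        _ = _ := by rw [hab.zz_sq]; group
    have h2 : MulAut.conj (ww a b) x = m := hm.symm
    have h3 : MulAut.conj (ww a b) m = m⁻¹ * x⁻¹ * m := wm
    have h4 := h1 x
    simp only [h2, h3, map_mul, map_inv] at h4
    calc x * k = k * (k⁻¹ * x * k) := by group
      _ = _ := by rw [hk]; exact congrArg _ (Eq.trans (by group) h4)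
  have km : Commute m k := by
    have := kx.map (MulAut.conj (ww a b))
    rwa [MulAut.conj_apply, MulAut.conj_apply, ← hm, kw.eq, mul_inv_cancel_right] at this
  have xp : x ^ C.p = 1 := by
    have := pow_p hcb.ha
    rwa [ax.mul_pow, pow_p hab.ha, one_mul] at this
  have mx : m * x * m⁻¹ = x * k := by
    calc _ = m * x * (x⁻¹ * k * m⁻¹ * x) := by rw [hk]; group
      _ = _ := by rw [kx.eq, ← mul_assoc, ← mul_assoc, ← mul_assoc, mul_inv_cancel_right, km.eq,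
        mul_inv_cancel_right]
  have kp : k ^ C.p = 1 := by
    have := congrArg (· ^ C.p) mx
    simpa only [conj_pow, xp, kx.mul_pow, mul_one, one_mul, mul_inv_cancel, eq_comm] using this
  obtain ⟨r, hr⟩ := C.prime.odd_of_ne_two (by have := C.five; omega)
  obtain ⟨ζ, hζ⟩ : ∃ ζ, ζ = k ^ (r + 1) := ⟨_, rfl⟩
  have ζ2 : ζ ^ 2 = k := by
    rw [hζ, ← pow_mul, show (r + 1) * 2 = C.p + 1 by omega, pow_succ, kp, one_mul]
  have cζ : ∀ {g}, Commute g k → Commute g ζ := fun h => hζ ▸ h.pow_right _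
  have ζp : ζ ^ C.p = 1 := by rw [hζ, ← pow_mul, mul_comm, pow_mul, kp, one_pow]
  have wζ : ww a b * ζ⁻¹ * (ww a b)⁻¹ = ζ⁻¹ := mul_inv_eq_iff_eq_mul.2 (cζ kw).inv_right.eq
  have ha : a ∈ closure ({a, b, a * x} : Set G) := subset_closure (by simp)
  have hb : b ∈ closure ({a, b, a * x} : Set G) := subset_closure (by simp)
  have hx : x ∈ closure ({a, b, a * x} : Set G) :=
    (mul_mem_cancel_left ha).1 (subset_closure (by simp))
  have hm' : m ∈ closure ({a, b, a * x} : Set G) :=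
    hm ▸ mul_mem (mul_mem (ww_mem ha hb) hx) (inv_mem (ww_mem ha hb))
  have hζ' : ζ ∈ closure ({a, b, a * x} : Set G) := hζ ▸ pow_mem (hk ▸ mul_mem (mul_mem
    (mul_mem hx (inv_mem hm')) (inv_mem hx)) hm') _
  refine ⟨x * ζ⁻¹, m * ζ⁻¹, ζ, heis_of hab (fun e => ne ?_) ?_ ζp (cζ ka) (cζ kb)
    ((cζ kx).mul_left (Commute.refl ζ).inv_left) (ax.mul_right (cζ ka).inv_right) (by group) ?_ ?_
    ?_ ?_, mul_mem hx (inv_mem hζ'), mul_mem hm' (inv_mem hζ'), hζ'⟩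
  · rw [mul_inv_eq_one] at e
    rw [l1 (k := 1) hab.ha hab.hb hab.nc (by rw [pow_one, xp]) ax.eq.symm (e ▸ (cζ kb).eq.symm)
      hcb.ha, mul_one]
  · rw [(cζ kx).inv_right.mul_pow, xp, inv_pow, ζp, inv_one, mul_one]
  · rw [← conj_mul, wζ, ← hm]
  · rw [← conj_mul, wζ, wm]
    calc _ = x⁻¹ * k * ζ⁻¹ := by rw [hk]; group
      _ = x⁻¹ * ζ := by rw [← ζ2]; group
      _ = _ := by rw [(cζ kx).inv_left.eq]; group
  · calc _ = m * (ζ⁻¹ * x * ζ) * (ζ⁻¹ * m⁻¹ * ζ) * x⁻¹ := by group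
      _ = m * x * m⁻¹ * x⁻¹ := by
        rw [mul_assoc ζ⁻¹ x, (cζ kx).eq, mul_assoc ζ⁻¹ m⁻¹, (cζ km).inv_left.eq]; group
      _ = _ := by rw [mx, kx.eq, ζ2, mul_inv_cancel_right]
  · calc _ = m * (ζ⁻¹ * (a * ζ)) * m⁻¹ := by group
      _ = x * (x⁻¹ * m) * a * m⁻¹ := by rw [(cζ ka).eq]; group
      _ = x * a * (m * a⁻¹ * a * m⁻¹) := by rw [← am]; group
      _ = _ := by rw [← ax.eq]; group

end Cfg

end Cfsg.Lib.PT
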