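import Cfsg.Agent.PT.PS3

/-!
# Tower `PT`: the group of a singular line
-/

set_option autoImplicit false

namespace Cfsg.Lib.PT

open Subgroup
open scoped commutatorElement

universe u

variable {G : Type u} [Group G]

namespace Cfg
variable {C : Cfg G} {x y r r' s u v : C.Pt} {a b c d e g n m ζ z : G}

namespace JW

theorem one_of_inv (C : Cfg G) (hp : g ^ C.p = 1) (e : g = g⁻¹) : g = 1 := by
  obtain ⟨k, hk⟩ := C.prime.odd_of_ne_two (by have := C.five; omega)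
  have h2 : g ^ 2 = 1 := by rw [pow_two]; exact mul_eq_one_iff_eq_inv.2 e
  rwa [hk, pow_succ, pow_mul, h2, one_pow, one_mul] at hp

theorem ne_l (opp : ¬ Pp x y) (hr : r ∈ Δ x y) : x ≠ r := fun e => opp (e ▸ hr.2)

theorem sw (hr : r ∈ Δ x y) : r ∈ Δ y x := ⟨hr.2, hr.1⟩

theorem dx (hr : r ∈ Δ x y) (hr' : r' ∈ Δ x y) : x ∈ Δ r r' := ⟨hr.1.symm, hr'.1.symm⟩

theorem dy (hr : r ∈ Δ x y) (hr' : r' ∈ Δ x y) : y ∈ Δ r r' := ⟨hr.2.symm, hr'.2.symm⟩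

theorem KK_fix (hr : r ∈ Δ x y) (hg : g ∈ KK x y) : g • r = r := CC_fix (KK_le_CC hr hg)

theorem EL_cc (hP : Pp x r) (he : e ∈ EL x r) : e ∈ CC x := EL_le_CC (Pp_refl x) hP he

theorem EL_cc' (hP : Pp x r) (he : e ∈ EL x r) : e ∈ CC r := EL_le_CC hP.symm (Pp_refl r) he

theorem EL_congr (e : pl x u = pl y v) : EL x u = EL y v := by rw [EL, EL, e]

theorem zz_ζ {p : ℕ} (H : Heis p a b c n m ζ) : zz a b * ζ = ζ * zz a b := by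
  have h1 : Commute ζ a := H.ζa
  have h2 : Commute ζ b := H.ζb
  have h3 : Commute ζ (ww a b) := (h1.mul_right h2).mul_right h1
  exact (h3.mul_right h3).eq.symm

theorem c_eq' {p : ℕ} (H : Heis p a b c n m ζ) : c = m * a * m⁻¹ := by
  have := H.ck 1
  simp only [pow_one, one_pow] at this
  rw [this, H.c_eq]

variable [Finite G]

theorem opp_pl (h : C.Simple) (opp : ¬ Pp x y) (hr : r ∈ Δ x y) (hu : u ∈ pl x r) (ne : u ≠ r) :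
    ¬ Pp u y := fun hP =>
  opp (h.perp_of_two hr.1.symm hu (right_mem_pl x r) ne hP.symm hr.2.symm).1.symm

theorem pres (h : C.Simple) (hP : Pp y r) (ne : y ≠ r) (gr : g • r = r) (gy : g • y ∈ pl y r)
    (s : C.Pt) : g • s ∈ pl y r ↔ s ∈ pl y r := by
  have e := h.pl_eq hP gy (right_mem_pl y r) (fun e => ne (MulAction.injective g (e.trans gr.symm)))
  have := smul_mem_pl (u := s) (x := y) (v := r) g
  rwa [gr, e] at this

theorem EL_eq (h : C.Simple) (hP : Pp x r) (hu : u ∈ pl x r) (ne : x ≠ u) : EL x u = EL x r :=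
  EL_congr (h.pl_eq hP (left_mem_pl x r) hu ne)

theorem u_ne (h : C.HR) (h1 : BP x y a b) (h3 : BP u y c b) (H : Heis C.p a b c n m ζ) :
    x ≠ u := by
  rintro rfl
  have e := (h.w1 h1.symm.opp).unique h1.symm h3.symm
  have e1 : n = ζ⁻¹ := by
    have := H.c_eq
    rw [← e, mul_assoc, left_eq_mul] at this
    exact eq_inv_of_mul_eq_one_left this
  refine H.n_ne (one_of_inv C H.np ?_)
  rw [← H.zn, e1, mul_inv_eq_iff_eq_mul.2 (show Commute (zz a b) ζ from zz_ζ H).inv_right.eq]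

end JW

variable [Finite G]

namespace HR
variable (h : C.HR) {a' b' : G}
include h
open JW

theorem z_fix (h1 : BP x y a b) (hr : r ∈ Δ x y) (hu : u ∈ pl x r) (e : zz a b • u = u) :
    u = x ∨ u = r := by
  by_contra hc
  push Not at hc
  obtain ⟨c, n, m, ζ, h3, H, -, -⟩ := exists_triple (pl_perp hr.1.symm (left_mem_pl x r) hu)
    hc.1.symm h1 (opp_pl h.simple h1.opp hr hu hc.2)
  have h4 := h3.smul (zz a b)
  rw [e, h1.zz_y, mul_inv_eq_iff_eq_mul.2 h1.br.zz_b] at h4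
  have h5 := (h.w1 h3.symm.opp).unique h3.symm h4.symm
  have h6 : zz a b * c * (zz a b)⁻¹ = a * n⁻¹ * ζ := by
    calc _ = (zz a b * a * (zz a b)⁻¹) * (zz a b * n * (zz a b)⁻¹) * (zz a b * ζ * (zz a b)⁻¹) := by
          rw [H.c_eq]; group
      _ = _ := by rw [mul_inv_eq_iff_eq_mul.2 h1.br.zz_a, mul_inv_eq_iff_eq_mul.2 (zz_ζ H), H.zn]
  rw [h6, H.c_eq, mul_left_inj, mul_right_inj] at h5
  exact H.n_ne (one_of_inv C H.np h5)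

/-- Elements inverted by `z` and fixing `y` are trivial. -/
theorem JW_free (h1 : BP x y a b) (hr : r ∈ Δ x y) (hn : n ∈ EL x r)
    (zn : zz a b * n * (zz a b)⁻¹ = n⁻¹) (e : n • y = y) : n = 1 := by
  have := (h.w1 h1.opp).c0_KK (mem_C0.2 ⟨EL_cc hr.1.symm hn, e⟩) h1.zz_KK
  rw [← this, mul_inv_cancel_right] at zn
  exact one_of_inv C (EL_pow hr.1.symm hn) zn

theorem JW_inv (h1 : BP x y a b) (hr : r ∈ Δ x y) (hr' : r' ∈ Δ x y) (h2 : BP r r' a' b')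
    (hn : n ∈ EL x r) (zn : zz a b * n * (zz a b)⁻¹ = n⁻¹) (ny : n • y ∈ pl y r) :
    zz a' b' * n * (zz a' b')⁻¹ = n⁻¹ := by
  have hP := hr.1.symm
  have ne : y ≠ r := ne_l h1.symm.opp (sw hr)
  set z' := zz a' b' with hz'
  have zx : z' • x = x := KK_fix (dx hr hr') h2.zz_KK
  have zy : z' • y = y := KK_fix (dy hr hr') h2.zz_KK
  have zr : z' • r = r := h2.zz_x
  have hn' : z' * n * z'⁻¹ ∈ EL x r := by simpa [zx, zr] using conj_EL z' hn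
  have cm := EL_comm hP hn hn'
  have z2 : z' * z' = 1 := h2.bd.zz_sq
  have zi : z'⁻¹ = z' := inv_eq_of_mul_eq_one_right z2
  have zz' : zz a b * z' = z' * zz a b := KK_comm hr hr' h1.zz_KK h2.zz_KK
  have nr : n • r = r := CC_fix (EL_cc' hP hn)
  have hv : n * (z' * n * z'⁻¹) ∈ EL x r := mul_mem hn hn'
  have c1 : z' * (n * (z' * n * z'⁻¹)) = n * (z' * n * z'⁻¹) * z' := by
    rw [cm]
    calc z' * (z' * n * z'⁻¹ * n) = (z' * z') * n * z'⁻¹ * n := by group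
      _ = n * z' * n := by rw [z2, zi, one_mul]
      _ = n * (z' * n * z'⁻¹) * z' := by group
      _ = _ := by rw [cm]
  have vy : (n * (z' * n * z'⁻¹)) • y ∈ pl r y := by
    rw [pl_symm, mul_smul, pres h.simple hr.2.symm ne nr ny, mul_smul, mul_smul, zi, zy,
      pres h.simple hr.2.symm ne zr (zy.symm ▸ left_mem_pl y r)]
    exact ny
  have h3 := h.z_fix h2 (dy hr hr') vy (by rw [← hz', ← mul_smul, c1, mul_smul, zy])
  have h4 := h.JW_free h1 hr hv (by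
    have e1 : zz a b * (z' * n * z'⁻¹) * (zz a b)⁻¹ = (z' * n * z'⁻¹)⁻¹ := by
      calc _ = (zz a b * z') * n * (zz a b * z')⁻¹ := by group
        _ = z' * (zz a b * n * (zz a b)⁻¹) * z'⁻¹ := by rw [zz']; group
        _ = _ := by rw [zn]; group
    calc _ = (zz a b * n * (zz a b)⁻¹) * (zz a b * (z' * n * z'⁻¹) * (zz a b)⁻¹) := by group
      _ = _ := by rw [zn, e1, cm]; group)
    (h3.resolve_left fun e => ne (MulAction.injective _ (e.trans (CC_fix (EL_cc' hP hv)).symm)))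
  exact eq_inv_of_mul_eq_one_right h4

theorem JW_heis (h1 : BP x y a b) (hr : r ∈ Δ x y) (hu : u ∈ pl x r) (h3 : BP u y c b)
    (H : Heis C.p a b c n m ζ) : n ∈ EL x r ∧ ζ ∈ EL x r ∧ n • y ∈ pl y r := by
  have hP := hr.1.symm
  have e := EL_eq h.simple hP hu (u_ne h h1 h3 H)
  obtain ⟨hn, hζ⟩ := heis_EL h1 h3 H
  rw [e] at hn hζ
  refine ⟨hn, hζ, ?_⟩
  have h4 : ww a b • u ∈ pl y r := by
    have := (smul_mem_pl (ww a b)).2 hu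
    rwa [h1.ww_x, KK_fix hr h1.ww_KK] at this
  have h5 : ww a b • u = n⁻¹ • y := by
    refine ext_M (conj_mem (ww a b) h3.ha) ?_
    have e1 : ww a b * c * (ww a b)⁻¹ = n⁻¹ * b * n⁻¹⁻¹ := by
      calc _ = ww a b * m * (ww a b)⁻¹ * (ww a b * a * (ww a b)⁻¹) * (ww a b * m * (ww a b)⁻¹)⁻¹ := by
            rw [c_eq' H]; group
        _ = _ := by rw [H.wm, h1.br.ww_a]
    exact e1 ▸ conj_mem n⁻¹ h1.hb
  rw [h5] at h4
  rw [← pres h.simple hr.2.symm (ne_l h1.symm.opp (sw hr))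
    (CC_fix (EL_cc' hP (inv_mem hn))) h4, inv_smul_smul]
  exact left_mem_pl y r

theorem jw (h1 : BP x y a b) (hr : r ∈ Δ x y) (hr' : r' ∈ Δ x y) (h2 : BP r r' a' b')
    (hu : u ∈ pl x r) (h3 : BP u y c b) (H : Heis C.p a b c n m ζ) :
    ζ ∈ M r ∧ zz a' b' * n * (zz a' b')⁻¹ = n⁻¹ := by
  have hP := hr.1.symm
  obtain ⟨hn, hζ, ny⟩ := h.JW_heis h1 hr hu h3 H
  have zn' := h.JW_inv h1 hr hr' h2 hn H.zn ny
  refine ⟨?_, zn'⟩
  have ur : u ≠ r := fun e => h3.opp (e ▸ hr.2)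
  have hu' : u ∈ pl r x := pl_symm x r ▸ hu
  obtain ⟨b2, h4⟩ := exists_partner h3.ha
    (opp_pl h.simple h2.opp (dx hr hr') hu' (u_ne h h1 h3 H).symm)
  obtain ⟨a2, h5⟩ := exists_partner h4.hb h2.symm.opp
  replace h5 := h5.symm
  obtain ⟨n', m', ζ', H', -⟩ := exists_heis h5.bd h4.bd
    (pl_perp hP (right_mem_pl x r) hu _ h5.ha _ h4.ha) (fun e => ur (ext_M h4.ha (e ▸ h5.ha)))
  obtain ⟨hn', hζ', ny'⟩ := h.JW_heis h5 (dx hr hr') hu' h4 H'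
  have zn2 := h.JW_inv h5 (dx hr hr') (dy hr hr') h1 hn' H'.zn ny'
  rw [EL_symm] at hn' hζ'
  rw [(h.w1 h2.opp).zz_eq h2 h5] at zn'
  have ha : a ∈ EL x r := E_le_EL (left_mem_pl x r) (M_le_E h1.ha)
  have ha2 : a2 ∈ EL x r := E_le_EL (right_mem_pl x r) (M_le_E h5.ha)
  have aK : a ∈ KK x y := mem_sup_left (M_le_E h1.ha)
  have cm : ∀ {e g : G}, e ∈ EL x r → g ∈ EL x r → Commute e g := fun he hg => EL_comm hP he hg
  have e0 : a * n * ζ = a2 * n' * ζ' := H.c_eq.symm.trans H'.c_eq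
  set z := zz a b
  set z' := zz a2 b2
  have zz' : z * z' = z' * z := KK_comm hr hr' h1.zz_KK h5.zz_KK
  have e1 : a * n⁻¹ * (z' * ζ * z'⁻¹) = a2 * n'⁻¹ * ζ' := by
    have t1 : z' * a * z'⁻¹ = a := mul_inv_eq_iff_eq_mul.2 (KK_comm hr hr' aK h5.zz_KK).symm
    have t2 : z' * a2 * z'⁻¹ = a2 := mul_inv_eq_iff_eq_mul.2 h5.br.zz_a
    have t3 : z' * ζ' * z'⁻¹ = ζ' := mul_inv_eq_iff_eq_mul.2 (zz_ζ H')
    calc _ = (z' * a * z'⁻¹) * (z' * n * z'⁻¹) * (z' * ζ * z'⁻¹) := by rw [t1, zn']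
      _ = z' * (a2 * n' * ζ') * z'⁻¹ := by rw [← e0]; group
      _ = (z' * a2 * z'⁻¹) * (z' * n' * z'⁻¹) * (z' * ζ' * z'⁻¹) := by group
      _ = _ := by rw [t2, t3, H'.zn]
  have nn : n = n' := by
    have e2 : (n * n'⁻¹) * (n * n'⁻¹) = z' * ζ * z'⁻¹ * ζ⁻¹ := by
      have t1 : z' * ζ * z'⁻¹ = n * a⁻¹ * (a2 * n'⁻¹ * ζ') := by rw [← e1]; group
      have t2 : ζ⁻¹ = (a2 * n' * ζ')⁻¹ * (a * n) := by rw [← e0]; group
      let _ : CommGroup (EL x r) := { mul_comm := fun e g => Subtype.ext (cm e.2 g.2) }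
      rw [t1, t2]
      have : (⟨n, hn⟩ * ⟨n', hn'⟩⁻¹ : EL x r) * (⟨n, hn⟩ * ⟨n', hn'⟩⁻¹) =
          ⟨n, hn⟩ * ⟨a, ha⟩⁻¹ * (⟨a2, ha2⟩ * ⟨n', hn'⟩⁻¹ * ⟨ζ', hζ'⟩) *
            ((⟨a2, ha2⟩ * ⟨n', hn'⟩ * ⟨ζ', hζ'⟩)⁻¹ * (⟨a, ha⟩ * ⟨n, hn⟩)) := by
        apply Additive.ofMul.injective
        simp only [ofMul_mul, ofMul_inv]
        abel
      exact congrArg Subtype.val this
    have hd : n * n'⁻¹ ∈ EL x r := mul_mem hn (inv_mem hn')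
    have e3 : z * (n * n'⁻¹) * z⁻¹ = (n * n'⁻¹)⁻¹ := by
      calc _ = (z * n * z⁻¹) * (z * n' * z⁻¹)⁻¹ := by group
        _ = _ := by rw [H.zn, zn2, inv_inv, mul_inv_rev, inv_inv, (cm (inv_mem hn) hn').eq]
    have e4 : (n * n'⁻¹) * (n * n'⁻¹) = ((n * n'⁻¹) * (n * n'⁻¹))⁻¹ := by
      have t3 : z * ζ * z⁻¹ = ζ := mul_inv_eq_iff_eq_mul.2 (zz_ζ H)
      calc _ = z' * (z * ζ * z⁻¹) * z'⁻¹ * (z * ζ * z⁻¹)⁻¹ := by rw [t3, e2]
        _ = (z' * z) * ζ * (z' * z)⁻¹ * z' * z'⁻¹ * (z * ζ * z⁻¹)⁻¹ := by group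
        _ = z * (z' * ζ * z'⁻¹ * ζ⁻¹) * z⁻¹ := by rw [← zz']; group
        _ = (z * (n * n'⁻¹) * z⁻¹) * (z * (n * n'⁻¹) * z⁻¹) := by rw [← e2]; group
        _ = _ := by rw [e3]; group
    have e5 := one_of_inv C (EL_pow hP (mul_mem hd hd)) e4
    exact mul_inv_eq_one.1 (one_of_inv C (EL_pow hP hd) (eq_inv_of_mul_eq_one_left e5))
  subst nn
  have e6 : ζ * a2⁻¹ = a⁻¹ * ζ' := by
    have : a * ζ = a2 * ζ' := by
      rw [mul_assoc, mul_assoc, (cm hn hζ).eq, (cm hn hζ').eq, ← mul_assoc, ← mul_assoc] at e0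
      exact mul_right_cancel e0
    calc _ = a⁻¹ * (a * ζ) * a2⁻¹ := by group
      _ = _ := by rw [this, (cm ha2 hζ').eq]; group
  obtain ⟨l, hl⟩ := exists_l C
  set t := tt a2 b2 l
  have tK : ∀ g ∈ KK x y, Commute t g := fun g hg => (KK_comm hr hr' hg (h5.tt_KK l)).symm
  have tζ' : Commute t ζ' := mem_centralizer_singleton_iff.1 (tt_mem
    (mem_centralizer_singleton_iff.2 H'.ζa.symm) (mem_centralizer_singleton_iff.2 H'.ζb.symm) l)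
  have tn : t * n * t⁻¹ = n ^ (l : ZMod C.p).val := H'.tn l
  have tm : t * m * t⁻¹ = m ^ (l : ZMod C.p).val := by
    calc _ = (t * ww a b) * n * (t * ww a b)⁻¹ := by rw [H.m_eq]; group
      _ = ww a b * (t * n * t⁻¹) * (ww a b)⁻¹ := by rw [(tK _ h1.ww_KK).eq]; group
      _ = _ := by rw [tn, H.m_eq, conj_pow]
  have ta : t * a * t⁻¹ = a := mul_inv_eq_iff_eq_mul.2 (tK a aK).eq
  have tζ : t * ζ * t⁻¹ = pw ζ ((l : ZMod C.p) ^ 2) := by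
    have t1 := H.ck (l : ZMod C.p).val
    have t2 : t * (m * a * m⁻¹) * t⁻¹ = a * n ^ (l : ZMod C.p).val * (t * ζ * t⁻¹) := by
      rw [← c_eq' H, H.c_eq, ← tn]
      conv_rhs => rw [← ta]
      group
    rw [← tm, ← ta, show t * m * t⁻¹ * (t * a * t⁻¹) * (t * m * t⁻¹)⁻¹ = t * (m * a * m⁻¹) * t⁻¹ by
      group, t2, ta, mul_right_inj] at t1
    rw [t1, ← pw_natCast H.ζp]
    simp
  have e7 : ζ * a2⁻¹ = pw (ζ * a2⁻¹) ((l : ZMod C.p) ^ 2) := by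
    rw [mul_pw (cm hζ (inv_mem ha2)).eq, inv_pw, ← tζ, ← h5.bd.tt_a l]
    calc ζ * a2⁻¹ = t * (ζ * a2⁻¹) * t⁻¹ := by
          rw [e6, ((tK a aK).inv_right.mul_right tζ').eq, mul_inv_cancel_right]
      _ = t * ζ * t⁻¹ * (t * a2 * t⁻¹)⁻¹ := by group
  by_contra hc
  have e8 : ζ * a2⁻¹ ≠ 1 := fun e => hc (mul_inv_eq_one.1 e ▸ h5.ha)
  have := pw_inj (EL_pow hP (mul_mem hζ (inv_mem ha2))) e8 ((pw_one _).trans e7)
  exact hl (Units.ext (by simpa using this.symm))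

theorem JW_ex (h1 : BP x y a b) (hr : r ∈ Δ x y) : ∃ r' ∈ Δ x y, ∃ a' b', BP r r' a' b' := by
  obtain ⟨r', hr', opp⟩ := h.simple.Δ_opp h1.opp hr
  exact ⟨r', hr', exists_BP opp⟩

theorem JW_dec (h1 : BP x y a b) (hr : r ∈ Δ x y) (he : e ∈ EL x r) :
    ∃ e₁ ∈ E x, ∃ n ∈ VV x r (zz a b), ∃ e₂ ∈ E r, e = e₁ * n * e₂ ∧ n • y ∈ pl y r := by
  have hP := hr.1.symm
  have ne : y ≠ r := ne_l h1.symm.opp (sw hr)
  have hx := E_le_EL (left_mem_pl x r)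
  have hr1 := E_le_EL (right_mem_pl x r)
  have hV : ∀ {n : G}, n ∈ VV x r (zz a b) → n ∈ EL x r := fun hn => ((mem_VV hP).1 hn).1
  have cm : ∀ {e g : G}, e ∈ EL x r → g ∈ EL x r → Commute e g := fun he hg => EL_comm hP he hg
  have y1 : (1 : G) • y ∈ pl y r := (one_smul G y).symm ▸ left_mem_pl y r
  induction he using closure_induction with
  | mem c hc =>
    obtain ⟨u, hu, hc⟩ := hc
    by_cases ur : u = r
    · exact ⟨1, one_mem _, 1, one_mem _, c, M_le_E (ur ▸ hc), by simp, y1⟩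
    obtain ⟨b2, h3⟩ := exists_partner hc (opp_pl h.simple h1.opp hr hu ur)
    obtain ⟨a2, h4⟩ := exists_partner h3.hb h1.symm.opp
    replace h4 := h4.symm
    by_cases ca : c = a2
    · exact ⟨c, M_le_E (ca ▸ h4.ha), 1, one_mem _, 1, one_mem _, by simp, y1⟩
    obtain ⟨n, m, ζ, H, -⟩ := exists_heis h4.bd h3.bd
      (pl_perp hP (left_mem_pl x r) hu _ h4.ha _ hc) ca
    obtain ⟨r', hr', a', b', h2⟩ := h.JW_ex h1 hr
    obtain ⟨hn, -, ny⟩ := h.JW_heis h4 hr hu h3 H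
    exact ⟨a2, M_le_E h4.ha, n, (mem_VV hP).2 ⟨hn, (h.w1 h1.opp).zz_eq h1 h4 ▸ H.zn⟩, ζ,
      M_le_E (h.jw h4 hr hr' h2 hu h3 H).1, H.c_eq, ny⟩
  | one => exact ⟨1, one_mem _, 1, one_mem _, 1, one_mem _, by simp, y1⟩
  | mul c d _ _ h2 h3 =>
    obtain ⟨e₁, he₁, n, hn, e₂, he₂, rfl, ny⟩ := h2
    obtain ⟨f₁, hf₁, k, hk, f₂, hf₂, rfl, ky⟩ := h3
    refine ⟨e₁ * f₁, mul_mem he₁ hf₁, n * k, mul_mem hn hk, e₂ * f₂, mul_mem he₂ hf₂, ?_, ?_⟩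
    · calc _ = e₁ * (n * e₂ * f₁) * k * f₂ := by group
        _ = e₁ * f₁ * n * (e₂ * k) * f₂ := by
          rw [(cm (mul_mem (hV hn) (hr1 he₂)) (hx hf₁)).eq]; group
        _ = _ := by rw [(cm (hr1 he₂) (hV hk)).eq]; group
    · rwa [mul_smul, pres h.simple hr.2.symm ne (CC_fix (EL_cc' hP (hV hn))) ny]
  | inv c _ h2 =>
    obtain ⟨e₁, he₁, n, hn, e₂, he₂, rfl, ny⟩ := h2
    refine ⟨e₁⁻¹, inv_mem he₁, n⁻¹, inv_mem hn, e₂⁻¹, inv_mem he₂, ?_, ?_⟩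
    · rw [(cm (mul_mem (hx he₁) (hV hn)) (hr1 he₂)).eq, (cm (hx he₁) (hV hn)).eq]
      group
    · rw [← pres h.simple hr.2.symm ne (CC_fix (EL_cc' hP (hV hn))) ny, smul_inv_smul]
      exact left_mem_pl y r

theorem EL_dec (h1 : BP x y a b) (hr : r ∈ Δ x y) (he : e ∈ EL x r) :
    ∃ e₁ ∈ E x, ∃ n ∈ VV x r (zz a b), ∃ e₂ ∈ E r, e = e₁ * n * e₂ := by
  obtain ⟨e₁, he₁, n, hn, e₂, he₂, e, -⟩ := h.JW_dec h1 hr he
  exact ⟨e₁, he₁, n, hn, e₂, he₂, e⟩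

theorem EL_uniq (h1 : BP x y a b) (hr : r ∈ Δ x y) {e₁ e₂ : G} (he₁ : e₁ ∈ E x)
    (hn : n ∈ VV x r (zz a b)) (he₂ : e₂ ∈ E r) (e : e₁ * n * e₂ = 1) :
    e₁ = 1 ∧ n = 1 ∧ e₂ = 1 := by
  have hP := hr.1.symm
  obtain ⟨hn, zn⟩ := (mem_VV hP).1 hn
  have t1 := CC_comm (mem_C0.1 ((h.w1 h1.opp).zz_c0 h1)).1 he₁
  have t2 := CC_comm (KK_le_CC hr h1.zz_KK) he₂
  have e' : e₁ * n⁻¹ * e₂ = 1 := by
    rw [← zn, ← mul_inv_eq_iff_eq_mul.2 t1, ← mul_inv_eq_iff_eq_mul.2 t2]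
    calc _ = zz a b * (e₁ * n * e₂) * (zz a b)⁻¹ := by group
      _ = 1 := by rw [e]; group
  have n1 : n = 1 := one_of_inv C (EL_pow hP hn)
    (mul_left_cancel (mul_right_cancel (e.trans e'.symm)))
  rw [n1, mul_one] at e
  have e1 : e₁ = 1 := (h.w1 h1.opp).free he₁ (by
    rw [eq_inv_of_mul_eq_one_left e]; exact E_fix hr.2 (inv_mem he₂))
  exact ⟨e1, n1, by simpa [e1] using e⟩

theorem JW_y (h1 : BP x y a b) (hr : r ∈ Δ x y) (hn : n ∈ VV x r (zz a b)) : n • y ∈ pl y r := by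
  have hP := hr.1.symm
  have hn' := ((mem_VV hP).1 hn).1
  obtain ⟨e₁, he₁, k, hk, e₂, he₂, e, ky⟩ := h.JW_dec h1 hr hn'
  have := (h.EL_uniq h1 hr he₁ (mul_mem hk (inv_mem hn)) he₂ (by
    rw [← mul_assoc, mul_assoc _ n⁻¹, EL_comm hP (inv_mem hn') (E_le_EL (right_mem_pl x r) he₂),
      ← mul_assoc, ← e, mul_inv_cancel])).2.1
  exact mul_inv_eq_one.1 this ▸ ky

theorem JW_le (h1 : BP x y a b) (hr : r ∈ Δ x y) (hr' : r' ∈ Δ x y) (h2 : BP r r' a' b') :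
    VV x r (zz a b) ≤ VV r x (zz a' b') := fun n hn => by
  obtain ⟨hn', zn⟩ := (mem_VV hr.1.symm).1 hn
  exact (mem_VV hr.1).2 ⟨EL_symm x r ▸ hn', h.JW_inv h1 hr hr' h2 hn' zn (h.JW_y h1 hr hn)⟩

theorem VV_symm (h1 : BP x y a b) (hr : r ∈ Δ x y) (hr' : r' ∈ Δ x y) (h2 : BP r r' a' b') :
    VV x r (zz a b) = VV r x (zz a' b') :=
  le_antisymm (h.JW_le h1 hr hr' h2) (h.JW_le h2 (dx hr hr') (dy hr hr') h1)

theorem VV_pres (h1 : BP x y a b) (hr : r ∈ Δ x y) (hn : n ∈ VV x r (zz a b))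
    (hu : u ∈ pl y r) : n • u ∈ pl y r :=
  (pres h.simple hr.2.symm (ne_l h1.symm.opp (sw hr))
    (CC_fix (EL_cc' hr.1.symm ((mem_VV hr.1.symm).1 hn).1)) (h.JW_y h1 hr hn) u).2 hu

theorem VV_free (h1 : BP x y a b) (hr : r ∈ Δ x y) (hn : n ∈ VV x r (zz a b)) (e : n • y = y) :
    n = 1 :=
  h.JW_free h1 hr ((mem_VV hr.1.symm).1 hn).1 ((mem_VV hr.1.symm).1 hn).2 e

theorem VV_ww (h1 : BP x y a b) (hr : r ∈ Δ x y) (hg : g ∈ KK x y) (gx : g • x = y)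
    (hn : n ∈ VV x r (zz a b)) : g * n * g⁻¹ ∈ VV y r (zz a b) := by
  have := conj_VV g hn
  rwa [gx, KK_fix hr hg, ← (h.w1 h1.opp).c0_KK ((h.w1 h1.opp).zz_c0 h1) hg,
    mul_inv_cancel_right] at this

theorem VV_trans (h1 : BP x y a b) (hr : r ∈ Δ x y) (hu : u ∈ pl y r) (ne : u ≠ r) :
    ∃ n ∈ VV x r (zz a b), n • y = u := by
  by_cases uy : y = u
  · exact ⟨1, one_mem _, by rw [one_smul, uy]⟩
  obtain ⟨c, n, m, ζ, h3, H, my, -⟩ := exists_triple (pl_perp hr.2.symm (left_mem_pl y r) hu)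
    uy h1.symm (opp_pl h.simple h1.symm.opp (sw hr) hu ne)
  refine ⟨m, ?_, my⟩
  rw [H.m_eq, ← h1.br.zz_symm]
  exact h.VV_ww h1.symm (sw hr) h1.symm.ww_KK h1.symm.ww_x
    ((mem_VV hr.2.symm).2 ⟨(h.JW_heis h1.symm (sw hr) hu h3 H).1, H.zn⟩)

theorem VV_heis (h1 : BP x y a b) (hr : r ∈ Δ x y) (hn : n ∈ VV x r (zz a b)) (n1 : n ≠ 1) :
    ∃ ζ ∈ M r, Heis C.p a b (a * n * ζ) n (ww a b * n * (ww a b)⁻¹) ζ := by
  have hP := hr.1.symm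
  have hm := h.VV_ww h1 hr h1.ww_KK h1.ww_x hn
  set m := ww a b * n * (ww a b)⁻¹ with hm0
  rw [← h1.br.zz_symm] at hm
  have hu : m • x ∈ pl x r := h.JW_y h1.symm (sw hr) hm
  have mc : m ∈ CC y := EL_cc hr.2.symm ((mem_VV hr.2.symm).1 hm).1
  have h3 := h1.smul m
  rw [CC_fix mc, mul_inv_eq_iff_eq_mul.2 (mem_CC.1 mc b h1.hb)] at h3
  obtain ⟨n', m', ζ, H, -⟩ := exists_heis h1.bd h3.bd
    (pl_perp hP (left_mem_pl x r) hu _ h1.ha _ h3.ha) (fun e => n1 (by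
      have := h.VV_free h1.symm (sw hr) hm (ext_M h3.ha (e.symm ▸ h1.ha))
      simpa [hm0] using this))
  obtain ⟨r', hr', a', b', h2⟩ := h.JW_ex h1 hr
  refine ⟨ζ, (h.jw h1 hr hr' h2 hu h3 H).1, ?_⟩
  have hm' := h.VV_ww h1 hr h1.ww_KK h1.ww_x
    ((mem_VV hP).2 ⟨(h.JW_heis h1 hr hu h3 H).1, H.zn⟩)
  rw [← H.m_eq, ← h1.br.zz_symm] at hm'
  have e : m⁻¹ * m' = 1 := h.VV_free h1.symm (sw hr) (mul_mem (inv_mem hm) hm') (by
    rw [mul_smul, inv_smul_eq_iff]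
    exact ext_M (conj_mem m' h1.ha) (c_eq' H ▸ h3.ha))
  have e1 : m = m' := inv_mul_eq_one.1 e
  have e2 : n = n' := by simpa [hm0, H.m_eq] using e1
  subst e2
  rw [← H.c_eq, e1]
  exact e1 ▸ H

theorem JW_conj (h1 : BP x y a b) (hr : r ∈ Δ x y) (hn : n ∈ VV x r (zz a b)) :
    ∃ ζ ∈ E r, ww a b * n * (ww a b)⁻¹ * a * (ww a b * n * (ww a b)⁻¹)⁻¹ = a * n * ζ := by
  by_cases n1 : n = 1
  · exact ⟨1, one_mem _, by simp [n1]⟩
  obtain ⟨ζ, hζ, H⟩ := h.VV_heis h1 hr hn n1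
  exact ⟨ζ, M_le_E hζ, (c_eq' H).symm⟩

theorem VV_comm (h1 : BP x y a b) (hr : r ∈ Δ x y) (hn : n ∈ VV x r (zz a b))
    (hm : m ∈ VV y r (zz a b)) : ⁅m, n⁆ ∈ E r := by
  have hk : (ww a b)⁻¹ * m * (ww a b)⁻¹⁻¹ ∈ VV x r (zz a b) := by
    rw [← h1.br.zz_symm] at hm ⊢
    exact h.VV_ww h1.symm (sw hr) (KK_symm x y ▸ inv_mem h1.ww_KK)
      (inv_smul_eq_iff.2 h1.ww_x.symm) hm
  obtain ⟨ζ₁, h₁, e₁⟩ := h.JW_conj h1 hr hk
  obtain ⟨ζ₂, h₂, e₂⟩ := h.JW_conj h1 hr hn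
  obtain ⟨ζ₃, h₃, e₃⟩ := h.JW_conj h1 hr (mul_mem hk hn)
  have t1 := CC_comm (EL_cc' hr.2.symm ((mem_VV hr.2.symm).1 hm).1) h₂
  have nc := EL_cc' hr.1.symm ((mem_VV hr.1.symm).1 hn).1
  set k := (ww a b)⁻¹ * m * (ww a b)⁻¹⁻¹ with hk0
  have e0 : ww a b * k * (ww a b)⁻¹ = m := by rw [hk0]; group
  rw [e0] at e₁
  have e4 : a * (k * n) * ζ₃ = a * k * ζ₁ * (m * n * m⁻¹) * ζ₂ := by
    calc _ = (ww a b * k * (ww a b)⁻¹) * (ww a b * n * (ww a b)⁻¹ * a *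
          (ww a b * n * (ww a b)⁻¹)⁻¹) * (ww a b * k * (ww a b)⁻¹)⁻¹ := by rw [← e₃]; group
      _ = (m * a * m⁻¹) * (m * n * m⁻¹) * (m * ζ₂ * m⁻¹) := by rw [e0, e₂]; group
      _ = _ := by rw [e₁, t1, mul_inv_cancel_right]
  have e5 : ⁅m, n⁆ = ζ₁⁻¹ * (n * (ζ₃ * ζ₂⁻¹) * n⁻¹) := by
    calc _ = (a * k * ζ₁)⁻¹ * (a * k * ζ₁ * (m * n * m⁻¹) * ζ₂) * ζ₂⁻¹ * n⁻¹ := by
          rw [commutatorElement_def]; group
      _ = _ := by rw [← e4]; group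
  rw [e5, CC_comm nc (mul_mem h₃ (inv_mem h₂)), mul_inv_cancel_right]
  exact mul_mem (inv_mem h₁) (mul_mem h₃ (inv_mem h₂))

end HR

end Cfg

end Cfsg.Lib.PT
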