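import Cfsg.Agent.PT.Pt

/-!
# Tower `PT`: unitriangular groups lie in root groups; braid partners
-/

set_option autoImplicit false
set_option linter.unusedSectionVars false
set_option linter.unusedSimpArgs false

namespace Cfsg.Lib.PT

open Matrix Subgroup
open scoped MatrixGroups commutatorElement

universe u

variable {G : Type u} [Group G]

theorem L1.count {K : Type} [Field K] [Finite K] {β : Type*} [Finite β] (g : Kˣ → β)
    (h : ∀ μ ν, g μ = g ν → (μ : K) ^ 2 = (ν : K) ^ 2) : Nat.card K ≤ 2 * Nat.card β + 1 := by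
  classical
  have := Fintype.ofFinite Kˣ
  have := Fintype.ofFinite β
  rw [Nat.card_eq_card_units_add_one K, Nat.card_eq_fintype_card, Nat.card_eq_fintype_card]
  refine Nat.succ_le_succ (Finset.card_le_mul_card_image_of_maps_to (f := g)
    (fun _ _ => Finset.mem_univ _) 2 fun y _ => ?_)
  rcases (Finset.univ.filter fun x => g x = y).eq_empty_or_nonempty with e | ⟨ν, hν⟩
  · rw [e]; simp
  refine (Finset.card_le_card (t := {ν, -ν}) fun μ hμ => ?_).trans Finset.card_le_two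
  have := h μ ν ((Finset.mem_filter.1 hμ).2.trans (Finset.mem_filter.1 hν).2.symm)
  rcases sq_eq_sq_iff_eq_or_eq_neg.1 this with e | e
  · simp [Units.ext e]
  · simp [show μ = -ν from Units.ext e]

theorem L1.le_of_dvd {p n i : ℕ} (hp : p.Prime) (h : i ∣ p ^ n) (h1 : i ≠ 1) : p ≤ i := by
  obtain ⟨k, -, rfl⟩ := (Nat.dvd_prime_pow hp).1 h
  exact Nat.le_self_pow (fun e => h1 (by rw [e, pow_zero])) p

theorem L1.eq_one {p k : ℕ} (hp : p.Prime) (h5 : 5 ≤ p) {e : G} (h1 : e ^ p ^ k = 1)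
    (h2 : e * e = 1) : e = 1 := by
  obtain ⟨m, hm⟩ := (hp.odd_of_ne_two (by omega)).pow (n := k)
  rwa [hm, pow_succ, pow_mul, pow_two, h2, one_pow, one_mul] at h1

namespace Cfg
variable {C : Cfg G} {x y s : C.Pt} {a b c e g : G}

theorem perfect_pair (ha : a ∈ C.D) (hb : b ∈ C.D) (nc : a * b ≠ b * a) :
    ⁅closure ({a, b} : Set G), closure ({a, b} : Set G)⁆ = closure ({a, b} : Set G) := by
  obtain ⟨K, _, _, f, α, β, h, -, -, e⟩ := C.pair a ha b hb nc
  exact e ▸ h.perfect C.prime C.five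

theorem l1 {d : G} (hd : d ∈ C.D) (hc : c ∈ C.D) (nc : d * c ≠ c * d) {k : ℕ}
    (he : e ^ C.p ^ k = 1) (ed : e * d = d * e) (ec : e * c = c * e) (hde : d * e ∈ C.D) :
    e = 1 := by
  have h1 := perfect_pair hde hc fun h => nc (by
    rwa [mul_assoc, ec, ← mul_assoc, ← mul_assoc, mul_left_inj] at h)
  have h2 : closure ({d * e, c} : Set G) ≤ closure {d, c} := by
    refine Trans.perfect_le_of_le_sup_central (Z := zpowers e) h1 ?_ ?_ ((closure_le _).2
      (Set.pair_subset (mul_mem (mem_sup_left (subset_closure (Or.inl rfl)))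
        (mem_sup_right (mem_zpowers e))) (mem_sup_left (subset_closure (Or.inr rfl)))))
    · rw [commutator_eq_bot_iff_le_centralizer, centralizer_closure, zpowers_le]
      rintro _ (rfl | rfl)
      exacts [ed.symm, ec.symm]
    · rw [commutator_eq_bot_iff_le_centralizer]
      exact le_centralizer _
  have h3 : e ∈ closure ({d, c} : Set G) :=
    (mul_mem_cancel_left (Subgroup.subset_closure (Set.mem_insert d {c}))).1 (h2 (subset_closure (Or.inl rfl)))
  obtain ⟨K, _, _, f, α, β, h, rfl, rfl, e'⟩ := C.pair d hd c hc nc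
  obtain ⟨x, rfl⟩ := e'.ge h3
  refine L1.eq_one C.prime C.five he ?_
  rcases h.cent2 C.prime C.five (up_ne hd) (lo_ne hc) ed ec with rfl | rfl <;> simp [← map_mul]

section rep
variable {K : Type} [Field K] [Finite K] {f : SL2 K →* G} (h : Rep C.p K f)

omit [Finite K] in
theorem up_sq_D {α : K} (hα : f (up α) ∈ C.D) (μ : Kˣ) : f (up ((μ : K) ^ 2 * α)) ∈ C.D := by
  rw [← dg_up, map_mul, map_mul, map_inv]
  exact C.conj _ hα _

omit [Finite K] in
theorem tw_up (f : SL2 K →* G) (t : K) :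
    (f.comp (MulAut.conj (wy 1)).toMonoidHom) (up (-t)) = f (lo t) :=
  congrArg f ((wy_up 1 _).trans (by simp))

include h
theorem r0 {α s : K} (hα : f (up α) ∈ C.D) (hc : c ∈ C.D) (hs : s ≠ 0)
    (e : c * f (up s) = f (up s) * c) (t : K) : c * f (up t) = f (up t) * c := by
  classical
  have := h.char
  let U : AddSubgroup K :=
    { carrier := {t | Commute c (f (up t))}
      zero_mem' := by simp [up_zero]
      add_mem' := fun h1 h2 => by
        rw [Set.mem_ofPred_eq, up_add, map_mul]; exact Commute.mul_right h1 h2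
      neg_mem' := fun h1 => by
        rw [Set.mem_ofPred_eq, up_neg, map_inv]; exact Commute.inv_right h1 }
  by_contra ht
  have h1 := L1.count (K := K) (β := U ⊕ (K ⧸ U)) (fun μ => if h : (μ : K) ^ 2 * α ∈ U then
    Sum.inl ⟨_, h⟩ else Sum.inr (QuotientAddGroup.mk ((μ : K) ^ 2 * α))) fun μ ν e => by
      refine mul_right_cancel₀ (up_ne hα) ?_
      split_ifs at e with h1 h2 h2
      · exact congrArg Subtype.val (Sum.inl.inj e)
      have h3 := QuotientAddGroup.eq.1 (Sum.inr.inj e)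
      have h4 := l1 (k := 1) (up_sq_D hα μ) hc (fun e => h1 (Eq.symm e))
        (by rw [pow_one]; exact h.up_pow_p C.prime C.five _)
        (by rw [← map_mul, Mat.up_comm, map_mul]) (Eq.symm h3)
        (by rw [← map_mul, ← up_add, add_neg_cancel_left]; exact up_sq_D hα ν)
      rw [← map_one f, ← up_zero] at h4
      exact neg_add_eq_zero.1 (h.up_inj C.prime C.five h4)
  have := Fintype.ofFinite K
  obtain ⟨n, -, hn⟩ := FiniteField.card K C.p
  have h2 := AddSubgroup.card_eq_card_quotient_mul_card_addSubgroup U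
  rw [Nat.card_sum, h2] at h1
  rw [Nat.card_eq_fintype_card, hn] at h2
  have h3 := L1.le_of_dvd C.prime (Dvd.intro_left _ h2.symm) fun h3 =>
    hs (AddSubgroup.mem_bot.1 ((AddSubgroup.eq_bot_of_card_eq U h3).le e))
  have h4 := L1.le_of_dvd C.prime (Dvd.intro _ h2.symm) fun h4 =>
    ht ((AddSubgroup.index_eq_one.1 h4).ge (AddSubgroup.mem_top t))
  have := C.five
  nlinarith
theorem up_mem_M {α t : K} (hα : f (up α) ∈ M x) (ht : f (up t) ∈ C.D) : f (up t) ∈ M x :=
  (mem_M_iff hα).2 ⟨ht, fun _ hc => ⟨fun e => r0 h ht hc (up_ne ht) e α,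
    fun e => r0 h ht hc (up_ne (mem_D hα)) e t⟩⟩
theorem lo_mem_M {α t : K} (hα : f (lo α) ∈ M x) (ht : f (lo t) ∈ C.D) : f (lo t) ∈ M x := by
  rw [← tw_up] at hα ht ⊢
  exact up_mem_M (h.conj _) hα ht
theorem up_mem_E {α : K} (hα : f (up α) ∈ M x) (t : K) : f (up t) ∈ E x := by
  let U : AddSubgroup K :=
    { carrier := {t | f (up t) ∈ E x}
      zero_mem' := by simp [up_zero]
      add_mem' := fun h1 h2 => by rw [Set.mem_ofPred_eq, up_add, map_mul]; exact mul_mem h1 h2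
      neg_mem' := fun h1 => by rw [Set.mem_ofPred_eq, up_neg, map_inv]; exact inv_mem h1 }
  exact (sq_span U (up_ne (mem_D hα)) fun μ =>
    M_le_E (up_mem_M h hα (up_sq_D (mem_D hα) μ))).ge (AddSubgroup.mem_top t)
theorem lo_mem_E {α : K} (hα : f (lo α) ∈ M x) (t : K) : f (lo t) ∈ E x := by
  rw [← tw_up] at hα ⊢
  exact up_mem_E (h.conj _) hα _
theorem rep_opp {α β : K} (hα : f (up α) ∈ M x) (hβ : f (lo β) ∈ M y) : ¬ Pp x y := fun e =>
  ((h.comm_iff C.prime C.five).1 (e _ hα _ hβ)).elim (up_ne (mem_D hα)) (lo_ne (mem_D hβ))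
theorem up_partner {α β : K} (hα : f (up α) ∈ M x) (hβ : f (lo β) ∈ M y) :
    BP x y (f (up α)) (f (lo (-α⁻¹))) := by
  have h0 := up_ne (mem_D hα)
  refine ⟨hα, lo_mem_M h hβ ?_, rep_opp h hα hβ, (h.br_iff C.prime C.five h0).2 (by field_simp)⟩
  have := C.conj _ (mem_D hα) (f (wy (Units.mk0 α h0)))
  rwa [← map_inv, ← map_mul, ← map_mul, wy_up, show (((Units.mk0 α h0)⁻¹ : Kˣ) : K) ^ 2 * α = α⁻¹ by
    simp only [Units.val_inv_eq_inv_val, Units.val_mk0]; field_simp] at this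
theorem lo_partner {α β : K} (hα : f (up α) ∈ M x) (hβ : f (lo β) ∈ M y) :
    BP x y (f (up (-β⁻¹))) (f (lo β)) := by
  have h0 := lo_ne (mem_D hβ)
  refine ⟨up_mem_M h hα ?_, hβ, rep_opp h hα hβ,
    (h.br_iff C.prime C.five (by simpa using h0)).2 (by field_simp)⟩
  have := C.conj _ (mem_D hβ) (f (wy (Units.mk0 β h0)⁻¹))
  rwa [← map_inv, ← map_mul, ← map_mul, wy_lo, show (((Units.mk0 β h0)⁻¹ : Kˣ) : K) ^ 2 * β = β⁻¹ by
    simp only [Units.val_inv_eq_inv_val, Units.val_mk0]; field_simp] at this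
end rep

theorem exists_partner' (ha : a ∈ M x) (hb : b ∈ M y) (opp : ¬ Pp x y) :
    ∃ b' ∈ closure ({a, b} : Set G), BP x y a b' := by
  obtain ⟨K, _, _, f, α, β, h, rfl, rfl, e⟩ :=
    C.pair a (mem_D ha) b (mem_D hb) fun e => opp ((Pp_iff ha hb).2 e)
  exact ⟨_, e.le ⟨_, rfl⟩, up_partner h ha hb⟩
theorem exists_partner (ha : a ∈ M x) (opp : ¬ Pp x y) : ∃ b, BP x y a b := by
  obtain ⟨b, hb⟩ := M_nonempty y
  obtain ⟨b', -, h⟩ := exists_partner' ha hb opp
  exact ⟨b', h⟩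
theorem exists_BP (opp : ¬ Pp x y) : ∃ a b, BP x y a b := by
  obtain ⟨a, ha⟩ := M_nonempty x
  exact ⟨a, exists_partner ha opp⟩

theorem exists_l (C : Cfg G) : ∃ l : (ZMod C.p)ˣ, l ^ 2 ≠ 1 :=
  ⟨Units.mk0 2 (Mat.two_ne _ C.five), fun e => Mat.two_sq _ C.five (congrArg Units.val e)⟩

end Cfg

end Cfsg.Lib.PT
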