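import Cfsg.Agent.PT.Defs4
import Mathlib.Algebra.QuadraticAlgebra.Basic
import Mathlib.FieldTheory.Finite.Basic

/-!
# Tower `PT`: the linear data, first part
-/

set_option autoImplicit false
set_option linter.unusedSectionVars false

namespace Cfsg.Lib.PT

open Module

universe u

section LD
variable {K : Type} [Field K] [Finite K] {W : Type u} [AddCommGroup W] [Module K W] [Finite W]
  {φ : W →ₗ[K] W →ₗ[K] K} {ι : Type u} {P : ι → ι → Prop} {V : ι → Submodule K W}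
  {T : ι → W →ₗ[K] W}

namespace LDa

theorem ex2 {U : Submodule K W} (hU : 2 < finrank K U) (f g : W →ₗ[K] K) :
    ∃ v ∈ U, v ≠ 0 ∧ f v = 0 ∧ g v = 0 := by
  have : Module.Finite K W := Module.Finite.of_finite
  obtain ⟨v, hv, v0⟩ := (Submodule.ne_bot_iff _).1 (LinearMap.ker_ne_bot_of_finrank_lt
    (f := (f.prod g).domRestrict U) (by simpa using hU))
  exact ⟨v, v.2, fun e => v0 (Subtype.ext e), congrArg Prod.fst hv, congrArg Prod.snd hv⟩

theorem ex1 {U : Submodule K W} (hU : 1 < finrank K U) (f : W →ₗ[K] K) :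
    ∃ v ∈ U, v ≠ 0 ∧ f v = 0 := by
  have : Module.Finite K W := Module.Finite.of_finite
  obtain ⟨v, hv, v0⟩ := (Submodule.ne_bot_iff _).1 (LinearMap.ker_ne_bot_of_finrank_lt
    (f := f.domRestrict U) (by simpa using hU))
  exact ⟨v, v.2, fun e => v0 (Subtype.ext e), hv⟩

theorem pair {U : Submodule K W} (hU : finrank K U = 2) {a b : W} (ha : a ∈ U) (hb : b ∈ U)
    (a0 : a ≠ 0) (ind : ∀ c : K, c • a ≠ b) {w : W} (hw : w ∈ U) :
    ∃ x y : K, w = x • a + y • b := by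
  have : Module.Finite K W := Module.Finite.of_finite
  have h1 := finrank_span_eq_card ((LinearIndependent.pair_iff' a0).2 ind)
  rw [Matrix.range_cons_cons_empty] at h1
  have h2 : Submodule.span K {a, b} = U := Submodule.eq_of_le_of_finrank_eq
    (Submodule.span_le.2 (Set.insert_subset ha (Set.singleton_subset_iff.2 hb)))
    (by rw [h1, hU, Fintype.card_fin])
  obtain ⟨x, y, h3⟩ := Submodule.mem_span_pair.1 (h2 ▸ hw)
  exact ⟨x, y, h3.symm⟩

theorem three (h2 : (2 : K) ≠ 0) {a b : K} (ha : a ≠ 0) (hb : b ≠ 0) (c : K) :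
    ∃ x y : K, a * x ^ 2 + (b * y ^ 2 + c) = 0 := by
  classical
  have := Fintype.ofFinite K
  obtain ⟨x, y, h⟩ := FiniteField.exists_root_sum_quadratic
    (f := Polynomial.C a * Polynomial.X ^ 2) (g := Polynomial.C b * Polynomial.X ^ 2 + Polynomial.C c)
    (Polynomial.degree_C_mul_X_pow 2 ha)
    (by simpa using Polynomial.degree_quadratic (b := 0) (c := c) hb)
    (FiniteField.odd_card_of_char_ne_two fun e => h2 (by
      have := ringChar.Nat.cast_ringChar (R := K)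
      rwa [e] at this))
  exact ⟨x, y, by simpa using h⟩

theorem avoid (h5 : 5 ≤ Nat.card K) {A B C D : Set K} (hA : A.Subsingleton) (hB : B.Subsingleton)
    (hC : C.Subsingleton) (hD : D.Subsingleton) : ∃ t, t ∉ A ∧ t ∉ B ∧ t ∉ C ∧ t ∉ D := by
  have h1 := (Set.ncard_le_one (Set.toFinite A)).2 hA
  have h2 := (Set.ncard_le_one (Set.toFinite B)).2 hB
  have h3 := (Set.ncard_le_one (Set.toFinite C)).2 hC
  have h4 := (Set.ncard_le_one (Set.toFinite D)).2 hD
  have h6 := Set.ncard_union_le A B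
  have h7 := Set.ncard_union_le (A ∪ B) C
  have h8 := Set.ncard_union_le (A ∪ B ∪ C) D
  obtain ⟨t, -, ht⟩ := Set.exists_mem_notMem_of_ncard_lt_ncard (s := A ∪ B ∪ C ∪ D)
    (t := Set.univ) (by rw [Set.ncard_univ]; omega)
  exact ⟨t, by simpa [and_assoc] using ht⟩

end LDa

theorem LD.skew (h : LD φ P V T) (w w' : W) : φ w w' = - φ w' w := by
  have h1 := h.alt (w + w')
  simp only [map_add, LinearMap.add_apply, h.alt] at h1
  linear_combination h1

theorem LD.kill (h : LD φ P V T) {r r' : ι} (hP : P r r') {v : W} (hv : v ∈ V r') : T r v = 0 :=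
  h.nd _ fun w => by rw [h.sym, h.perp r r' hP _ (h.rng r w) v hv]

theorem LD.inj (h : LD φ P V T) {r r' : ι} (hP : ¬ P r r') {v : W} (hv : v ∈ V r')
    (e : T r v = 0) : v = 0 := h.aniso r r' hP v hv (by rw [e, map_zero, LinearMap.zero_apply])

theorem LD.surj (h : LD φ P V T) {r r' : ι} (hP : ¬ P r r') {v : W} (hv : v ∈ V r) :
    ∃ v' ∈ V r', T r v' = v := by
  obtain ⟨l, l0, hl⟩ := h.sc r r' hP
  exact ⟨l⁻¹ • T r' v, Submodule.smul_mem _ _ (h.rng r' v), by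
    rw [map_smul, hl v hv, inv_smul_smul₀ l0]⟩

theorem LD.nsymm (h : LD φ P V T) {r r' : ι} (hP : ¬ P r r') : ¬ P r' r := fun e => hP (h.symm _ _ e)

theorem LD.dim (h : LD φ P V T) (h2 : (2 : K) ≠ 0) :
    (∀ r, Module.finrank K (V r) = 1) ∨ ∀ r, Module.finrank K (V r) = 2 := by
  have : Module.Finite K W := Module.Finite.of_finite
  have le : ∀ r r', ¬ P r r' → finrank K (V r') ≤ finrank K (V r) := fun r r' hP =>
    LinearMap.finrank_le_finrank_of_injective (f := (T r).restrict (p := V r') (q := V r)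
      fun v _ => h.rng r v) ((injective_iff_map_eq_zero _).2 fun v e =>
        Subtype.ext (h.inj hP v.2 (congrArg Subtype.val e)))
  have eq : ∀ r r', finrank K (V r) = finrank K (V r') := fun r r' => by
    obtain ⟨s, h3, h4⟩ := h.two r r'
    exact (le_antisymm (le _ _ h3) (le _ _ (h.nsymm h3))).trans
      (le_antisymm (le _ _ (h.nsymm h4)) (le _ _ h4))
  obtain ⟨r⟩ := h.ne
  obtain ⟨s, hs, -⟩ := h.two r r
  have h0 : finrank K (V r) ≠ 0 := fun e => h.nb r (Submodule.finrank_eq_zero.1 e)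
  have h3 : ¬ 2 < finrank K (V r) := fun hlt => by
    obtain ⟨a, ha, a0, -⟩ := LDa.ex2 hlt 0 0
    obtain ⟨b, hb, b0, ab, -⟩ := LDa.ex2 hlt (φ (T s a)) 0
    obtain ⟨c, hc, c0, ac, bc⟩ := LDa.ex2 hlt (φ (T s a)) (φ (T s b))
    have ba := h.sym s a b ▸ ab
    have ca := h.sym s a c ▸ ac
    have cb := h.sym s b c ▸ bc
    obtain ⟨x, y, h4⟩ := LDa.three h2 (fun e => a0 (h.aniso s r hs a ha e))
      (fun e => b0 (h.aniso s r hs b hb e)) (φ (T s c) c)
    have h5 := h.aniso s r hs (x • a + y • b + c) (add_mem (add_mem (Submodule.smul_mem _ _ ha)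
      (Submodule.smul_mem _ _ hb)) hc) (by
        simp only [map_add, map_smul, LinearMap.add_apply, LinearMap.smul_apply, smul_eq_mul, ab,
          ac, bc, ba, ca, cb]
        linear_combination h4)
    have h6 := congrArg (φ (T s c)) h5
    simp only [map_add, map_smul, smul_eq_mul, ca, cb, mul_zero, zero_add, map_zero] at h6
    exact c0 (h.aniso s r hs c hc h6)
  rcases (by omega : finrank K (V r) = 1 ∨ finrank K (V r) = 2) with e | e
  · exact Or.inl fun r' => (eq r' r).trans e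
  · exact Or.inr fun r' => (eq r' r).trans e

theorem LD.merge (h : LD φ P V T) (h5 : 5 ≤ Nat.card K) {a b : ι} (ab : ¬ P a b) {r₁ r₂ r₃ r₄ : ι}
    (h1 : ¬ P a r₁ ∨ ¬ P b r₁) (h2 : ¬ P a r₂ ∨ ¬ P b r₂) (h3 : ¬ P a r₃ ∨ ¬ P b r₃)
    (h4 : ¬ P a r₄ ∨ ¬ P b r₄) : ∃ s, ¬ P s r₁ ∧ ¬ P s r₂ ∧ ¬ P s r₃ ∧ ¬ P s r₄ := by
  choose s l _ hs _ using h.clos b a
  obtain ⟨v, hv, v0⟩ := (Submodule.ne_bot_iff _).1 (h.nb a)
  have key : ∀ r, (¬ P a r ∨ ¬ P b r) → {t | P (s t) r}.Subsingleton := fun r hr t ht t' ht' => by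
    have e1 := h.kill (h.symm _ _ ht) ((hs t _).2 ⟨v, hv, rfl⟩)
    have e2 := h.kill (h.symm _ _ ht') ((hs t' _).2 ⟨v, hv, rfl⟩)
    rw [map_add, map_smul] at e1 e2
    by_contra ne
    have e3 : T r (T b v) = 0 := (smul_eq_zero.1 (show (t - t') • T r (T b v) = 0 by
      rw [sub_smul, eq_neg_of_add_eq_zero_right e1, eq_neg_of_add_eq_zero_right e2,
        sub_self])).resolve_left (sub_ne_zero.2 ne)
    rw [e3, smul_zero, add_zero] at e1
    rcases hr with hr | hr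
    · exact v0 (h.inj (h.nsymm hr) hv e1)
    · exact v0 (h.inj (h.nsymm ab) hv (h.inj (h.nsymm hr) (h.rng b v) e3))
  obtain ⟨t, ht⟩ := LDa.avoid h5 (key _ h1) (key _ h2) (key _ h3) (key _ h4)
  exact ⟨s t, ht⟩

theorem LD.four (h : LD φ P V T) (h5 : 5 ≤ Nat.card K) (r₁ r₂ r₃ r₄ : ι) :
    ∃ s, ¬ P s r₁ ∧ ¬ P s r₂ ∧ ¬ P s r₃ ∧ ¬ P s r₄ := by
  obtain ⟨a, a1, a2⟩ := h.two r₁ r₂
  obtain ⟨b, ba, b3⟩ := h.two a r₃
  obtain ⟨c, c1, c2, c3, -⟩ := h.merge h5 ba (Or.inr a1) (Or.inr a2) (Or.inl b3) (Or.inl b3)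
  obtain ⟨d, dc, d4⟩ := h.two c r₄
  exact h.merge h5 dc (Or.inr c1) (Or.inr c2) (Or.inr c3) (Or.inl d4)

theorem LD.one (h : LD φ P V T) (hd : ∀ r, Module.finrank K (V r) = 1) : HasFD φ V := by
  choose v v0 hv using fun r => finrank_eq_one_iff'.1 (hd r)
  refine ⟨K, inferInstance, inferInstance, inferInstance, inferInstance, RingHom.id K, φ,
    fun r => v r, fun _ _ => rfl, fun _ => rfl, fun a => ⟨fun _ => ⟨a, rfl⟩, fun _ => rfl⟩, h.skew,
    fun w w' => (two_mul _).symm, fun r e => v0 r (Subtype.ext e), fun r w => ⟨fun hw => ?_, ?_⟩,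
    Or.inl rfl⟩
  · obtain ⟨c, hc⟩ := hv r ⟨w, hw⟩
    exact ⟨c, (congrArg Subtype.val hc).symm⟩
  · rintro ⟨a, rfl⟩
    exact Submodule.smul_mem _ _ (v r).2

theorem LD.of_J (h : LD φ P V T) (h2 : (2 : K) ≠ 0) (hd : ∀ r, Module.finrank K (V r) = 2)
    {δ : K} (hδ : ¬ IsSquare δ) (J : W →ₗ[K] W) (hJ : ∀ w, J (J w) = δ • w)
    (sk : ∀ w w', φ (J w) w' = - φ w (J w')) (hV : ∀ r, ∀ v ∈ V r, J v ∈ V r) : HasFD φ V := by
  have : Fact (∀ r : K, r ^ 2 ≠ δ + 0 * r) := ⟨fun r e => hδ ⟨r, by linear_combination -e⟩⟩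
  have δ0 : δ ≠ 0 := fun e => hδ (e ▸ IsSquare.zero)
  let ρ : QuadraticAlgebra K δ 0 →ₐ[K] Module.End K W :=
    QuadraticAlgebra.lift ⟨J, LinearMap.ext fun w => by simp [hJ]⟩
  let _ : Module (QuadraticAlgebra K δ 0) W := Module.compHom W ρ.toRingHom
  have sm : ∀ (a : QuadraticAlgebra K δ 0) (w : W), a • w = a.re • w + a.im • J w := fun _ _ => rfl
  let s : W →ₛₗ[starRingEnd (QuadraticAlgebra K δ 0)] W →ₗ[QuadraticAlgebra K δ 0]
      QuadraticAlgebra K δ 0 := LinearMap.mk₂'ₛₗ _ _ (fun w w' => ⟨φ w w', δ⁻¹ * φ w (J w')⟩)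
    (fun a b c => by ext <;> simp [mul_add])
    (fun a b c => by
      ext <;> simp [sm, sk, hJ, starRingEnd_apply] <;> field_simp)
    (fun a b c => by ext <;> simp [mul_add])
    (fun a b c => by
      ext <;> simp [sm, hJ] <;> field_simp)
  have hs : ∀ w w', s w w' = ⟨φ w w', δ⁻¹ * φ w (J w')⟩ := fun _ _ => rfl
  choose v hv v0 using fun r => (Submodule.ne_bot_iff _).1 (h.nb r)
  refine ⟨QuadraticAlgebra K δ 0, inferInstance,
    Finite.of_equiv _ (QuadraticAlgebra.equivProd δ 0).symm, inferInstance, inferInstance,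
    starRingEnd _, s, v, fun k w => by simp [sm], fun a => star_star a, fun a => ⟨fun e => ?_, ?_⟩,
    fun w w' => ?_, fun w w' => ?_, v0, fun r w => ⟨fun hw => ?_, ?_⟩, Or.inr ⟨fun e => ?_, ?_⟩⟩
  · have h1 := congrArg QuadraticAlgebra.im e
    rw [starRingEnd_apply, QuadraticAlgebra.im_star] at h1
    have h3 : a.im = 0 := (mul_eq_zero.1 (show 2 * a.im = 0 by linear_combination -h1)).resolve_left h2
    exact ⟨a.re, by ext <;> simp [h3]⟩
  · rintro ⟨k, rfl⟩
    ext <;> simp [starRingEnd_apply]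
  · rw [hs, hs, h.skew w' w, h.skew w' (J w), sk]
    ext <;> simp [starRingEnd_apply]
  · rw [hs]
    ext <;> simp [starRingEnd_apply, two_mul]
  · obtain ⟨x, y, e⟩ := LDa.pair (hd r) (hv r) (hV r _ (hv r)) (v0 r) (fun c e => hδ ⟨c, by
      have h1 := hJ (v r)
      rw [← e, map_smul, ← e, smul_smul] at h1
      exact (smul_left_injective K (v0 r) h1).symm⟩) hw
    exact ⟨⟨x, y⟩, e⟩
  · rintro ⟨a, rfl⟩
    exact add_mem (Submodule.smul_mem _ _ (hv r)) (Submodule.smul_mem _ _ (hV r _ (hv r)))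
  · have h1 := congrArg QuadraticAlgebra.im (DFunLike.congr_fun e ⟨0, 1⟩)
    simp only [starRingEnd_apply, QuadraticAlgebra.im_star, RingHom.id_apply] at h1
    exact h2 (by linear_combination -h1)
  · rw [Nat.card_congr (QuadraticAlgebra.equivProd δ 0), Nat.card_prod, pow_two]

end LD

end Cfsg.Lib.PT
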