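import Cfsg.Agent.PT.LDa
import Mathlib.NumberTheory.LegendreSymbol.QuadraticChar.Basic

/-!
# Tower `PT`: the global complex structure
-/

set_option autoImplicit false
set_option linter.unusedSectionVars false

namespace Cfsg.Lib.PT

open Module

universe u

section LD
variable {K : Type} [Field K] [Finite K] {W : Type u} [AddCommGroup W] [Module K W] [Finite W]
  {φ : W →ₗ[K] W →ₗ[K] K} {ι : Type u} {P : ι → ι → Prop} {V : ι → Submodule K W}
  {T : ι → W →ₗ[K] W}

namespace LDb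

/-- A complex structure on `V r`. -/
structure Good (φ : W →ₗ[K] W →ₗ[K] K) (V : ι → Submodule K W) (T : ι → W →ₗ[K] W) (δ : K)
    (r : ι) (j : W →ₗ[K] W) : Prop where
  mem : ∀ v ∈ V r, j v ∈ V r
  sq : ∀ v ∈ V r, j (j v) = δ • v
  sk : ∀ w w', φ (j (T r w)) w' = - φ (j (T r w')) w

/-- Compatible structures. -/
def Cp (φ : W →ₗ[K] W →ₗ[K] K) (V : ι → Submodule K W) (r : ι) (j : W →ₗ[K] W) (r' : ι)
    (j' : W →ₗ[K] W) : Prop :=
  ∀ v ∈ V r, ∀ v' ∈ V r', φ (j v) v' = - φ v (j' v')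

variable {δ : K} {r r' r'' : ι} {j j' j'' : W →ₗ[K] W}

theorem sq_mul {a b : K} (ha : ¬ IsSquare a) (hb : ¬ IsSquare b) : IsSquare (a * b) := by
  classical
  have := Fintype.ofFinite K
  have ha0 : a ≠ 0 := by rintro rfl; exact ha IsSquare.zero
  have hb0 : b ≠ 0 := by rintro rfl; exact hb IsSquare.zero
  rw [← quadraticChar_neg_one_iff_not_isSquare] at ha hb
  rw [← quadraticChar_one_iff_isSquare (mul_ne_zero ha0 hb0), map_mul, ha, hb]
  simp

theorem Cp.symm (h : LD φ P V T) (c : Cp φ V r j r' j') : Cp φ V r' j' r j := fun v hv v' hv' => by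
  rw [h.skew, h.skew v, c v' hv' v hv, neg_neg]

theorem Cp.int (h : LD φ P V T) (c : Cp φ V r j r' j') (g : Good φ V T δ r' j') {v : W}
    (hv : v ∈ V r) : T r' (j v) = j' (T r' v) := sub_eq_zero.1 (h.nd _ fun w => by
  rw [map_sub, LinearMap.sub_apply, h.sym, g.sk, h.skew, c v hv _ (h.rng r' w), h.skew v]
  ring)

theorem Good.inj (hδ : ¬ IsSquare δ) (g : Good φ V T δ r j) {v : W} (hv : v ∈ V r) (e : j v = 0) :
    v = 0 := by
  have h1 := g.sq v hv
  rw [e, map_zero] at h1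
  exact (smul_eq_zero.1 h1.symm).resolve_left fun e => hδ (e ▸ IsSquare.zero)

theorem Good.transport (h : LD φ P V T) (g : Good φ V T δ r j) (hP : ¬ P r r') :
    ∃ j', Good φ V T δ r' j' ∧ Cp φ V r j r' j' := by
  obtain ⟨l, l0, hl⟩ := h.sc r' r (h.nsymm hP)
  have hl' : ∀ v ∈ V r, T r (T r' v) = l • v := fun v hv => by
    obtain ⟨w, hw, rfl⟩ := h.surj hP hv
    rw [hl w hw, map_smul]
  refine ⟨l⁻¹ • T r' ∘ₗ j ∘ₗ T r, ⟨fun v _ => Submodule.smul_mem _ _ (h.rng _ _), fun v hv => ?_,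
    fun w w' => ?_⟩, fun v hv v' hv' => ?_⟩
  · simp only [LinearMap.smul_apply, LinearMap.comp_apply, map_smul]
    rw [hl' _ (g.mem _ (h.rng r v)), map_smul, g.sq _ (h.rng r v), map_smul, map_smul, hl v hv]
    simp only [smul_smul]
    congr 1
    field_simp
  · simp only [LinearMap.smul_apply, LinearMap.comp_apply, map_smul, smul_eq_mul]
    rw [h.sym r', h.sym r' (j _), h.skew (T r' w'), h.skew (T r' w), g.sk]
    ring
  · obtain ⟨w, hw, rfl⟩ := h.surj hP hv
    simp only [LinearMap.smul_apply, LinearMap.comp_apply, map_smul, smul_eq_mul]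
    rw [g.sk, h.skew (T r w), h.sym r', hl w hw, map_smul, LinearMap.smul_apply, h.skew w,
      smul_eq_mul]
    field_simp

theorem Good.pm (h : LD φ P V T) (h2 : (2 : K) ≠ 0) (hd : finrank K (V r) = 2)
    (hδ : ¬ IsSquare δ) (g : Good φ V T δ r j) (g' : Good φ V T δ r j') :
    (∀ v ∈ V r, j' v = j v) ∨ ∀ v ∈ V r, j' v = - j v := by
  obtain ⟨s, hs, -⟩ := h.two r r
  obtain ⟨l, l0, hl⟩ := h.sc r s (h.nsymm hs)
  have sk : ∀ {j}, Good φ V T δ r j → ∀ a ∈ V r, ∀ b ∈ V r,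
      φ (T s (j a)) b = - φ (T s (j b)) a := fun {j} g a ha b hb => by
    have h1 := g.sk (T s a) (T s b)
    rw [hl a ha, hl b hb, map_smul, map_smul, map_smul, map_smul, LinearMap.smul_apply,
      LinearMap.smul_apply, ← smul_neg] at h1
    rw [h.sym, h.sym s (j b), h.skew, h.skew (T s a), smul_right_injective K l0 h1]
  have sk0 : ∀ {j}, Good φ V T δ r j → ∀ a ∈ V r, φ (T s (j a)) a = 0 := fun {j} g a ha =>
    (mul_eq_zero.1 (show 2 * φ (T s (j a)) a = 0 by
      linear_combination sk g a ha a ha)).resolve_left h2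
  obtain ⟨v, hv, v0⟩ := (Submodule.ne_bot_iff _).1 (h.nb r)
  have jv := g.mem v hv
  have bas : ∀ w ∈ V r, ∃ x y : K, w = x • v + y • j v := fun w hw =>
    LDa.pair hd hv jv v0 (fun c e => hδ ⟨c, by
      have h1 := g.sq v hv
      rw [← e, map_smul, ← e, smul_smul] at h1
      exact (smul_left_injective K v0 h1).symm⟩) hw
  have b1 : φ (T s v) v ≠ 0 := fun e => v0 (h.aniso s r hs v hv e)
  have b2 : φ (T s (j v)) (j v) ≠ 0 := fun e => v0 (g.inj hδ hv (h.aniso s r hs _ jv e))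
  have b3 := sk0 g v hv
  have b4 : φ (T s v) (j v) = 0 := h.sym s _ _ ▸ b3
  obtain ⟨x, y, e1⟩ := bas _ (g'.mem v hv)
  obtain ⟨x', y', e2⟩ := bas _ (g'.mem _ jv)
  have h3 := sk0 g' v hv
  have h4 := sk0 g' _ jv
  have h5 := sk g' _ jv v hv
  have h6 := sk g _ jv v hv
  rw [g.sq v hv] at h6
  rw [e1] at h3 h5
  rw [e2] at h4 h5
  simp only [map_add, map_smul, LinearMap.add_apply, LinearMap.smul_apply, smul_eq_mul, b3, b4,
    mul_zero, add_zero, zero_add] at h3 h4 h5 h6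
  rw [(mul_eq_zero.1 h3).resolve_right b1, zero_smul, zero_add] at e1
  rw [(mul_eq_zero.1 h4).resolve_right b2, zero_smul, add_zero] at e2
  have h7 : x' = y * δ := mul_right_cancel₀ b1 (by linear_combination h5 - y * h6)
  have h8 := g'.sq v hv
  rw [e1, map_smul, e2, smul_smul, h7] at h8
  have h9 : ∀ w ∈ V r, j' w = y • j w := fun w hw => by
    obtain ⟨a, b, rfl⟩ := bas w hw
    simp only [map_add, map_smul, e1, e2, h7, g.sq v hv]
    module
  have h10 : y * y = 1 := mul_right_cancel₀ (fun e : δ = 0 => hδ (e ▸ IsSquare.zero))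
    (by linear_combination smul_left_injective K v0 h8)
  rcases mul_self_eq_one_iff.1 h10 with rfl | rfl
  · exact Or.inl fun w hw => by rw [h9 w hw, one_smul]
  · exact Or.inr fun w hw => by rw [h9 w hw, neg_one_smul]

theorem ex_good (h : LD φ P V T) (hd : finrank K (V r) = 2) (hδ : ¬ IsSquare δ) :
    ∃ j, Good φ V T δ r j := by
  obtain ⟨s, hs, -⟩ := h.two r r
  obtain ⟨l, -, hl⟩ := h.sc r s (h.nsymm hs)
  obtain ⟨v, hv, v0⟩ := (Submodule.ne_bot_iff _).1 (h.nb r)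
  obtain ⟨u, hu, u0, vu⟩ := LDa.ex1 (U := V r) (by omega) (φ (T s v))
  have uv : φ (T s u) v = 0 := h.sym s _ _ ▸ vu
  have b1 : φ (T s v) v ≠ 0 := fun e => v0 (h.aniso s r hs v hv e)
  have b2 : φ (T s u) u ≠ 0 := fun e => u0 (h.aniso s r hs u hu e)
  have h1 : ¬ IsSquare (-(φ (T s v) v * φ (T s u) u)) := fun ⟨c, hc⟩ => by
    have h2 := congrArg (φ (T s u)) (h.aniso s r hs (c • v + φ (T s v) v • u)
      (add_mem (Submodule.smul_mem _ _ hv) (Submodule.smul_mem _ _ hu)) (by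
        simp only [map_add, map_smul, LinearMap.add_apply, LinearMap.smul_apply, smul_eq_mul, vu, uv]
        linear_combination (-φ (T s v) v) * hc))
    simp only [map_add, map_smul, smul_eq_mul, uv, mul_zero, zero_add, map_zero] at h2
    exact mul_ne_zero b1 b2 h2
  obtain ⟨c, hc⟩ := sq_mul h1 hδ
  have δ0 : δ ≠ 0 := fun e => hδ (e ▸ IsSquare.zero)
  have c0 : c ≠ 0 := by
    rintro rfl
    exact mul_ne_zero (neg_ne_zero.2 (mul_ne_zero b1 b2)) δ0 (by rw [hc, mul_zero])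
  refine ⟨(δ / c) • ((φ (T s v)).smulRight u - (φ (T s u)).smulRight v), fun w _ =>
    Submodule.smul_mem _ _ (sub_mem (Submodule.smul_mem _ _ hu) (Submodule.smul_mem _ _ hv)),
    fun w hw => ?_, fun w w' => ?_⟩
  · obtain ⟨x, y, rfl⟩ := LDa.pair hd hv hu v0 (fun c e => by
      rw [← e, map_smul, smul_eq_mul] at vu
      rw [(mul_eq_zero.1 vu).resolve_right b1, zero_smul] at e
      exact u0 e.symm) hw
    simp only [LinearMap.smul_apply, LinearMap.sub_apply, LinearMap.smulRight_apply, map_add,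
      map_smul, map_sub, vu, uv]
    have h2 : δ / c * (δ / c) * (φ (T s v) v * φ (T s u) u) = -δ := by
      field_simp
      linear_combination -hc
    linear_combination (norm := module) (-h2) • (x • v + y • u)
  · have h2 : ∀ a ∈ V r, ∀ w, φ (T s a) (T r w) = -(l * φ a w) := fun a ha w => by
      rw [h.skew, h.sym, hl a ha, map_smul, LinearMap.smul_apply, smul_eq_mul]
    simp only [LinearMap.smul_apply, LinearMap.sub_apply, LinearMap.smulRight_apply,
      map_smul, map_sub, smul_eq_mul, h2 v hv, h2 u hu]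
    ring

theorem tri (h : LD φ P V T) (h2 : (2 : K) ≠ 0) (hd : ∀ r, finrank K (V r) = 2)
    (hδ : ¬ IsSquare δ) (p1 : ¬ P r r') (p2 : ¬ P r' r'') (p3 : ¬ P r r'') (g : Good φ V T δ r j)
    (g' : Good φ V T δ r' j') (g'' : Good φ V T δ r'' j'') (c1 : Cp φ V r j r' j')
    (c2 : Cp φ V r' j' r'' j'') : Cp φ V r j r'' j'' := by
  obtain ⟨k, gk, ck⟩ := g.transport h p3
  rcases gk.pm h h2 (hd _) hδ g'' with e | e
  · exact fun v hv v' hv' => by rw [e v' hv', ck v hv v' hv']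
  exfalso
  have two : ∀ w : W, w + w = 0 → w = 0 := fun w e =>
    (smul_eq_zero.1 ((two_smul K w).trans e)).resolve_left h2
  have i1 : ∀ v ∈ V r'', T r (j'' v) = - j (T r v) := fun v hv => by
    rw [e v hv, map_neg, (ck.symm h).int h g hv]
  have i2 : ∀ v ∈ V r'', T r (T r' (j'' v)) = j (T r (T r' v)) := fun v hv => by
    rw [(c2.symm h).int h g' hv, (c1.symm h).int h g (h.rng _ _)]
  obtain ⟨s, l, -, hs, hT⟩ := h.clos r' r'' 1
  simp only [one_smul] at hs hT
  have tt : ∀ w, T r' (T r' w) = 0 := fun w => h.kill (h.refl _) (h.rng _ _)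
  obtain ⟨m, hm⟩ : ∃ m : W →ₗ[K] W, ∀ w, m (w + T r' w) = j'' w + T r' (j'' w) :=
    ⟨(1 + T r') * j'' * (1 - T r'), fun w => by simp [tt]⟩
  have sur : ∀ w, ∃ w0, w = w0 + T r' w0 := fun w => ⟨w - T r' w, by simp [tt]⟩
  have iso : ∀ a b, φ (a + T r' a) (b + T r' b) = φ a b := fun a b => by
    simp only [map_add, LinearMap.add_apply]
    rw [h.sym r' a (T r' b), tt, h.skew a (T r' b), h.sym r' b a, map_zero, LinearMap.zero_apply]
    ring
  have gm : Good φ V T δ s m := by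
    refine ⟨fun v hv => ?_, fun v hv => ?_, fun w w' => ?_⟩
    · obtain ⟨x, hx, rfl⟩ := (hs v).1 hv
      exact (hs _).2 ⟨_, g''.mem x hx, hm x⟩
    · obtain ⟨x, hx, rfl⟩ := (hs v).1 hv
      rw [hm, hm, g''.sq x hx, map_smul, smul_add]
    · obtain ⟨w, rfl⟩ := sur w
      obtain ⟨w', rfl⟩ := sur w'
      rw [hT, hT, map_smul m, map_smul m, hm, hm, map_smul φ, map_smul φ, LinearMap.smul_apply,
        LinearMap.smul_apply, iso, iso, g''.sk, smul_neg]
  obtain ⟨v, hv, v0⟩ := (Submodule.ne_bot_iff _).1 (h.nb r'')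
  have vs : v + T r' v ∈ V s := (hs _).2 ⟨v, hv, rfl⟩
  have a0 : j (T r v) ≠ 0 := fun e => v0 (h.inj p3 hv (g.inj hδ (h.rng _ _) e))
  have b0 : j (T r (T r' v)) ≠ 0 := fun e =>
    v0 (h.inj p2 hv (h.inj p1 (h.rng _ _) (g.inj hδ (h.rng _ _) e)))
  have i3 : T r (m (v + T r' v)) = - j (T r v) + j (T r (T r' v)) := by
    rw [hm, map_add, i1 v hv, i2 v hv]
  by_cases hP : P r s
  · have h3 := congrArg j (h.kill hP vs)
    rw [h.kill hP (gm.mem _ vs)] at i3
    rw [map_add, map_add, map_zero] at h3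
    exact b0 (two _ (by linear_combination (norm := module) h3 - i3))
  obtain ⟨n, gn, cn⟩ := g.transport h hP
  have i4 := (cn.symm h).int h g vs
  rw [map_add (T r), map_add j] at i4
  rcases gn.pm h h2 (hd _) hδ gm with e' | e'
  · rw [e' _ vs, i4] at i3
    exact a0 (two _ (by linear_combination (norm := module) i3))
  · rw [e' _ vs, map_neg, i4] at i3
    exact b0 (two _ (by linear_combination (norm := module) -i3))

theorem family (h : LD φ P V T) (h2 : (2 : K) ≠ 0) (h5 : 5 ≤ Nat.card K)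
    (hd : ∀ r, finrank K (V r) = 2) (hδ : ¬ IsSquare δ) :
    ∃ j : ι → W →ₗ[K] W, (∀ r, Good φ V T δ r (j r)) ∧ ∀ r r', Cp φ V r (j r) r' (j r') := by
  obtain ⟨o⟩ := h.ne
  obtain ⟨j0, g0⟩ := ex_good h (hd o) hδ
  have key : ∀ r, ∃ j, Good φ V T δ r j ∧ ∀ u k, ¬ P u o → ¬ P u r → Good φ V T δ u k →
      Cp φ V u k o j0 → Cp φ V u k r j := fun r => by
    obtain ⟨s, so, sr⟩ := h.two o r
    obtain ⟨js, gs, cs⟩ := g0.transport h (h.nsymm so)
    obtain ⟨j, g, c⟩ := gs.transport h sr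
    refine ⟨j, g, fun u k uo ur gk ck => ?_⟩
    obtain ⟨w, wo, ws, wr, wu⟩ := h.four h5 o s r u
    obtain ⟨jw, gw, cw⟩ := g0.transport h (h.nsymm wo)
    exact tri h h2 hd hδ (h.nsymm wu) wr ur gk gw g
      (tri h h2 hd hδ uo (h.nsymm wo) (h.nsymm wu) gk g0 gw ck cw)
      (tri h h2 hd hδ ws sr wr gw gs g
        (tri h h2 hd hδ wo (h.nsymm so) ws gw g0 gs (cw.symm h) cs) c)
  choose j g c using key
  refine ⟨j, g, fun r r' => ?_⟩
  by_cases hP : P r r'
  · exact fun v hv v' hv' => by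
      rw [h.perp r r' hP _ ((g r).mem v hv) v' hv', h.perp r r' hP v hv _ ((g r').mem v' hv'),
        neg_zero]
  obtain ⟨u, uo, ur, ur', -⟩ := h.four h5 o r r' r
  obtain ⟨k, gk, ck⟩ := g0.transport h (h.nsymm uo)
  exact tri h h2 hd hδ (h.nsymm ur) ur' hP (g r) gk (g r')
    ((c r u k uo ur gk (ck.symm h)).symm h) (c r' u k uo ur' gk (ck.symm h))

theorem ext (h : LD φ P V T) {X : Type*} [AddCommGroup X] [Module K X] {f g : W →ₗ[K] X}
    (e : ∀ r, ∀ v ∈ V r, f v = g v) (w : W) : f w = g w :=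
  (show ⊤ ≤ LinearMap.eqLocus f g from h.span ▸ iSup_le e) Submodule.mem_top

end LDb

theorem LD.exists_J (h : LD φ P V T) (h2 : (2 : K) ≠ 0) (h5 : 5 ≤ Nat.card K)
    (hd : ∀ r, Module.finrank K (V r) = 2) {δ : K} (hδ : ¬ IsSquare δ) :
    ∃ J : W →ₗ[K] W, (∀ w, J (J w) = δ • w) ∧ (∀ w w', φ (J w) w' = - φ w (J w')) ∧
      ∀ r, ∀ v ∈ V r, J v ∈ V r := by
  obtain ⟨j, g, c⟩ := LDb.family h h2 h5 hd hδ
  let S : Submodule K W :=
    { carrier := {a | ∃ b, ∀ r, ∀ v ∈ V r, φ b v = - φ a (j r v)}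
      add_mem' := fun ⟨b, hb⟩ ⟨b', hb'⟩ => ⟨b + b', fun r v hv => by
        rw [map_add, map_add, LinearMap.add_apply, LinearMap.add_apply, hb r v hv, hb' r v hv,
          neg_add]⟩
      zero_mem' := ⟨0, fun r v _ => by simp⟩
      smul_mem' := fun k a ⟨b, hb⟩ => ⟨k • b, fun r v hv => by
        rw [map_smul, map_smul, LinearMap.smul_apply, LinearMap.smul_apply, hb r v hv, smul_neg]⟩ }
  have hS : ⊤ ≤ S := h.span ▸ iSup_le fun r v hv => ⟨j r v, fun r' => c r r' v hv⟩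
  choose f hf using fun a => (hS (Submodule.mem_top (x := a)) :)
  have uq : ∀ a b, (∀ r, ∀ v ∈ V r, φ b v = - φ a (j r v)) → f a = b := fun a b hb =>
    sub_eq_zero.1 (h.nd _ fun w => by
      rw [map_sub, LinearMap.sub_apply, sub_eq_zero]
      exact LDb.ext h (fun r v hv => by rw [hf a r v hv, hb r v hv]) w)
  let J : W →ₗ[K] W :=
    { toFun := f
      map_add' := fun a b => uq _ _ fun r v hv => by
        rw [map_add, map_add, LinearMap.add_apply, LinearMap.add_apply, hf a r v hv, hf b r v hv,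
          neg_add]
      map_smul' := fun k a => uq _ _ fun r v hv => by
        rw [map_smul, map_smul, LinearMap.smul_apply, LinearMap.smul_apply, hf a r v hv, smul_neg,
          RingHom.id_apply] }
  have hJ : ∀ r, ∀ v ∈ V r, J v = j r v := fun r v hv => uq _ _ fun r' => c r r' v hv
  refine ⟨J, LDb.ext h (f := J ∘ₗ J) (g := δ • LinearMap.id) fun r v hv => ?_,
    fun w => LDb.ext h (f := φ (J w)) (g := -(φ w ∘ₗ J)) fun r v hv => ?_,
    fun r v hv => hJ r v hv ▸ (g r).mem v hv⟩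
  · rw [LinearMap.comp_apply, hJ r v hv, hJ r _ ((g r).mem v hv), (g r).sq v hv]; rfl
  · rw [LinearMap.neg_apply, LinearMap.comp_apply, hJ r v hv]
    exact hf w r v hv

theorem LD.hasFD (h : LD φ P V T) (h2 : (2 : K) ≠ 0) (h5 : 5 ≤ Nat.card K) : HasFD φ V := by
  rcases h.dim h2 with hd | hd
  · exact h.one hd
  obtain ⟨δ, hδ⟩ := FiniteField.exists_nonsquare (F := K) fun e => h2 (by
    have := ringChar.Nat.cast_ringChar (R := K)
    rwa [e] at this)
  obtain ⟨J, h3, h4, h6⟩ := h.exists_J h2 h5 hd hδ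
  exact h.of_J h2 hd hδ J h3 h4 h6

end LD

end Cfsg.Lib.PT
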