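import Cfsg.Agent.PT.PB3
import Cfsg.Agent.PT.Defs3

/-!
# Tower `PT`: hyperbolic lines in rank one
-/

set_option autoImplicit false
set_option linter.unusedSectionVars false

namespace Cfsg.Lib.PT

open Matrix Subgroup
open scoped MatrixGroups commutatorElement

universe u

variable {G : Type u} [Group G]

namespace Cfg
variable [Finite G] {C : Cfg G} {x y y' u v : C.Pt} {a b c e g : G} {r : ℕ} {l : (ZMod C.p)ˣ}

namespace LNSp

theorem opp (r1 : C.R1) (ne : x ≠ y) : ¬ Pp x y := fun h => ne (r1 x y h)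

theorem triv (r1 : C.R1) : Triv (DK x y) g ↔ ∀ k ∈ KK x y, g • k • x = k • x := by
  rw [triv_iff r1 (sub_DK r1 x y).sub]
  constructor
  · intro h k hk
    obtain ⟨c, hc⟩ := M_nonempty (k • x)
    exact h _ ⟨c, ⟨k, hk, hc⟩, hc⟩
  · rintro h u ⟨c, ⟨k, hk, h1⟩, h2⟩
    rw [ext_M h2 h1]
    exact h k hk

theorem data (h : C.RO) (ne : x ≠ y) (hK : KK x y ≠ ⊤) :
    ∃ a b, BP x y a b ∧ a ∈ DK x y ∧ b ∈ DK x y ∧ Good C (DK x y) ∧ Triv (DK x y) (zz a b) ∧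
      E' (DK x y) a = E x ∧ E' (DK x y) b = E y ∧
      ∀ e, e ∈ S x y ↔ e ∈ E x ∧ Triv (DK x y) e := by
  have o := opp h.r1 ne
  obtain ⟨a, b, k⟩ := exists_BP o
  obtain ⟨h1, h2⟩ := M_sub_DK o
  have hs := sub_DK h.r1 x y
  refine ⟨a, b, k, h1 k.ha, h2 k.hb, hs.good h.ih (h1 k.ha) (h2 k.hb) k.bd.nc
    (by rwa [closure_DK o]), (triv h.r1).2 fun _ => zz_fix k, E'_eq h.r1 hs.sub k.ha h1,
    E'_eq h.r1 hs.sub k.hb h2, fun e => ⟨fun he => ⟨he.1, (triv h.r1).2 fun _ hk =>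
      WW_fix o hk (mem_sup_left he)⟩, fun he => mem_S.2 ⟨he.1, ?_⟩⟩⟩
  have := (triv h.r1).1 he.2 _ k.ww_KK
  rwa [k.ww_x] at this

theorem smul_ln (g : G) : g • u ∈ ln (g • x) (g • y) ↔ u ∈ ln x y :=
  ⟨fun h => by simpa using smul_mem_ln g⁻¹ h, smul_mem_ln g⟩

end LNSp

open LNSp

namespace RO
variable (h : C.RO) (ne : x ≠ y) (hK : KK x y ≠ ⊤)
include h ne hK

theorem orbit_iff : u ∈ ln x y ↔ ∃ g ∈ KK x y, g • x = u := by
  obtain ⟨a, b, k, ha, hb, hg, hz, e1, -⟩ := data h ne hK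
  constructor
  · rintro (rfl | ⟨e, he, rfl⟩)
    · exact ⟨1, one_mem _, one_smul _ _⟩
    · exact ⟨e * ww a b, mul_mem (mem_sup_left he) k.ww_KK, by rw [mul_smul, k.ww_x]⟩
  · rintro ⟨g, hg', rfl⟩
    obtain ⟨c, hc⟩ := M_nonempty (g • x)
    rcases pb1 (sub_DK h.r1 x y) hg ha hb k.bd hz ⟨g, hg', hc⟩ with e | ⟨e, he, e'⟩
    · exact Or.inl (h.r1 _ _ ((Pp_iff hc k.ha).2 e))
    · exact Or.inr ⟨e, e1 ▸ he, h.r1 _ _ ((Pp_iff (conj_mem e k.hb) hc).2 e')⟩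

theorem ln_smul (hg : g ∈ KK x y) (hu : u ∈ ln x y) : g • u ∈ ln x y := by
  obtain ⟨k, hk, rfl⟩ := (h.orbit_iff ne hK).1 hu
  exact (h.orbit_iff ne hK).2 ⟨g * k, mul_mem hg hk, mul_smul _ _ _⟩

theorem ln_two (hu : u ∈ ln x y) (hv : v ∈ ln x y) (huv : u ≠ v) :
    ∃ g ∈ KK x y, g • x = u ∧ g • y = v := by
  obtain ⟨k, hk, rfl⟩ := (h.orbit_iff ne hK).1 hu
  rcases h.ln_smul ne hK (inv_mem hk) hv with e | ⟨e, he, e'⟩
  · exact absurd (inv_smul_eq_iff.1 e).symm huv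
  · exact ⟨k * e, mul_mem hk (mem_sup_left he), by rw [mul_smul, E_fix (Pp_refl x) he],
      by rw [mul_smul, e', smul_inv_smul]⟩

theorem ln_eq (hu : u ∈ ln x y) (hv : v ∈ ln x y) (huv : u ≠ v) :
    ln u v = ln x y ∧ KK u v = KK x y := by
  obtain ⟨k, hk, rfl, rfl⟩ := h.ln_two ne hK hu hv huv
  refine ⟨Set.ext fun w => ?_, le_antisymm (fun w hw => ?_) fun w hw => ?_⟩
  · obtain ⟨w, rfl⟩ := MulAction.surjective k w
    rw [smul_ln]
    exact ⟨h.ln_smul ne hK hk, fun e => by simpa using h.ln_smul ne hK (inv_mem hk) e⟩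
  · have := conj_KK k⁻¹ hw
    rw [inv_smul_smul, inv_smul_smul] at this
    simpa [mul_assoc] using mul_mem (mul_mem hk this) (inv_mem hk)
  · simpa [mul_assoc] using conj_KK k (mul_mem (mul_mem (inv_mem hk) hw) hk)

theorem ln_ne_univ : ∃ u, u ∉ ln x y := by
  by_contra! k
  refine hK (eq_top_iff.2 (h.simple.iSup_E.ge.trans (iSup_le fun u e he => ?_)))
  obtain ⟨g, hg, rfl⟩ := (h.orbit_iff ne hK).1 (k u)
  simpa [mul_assoc] using mul_mem (mul_mem hg (mem_sup_left (mem_E_smul.1 he))) (inv_mem hg)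

theorem hasLn (w : W1 x y) : HasLn (E x) (E y) C.p := by
  obtain ⟨a, b, k, ha, hb, hg, hz, e1, e2, e3⟩ := data h ne hK
  rw [← e1, ← e2]
  exact pb3b (sub_DK h.r1 x y) hg ha hb k.bd hz fun e he t =>
    mem_bot.1 (w.2.1.le ((e3 e).2 ⟨e1 ▸ he, t⟩))

theorem card_M : ¬ C.p ∣ ((fun g : G => (g : G ⧸ S x y)) '' M x).ncard := by
  obtain ⟨a, b, k, ha, hb, hg, hz, e1, -, e3⟩ := data h ne hK
  have := pb3a (sub_DK h.r1 x y) hg ha hb k.bd hz (S x y) (by rw [e1]; exact e3)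
  rwa [show {c | c ∈ DK x y ∧ c * a = a * c} = M x from Set.ext fun c =>
    ⟨fun hc => SQp.mem_M h.r1 k.ha ((sub_DK h.r1 x y).sub hc.1) hc.2,
      fun hc => ⟨(M_sub_DK k.opp).1 hc, Pp_refl x c hc a k.ha⟩⟩] at this

end RO

theorem W1.card_ln (w : W1 x y) : (ln x y).ncard = Nat.card (E x) + 1 := by
  have e : ln x y = insert x ((fun e : G => e • y) '' (E x : Set G)) := Set.ext fun u => Iff.rfl
  rw [e, Set.ncard_insert_of_notMem, Set.InjOn.ncard_image]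
  · rfl
  · intro e he e' he' k
    exact (inv_mul_eq_one.1 (w.free (mul_mem (inv_mem he) he')
      (by rw [mul_smul, inv_smul_eq_iff]; exact k.symm)))
  · rintro ⟨e, he, k⟩
    exact ne_of_opp w.1 (MulAction.injective e ((E_fix (Pp_refl x) he).trans k.symm))

end Cfg

end Cfsg.Lib.PT
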