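import Cfsg.Agent.PT.Defs4
import Cfsg.Agent.Class.AltBasis
import Cfsg.Agent.Class.OrthMat

/-!
# Tower `PT`: the model space
-/

set_option autoImplicit false

namespace Cfsg.Lib.PT

open Subgroup Cfsg.Lib.Class Cfsg.Lib.Class.Form

universe u

variable {G : Type u} [Group G]

section model
variable {K : Type} [Field K] {W : Type u} [AddCommGroup W] [Module K W]
  {φ : W →ₗ[K] W →ₗ[K] K} {F : Type} [Field F] [Algebra K F] [Module F W] {σ : F →+* F}
  {s : W →ₛₗ[σ] W →ₗ[F] F}

theorem FD.phi_zero {ι : Type u} {V : ι → Submodule K W} {v : ι → W} (h : FD φ V F σ s v)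
    (h2 : (2 : F) ≠ 0) {w w' : W} (e : s w w' + σ (s w w') = 0) : φ w w' = 0 :=
  (algebraMap K F).injective (((mul_eq_zero.1 ((h.re w w').symm.trans e)).resolve_left h2).trans
    (map_zero _).symm)

theorem FD.orth {ι : Type u} {V : ι → Submodule K W} {v : ι → W} (h : FD φ V F σ s v)
    (h2 : (2 : F) ≠ 0) (r : ι) (w : W) : (∀ v' ∈ V r, φ w v' = 0) ↔ s w (v r) = 0 := by
  constructor
  · intro H
    by_contra n
    have := h.re w ((s w (v r))⁻¹ • v r)
    rw [H _ ((h.span r _).2 ⟨_, rfl⟩), map_smul, smul_eq_mul, inv_mul_cancel₀ n, map_one,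
      map_zero] at this
    exact h2 (by linear_combination this)
  · intro H v' hv'
    obtain ⟨a, rfl⟩ := (h.span r _).1 hv'
    exact h.phi_zero h2 (by simp [H])

theorem FD.exists_md {ι : Type u} {V : ι → Submodule K W} {v : ι → W} (h : FD φ V F σ s v)
    (h2 : (2 : F) ≠ 0) (nd : ∀ w, (∀ w', φ w w' = 0) → w = 0) [Finite F] [Finite W] :
    ∃ (X : Type u) (_ : AddCommGroup X) (_ : Module F X) (_ : Finite X)
      (B : X →ₛₗ[σ] X →ₗ[F] F) (e f : X) (j : W →ₗ[F] X) (ρ : W → K → isomGroup B),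
      MD φ s B e f j ρ := by
  obtain ⟨B, hB⟩ : ∃ B : (F × W × F) →ₛₗ[σ] (F × W × F) →ₗ[F] F,
      ∀ P P', B P P' = σ P.1 * P'.2.2 - σ P.2.2 * P'.1 + s P.2.1 P'.2.1 :=
    ⟨LinearMap.mk₂'ₛₗ σ (RingHom.id F)
      (fun P P' => σ P.1 * P'.2.2 - σ P.2.2 * P'.1 + s P.2.1 P'.2.1)
      (fun _ _ _ => by simp; ring) (fun _ _ _ => by simp [map_smulₛₗ]; ring)
      (fun _ _ _ => by simp; ring) (fun _ _ _ => by simp; ring), fun _ _ => rfl⟩
  obtain ⟨L, hL⟩ : ∃ L : W → K → (F × W × F) →ₗ[F] (F × W × F), ∀ w k P, L w k P =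
      (P.1 + s w P.2.1 + P.2.2 * (s w w / 2 + algebraMap K F k), P.2.1 + P.2.2 • w, P.2.2) :=
    ⟨fun w k => ⟨⟨fun P => (P.1 + s w P.2.1 + P.2.2 * (s w w / 2 + algebraMap K F k),
      P.2.1 + P.2.2 • w, P.2.2), fun P P' => Prod.ext (by simp; ring)
        (Prod.ext (by simp; module) rfl)⟩, fun a P => Prod.ext (by simp; ring)
        (Prod.ext (by simp; module) rfl)⟩, fun _ _ _ => rfl⟩
  have sk : ∀ w w', σ (s w w') = - s w' w := fun w w' => by rw [h.skew w' w, neg_neg]
  have fx : ∀ k, σ (algebraMap K F k) = algebraMap K F k := fun k => (h.fixed _).2 ⟨k, rfl⟩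
  have mul : ∀ w k w' k' P, L w k (L w' k' P) = L (w + w') (k + k' + φ w w') P :=
    fun w k w' k' P => by
      have := h.re w w'
      rw [sk] at this
      rw [hL, hL, hL]
      refine Prod.ext ?_ (Prod.ext (by simp only; module) rfl)
      simp only [map_add, map_smul, LinearMap.add_apply, smul_eq_mul]
      field_simp
      linear_combination P.2.2 * this
  have inv : ∀ w k P, L w k (L (-w) (-k) P) = P := fun w k P => by
    have : φ w w = 0 := h.phi_zero h2 (by rw [sk, add_neg_cancel])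
    rw [mul, hL]
    simp [this]
  have iso : ∀ w k P P', B (L w k P) (L w k P') = B P P' := fun w k P P' => by
    simp only [hB, hL, map_add, map_smulₛₗ, LinearMap.add_apply, LinearMap.smul_apply, smul_eq_mul,
      map_mul, map_div₀, sk, fx, map_ofNat, RingHom.id_apply]
    field_simp
    ring
  refine ⟨F × W × F, inferInstance, inferInstance, inferInstance, B, (1, 0, 0), (0, 0, 1),
    (LinearMap.inr F F _).comp (LinearMap.inl F W F),
    fun w k => ⟨LinearEquiv.ofLinearMap (L w k) (L (-w) (-k)) (LinearMap.ext (inv w k))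
      (LinearMap.ext fun P => by simpa using inv (-w) (-k) P), iso w k⟩,
    ⟨h.invol, fun P P' => ?_, fun P H => ?_⟩, by simp [hB], by simp [hB], by simp [hB],
    by simp [hB], by simp [hB], by simp [hB], fun P => ⟨P.1, P.2.1, P.2.2, by simp⟩,
    fun a w b e => by simpa using e, fun w k w' k' => isom_ext (mul w k w' k'),
    fun w k => (hL ..).trans (by simp), fun w k w' => (hL ..).trans (by simp),
    fun w k => (hL ..).trans (by simp)⟩
  · simp only [hB, map_add, map_sub, map_mul, h.invol, sk]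
    ring
  · have h1 := H (0, 0, 1)
    have h3 := H (1, 0, 0)
    simp [hB] at h1 h3
    refine Prod.ext h1 (Prod.ext (nd _ fun w' => h.phi_zero h2 ?_) h3)
    have := H (0, w', 0)
    simp [hB] at this
    simp [this]

variable {X : Type u} [AddCommGroup X] [Module F X] {B : X →ₛₗ[σ] X →ₗ[F] F}

theorem SK.conj (h : SK B) (u v : X) : σ (B u v) = - B v u := by rw [h.skew v u, neg_neg]

theorem SK.exists_ne (h : SK B) {v : X} (h0 : v ≠ 0) : ∃ P, B v P ≠ 0 := by
  by_contra! n
  exact h0 (h.sep v n)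

theorem SK.exists_tv (h : SK B) {v : X} (hv : B v v = 0) {c : F} (hc : σ c = c) :
    ∃ γ : isomGroup B, Tv B v c γ := by
  refine ⟨⟨reflEquiv B v c (by simp [hv]), fun P P' => ?_⟩, reflLin_apply B v c⟩
  simp only [reflEquiv_apply, map_add, map_smulₛₗ, LinearMap.add_apply, LinearMap.smul_apply,
    smul_eq_mul, map_mul, RingHom.id_apply, hv, hc, h.conj]
  ring

theorem SK.tv_fixed (h : SK B) {v : X} (h0 : v ≠ 0) (hv : B v v = 0) {c : F} {γ : isomGroup B}
    (e : Tv B v c γ) : σ c = c := by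
  obtain ⟨P, hP⟩ := h.exists_ne h0
  have := isom_apply γ P P
  simp only [e P, map_add, map_smulₛₗ, LinearMap.add_apply, LinearMap.smul_apply,
    smul_eq_mul, map_mul, RingHom.id_apply, hv, h.conj] at this
  have hP' : B P v ≠ 0 := fun n => hP (by rw [h.skew, n, map_zero, neg_zero])
  have k : (σ c - c) * (B v P * B P v) = 0 := by linear_combination -this
  simpa [hP, hP', sub_eq_zero] using k

theorem SK.exists_iso (h : SK B) (h2 : (2 : F) ≠ 0) {e P : X} (he0 : e ≠ 0) (he : B e e = 0)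
    (hP : P ≠ 0) (heP : B e P = 0) : ∃ Y, B Y Y = 0 ∧ B e Y ≠ 0 ∧ B P Y ≠ 0 := by
  obtain ⟨Z, -, h1, h3⟩ := exists_mem_both_ne_zero ⊤ (B e) (B P)
    ((h.exists_ne he0).imp fun _ k => ⟨trivial, k⟩) ((h.exists_ne hP).imp fun _ k => ⟨trivial, k⟩)
  have h4 : B Z e ≠ 0 := fun n => h1 (by rw [h.skew, n, map_zero, neg_zero])
  have h5 : B P e = 0 := by rw [h.skew, heP, map_zero, neg_zero]
  refine ⟨Z + (-B Z Z / (2 * B Z e)) • e, ?_, by simpa [he] using h1, by simpa [h5] using h3⟩
  simp only [map_add, map_smulₛₗ, LinearMap.add_apply, LinearMap.smul_apply,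
    smul_eq_mul, map_mul, RingHom.id_apply, he, h.conj, map_div₀, map_neg, map_ofNat]
  field_simp
  ring

theorem SK.concl [Finite F] [Finite X] (h : SK B) {p : ℕ} (hp : p.Prime) (h5 : 5 ≤ p) [CharP F p]
    (kind : σ = RingHom.id F ∨ (σ ≠ RingHom.id F ∧ ∃ q, Nat.card F = q ^ 2)) {e f : X}
    (he : B e e = 0) (hef : B e f ≠ 0)
    (iso : Nonempty (G ≃* (transvGroup B ⧸ center (transvGroup B)))) : Concl G p := by
  obtain ⟨i⟩ := iso
  have := Fintype.ofFinite F
  have : Module.Finite F X := Module.Finite.of_finite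
  have h2 : (2 : F) ≠ 0 := fun n => by
    have := Nat.le_of_dvd two_pos ((CharP.cast_eq_zero_iff F p 2).1 (by exact_mod_cast n))
    omega
  have dim : 2 ≤ Module.finrank F X := by
    have : LinearIndependent F ![e, f] := LinearIndependent.pair_iff.2 fun a b k => by
      have k1 : b = 0 := by simpa [he, hef] using congrArg (B e) k
      have k2 : e ≠ 0 := fun n => hef (by simp [n])
      exact ⟨by simpa [k1, k2] using k, k1⟩
    simpa using this.fintype_card_le_finrank
  refine ⟨F, inferInstance, inferInstance, ringChar.eq F p, ?_⟩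
  rcases kind with rfl | ⟨hσ, q, hq⟩
  · have hA : LinearMap.IsAlt B := fun v =>
      (mul_eq_zero.1 (by linear_combination h.conj v v : 2 * B v v = 0)).resolve_left h2
    have hN : LinearMap.BilinForm.Nondegenerate B :=
      ⟨h.sep, fun v k => h.sep v fun w => by rw [h.skew, k, map_zero, neg_zero]⟩
    obtain ⟨m, hm⟩ := even_finrank_of_isAlt hN hA
    obtain ⟨g, hg⟩ := exists_equiv_sympForm hN hA (m := m) (by omega)
    have top : transvGroup B = ⊤ := eq_top_iff.2 fun t _ => by
      obtain ⟨_, ⟨t', ht', rfl⟩, k⟩ := witt_alt_submonoid hN hA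
        ((transvGroup B).map (isomGroup B).subtype).toSubmonoid
        (by rintro _ ⟨t, -, rfl⟩; exact t.2)
        (fun w c => ⟨⟨altTEquiv hA w c, altT_isometry hA w c⟩, IsTransv.mem_transvGroup
          ⟨w, -c, hA w, fun x => by
            show x + (c * B x w) • w = _
            rw [h.skew x w]; simp⟩, rfl⟩)
        ⊤ ((t : X ≃ₗ[F] X).toLinearMap.comp (Submodule.subtype ⊤))
        ((t : X ≃ₗ[F] X).injective.comp Subtype.val_injective) (fun x x' => t.2 x x')
      exact (isom_ext fun x => k ⟨x, trivial⟩ : t' = t) ▸ ht'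
    exact .inl ⟨m, by omega, ⟨i.trans (Orth.centerQuotCongr (((MulEquiv.subgroupCongr top).trans
      topEquiv).trans ((isomCongr g hg).symm.trans (spEquivIsom m F).symm)))⟩⟩
  · obtain ⟨a, ha⟩ : ∃ a, σ a ≠ a := by
      by_contra! n
      exact hσ (RingHom.ext n)
    have e0 : a - σ a ≠ 0 := sub_ne_zero.2 ha.symm
    have hB : ∀ u v, ((a - σ a) • B) u v = (a - σ a) * B u v := fun _ _ => rfl
    have H : Herm ((a - σ a) • B) := herm_of_isSymm hσ h.invol
      ⟨fun u v => by simp only [hB, map_mul, map_sub, h.invol, h.conj]; ring⟩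
      fun u k => h.sep u fun v => (mul_eq_zero.1 (k v)).resolve_left e0
    have hE : isomGroup B = isomGroup ((a - σ a) • B) := Subgroup.ext fun g => by
      simp only [mem_isomGroup, hB, mul_right_inj' e0]
    have hT : (transvGroup B).map (MulEquiv.subgroupCongr hE : _ →* _) =
        transvGroup ((a - σ a) • B) := by
      rw [transvGroup, transvGroup, MonoidHom.map_closure]
      congr 1
      ext t
      constructor
      · rintro ⟨t, ⟨v, c, hv, ht⟩, rfl⟩
        exact ⟨v, c / (a - σ a), by rw [hB, hv, mul_zero], fun x => (ht x).trans (by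
          rw [hB, div_mul_eq_mul_div, mul_left_comm, mul_div_cancel_left₀ _ e0])⟩
      · rintro ⟨v, c, hv, ht⟩
        exact ⟨(MulEquiv.subgroupCongr hE).symm t, ⟨v, c * (a - σ a),
          (mul_eq_zero.1 hv).resolve_left e0, fun x => (ht x).trans (by rw [hB, mul_assoc])⟩, rfl⟩
    have hq' : Fintype.card F = q ^ 2 := by rw [← hq, Nat.card_eq_fintype_card]
    obtain ⟨k⟩ := H.nonempty_sIsom_equiv_SU hq' rfl
    have hS := H.transvGroup_eq_sIsom fun _ => ⟨2, map_ofNat σ 2, h2, fun n =>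
      one_ne_zero (by linear_combination n : (1 : F) = 0)⟩
    exact .inr ⟨_, q, dim, hq', ⟨i.trans (Orth.centerQuotCongr
      (((MulEquiv.subgroupCongr hE).subgroupMap (transvGroup B)).trans
        ((MulEquiv.subgroupCongr (hT.trans hS)).trans k)))⟩⟩

end model

end Cfsg.Lib.PT
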