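import Cfsg.Agent.PT.PS3
import Cfsg.Agent.PT.KL
import Cfsg.Agent.PT.HC
import Cfsg.Agent.PT.MDa

/-!
# Tower `PT`: the embedding of the points in the model space
-/

set_option autoImplicit false
set_option linter.unusedSectionVars false

namespace Cfsg.Lib.PT

open Matrix Subgroup Cfsg.Lib.Class.Form
open scoped MatrixGroups commutatorElement

universe u

variable {G : Type u} [Group G]

section model
variable {K : Type} [Field K] {W : Type u} [AddCommGroup W] [Module K W]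
  {φ : W →ₗ[K] W →ₗ[K] K} {F : Type} [Field F] [Algebra K F] [Module F W] {σ : F →+* F}
  {s : W →ₛₗ[σ] W →ₗ[F] F}
variable {X : Type u} [AddCommGroup X] [Module F X] {B : X →ₛₗ[σ] X →ₗ[F] F}

namespace MDbp

open Cfg

section md
variable {e e' : X} {j : W →ₗ[F] X} {ρ : W → K → isomGroup B} (hm : MD φ s B e e' j ρ)
include hm

theorem fe : B e' e = -1 := by rw [hm.sk.skew, hm.ef, map_one]
theorem je (w : W) : B (j w) e = 0 := by rw [hm.sk.skew, hm.ej, map_zero, neg_zero]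
theorem jf (w : W) : B (j w) e' = 0 := by rw [hm.sk.skew, hm.fj, map_zero, neg_zero]

theorem co {a a' b b' l : F} {w w' : W}
    (h : a • e + j w + b • e' = l • (a' • e + j w' + b' • e')) :
    a = l * a' ∧ w = l • w' ∧ b = l * b' := by
  obtain ⟨h1, h2, h3⟩ := hm.ind (a - l * a') (w - l • w') (b - l * b') (by
    rw [map_sub, map_smul]
    linear_combination (norm := module) h)
  exact ⟨sub_eq_zero.1 h1, sub_eq_zero.1 h2, sub_eq_zero.1 h3⟩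

theorem eρ (w : W) (k : K) (P : X) : B e ((ρ w k : X ≃ₗ[F] X) P) = B e P := by
  rw [← isom_apply (ρ w k) e P, hm.ρe]

theorem tv0 (k : K) : Tv B e (algebraMap K F k) (ρ 0 k) := fun P => by
  obtain ⟨a, w, b, rfl⟩ := hm.dec P
  simp only [map_add, map_smul, hm.ρe, hm.ρj, hm.ρf, hm.ee, hm.ej, hm.ef, map_zero,
    LinearMap.zero_apply, smul_eq_mul]
  module

end md

theorem span2 {ι : Type*} {ψ : ι → X} (ne : ∀ u, ψ u ≠ 0)
    (inj : ∀ u v (l : F), ψ u = l • ψ v → u = v) {P Q : X} {u v t : ι} (h : u ≠ v)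
    (hu : ∃ a b : F, ψ u = a • P + b • Q) (hv : ∃ a b : F, ψ v = a • P + b • Q)
    (ht : ∃ a b : F, ψ t = a • P + b • Q) : ∃ a b : F, ψ t = a • ψ u + b • ψ v := by
  obtain ⟨a1, a2, hu⟩ := hu
  obtain ⟨b1, b2, hv⟩ := hv
  obtain ⟨c1, c2, ht⟩ := ht
  have D : a1 * b2 - a2 * b1 ≠ 0 := fun D => by
    by_cases h1 : b1 = 0
    · have h2 : b2 ≠ 0 := fun h2 => ne v (by rw [hv, h1, h2, zero_smul, zero_smul, add_zero])
      rw [h1, mul_zero, sub_zero] at D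
      refine h (inj u v (a2 / b2) ?_)
      rw [hu, hv, h1, (mul_eq_zero.1 D).resolve_right h2, smul_add, smul_smul, smul_smul,
        mul_zero, div_mul_cancel₀ _ h2]
    · refine h (inj u v (a1 / b1) ?_)
      rw [hu, hv, smul_add, smul_smul, smul_smul, div_mul_cancel₀ _ h1]
      congr 2
      field_simp
      linear_combination -D
  refine ⟨(c1 * b2 - c2 * b1) / (a1 * b2 - a2 * b1), (a1 * c2 - a2 * c1) / (a1 * b2 - a2 * b1), ?_⟩
  rw [ht, hu, hv, smul_add, smul_add, smul_smul, smul_smul, smul_smul, smul_smul, add_add_add_comm,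
    ← add_smul, ← add_smul]
  congr 2 <;> rw [div_mul_eq_mul_div, div_mul_eq_mul_div, ← add_div, eq_div_iff D] <;> ring

variable [Finite G] [Finite K] {C : Cfg G} {x y : C.Pt} {f : SL2 K →* G} {q : W → K → G}
    {V : C.Pt → Submodule K W} (h : Cfg.CX x y f φ q V) (hd : Cfg.CD x y φ q V)
    {v : Cfg.Δ x y → W} (hf : FD φ (fun r : Cfg.Δ x y => V r) F σ s v) {e e' : X}
    {j : W →ₗ[F] X} {ρ : W → K → isomGroup B} (hm : MD φ s B e e' j ρ)

section a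
include h

theorem two : (2 : F) ≠ 0 := by
  have := h.ln.rep.char
  have h2 := Mat.two_ne K C.five
  rw [← map_ofNat (algebraMap K F) 2]
  exact (map_ne_zero _).2 h2

theorem q_eq {w w' : W} {k k' : K} {u : C.Pt} :
    q w k • u = q w' k' • u ↔ q (-w' + w) (-k' + k + φ (-w') w) • u = u := by
  rw [← h.hc.mul, ← h.hc.inv, mul_smul, inv_smul_eq_iff]

theorem Δ_ne_x {r : C.Pt} (hr : r ∈ Δ x y) : x ≠ r := fun k => h.opp (k ▸ hr.2)
theorem Δ_ne_y {r : C.Pt} (hr : r ∈ Δ x y) : y ≠ r := fun k => h.opp (k ▸ hr.1).symm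

include hd

theorem px (w : W) (k : K) (u : C.Pt) : Pp x (q w k • u) ↔ Pp x u := by
  rw [← Pp_smul (q w k) (x := x) (y := u), hd.qx]

theorem ne_x (w : W) (k : K) {r : C.Pt} (hr : r ∈ Δ x y) : x ≠ q w k • r := fun e =>
  Δ_ne_x h hr (MulAction.injective (q w k) ((hd.qx w k).trans e))

theorem cases (u : C.Pt) :
    u = x ∨ (∃ (r : Δ x y) (w : W) (k : K), u = q w k • r.1) ∨ ∃ w k, u = q w k • y := by
  by_cases h1 : Pp x u
  · by_cases h2 : u = x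
    · exact Or.inl h2
    obtain ⟨r, hr, hu⟩ := h.hr.simple.exists_Δ h.opp h1.symm h2
    obtain ⟨w, e⟩ := hd.trl r hr u hu h2
    exact Or.inr (Or.inl ⟨⟨r, hr⟩, w, 0, e.symm⟩)
  · obtain ⟨w, k, e⟩ := hd.tr u h1
    exact Or.inr (Or.inr ⟨w, k, e.symm⟩)

theorem r_eq {r r' : Δ x y} {w w' : W} {k k' : K} (e : q w k • r.1 = q w' k' • r'.1) : r = r' := by
  have S := h.hr.simple
  have e1 := S.pl_eq r.2.1.symm (left_mem_pl _ _) (hd.lin r r.2 w k) (ne_x h hd w k r.2)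
  have e2 := S.pl_eq r'.2.1.symm (left_mem_pl _ _) (hd.lin r' r'.2 w' k') (ne_x h hd w' k' r'.2)
  rw [e, e2] at e1
  by_contra n
  exact h.opp (S.perp_of_two r.2.1.symm (right_mem_pl _ _) (by rw [← e1]; exact right_mem_pl _ _)
    (fun k => n (Subtype.ext k)) r.2.2.symm r'.2.2.symm).1.symm

theorem py {u : C.Pt} (hu : Pp u y) :
    u ∈ Δ x y ∨ ∃ r : Δ x y, ∃ w ∈ V r, u ∈ pl y r ∧ u = q w 0 • y := by
  have S := h.hr.simple
  by_cases h1 : Pp u x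
  · exact Or.inl ⟨h1, hu⟩
  by_cases h2 : y = u
  · obtain ⟨r, hr⟩ := h.hr.Δ_ne h.opp
    exact Or.inr ⟨⟨r, hr⟩, 0, zero_mem _, h2 ▸ left_mem_pl _ _, by rw [h.hc.one, one_smul, h2]⟩
  obtain ⟨r, hr, rx⟩ := S.one_all hu.symm h2 x
  have hr' : r ∈ Δ x y := ⟨rx, pl_perp hu.symm hr (left_mem_pl _ _)⟩
  have L := S.pl_eq hu.symm (left_mem_pl _ _) hr (Δ_ne_y h hr')
  have hu' : u ∈ pl y r := by rw [L]; exact right_mem_pl _ _
  obtain ⟨w, hw, e⟩ := (hd.col r hr' u).1 ⟨hu', fun k => h1 (k ▸ rx)⟩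
  exact Or.inr ⟨⟨r, hr'⟩, w, hw, hu', e.symm⟩

include hf

theorem vmem (r : Δ x y) : v r ∈ V r := (hf.span r _).2 ⟨1, (one_smul _ _).symm⟩

theorem s_zero {r r' : Δ x y} (hP : Pp r.1 r'.1) {w w' : W} (hw : w ∈ V r) (hw' : w' ∈ V r') :
    s w w' = 0 := by
  obtain ⟨a, rfl⟩ := (hf.span r' _).1 hw'
  rw [map_smul, (hf.orth (two h) r' w).1 ((hd.perp r r.2 r' r'.2).1 hP w hw), smul_zero]

theorem perp_of_s {r r' : Δ x y} {w w' : W} (hw : w ∈ V r) (hw' : w' ∈ V r') (w0 : w ≠ 0)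
    (w0' : w' ≠ 0) (e : s w w' = 0) : Pp r.1 r'.1 := by
  obtain ⟨a, rfl⟩ := (hf.span r _).1 hw
  obtain ⟨a', rfl⟩ := (hf.span r' _).1 hw'
  have a0 : a ≠ 0 := fun k => w0 (by rw [k, zero_smul])
  have a0' : a' ≠ 0 := fun k => w0' (by rw [k, zero_smul])
  simp only [map_smul, map_smulₛₗ, LinearMap.smul_apply, smul_eq_mul, mul_eq_zero, a0', map_eq_zero,
    a0, false_or] at e
  refine (hd.perp r r.2 r' r'.2).2 fun t ht => (hf.orth (two h) r' t).2 ?_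
  obtain ⟨b, rfl⟩ := (hf.span r _).1 ht
  rw [map_smulₛₗ, LinearMap.smul_apply, e, smul_zero]

theorem q_r {r : Δ x y} {w w' : W} {k k' : K} :
    q w k • r.1 = q w' k' • r.1 ↔ s w (v r) = s w' (v r) := by
  rw [q_eq h, hd.stab r r.2, hf.orth (two h) r, map_add, map_neg, LinearMap.add_apply,
    LinearMap.neg_apply, neg_add_eq_zero, eq_comm]

include hm

theorem exists_psi : ∃ ψ : C.Pt → X, ψ x = e ∧
    (∀ (r : Δ x y) w k, ψ (q w k • r.1) = (ρ w k : X ≃ₗ[F] X) (j (v r))) ∧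
    ∀ w k, ψ (q w k • y) = (ρ w k : X ≃ₗ[F] X) e' := by
  let R : C.Pt → X → Prop := fun u P => (u = x ∧ P = e) ∨
    (∃ (r : Δ x y) (w : W) (k : K), u = q w k • r.1 ∧ P = (ρ w k : X ≃ₗ[F] X) (j (v r))) ∨
    ∃ w k, u = q w k • y ∧ P = (ρ w k : X ≃ₗ[F] X) e'
  have ex : ∀ u, ∃ P, R u P := fun u => by
    rcases cases h hd u with e | ⟨r, w, k, e⟩ | ⟨w, k, e⟩
    · exact ⟨_, Or.inl ⟨e, rfl⟩⟩
    · exact ⟨_, Or.inr (Or.inl ⟨r, w, k, e, rfl⟩)⟩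
    · exact ⟨_, Or.inr (Or.inr ⟨w, k, e, rfl⟩)⟩
  choose ψ hψ using ex
  have oy : ∀ w k, ¬ Pp x (q w k • y) := fun w k e => h.opp ((px h hd w k y).1 e)
  have or : ∀ (r : Δ x y) w k, Pp x (q w k • r.1) := fun r w k => (px h hd w k r).2 r.2.1.symm
  refine ⟨ψ, ?_, fun r w k => ?_, fun w k => ?_⟩
  · rcases hψ x with ⟨-, e⟩ | ⟨r, w, k, e, -⟩ | ⟨w, k, e, -⟩
    · exact e
    · exact (ne_x h hd w k r.2 e).elim
    · exact (oy w k (by rw [← e]; exact Pp_refl x)).elim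
  · rcases hψ (q w k • r.1) with ⟨e, -⟩ | ⟨r', w', k', e, e1⟩ | ⟨w', k', e, -⟩
    · exact (ne_x h hd w k r.2 e.symm).elim
    · obtain rfl := r_eq h hd e
      rw [e1, hm.ρj, hm.ρj, (q_r h hd hf).1 e]
    · exact (oy w' k' (by rw [← e]; exact or r w k)).elim
  · rcases hψ (q w k • y) with ⟨e, -⟩ | ⟨r', w', k', e, -⟩ | ⟨w', k', e, e1⟩
    · exact (oy w k (by rw [e]; exact Pp_refl x)).elim
    · exact (oy w k (by rw [e]; exact or r' w' k')).elim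
    · obtain ⟨h1, h2⟩ := hd.free _ _ ((q_eq h).1 e)
      obtain rfl := neg_add_eq_zero.1 h1
      rw [map_neg, LinearMap.neg_apply, h.hc.alt, neg_zero, add_zero] at h2
      rw [e1, neg_add_eq_zero.1 h2]

end a

section b
variable {ψ : C.Pt → X} (p1 : ψ x = e)
  (p2 : ∀ (r : Δ x y) w k, ψ (q w k • r.1) = (ρ w k : X ≃ₗ[F] X) (j (v r)))
  (p3 : ∀ w k, ψ (q w k • y) = (ρ w k : X ≃ₗ[F] X) e')
include h hd hf hm p1 p2 p3

theorem eqv (w : W) (k : K) (u : C.Pt) : ψ (q w k • u) = (ρ w k : X ≃ₗ[F] X) (ψ u) := by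
  rcases cases h hd u with rfl | ⟨r, w', k', rfl⟩ | ⟨w', k', rfl⟩
  · rw [hd.qx, p1, hm.ρe]
  · rw [← mul_smul, h.hc.mul, p2, p2, ← hm.mul, isom_mul_apply]
  · rw [← mul_smul, h.hc.mul, p3, p3, ← hm.mul, isom_mul_apply]

theorem pr (r : Δ x y) : ψ r = j (v r) := by
  have := p2 r 0 0
  rwa [h.hc.one, one_smul, hm.ρj, map_zero, LinearMap.zero_apply, zero_smul, add_zero] at this

theorem pw0 {r : Δ x y} {w : W} (hw : w ∈ V r) : ψ (q w 0 • y) = e' + j w := by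
  rw [p3, hm.ρf, s_zero h hd hf (Pp_refl _) hw hw, map_zero, zero_div, add_zero, zero_smul,
    add_zero]

theorem pyy : ψ y = e' := by
  have := p3 0 0
  rwa [h.hc.one, one_smul, hm.ρf, map_zero, map_zero, map_zero, zero_div, add_zero, add_zero,
    zero_smul, add_zero] at this

theorem c0 : ψ x = (1 : F) • e + j 0 + (0 : F) • e' := by
  rw [p1, map_zero]; module
theorem c1 (r : Δ x y) (w : W) (k : K) :
    ψ (q w k • r.1) = s w (v r) • e + j (v r) + (0 : F) • e' := by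
  rw [p2, hm.ρj]; module
theorem c2 (w : W) (k : K) :
    ψ (q w k • y) = (s w w / 2 + algebraMap K F k) • e + j w + (1 : F) • e' := by
  rw [p3, hm.ρf]; module

theorem ne (u : C.Pt) : ψ u ≠ 0 := fun e0 => by
  rcases cases h hd u with rfl | ⟨r, w, k, rfl⟩ | ⟨w, k, rfl⟩
  · exact one_ne_zero (hm.ind _ _ _ ((c0 h hd hf hm p1 p2 p3).symm.trans e0)).1
  · exact hf.ne r (hm.ind _ _ _ ((c1 h hd hf hm p1 p2 p3 r w k).symm.trans e0)).2.1
  · exact one_ne_zero (hm.ind _ _ _ ((c2 h hd hf hm p1 p2 p3 w k).symm.trans e0)).2.2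

theorem mvB (w : W) (k : K) (u t : C.Pt) :
    B (ψ (q w k • u)) (ψ (q w k • t)) = B (ψ u) (ψ t) := by
  rw [eqv h hd hf hm p1 p2 p3, eqv h hd hf hm p1 p2 p3, isom_apply]

theorem pres_y {t : C.Pt} (ht : Pp y t) : B (ψ y) (ψ t) = 0 := by
  rw [pyy h hd hf hm p1 p2 p3]
  rcases py h hd ht.symm with k | ⟨r, w, hw, -, rfl⟩
  · rw [pr h hd hf hm p1 p2 p3 ⟨t, k⟩, hm.fj]
  · rw [pw0 h hd hf hm p1 p2 p3 hw, map_add, hm.ff, hm.fj, add_zero]

theorem pres_o {u t : C.Pt} (hu : ¬ Pp x u) (ht : Pp u t) : B (ψ u) (ψ t) = 0 := by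
  obtain ⟨w, k, rfl⟩ := hd.tr u hu
  rw [← smul_inv_smul (q w k) t] at ht ⊢
  rw [mvB h hd hf hm p1 p2 p3]
  exact pres_y h hd hf hm p1 p2 p3 ((Pp_smul _).1 ht)

theorem pres_x {t : C.Pt} (ht : Pp x t) : B (ψ x) (ψ t) = 0 := by
  rw [p1]
  rcases cases h hd t with rfl | ⟨r, w, k, rfl⟩ | ⟨w, k, rfl⟩
  · rw [p1, hm.ee]
  · rw [p2, eρ hm, hm.ej]
  · exact (h.opp ((px h hd w k y).1 ht)).elim

theorem pres (u t : C.Pt) (hP : Pp u t) : B (ψ u) (ψ t) = 0 := by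
  by_cases h1 : Pp x t; swap
  · rw [hm.sk.skew, pres_o h hd hf hm p1 p2 p3 h1 hP.symm, map_zero, neg_zero]
  rcases cases h hd u with rfl | ⟨r, w, k, rfl⟩ | ⟨w, k, rfl⟩
  · exact pres_x h hd hf hm p1 p2 p3 hP
  · rw [← smul_inv_smul (q w k) t] at hP h1 ⊢
    rw [mvB h hd hf hm p1 p2 p3]
    rw [Pp_smul] at hP
    rw [px h hd] at h1
    generalize (q w k)⁻¹ • t = t' at hP h1
    rw [pr h hd hf hm p1 p2 p3]
    rcases cases h hd t' with rfl | ⟨r', w', k', rfl⟩ | ⟨w', k', rfl⟩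
    · rw [p1, je hm]
    · have := (h.hr.simple.perp_of_two r'.2.1.symm (left_mem_pl _ _) (hd.lin r' r'.2 w' k')
        (ne_x h hd w' k' r'.2) r.2.1 hP).2
      rw [p2, hm.ρj, map_add, map_smul, je hm, smul_zero, add_zero, hm.jj,
        s_zero h hd hf this (vmem h hd hf r) (vmem h hd hf r')]
    · exact (h.opp ((px h hd w' k' y).1 h1)).elim
  · exact pres_o h hd hf hm p1 p2 p3 (fun e => h.opp ((px h hd w k y).1 e)) hP

theorem xo (u : C.Pt) (e0 : B (ψ x) (ψ u) = 0) : Pp x u := by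
  by_contra hu
  obtain ⟨w, k, rfl⟩ := hd.tr u hu
  rw [p1, p3, eρ hm, hm.ef] at e0
  exact one_ne_zero e0

theorem inj (u t : C.Pt) (l : F) (e0 : ψ u = l • ψ t) : u = t := by
  have l0 : l ≠ 0 := fun k => ne h hd hf hm p1 p2 p3 u (by rw [e0, k, zero_smul])
  have d0 := c0 h hd hf hm p1 p2 p3
  have d1 := c1 h hd hf hm p1 p2 p3
  have d2 := c2 h hd hf hm p1 p2 p3
  rcases cases h hd u with e1 | ⟨r, w, k, rfl⟩ | ⟨w, k, rfl⟩ <;>
    rcases cases h hd t with e2 | ⟨r', w', k', rfl⟩ | ⟨w', k', rfl⟩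
  · rw [e1, e2]
  · rw [e1, d0, d1] at e0
    exact (hf.ne r' ((smul_eq_zero.1 (co hm e0).2.1.symm).resolve_left l0)).elim
  · rw [e1, d0, d2] at e0
    exact (l0 (by simpa using (co hm e0).2.2.symm)).elim
  · rw [e2, d0, d1] at e0
    exact (hf.ne r (by simpa using (co hm e0).2.1)).elim
  · rw [d1, d1] at e0
    obtain ⟨a1, a2, -⟩ := co hm e0
    obtain rfl : r = r' := Subtype.ext (h.hr.simple.Δ_ext h.opp r.2 r'.2 fun t ht k => by
      have := s_zero h hd hf (r := ⟨t, ht⟩) k (vmem h hd hf _) (vmem h hd hf r)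
      rw [a2, map_smul, smul_eq_zero] at this
      exact perp_of_s h hd hf (r := ⟨t, ht⟩) (vmem h hd hf _) (vmem h hd hf r') (hf.ne _) (hf.ne _)
        (this.resolve_left l0))
    have : l = 1 := smul_left_injective F (hf.ne r) (a2.symm.trans (one_smul _ _).symm)
    rw [this, one_mul] at a1
    exact (q_r h hd hf).2 a1
  · rw [d1, d2] at e0
    exact (l0 (by simpa using (co hm e0).2.2.symm)).elim
  · rw [e2, d0, d2] at e0
    exact (one_ne_zero ((co hm e0).2.2.trans (mul_zero _))).elim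
  · rw [d2, d1] at e0
    exact (one_ne_zero ((co hm e0).2.2.trans (mul_zero _))).elim
  · rw [d2, d2] at e0
    obtain ⟨a1, a2, a3⟩ := co hm e0
    rw [mul_one] at a3
    rw [← a3, one_smul] at a2
    rw [← a3, one_mul, a2, add_right_inj] at a1
    rw [a2, (algebraMap K F).injective a1]

theorem refl1 {r : Δ x y} {t : C.Pt} (ht : Pp t y) (e0 : B (ψ r) (ψ t) = 0) : Pp r.1 t := by
  rw [pr h hd hf hm p1 p2 p3] at e0
  rcases py h hd ht with k | ⟨r', w, hw, k, rfl⟩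
  · rw [pr h hd hf hm p1 p2 p3 ⟨t, k⟩, hm.jj] at e0
    exact perp_of_s h hd hf (r' := ⟨t, k⟩) (vmem h hd hf _) (vmem h hd hf _) (hf.ne _) (hf.ne _) e0
  · rw [pw0 h hd hf hm p1 p2 p3 hw, map_add, jf hm, zero_add, hm.jj] at e0
    by_cases w0 : w = 0
    · rw [w0, h.hc.one, one_smul]; exact r.2.2
    exact k _ r.2.2 (perp_of_s h hd hf (vmem h hd hf _) hw (hf.ne _) w0 e0)

theorem refl (u t : C.Pt) (hu : Pp u y) (ht : Pp t y) (e0 : B (ψ u) (ψ t) = 0) : Pp u t := by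
  rcases py h hd hu with k | ⟨r, w, hw, k, e1⟩
  · exact refl1 h hd hf hm p1 p2 p3 (r := ⟨u, k⟩) ht e0
  rcases py h hd ht with k' | ⟨r', w', hw', k', e2⟩
  · exact (refl1 h hd hf hm p1 p2 p3 (r := ⟨t, k'⟩) hu
      (by rw [hm.sk.skew, e0, map_zero, neg_zero])).symm
  by_cases w0 : w = 0
  · rw [e1, w0, h.hc.one, one_smul]; exact ht.symm
  by_cases w0' : w' = 0
  · rw [e2, w0', h.hc.one, one_smul]; exact hu
  rw [e1, e2, pw0 h hd hf hm p1 p2 p3 hw, pw0 h hd hf hm p1 p2 p3 hw'] at e0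
  simp only [map_add, LinearMap.add_apply, hm.ff, hm.fj, jf hm, hm.jj, zero_add, add_zero] at e0
  exact k' u hu (k _ r'.2.2 (perp_of_s h hd hf hw hw' w0 w0' e0).symm).symm

theorem line (u t a : C.Pt) (hP : Pp u t) (n : u ≠ t) (ha : a ∈ pl u t)
    (hc : ∃ z ∈ pl u t, z = x ∨ ¬ Pp x z) : ∃ α β : F, ψ a = α • ψ u + β • ψ t := by
  have S := h.hr.simple
  suffices H : ∃ P Q : X, ∀ z ∈ pl u t, ∃ α β : F, ψ z = α • P + β • Q by
    obtain ⟨P, Q, H⟩ := H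
    exact span2 (ne h hd hf hm p1 p2 p3) (inj h hd hf hm p1 p2 p3) n (H _ (left_mem_pl _ _))
      (H _ (right_mem_pl _ _)) (H _ ha)
  obtain ⟨z, hz, e1 | o⟩ := hc
  · rw [e1] at hz
    obtain ⟨r, hr, ry⟩ := S.one_all hP n y
    have hr' : r ∈ Δ x y := ⟨pl_perp hP hr hz, ry⟩
    rw [← S.pl_eq hP hz hr (Δ_ne_x h hr')]
    refine ⟨e, j (v ⟨r, hr'⟩), fun z hz => ?_⟩
    by_cases zx : z = x
    · exact ⟨1, 0, by rw [zx, p1, one_smul, zero_smul, add_zero]⟩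
    obtain ⟨w, rfl⟩ := hd.trl r hr' z hz zx
    exact ⟨s w (v ⟨r, hr'⟩), 1, by rw [p2 ⟨r, hr'⟩, hm.ρj, one_smul, add_comm]⟩
  · obtain ⟨w, k, rfl⟩ := hd.tr z o
    obtain ⟨r, hr, rx⟩ := S.one_all hP n x
    have L := S.pl_eq hP hz hr (fun e => o (by rw [e]; exact rx.symm))
    rw [← L]
    have hr' : (q w k)⁻¹ • r ∈ Δ x y := by
      refine ⟨((px h hd w k _).1 (by rw [smul_inv_smul]; exact rx.symm)).symm, ?_⟩
      rw [← Pp_smul (q w k), smul_inv_smul]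
      exact pl_perp hP hr hz
    refine ⟨(ρ w k : X ≃ₗ[F] X) e', (ρ w k : X ≃ₗ[F] X) (j (v ⟨_, hr'⟩)), fun z hz => ?_⟩
    rw [← smul_inv_smul (q w k) z, ← smul_inv_smul (q w k) r, smul_mem_pl] at hz
    rw [← smul_inv_smul (q w k) z, eqv h hd hf hm p1 p2 p3]
    generalize (q w k)⁻¹ • z = z' at hz
    by_cases zr : z' = (q w k)⁻¹ • r
    · exact ⟨0, 1, by rw [zr, pr h hd hf hm p1 p2 p3 ⟨_, hr'⟩, one_smul, zero_smul, zero_add]⟩
    obtain ⟨w', hw', rfl⟩ := (hd.col _ hr' z').1 ⟨hz, zr⟩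
    rw [pw0 h hd hf hm p1 p2 p3 (r := ⟨_, hr'⟩) hw']
    obtain ⟨b, rfl⟩ := (hf.span ⟨_, hr'⟩ _).1 hw'
    exact ⟨1, b, by rw [map_add, map_smul, map_smul, one_smul]⟩

theorem all (P : X) (hP : B P P = 0) (h0 : B (ψ x) P ≠ 0) : ∃ (u : C.Pt) (l : F), P = l • ψ u := by
  obtain ⟨a, w, b, rfl⟩ := hm.dec P
  have b0 : b ≠ 0 := fun k => h0 (by
    simp only [p1, map_add, map_smul, hm.ee, hm.ej, k, zero_smul, smul_zero, add_zero])
  obtain ⟨a, rfl⟩ : ∃ a', a = b * a' := ⟨b⁻¹ * a, by rw [mul_inv_cancel_left₀ b0]⟩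
  obtain ⟨w, rfl⟩ : ∃ w', w = b • w' := ⟨b⁻¹ • w, by rw [smul_inv_smul₀ b0]⟩
  have e1 : (b * a) • e + j (b • w) + b • e' = b • (a • e + j w + e') := by
    rw [map_smul]; module
  rw [e1] at hP ⊢
  rw [map_smul, map_smulₛₗ, LinearMap.smul_apply, smul_eq_zero, smul_eq_zero, map_eq_zero,
    or_iff_right b0, or_iff_right b0] at hP
  simp only [map_add, map_smul, map_smulₛₗ, LinearMap.add_apply, LinearMap.smul_apply, smul_eq_mul,
    hm.ee, hm.ej, hm.ef, je hm, jf hm, hm.jj, fe hm, hm.fj, hm.ff] at hP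
  have h2 : (2 : F) ≠ 0 := two h
  obtain ⟨k, hk⟩ := (hf.fixed (a - s w w / 2)).1 (by
    have := hf.skew w w
    rw [map_sub, map_div₀, map_ofNat]
    field_simp
    linear_combination 2 * hP - this)
  refine ⟨q w k • y, b, ?_⟩
  rw [c2 h hd hf hm p1 p2 p3, hk, one_smul, add_sub_cancel]

theorem cmp (w : W) (k : K) : Cmp B ψ (q w k) (ρ w k) := fun u =>
  ⟨1, by rw [eqv h hd hf hm p1 p2 p3, one_smul]⟩

theorem lo_eq (t : K) : ∃ l : F,
    ψ x + (algebraMap K F (-t) * B (ψ y) (ψ x)) • ψ y = l • ψ (f (lo t) • x) := by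
  by_cases t0 : t = 0
  · exact ⟨1, by rw [t0, neg_zero, map_zero, zero_mul, zero_smul, add_zero, lo_zero, map_one,
      one_smul, one_smul]⟩
  refine ⟨algebraMap K F t, ?_⟩
  rw [ln_lo h.ln h.opp t0, ← h.hc.q0, p3, hm.ρf, p1, pyy h hd hf hm p1 p2 p3, fe hm, map_zero,
    map_zero, zero_div, zero_add, add_zero, smul_add, smul_smul, ← map_mul, mul_inv_cancel₀ t0,
    map_one, map_neg]
  module

end b

end MDbp

open MDbp in
theorem Cfg.CX.gd [Finite G] [Finite K] {C : Cfg G} {x y : C.Pt} {f : SL2 K →* G} {q : W → K → G}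
    {V : C.Pt → Submodule K W} (h : Cfg.CX x y f φ q V) (hd : Cfg.CD x y φ q V)
    {v : Cfg.Δ x y → W} (hf : FD φ (fun r : Cfg.Δ x y => V r) F σ s v) {e e' : X}
    {j : W →ₗ[F] X} {ρ : W → K → isomGroup B} (hm : MD φ s B e e' j ρ) :
    ∃ ψ : C.Pt → X, GD x y B ψ := by
  obtain ⟨ψ, p1, p2, p3⟩ := exists_psi h hd hf hm
  refine ⟨ψ, hm.sk, h.opp, ne h hd hf hm p1 p2 p3, pres h hd hf hm p1 p2 p3,
    inj h hd hf hm p1 p2 p3, refl h hd hf hm p1 p2 p3, xo h hd hf hm p1 p2 p3,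
    line h hd hf hm p1 p2 p3, fun u hu => ?_, all h hd hf hm p1 p2 p3, fun g hg => ?_,
    fun c γ hc hγ => ?_, fun g hg => ?_, fun c hc => ?_⟩
  · obtain ⟨w, k, e⟩ := hd.tr u hu
    exact ⟨_, _, hd.qx w k, e, cmp h hd hf hm p1 p2 p3 w k⟩
  · obtain ⟨k, rfl⟩ := (h.ln.up g).1 hg
    exact ⟨_, ρ 0 k, by rw [p1]; exact tv0 hm k, by
      rw [← h.hc.q0]; exact cmp h hd hf hm p1 p2 p3 0 k⟩
  · obtain ⟨k, rfl⟩ := (hf.fixed c).1 hc
    rw [p1] at hγ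
    refine ⟨q 0 k, (h.ln.up _).2 ⟨k, (h.hc.q0 k).symm⟩, ?_⟩
    rw [show γ = ρ 0 k from isom_ext fun P => by rw [hγ, tv0 hm k]]
    exact cmp h hd hf hm p1 p2 p3 0 k
  · obtain ⟨t, rfl⟩ := (h.ln.lo g).1 hg
    obtain ⟨l, hl⟩ := lo_eq h hd hf hm p1 p2 p3 t
    exact ⟨_, l, (hf.fixed _).2 ⟨_, rfl⟩, hl⟩
  · obtain ⟨k, rfl⟩ := (hf.fixed c).1 hc
    obtain ⟨l, hl⟩ := lo_eq h hd hf hm p1 p2 p3 (-k)
    rw [neg_neg] at hl
    exact ⟨_, (h.ln.lo _).2 ⟨_, rfl⟩, l, hl⟩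

end model

end Cfsg.Lib.PT
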