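import Cfsg.Agent.PT.QQ
import Cfsg.Agent.PT.KL

/-!
# Tower `PT`: the centre of the unipotent radical
-/

set_option autoImplicit false
set_option linter.unusedVariables false
set_option linter.unusedSectionVars false

namespace Cfsg.Lib.PT

open Matrix Subgroup Cfsg.Lib.Class.Form
open scoped MatrixGroups commutatorElement

universe u

variable {G : Type u} [Group G]

namespace Cfg
variable {C : Cfg G} {x y r r' s u v : C.Pt} {a b c d e g n m ζ z : G}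

namespace NDp

/-- Points collinear with all points of `Δ x y`. -/
def B (x y : C.Pt) : Set C.Pt := {u | ∀ r ∈ Δ x y, Pp u r}

/-- Members of `D` in points of `B x y`. -/
def DB (x y : C.Pt) : Set G := {c | ∃ u ∈ B x y, c ∈ M u}

theorem x_mem : x ∈ B x y := fun _ hr => hr.1.symm
theorem y_mem : y ∈ B x y := fun _ hr => hr.2.symm
theorem B_symm (x y : C.Pt) : B x y = B y x := by rw [B, B, Δ_symm]

theorem smul_B (hg : ∀ r ∈ Δ x y, g • r = r) (hu : u ∈ B x y) : g • u ∈ B x y := fun r hr => by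
  rw [← hg r hr, Pp_smul]; exact hu r hr

theorem inv_fix (hg : ∀ r ∈ Δ x y, g • r = r) : ∀ r ∈ Δ x y, g⁻¹ • r = r := fun r hr =>
  inv_smul_eq_iff.2 (hg r hr).symm

theorem conj_DB (hg : ∀ r ∈ Δ x y, g • r = r) (hc : c ∈ DB x y) : g * c * g⁻¹ ∈ DB x y :=
  let ⟨u, hu, hc⟩ := hc
  ⟨g • u, smul_B hg hu, conj_mem g hc⟩

theorem cl_fix (hg : g ∈ closure (DB x y)) (hr : r ∈ Δ x y) : g • r = r := by
  have : closure (DB x y) ≤ MulAction.stabilizer G r := (closure_le _).2 fun c ⟨u, hu, hc⟩ =>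
    E_fix (hu r hr) (M_le_E hc)
  exact this hg

theorem conj_cl (hg : ∀ r ∈ Δ x y, g • r = r) (hc : c ∈ closure (DB x y)) :
    g * c * g⁻¹ ∈ closure (DB x y) := by
  have : closure (DB x y) ≤ (closure (DB x y)).comap (MulAut.conj g).toMonoidHom :=
    (closure_le _).2 fun c hc => subset_closure (conj_DB hg hc)
  exact this hc

theorem E_le (hu : u ∈ B x y) : E u ≤ closure (DB x y) :=
  closure_mono fun _ hc => ⟨u, hu, hc⟩

variable [Finite G]

theorem eq_x (h : C.HR) (opp : ¬ Pp x y) (hu : u ∈ B x y) (hP : Pp u x) : u = x := by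
  by_contra ne
  obtain ⟨r, hr, hl⟩ := h.simple.exists_Δ opp hP ne
  obtain ⟨r', hr', o⟩ := h.simple.Δ_opp opp hr
  exact o (h.simple.perp_of_two hr.1.symm hl (left_mem_pl x r) ne (hu r' hr').symm hr'.1).2.symm

theorem fix_Δ (h : C.HR) (h1 : BP x y a b) (hg : g ∈ QQ x y (zz a b)) (hu : g • y ∈ B x y)
    (hr : r ∈ Δ x y) : g • r = r := by
  by_contra ne
  have := (h.simple.perp_of_two hr.1.symm (h.Q_line h1 hg hr (right_mem_pl x r))
    (right_mem_pl x r) ne ((Pp_smul g).2 hr.2.symm) (hu r hr)).1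
  rw [← QQp.fx hg, Pp_smul] at this
  exact h1.opp this.symm

theorem tr (h : C.HR) (h1 : BP x y a b) (hu : u ∈ B x y) (ne : u ≠ x) :
    ∃ g ∈ QQ x y (zz a b), g • y = u ∧ ∀ r ∈ Δ x y, g • r = r := by
  obtain ⟨g, hg, rfl⟩ := h.Q_trans h1 (fun hP => ne (eq_x h h1.opp hu hP.symm))
  exact ⟨g, hg, rfl, fun r hr => fix_Δ h h1 hg hu hr⟩

theorem eq_of (h : C.HR) (h1 : BP x y a b) (hu : u ∈ B x y) (hv : v ∈ B x y) (hP : Pp u v) :
    u = v := by
  by_cases ne : u = x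
  · exact ne.trans (eq_x h h1.opp hv (ne ▸ hP).symm).symm
  obtain ⟨g, hg, rfl, f⟩ := tr h h1 hu ne
  have := eq_x h h1.symm.opp (B_symm x y ▸ smul_B (inv_fix f) hv)
    ((Pp_smul g).1 (by rw [smul_inv_smul]; exact hP.symm))
  rw [← this, smul_inv_smul]

theorem sub (h : C.HR) (h1 : BP x y a b) : C.Sub (DB x y) where
  sub := fun _ ⟨_, _, hc⟩ => mem_D hc
  conj := fun _ hc _ hg => conj_DB (fun _ hr => cl_fix hg hr) hc
  pow := fun _ ⟨u, hu, hc⟩ _ hk => ⟨u, hu, pow_M hc hk⟩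
  r1 := by
    rintro a ⟨u, hu, ha⟩ b ⟨v, hv, hb⟩ c ⟨w, hw, hc⟩ e1 e2
    obtain rfl := eq_of h h1 hu hv ((Pp_iff ha hb).2 e1)
    obtain rfl := eq_of h h1 hu hw ((Pp_iff hb hc).2 e2)
    exact Pp_refl u a ha c hc

/-- The centre of `Q`. -/
def R (x y : C.Pt) (z : G) : Subgroup G := QQ x y z ⊓ centralizer (QQ x y z : Set G)

theorem mem_R : g ∈ R x y z ↔ g ∈ QQ x y z ∧ ∀ k ∈ QQ x y z, k * g = g * k := Iff.rfl

theorem R_fix (h : C.HR) (h1 : BP x y a b) (hg : g ∈ R x y (zz a b)) :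
    ∀ r ∈ Δ x y, g • r = r := fun r hr =>
  (h.Q_stab h1 hg.1 hr).2 fun n hn => ((mem_R.1 hg).2 n (QQp.VV_le hr hn)).symm

theorem R_of (h : C.HR) (h1 : BP x y a b) (hg : g ∈ QQ x y (zz a b))
    (f : ∀ r ∈ Δ x y, g • r = r) : g ∈ R x y (zz a b) :=
  mem_R.2 ⟨hg, fun k hk => mem_centralizer_singleton_iff.1 (QQp.ind (P := centralizer {g})
    (fun e he => mem_centralizer_singleton_iff.2 (CC_comm (QQp.cc hg) he).symm)
    (fun r hr n hn => mem_centralizer_singleton_iff.2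
      ((h.Q_stab h1 hg hr).1 (f r hr) n hn).symm) hk)⟩

theorem E_R : E x ≤ R x y z := fun e he =>
  mem_R.2 ⟨QQp.E_le he, fun _ hk => CC_comm (QQp.cc hk) he⟩

theorem dec (h : C.HR) (h1 : BP x y a b) (hg : g ∈ R x y (zz a b)) :
    ∃ v ∈ R x y (zz a b), ∃ e ∈ E x, g = v * e ∧ zz a b * v * (zz a b)⁻¹ = v⁻¹ := by
  have k := h.Q_inv h1 hg.1
  obtain ⟨j, hj⟩ := C.prime.odd_of_ne_two (by have := C.five; omega)
  have he := pow_mem k (j + 1)
  have e2 : (g * (zz a b * g * (zz a b)⁻¹)) ^ (j + 1) * (g * (zz a b * g * (zz a b)⁻¹)) ^ (j + 1) =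
      g * (zz a b * g * (zz a b)⁻¹) := by
    rw [← pow_add, show j + 1 + (j + 1) = C.p + 1 by omega, pow_succ, E_pow k, one_mul]
  generalize (g * (zz a b * g * (zz a b)⁻¹)) ^ (j + 1) = e at he e2
  refine ⟨g * e⁻¹, mul_mem hg (inv_mem (E_R he)), e, he, by group, ?_⟩
  have c1 := CC_comm ((h.w1 h1.opp).zz_c0 h1).1 (inv_mem he)
  have c2 := CC_comm (QQp.cc (inv_mem hg.1)) he
  calc zz a b * (g * e⁻¹) * (zz a b)⁻¹
      = g⁻¹ * (g * (zz a b * g * (zz a b)⁻¹)) * (zz a b * e⁻¹) * (zz a b)⁻¹ := by group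
    _ = g⁻¹ * e := by rw [← e2, c1]; group
    _ = (g * e⁻¹)⁻¹ := by rw [c2]; group

end NDp

open NDp

variable [Finite G]

namespace HR
variable (h : C.HR) {a' b' : G}
include h

section QQ
variable (h1 : BP x y a b)
include h1

theorem Q_nd (hg : g ∈ QQ x y (zz a b)) (e : ∀ k ∈ QQ x y (zz a b), g * k = k * g) :
    g ∈ E x := by
  by_contra ng
  have ha : a ∈ DB x y := ⟨x, x_mem, h1.ha⟩
  have hb : b ∈ DB x y := ⟨y, y_mem, h1.hb⟩
  refine pb4 (sub h h1) h.ih ha hb h1.bd (fun hz => ng ?_) (R x y (zz a b)) (fun g hg => ?_)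
    (fun g => ⟨2, Subtype.ext ?_⟩) (fun g hg k hk => (mem_R.1 hk).2 g hg.1) (fun g hg => ?_)
    (fun c ⟨u, hu, hc⟩ nc => ?_)
  · obtain ⟨v, hv, e, he, rfl, hi⟩ := dec h h1 (mem_R.2 ⟨hg, fun k hk => (e k hk).symm⟩)
    have f := R_fix h h1 hv
    have k := hz _ (conj_DB f hb)
    have e1 : zz a b • v • y = v⁻¹ • y := by
      rw [← hi, mul_smul, mul_smul, inv_smul_eq_iff.2 h1.zz_y.symm]
    have hP := (Pp_iff (conj_mem (zz a b) (conj_mem v h1.hb)) (conj_mem v h1.hb)).2 k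
    rw [e1] at hP
    have e2 := eq_of h h1 (smul_B (inv_fix f) y_mem) (smul_B f y_mem) hP
    have e3 := h.Q_free h1 (mul_mem hv.1 hv.1) (by rw [mul_smul, ← e2, smul_inv_smul])
    exact mul_mem (QQp.odd C _ (e3 ▸ one_mem _) (h.Q_pow h1 hv.1)) he
  · obtain ⟨v, hv, e, he, rfl, hi⟩ := dec h h1 hg
    have hz : zz a b ∈ closure (DB x y) := zz_mem (subset_closure ha) (subset_closure hb)
    refine mul_mem (QQp.odd C _ ?_ (E_le x_mem (h.Q_pow h1 hv.1))) (E_le x_mem he)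
    have : v * v = v * zz a b * v⁻¹ * (zz a b)⁻¹ := by
      rw [mul_assoc v, mul_assoc v, ← conj_inv, hi, inv_inv]
    rw [this]
    exact mul_mem (conj_cl (R_fix h h1 hv) hz) (inv_mem hz)
  · rw [sq, pow_mul]
    exact E_pow (h.Q_pow h1 g.2.1)
  · rw [CC_comm (QQp.cc hg.1) (M_le_E h1.ha), mul_inv_cancel_right]
  · obtain ⟨g, hg, rfl, f⟩ := tr h h1 hu (fun k => nc (Pp_refl x c (k ▸ hc) a h1.ha))
    exact ⟨g, R_of h h1 hg f, Pp_refl _ _ (conj_mem g h1.hb) c hc⟩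

end QQ
end HR
end Cfg

end Cfsg.Lib.PT
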