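import Cfsg.Agent.PT.PDe
import Cfsg.Agent.FT.Final
import Cfsg.Agent.Solv.FittingOf
import Cfsg.Agent.Solv.FrobeniusComplement
import Cfsg.Agent.Solv.CoprimeAbelian
import Mathlib.LinearAlgebra.Eigenspace.Minpoly
import Mathlib.FieldTheory.Finite.GaloisField

/-!
# Tower `PT`: the case `O_s(O) ≠ 1`
-/

set_option autoImplicit false
set_option linter.unusedSectionVars false

namespace Cfsg.Lib.PT

open Subgroup
open scoped commutatorElement

universe u

variable {G : Type u} [Group G]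

section abstract
variable [Finite G] {p r : ℕ} {κ : ZMod p} {O E O0 Y0 Γ : Subgroup G} {z t : G}

namespace PDa

open Cfsg.Lib.Solv Polynomial in
/-- An eigenvector in an elementary abelian group. -/
theorem eigen (hp : p.Prime) {A : Subgroup G} (h1 : ∀ a ∈ A, ∀ b ∈ A, a * b = b * a)
    (h2 : ∀ a ∈ A, a ^ p = 1) (h3 : A ≠ ⊥) (h4 : t ∈ normalizer (A : Set G))
    (ht : t ^ (p - 1) = 1) : ∃ a ∈ A, a ≠ 1 ∧ ∃ k : ℕ, t * a * t⁻¹ = a ^ k := by
  have := Fact.mk hp
  have : ElemAb p A := ⟨fun a b => Subtype.ext (h1 a a.2 b b.2), fun a => Subtype.ext (h2 a a.2)⟩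
  have : Nontrivial A := (nontrivial_iff_ne_bot A).2 h3
  let T : Module.End (ZMod p) (Vec p A) := Vec.rep p A.normalizerMonoidHom ⟨t, h4⟩
  have hT : aeval T (X ^ Fintype.card (ZMod p) - X : (ZMod p)[X]) = 0 := by
    have h5 : T ^ (p - 1) = 1 := by
      rw [← map_pow, show (⟨t, h4⟩ : normalizer (A : Set G)) ^ (p - 1) = 1 from Subtype.ext ht,
        map_one]
    rw [map_sub, map_pow, aeval_X, ZMod.card, sub_eq_zero]
    calc _ = T ^ (p - 1 + 1) := by rw [Nat.sub_add_cancel hp.one_lt.le]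
      _ = _ := by rw [pow_succ, h5, one_mul]
  have h5 := FiniteField.splits_X_pow_card_sub_X (p := p) (K := ZMod p)
  rw [Algebra.algebraMap_self, Polynomial.map_id] at h5
  obtain ⟨μ, hμ⟩ := (h5.of_dvd (FiniteField.X_pow_card_sub_X_ne_zero _ Fintype.one_lt_card)
    (minpoly.dvd _ _ hT)).exists_eval_eq_zero
    (minpoly.degree_pos (Algebra.IsIntegral.isIntegral T)).ne'
  obtain ⟨v, hv⟩ := (Module.End.hasEigenvalue_of_isRoot hμ).exists_hasEigenvector
  refine ⟨(Vec.toMul v : A), (Vec.toMul v).2, fun e => hv.2 (Vec.toMul_eq_one.1 (Subtype.ext e)),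
    μ.val, ?_⟩
  have h6 := congrArg (fun x => ((Vec.toMul x : A) : G)) hv.apply_eq_smul
  simp only [Vec.toMul_smul] at h6
  exact h6

theorem center_ne {F : Subgroup G} (h : Group.IsNilpotent F) (h1 : F ≠ ⊥) :
    F ⊓ centralizer (F : Set G) ≠ ⊥ := by
  have : Nontrivial F := (nontrivial_iff_ne_bot F).2 h1
  obtain ⟨⟨x, hx⟩, x1⟩ := ne_bot_iff_exists_ne_one.1 (Group.IsNilpotent.center_ne_bot (G := F))
  exact fun e => x1 (Subtype.ext (Subtype.ext (mem_bot.1 (e ▸ mem_inf.2 ⟨x.2, fun y hy =>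
    congrArg Subtype.val (mem_center_iff.1 hx ⟨y, hy⟩)⟩))))

theorem zp_pow {c x : G} (hc : c ^ p = 1) (hx : x ∈ zpowers c) : x ^ p = 1 := by
  obtain ⟨n, rfl⟩ := hx
  change (c ^ n) ^ p = 1
  rw [← zpow_natCast, ← zpow_mul, mul_comm, zpow_mul, zpow_natCast, hc, one_zpow]

theorem zp_mem (hp : p.Prime) {c x : G} (hc : c ^ p = 1) (hx : x ∈ zpowers c) (x1 : x ≠ 1) :
    c ∈ zpowers x := by
  obtain ⟨n, rfl⟩ := (mem_powers_iff_mem_zpowers.2 hx)
  refine mem_zpowers_pow_iff.2 (Nat.Coprime.coprime_dvd_right (orderOf_dvd_of_pow_eq_one hc)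
    ((Nat.Prime.coprime_iff_not_dvd hp).2 ?_).symm)
  rintro ⟨m, rfl⟩
  exact x1 (by change c ^ (p * m) = 1; rw [pow_mul, hc, one_pow])

/-- The group modulo the Fitting subgroup. -/
theorem top (hp : p.Prime) (hr : r.Prime) (rd : r ∣ p - 1) (ht : t ^ r = 1) [O.Normal]
    [Group.IsSolvable O] (hO : ¬ r ∣ Nat.card O) {c : G} (hc : c ^ p = 1) (tc : t * c = c * t)
    (ct : ∀ g ∈ O, g * t = t * g → g ∈ zpowers c)
    (star : ∀ B A D : Subgroup G, B ≤ A → A ≤ D → D ≤ O → A ≤ normalizer (B : Set G) →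
      D ≤ normalizer (A : Set G) → O ≤ normalizer (D : Set G) → t ∈ normalizer (B : Set G) →
      (∀ g ∈ B, g * t = t * g → g = 1) → B = ⊥) : O ≤ zpowers c := by
  set F := fittingOf O with hF
  have FO : F ≤ O := Solv.fittingOf_le O
  have Fn : F.Normal := Solv.fittingOf_normal O
  have cop : ∀ A ≤ O, (Nat.card (zpowers t)).Coprime (Nat.card A) := fun A hA => by
    rw [Nat.card_zpowers]
    exact (Fr4.PE.of_pow_eq_one ht).coprime hr fun e => hO (e.trans (card_dvd_of_le hA))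
  have ab : ∀ A ≤ F, (∀ a ∈ A, ∀ b ∈ A, a * b = b * a) → F ≤ normalizer (A : Set G) →
      t ∈ normalizer (A : Set G) → A ≤ zpowers c := fun A hA h1 h2 h3 => by
    have : IsMulCommutative A := ⟨⟨fun a b => Subtype.ext (h1 a a.2 b b.2)⟩⟩
    have h4 : zpowers t ≤ normalizer (A : Set G) := zpowers_le.2 h3
    have h5 := le_normalizer_iff_commutator_le_left.1 h4
    have h6 := star _ A F h5 hA FO (normalizer_commutator_ge_left _ _) h2
      (Solv.le_normalizer_fittingOf O) (normalizer_commutator_ge_right _ _ (mem_zpowers t))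
      fun g hg e => mem_bot.1 (Solv.Coprime.centralizer_inf_commutator_eq_bot h4
        (cop A (hA.trans FO)) ▸ mem_inf.2 ⟨mem_inf.2 ⟨h5 hg, by
          rintro _ ⟨n, rfl⟩
          exact (Commute.zpow_right e n).symm⟩, hg⟩)
    intro a ha
    exact ct a (FO (hA ha)) (commutatorElement_eq_one_iff_mul_comm.1 (mem_bot.1
      (h6 ▸ commutator_mem_commutator ha (mem_zpowers t))))
  have nm : ∀ (A : Subgroup G) [A.Normal] (g : G), g ∈ normalizer (A : Set G) := fun A _ g => by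
    rw [normalizer_eq_top]; exact mem_top g
  have hF1 : F ≤ zpowers c := by
    by_contra hne
    set Z := F ⊓ centralizer (F : Set G) with hZ
    have hZc : Z ≤ zpowers c := ab Z inf_le_left (fun a ha b hb => hb.2 a ha.1)
      (fun g _ => nm Z g) (nm Z t)
    set π := QuotientGroup.mk' Z with hπ
    have hk : ∀ g, π g = 1 ↔ g ∈ Z := fun g => QuotientGroup.eq_one_iff g
    obtain ⟨a, ⟨⟨g, gF, rfl⟩, ha⟩, a1, k, hk'⟩ := eigen (t := π t) hp
      (A := F.map π ⊓ centralizer (F.map π : Set (G ⧸ Z))) (fun a ha b hb => hb.2 a ha.1)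
      (by
        rintro _ ⟨⟨g, gF, rfl⟩, ha⟩
        rw [← map_pow, hk]
        refine mem_inf.2 ⟨pow_mem gF p, fun x hx => ?_⟩
        have h1 : x⁻¹ * (g * x * g⁻¹) ∈ Z := (hk _).1 (by
          rw [map_mul, map_mul, map_mul, ← ha (π x) ⟨x, hx, rfl⟩]; simp)
        have h2 := PDe.pow_conj (y := g) (a := x) (mul_inv_cancel_left _ _).symm
          (by rw [h1.2 g gF, mul_inv_cancel_right]) p
        rw [zp_pow hc (hZc h1), mul_one, mul_inv_eq_iff_eq_mul] at h2
        exact h2.symm)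
      (center_ne (Solv.isNilpotent_map π F inferInstance) fun e => hne
        (le_trans (fun g hg => (hk g).1 (mem_bot.1 (e ▸ mem_map_of_mem π hg))) hZc))
      (by
        have : (F.map π).Normal := Fn.map π (QuotientGroup.mk'_surjective Z)
        rw [normalizer_eq_top]; exact mem_top _)
      (by obtain ⟨m, hm⟩ := rd; rw [← map_pow, hm, pow_mul, ht, one_pow, map_one])
    have dec : ∀ x ∈ (zpowers (π g)).comap π, ∃ n : ℤ, ∃ y ∈ Z, x = g ^ n * y := fun x ⟨n, hn⟩ =>
      ⟨n, (g ^ n)⁻¹ * x, (hk _).1 (by rw [map_mul, map_inv, map_zpow, ← hn, inv_mul_cancel]),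
        (mul_inv_cancel_left _ _).symm⟩
    have h1 := ab ((zpowers (π g)).comap π) (fun x hx => by
        obtain ⟨n, y, hy, rfl⟩ := dec x hx
        exact mul_mem (zpow_mem gF n) hy.1)
      (fun a ha b hb => by
        obtain ⟨n, y, hy, rfl⟩ := dec a ha
        obtain ⟨m, w, hw, rfl⟩ := dec b hb
        have h2 : Commute g y := hy.2 g gF
        have h3 : Commute g w := hw.2 g gF
        exact Commute.mul_left (Commute.mul_right ((Commute.refl g).zpow_zpow n m) (h3.zpow_left n))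
          (Commute.mul_right (h2.zpow_left m).symm (hw.2 y hy.1)))
      (fun x hx => Ab.nm fun y ⟨n, hn⟩ => ⟨n, by
        have h2 : Commute (π x) (π g) := ha (π x) ⟨x, hx, rfl⟩
        change _ = π (x * y * x⁻¹)
        rw [map_mul, map_mul, ← hn, (h2.zpow_right n).eq, map_inv, mul_inv_cancel_right]⟩)
      (Ab.nm fun y ⟨n, hn⟩ => by
        rw [mem_comap, map_mul, map_mul, ← hn, map_inv, ← conj_zpow, hk']
        exact zpow_mem (pow_mem (mem_zpowers _) k) n)
      (mem_comap.2 (mem_zpowers _))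
    obtain ⟨⟨y, hy⟩, y1⟩ := ne_bot_iff_exists_ne_one.1 (center_ne (F := F) inferInstance
      fun e => hne (e ▸ bot_le))
    exact a1 ((hk g).2 (zpowers_le.2 hy (zpowers_le.2
      (zp_mem hp hc (hZc hy) fun e => y1 (Subtype.ext e)) h1)))
  have tF : ∀ x ∈ F, t * x * t⁻¹ = x := fun x hx => by
    obtain ⟨n, rfl⟩ := hF1 hx
    rw [((show Commute t c from tc).zpow_right n).eq, mul_inv_cancel_right]
  intro g hg
  obtain ⟨n, hn, h1⟩ := fix_coset hr ht F (fun e => hO (e.trans (card_dvd_of_le FO)))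
    (fun x hx => by rwa [tF x hx]) (g := g) (Solv.inf_centralizer_fittingOf_le O (mem_inf.2
      ⟨mul_mem (inv_mem hg) (Normal.conj_mem inferInstance g hg t), fun x hx => by
        calc _ = g⁻¹ * (g * x * g⁻¹) * t * g * t⁻¹ := by group
          _ = g⁻¹ * t * g * t⁻¹ * (t * x * t⁻¹) := by
            rw [← tF _ (Fn.conj_mem x hx g)]; group
          _ = _ := by rw [tF x hx]; group⟩))
  exact (mul_mem_cancel_right (hF1 hn)).1 (ct _ (mul_mem hg (FO hn)) h1)

theorem mid (hp : p.Prime) (hr : r.Prime) (rd : r ∣ p - 1) (ht : t ^ r = 1) [O.Normal]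
    [Group.IsSolvable O] (hO : ¬ r ∣ Nat.card O) {c : G} (hc : c ^ p = 1) (tc : t * c = c * t)
    (ct : ∀ g ∈ O, g * t = t * g → g ∈ zpowers c)
    (hF : ∀ g ∈ fittingOf O, g * t = t * g → g = 1) : O ≤ fittingOf O ⊔ zpowers c := by
  set F := fittingOf O with hFd
  have FO : F ≤ O := Solv.fittingOf_le O
  have Fn : F.Normal := Solv.fittingOf_normal O
  set π := QuotientGroup.mk' F with hπ
  have hk : ∀ g, π g = 1 ↔ g ∈ F := fun g => QuotientGroup.eq_one_iff g
  have hs : Function.Surjective π := QuotientGroup.mk'_surjective F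
  have hker : π.ker = F := QuotientGroup.ker_mk' F
  have : (O.map π).Normal := Normal.map inferInstance π hs
  have : Group.IsSolvable (O.map π) := Group.isSolvable_of_surjective (π.subgroupMap_surjective O)
  have hO' : (O.map π).comap π = O := comap_map_eq_self (hker.trans_le FO)
  have h1 := top (O := O.map π) (t := π t) (c := π c) hp hr rd (by rw [← map_pow, ht, map_one])
    (fun e => hO (e.trans (card_map_dvd O π))) (by rw [← map_pow, hc, map_one])
    (by rw [← map_mul, tc, map_mul]) (by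
      rintro _ ⟨g, hg, rfl⟩ e
      obtain ⟨n, hn, h1⟩ := fix_coset hr ht F (fun e => hO (e.trans (card_dvd_of_le FO)))
        (fun x hx => Fn.conj_mem x hx t) (g := g) ((hk _).1 (by
          rw [map_mul, map_mul, map_mul, ← e]; simp))
      have h2 := mem_map_of_mem π (ct _ (mul_mem hg (FO hn)) h1)
      rwa [MonoidHom.map_zpowers, map_mul, (hk n).2 hn, mul_one] at h2)
    (fun B A D BA AD DO nB nA nD tB hB => by
      have h1 : B.comap π ≤ fittingOf (A.comap π) := Solv.le_fittingOf (comap_mono BA)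
        ((comap_mono nB).trans (le_normalizer_comap π))
        (nil_of_fpf hr ht _ (fun g => Ab.cj (le_normalizer_comap π tB)) fun g hg e =>
          hF g ((hk g).1 (hB _ hg (by rw [← map_mul, e, map_mul]))) e)
      have h2 := Solv.fittingOf_mono_of_le_normalizer (comap_mono (f := π) AD)
        ((comap_mono nA).trans (le_normalizer_comap π))
      have h3 := Solv.fittingOf_mono_of_le_normalizer (comap_mono (f := π) DO)
        ((comap_mono nD).trans (le_normalizer_comap π))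
      rw [hO'] at h3
      refine eq_bot_iff.2 fun x hx => ?_
      obtain ⟨x, rfl⟩ := hs x
      exact (hk x).2 (h3 (h2 (h1 hx))))
  intro g hg
  obtain ⟨n, hn⟩ := h1 (mem_map_of_mem π hg)
  refine (mul_mem_cancel_right (mem_sup_right (inv_mem (zpow_mem (mem_zpowers c) n)))).1
    (mem_sup_left ((hk _).1 ?_))
  rw [map_mul, map_inv, map_zpow, ← hn, mul_inv_cancel]

theorem gen (hp : p.Prime) (hr : r.Prime) (rd : r ∣ p - 1) (ht : t ^ r = 1)
    (tn : t ∈ normalizer (O : Set G)) [Group.IsSolvable O] (hO : ¬ r ∣ Nat.card O) {c : G}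
    (cO : c ∈ O) (hc : c ^ p = 1) (tc : t * c = c * t)
    (ct : ∀ g ∈ O, g * t = t * g → g ∈ zpowers c)
    (hF : ∀ g ∈ fittingOf O, g * t = t * g → g = 1) : O ≤ fittingOf O ⊔ zpowers c := by
  have hl : O ≤ normalizer (O : Set G) := le_normalizer
  have e := subgroupOfEquivOfLe hl
  have : Group.IsSolvable (O.subgroupOf (normalizer (O : Set G))) :=
    Group.isSolvable_of_surjective (f := e.symm.toMonoidHom) e.symm.surjective
  have h1 := map_mono (f := (normalizer (O : Set G)).subtype) (mid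
    (O := O.subgroupOf (normalizer (O : Set G))) (t := ⟨t, tn⟩) (c := ⟨c, hl cO⟩) hp hr rd
    (Subtype.ext ht) (by rwa [Nat.card_congr e.toEquiv]) (Subtype.ext hc) (Subtype.ext tc)
    (fun g hg e => by
      obtain ⟨n, hn⟩ := ct g hg (congrArg Subtype.val e)
      exact ⟨n, Subtype.ext (by rw [← hn]; exact coe_zpow _ _ _)⟩)
    fun g hg e => Subtype.ext (hF g (Solv.map_fittingOf_subgroupOf hl ▸ mem_map_of_mem _ hg)
      (congrArg Subtype.val e)))
  rwa [subgroupOf_map_subtype, inf_of_le_left hl, Subgroup.map_sup,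
    Solv.map_fittingOf_subgroupOf hl, MonoidHom.map_zpowers] at h1

end PDa

theorem PD.caseA (h : PD p r κ O E O0 Γ t) (odd : Odd (Nat.card O)) (hY : YD p O E O0 Y0)
    (ne : ¬ O ≤ E ⊔ O0) {s : ℕ} (hs : s.Prime) (sp : s ≠ p) (hS : pCoreOf s O ≠ ⊥) : NT O O0 := by
  have := Fact.mk h.prime
  have := Fact.mk hs
  set S := pCoreOf s O with hSd
  have SO : S ≤ O := map_subtype_le _
  have Sp : IsPGroup s S := Solv.isPGroup_map_pCore s O
  have Sn : O ≤ normalizer (S : Set G) :=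
    le_normalizer.trans (Solv.normalizer_le_normalizer_map_pCore s O)
  have m0 : ∀ x ∈ S, x ∈ E ⊔ O0 → x ∈ O0 := fun x hx h1 => by
    obtain ⟨k, hk⟩ := Sp ⟨x, hx⟩
    exact h.mem_O0 h1 (((Nat.coprime_primes hs h.prime).2 sp).pow_left k) (congrArg Subtype.val hk)
  have S0 : ∀ x ∈ S, x ∈ O0 → x = 1 := fun x hx x0 => by_contra fun x1 => by
    obtain ⟨⟨y, hy⟩, y1⟩ := ne_bot_iff_exists_ne_one.1 (PDa.center_ne Sp.isNilpotent hS)
    have h1 : ∀ y ∈ S ⊓ centralizer (S : Set G), y ∈ O0 := fun y hy =>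
      m0 y hy.1 (PDe.cent h x0 x1 (SO hy.1) (hy.2 x hx).symm)
    refine ne fun g hg => h.pt y (h1 y hy) (fun e => y1 (Subtype.ext e)) g hg
      (h1 _ (mem_inf.2 ⟨Ab.cj (Sn hg) hy.1, fun w hw => ?_⟩))
    calc _ = g * (g⁻¹ * w * g⁻¹⁻¹ * y) * g⁻¹ := by group
      _ = _ := by rw [hy.2 _ (Ab.cj (Sn (inv_mem hg)) hw)]; group
  have fpf : ∀ c ∈ O0, c ≠ 1 → S ⊓ centralizer {c} = ⊥ := fun c hc c1 => eq_bot_iff.2 fun x hx =>
    S0 x hx.1 (m0 x hx.1 (PDe.cent h hc c1 (SO hx.1) (mem_centralizer_singleton_iff.1 hx.2)))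
  have n0 : O0 ≤ normalizer (S : Set G) := h.le0.trans Sn
  obtain ⟨⟨c, hc⟩, c1⟩ := ne_bot_iff_exists_ne_one.1 hY.ne
  replace c1 : c ≠ 1 := fun e => c1 (Subtype.ext e)
  have c0 := hY.le hc
  have cp := hY.pow c hc
  have cn : O0 ≤ normalizer (zpowers c : Set G) := fun g hg => Ab.nm fun x hx => by
    have h1 := Solv.Fpf.normal_zpowers_of_odd n0 hS fpf (odd.of_dvd_nat (card_dvd_of_le h.le0))
      (x := ⟨c, c0⟩) h.prime (Subtype.ext cp)
    obtain ⟨n, rfl⟩ := hx
    obtain ⟨m, hm⟩ := h1.conj_mem _ (zpow_mem (mem_zpowers _) n) ⟨g, hg⟩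
    exact ⟨m, by simpa using congrArg Subtype.val hm⟩
  have P0 : IsPGroup p O0 := by
    refine IsPGroup.iff_card.2 ⟨_, Nat.eq_prime_pow_of_unique_prime_dvd Nat.card_pos.ne'
      fun {q} hq hd => ?_⟩
    have := Fact.mk hq
    obtain ⟨x, hx⟩ := exists_prime_orderOf_dvd_card' q hd
    have h1 : (x : G) ^ q = 1 := by
      rw [← hx]; exact congrArg Subtype.val (pow_orderOf_eq_one x)
    have h2 := Solv.Fpf.mem_centralizer_of_prime n0 hS fpf (zpowers_le.2 c0) x.2 (cn x.2) hq h1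
    have h3 := hY.pow _ (hY.inf h x.2 (hY.cc c hc c1 x (h.le0 x.2) (h2 c (mem_zpowers c)).symm))
    exact (Nat.prime_dvd_prime_iff_eq hq h.prime).1
      (hx ▸ orderOf_dvd_of_pow_eq_one (Subtype.ext h3))
  have e0 := hY.syl h O0 le_rfl P0 hY.le
  have zc : O0 ≤ zpowers c := fun x hx => Solv.Fpf.mem_zpowers_of_commute n0 hS fpf h.prime c0 hx
    (orderOf_eq_prime cp c1) (hY.pow x (e0 ▸ hx)) (hY.comm c hc x (e0 ▸ hx))
  have hr : ¬ r ∣ Nat.card O := fun hd => by
    have : Finite (ConjAct G) := inferInstanceAs (Finite G)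
    have h0 : Fr4.PE r (ConjAct.toConjAct t) :=
      (Fr4.PE.of_pow_eq_one h.tr).map ConjAct.toConjAct.toMonoidHom
    have h1 := h0.ncard_modEq (Ω := G) h.rp (S := O) (h.Γn t h.tΓ)
    have h2 : (O : Set G) ∩ Fr4.Fx G (ConjAct.toConjAct t) = O0 := Set.ext fun x =>
      ⟨fun hx => h.ct x hx.1 (mul_inv_eq_iff_eq_mul.1 hx.2).symm, fun hx =>
        ⟨h.le0 hx, mul_inv_eq_iff_eq_mul.2 (h.Γ0 t h.tΓ x hx)⟩⟩
    obtain ⟨k, hk⟩ := P0.exists_card_eq
    rw [h2, show (O0 : Set G).ncard = p ^ k from hk] at h1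
    exact h.r_ne ((Nat.prime_dvd_prime_iff_eq h.rp h.prime).1
      (h.rp.dvd_of_dvd_pow ((h1.dvd_iff dvd_rfl).1 hd)))
  have := FT.odd_order_solvable odd
  refine ⟨fittingOf O, Solv.fittingOf_le O, fun g hg _ => Ab.cj (Solv.le_normalizer_fittingOf O hg),
    inferInstance, (PDa.gen h.prime h.rp h.rdvd h.tr (Ab.nm (h.Γn t h.tΓ)) hr (h.le0 c0) cp
      (h.Γ0 t h.tΓ c c0) (fun g hg e => zc (h.ct g hg e)) fun g hg e => by_contra fun g1 => ?_).trans
      (sup_le_sup_left (zpowers_le.2 c0) _)⟩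
  have g0 := h.ct g (Solv.fittingOf_le O hg) e
  obtain ⟨y, hy, rfl⟩ := Solv.le_map_pCore_of_le_fittingOf (P0.to_le (zpowers_le.2 g0))
    (zpowers_le.2 hg) (mem_zpowers g)
  refine hS (eq_bot_iff.2 (fpf _ g0 g1 ▸ le_inf le_rfl ?_))
  rintro _ ⟨x, hx, rfl⟩
  exact mem_centralizer_singleton_iff.2 (congrArg Subtype.val
    (Solv.pCore_le_centralizer_pCore_of_ne sp.symm hy x hx))

end abstract

end Cfsg.Lib.PT
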