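import Cfsg.Agent.PT.PDg

/-!
# Tower `PT`: the case `O_p(O) ∩ O0 = 1`
-/

set_option autoImplicit false
set_option linter.unusedSectionVars false

namespace Cfsg.Lib.PT

open Subgroup
open scoped commutatorElement Pointwise

universe u

variable {G : Type u} [Group G] [Finite G] {p r : ℕ} {κ : ZMod p} {O E O0 Y0 Γ : Subgroup G}
  {t : G}

theorem PD.EP (h : PD p r κ O E O0 Γ t) : E ≤ pCoreOf p O :=
  Solv.le_map_pCore h.EO (fun g hg => Ab.nm fun e he => by rwa [h.conj_E hg he])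
    fun e => ⟨1, Subtype.ext (by simpa using h.Ep e e.2)⟩

theorem PD.caseB1 (h : PD p r κ O E O0 Γ t) (odd : Odd (Nat.card O))
    (hS : ∀ s : ℕ, s.Prime → s ≠ p → pCoreOf s O = ⊥) (hP : pCoreOf p O ⊓ O0 = ⊥) : NT O O0 := by
  have tO := Ab.nm (h.Γn t h.tΓ)
  have hN : _ ≤ normalizer (pCoreOf p O : Set G) := Solv.normalizer_le_normalizer_map_pCore p O
  obtain ⟨R, hR, hA⟩ := F2.ex h.prime odd (zpowers t) (zpowers_le.2 tO) (by
    rw [Nat.card_zpowers]
    exact ((Nat.coprime_primes h.rp h.prime).2 h.r_ne).coprime_dvd_left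
      (orderOf_dvd_of_pow_eq_one h.tr))
  have ht := hA (mem_zpowers t)
  refine F2.nt h.prime fun g hg => ?_
  by_cases h1 : ∀ d ∈ R, d ∈ O0 → d = 1
  · have h2 : pCoreOf p O ⊔ R ≤ pCoreOf p O := (Solv.le_fittingOf hR.sup_le
      (le_normalizer.trans hR.norm) (nil_of_fpf h.rp h.tr _ (fun _ => Ab.cj (hR.norm tO))
        fun c hc e => by
          have h3 := h.ct c (hR.sup_le hc) e
          obtain ⟨u, hu, y, hy, rfl⟩ := hR.dec hc
          have h4 := hR.dis h.prime (mul_mem (Ab.cj ht hy) (inv_mem hy)) (by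
            convert mul_mem (inv_mem (Ab.cj (hN tO) hu)) hu using 1
            calc _ = t * u⁻¹ * (u * y * t⁻¹) * y⁻¹ := by group
              _ = _ := by rw [(Commute.inv_right e).eq]; group)
          rw [mul_inv_eq_one, mul_inv_eq_iff_eq_mul] at h4
          rw [h1 y hy (h.ct y (hR.le hy) h4.symm), mul_one] at h3 ⊢
          exact mem_bot.1 (hP ▸ mem_inf.2 ⟨hu, h3⟩))).trans (F2.fit hS)
    exact mem_sup_left (h2 (hR.cent g hg fun y hy => h2 (mul_mem
      (Ab.cj (hR.norm (le_normalizer hg)) (mem_sup_right hy)) (inv_mem (mem_sup_right hy)))))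
  · push Not at h1
    obtain ⟨d, hd, d0, d1⟩ := h1
    have h2 : ∀ c ∈ O0, c ≠ 1 → ∀ y ∈ R, y * c = c * y → y ∈ O0 := fun c hc c1 y hy e =>
      h.mem_O0 (h.pt c hc c1 y (hR.le hy) (by rwa [e, mul_inv_cancel_right])) hR.cop
        (congrArg Subtype.val (pow_card_eq_one' (x := (⟨y, hy⟩ : R))))
    obtain ⟨c, hc, c1, h3⟩ := hR.center hd d1
    have h4 : R ≤ O0 := fun y hy => h2 c (h2 d d0 d1 c hc (h3 d hd).symm) c1 y hy (h3 y hy)
    obtain ⟨k, hk, h5⟩ := hR.fr h.prime (le_normalizer hg)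
    have h6 := h.pt d d0 d1 (k⁻¹ * g) (mul_mem (inv_mem (map_subtype_le _ hk)) hg) (h4 (by
      simpa [mul_assoc] using Solv.mem_conj_smul.1 (h5.ge (Solv.conj_mem_conj_smul g hd))))
    exact (mul_mem_cancel_left (mem_sup_left (inv_mem hk))).1 (sup_le_sup_right h.EP _ h6)

end Cfsg.Lib.PT
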