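import Cfsg.Agent.PT.Ab
import Cfsg.Agent.S0035
import Cfsg.Agent.S0042

/-!
# Tower `PT`: the even case and the Frobenius case
-/

set_option autoImplicit false
set_option linter.unusedSectionVars false

namespace Cfsg.Lib.PT

open Subgroup
open scoped Pointwise

universe u

variable {G : Type u} [Group G]

section abstract
variable [Finite G] {p r : ℕ} {κ : ZMod p} {O E O0 Y0 Γ : Subgroup G} {z t : G}

namespace PDe

omit [Finite G] in
theorem inv_eq {a : G} (h : a * a = 1) : a⁻¹ = a := inv_eq_of_mul_eq_one_right h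

omit [Finite G] in
theorem dih {a b : G} (ha : a * a = 1) (hb : b * b = 1) (k : ℕ) :
    a * (a * b) ^ k = ((a * b) ^ k)⁻¹ * a := by
  have h1 : a * (a * b) * a⁻¹ = (a * b)⁻¹ := by
    rw [← mul_assoc, ha, one_mul, mul_inv_rev, inv_eq ha, inv_eq hb]
  rw [← inv_pow, ← h1, conj_pow, inv_mul_cancel_right]

/-- Two involutions are conjugate by an involution, or commute with a common involution. -/
theorem two_inv (O : Subgroup G) {a b : G} (ha : a * a = 1) (hb : b * b = 1) (aO : a ∈ O)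
    (bO : b ∈ O) :
    (∃ v ∈ O, v * v = 1 ∧ v * a * v⁻¹ = b) ∨
      ∃ w ∈ O, w ≠ 1 ∧ w * w = 1 ∧ w * a = a * w ∧ w * b = b * w := by
  have h0 := pow_orderOf_eq_one (a * b)
  have hp := orderOf_pos (a * b)
  obtain ⟨k, hk | hk⟩ := Nat.even_or_odd' (orderOf (a * b))
  · have h1 : (a * b) ^ k * (a * b) ^ k = 1 := by rw [← pow_add, ← two_mul, ← hk, h0]
    have h2 : (a * b) ^ k * a = a * (a * b) ^ k := by rw [dih ha hb, inv_eq h1]
    refine Or.inr ⟨(a * b) ^ k, pow_mem (mul_mem aO bO) k,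
      pow_ne_one_of_lt_orderOf (by omega) (by omega), h1, h2, ?_⟩
    have h3 : (a * b) ^ k * (a * b) = a * b * (a * b) ^ k := (Commute.refl _).pow_left k
    rw [← mul_assoc, h2, mul_assoc, mul_assoc] at h3
    exact mul_left_cancel h3
  · refine Or.inl ⟨(a * b) ^ k * a, mul_mem (pow_mem (mul_mem aO bO) k) aO, ?_, ?_⟩
    · rw [mul_assoc, ← mul_assoc a, dih ha hb, mul_assoc, ha, mul_one, mul_inv_cancel]
    · have h1 : (a * b) ^ k * (a * b) ^ k * (a * b) = 1 := by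
        rw [← pow_add, ← two_mul, ← pow_succ, ← hk, h0]
      have h2 : a * ((a * b) ^ k)⁻¹ = (a * b) ^ k * a := by
        rw [mul_inv_eq_iff_eq_mul, mul_assoc, dih ha hb, mul_inv_cancel_left]
      calc _ = (a * b) ^ k * (a * ((a * b) ^ k)⁻¹) := by group
        _ = (a * b) ^ k * (a * b) ^ k * (a * b) * b⁻¹ := by rw [h2]; group
        _ = b := by rw [h1, one_mul, inv_eq hb]

theorem two_cop (h : PD p r κ O E O0 Γ t) : Nat.Coprime 2 p :=
  (Nat.coprime_primes Nat.prime_two h.prime).2 (by have := h.five; omega)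

theorem inv_mem0 (h : PD p r κ O E O0 Γ t) {a : G} (ha : a ∈ E ⊔ O0) (h2 : a * a = 1) : a ∈ O0 :=
  h.mem_O0 ha (two_cop h) (by rw [pow_two, h2])

theorem cent (h : PD p r κ O E O0 Γ t) {c g : G} (hc : c ∈ O0) (c1 : c ≠ 1) (hg : g ∈ O)
    (e : g * c = c * g) : g ∈ E ⊔ O0 := h.pt c hc c1 g hg (by rwa [e, mul_inv_cancel_right])

/-- Involutions of `O0` are conjugate by an element which `u` inverts modulo `E`. -/
theorem conj (h : PD p r κ O E O0 Γ t) {u j k : G} (uO : u ∈ O) (uH : u ∉ E ⊔ O0) (u2 : u * u = 1)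
    (hj : j ∈ O0) (j1 : j ≠ 1) (j2 : j * j = 1) (hk : k ∈ O0) (k1 : k ≠ 1) (k2 : k * k = 1) :
    ∃ c ∈ O0, c * j * c⁻¹ = k ∧ ∃ e ∈ E, u * c * u⁻¹ = c⁻¹ * e := by
  have h1 : u * j * u⁻¹ * (u * j * u⁻¹) = 1 := by rw [conj_mul, j2, mul_one, mul_inv_cancel]
  have h2 : u * j * u⁻¹ ∈ O := mul_mem (mul_mem uO (h.le0 hj)) (inv_mem uO)
  rcases two_inv O k2 h1 (h.le0 hk) h2 with ⟨v, vO, v2, hv⟩ | ⟨w, wO, w1, w2, h3, h4⟩
  · have h3 : v * u * j * (v * u)⁻¹ = k := by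
      calc _ = v * (u * j * u⁻¹) * v⁻¹ := by group
        _ = v * v * k * (v * v)⁻¹ := by rw [← hv]; group
        _ = k := by rw [v2]; group
    obtain ⟨e, he, c, hc, h4⟩ := h.mem_sup.1 (h.pt j hj j1 _ (mul_mem vO uO) (h3 ▸ hk))
    refine ⟨c, hc, ?_, e⁻¹ * e⁻¹, mul_mem (inv_mem he) (inv_mem he), ?_⟩
    · rw [← h3, h4, show e * c * j * (e * c)⁻¹ = e * (c * j * c⁻¹) * e⁻¹ by group,
        h.Ec e he _ (h.le0 (mul_mem (mul_mem hc hj) (inv_mem hc))), mul_inv_cancel_right]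
    · calc _ = u * e⁻¹ * u⁻¹ * (u * (e * c) * u⁻¹) := by group
        _ = e⁻¹ * (v * u)⁻¹ := by
          rw [h.conj_E uO (inv_mem he), ← h4, mul_inv_rev, inv_eq v2, inv_eq u2, mul_assoc u,
            mul_assoc v, u2, mul_one]
        _ = _ := by
          rw [h4, mul_inv_rev, ← mul_assoc, h.Ec _ (inv_mem he) _ (inv_mem (h.le0 hc)), mul_assoc]
  · exact absurd (h.pt j hj j1 u uO (inv_mem0 h
      (cent h (inv_mem0 h (cent h hk k1 wO h3) w2) w1 h2 h4.symm) h1)) uH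

omit [Finite G] in
theorem pow_conj {y a e : G} (h : y * a * y⁻¹ = a * e) (he : y * e * y⁻¹ = e) (m : ℕ) :
    y ^ m * a * (y ^ m)⁻¹ = a * e ^ m := by
  induction m with
  | zero => simp
  | succ m ih =>
    calc _ = y * (y ^ m * a * (y ^ m)⁻¹) * y⁻¹ := by group
      _ = _ := by rw [ih, ← conj_mul, h, ← conj_pow, he, pow_succ', mul_assoc]

/-- If `u` inverts `c` modulo `E`, then an involution of `O0` inverts `c`. -/
theorem inverter (h : PD p r κ O E O0 Γ t) (hY : YD p O E O0 Y0) {u c e : G} (uO : u ∈ O)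
    (hc : c ∈ Y0) (c1 : c ≠ 1) (he : e ∈ E) (hu : u * c * u⁻¹ = c⁻¹ * e) :
    ∃ s ∈ O0, s * s = 1 ∧ s * c * s⁻¹ = c⁻¹ := by
  have := Fact.mk h.prime
  have cO := h.le0 (hY.le hc)
  have hp : ∀ g ∈ O, g * c = c * g → g ^ p = 1 := fun g hg e => by
    obtain ⟨a, ha, b, hb, rfl⟩ := (h.mem_sup' hY.le).1 (hY.cc c hc c1 g hg e)
    rw [Commute.mul_pow (h.Ec a ha b (h.le0 (hY.le hb))), h.Ep a ha, hY.pow b hb, mul_one]
  let N : Subgroup G :=
    { carrier := {y | y ∈ O ∧ ∃ e ∈ E, y * c * y⁻¹ = c * e}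
      one_mem' := ⟨one_mem _, 1, one_mem _, by simp⟩
      mul_mem' := fun {y y'} hy hy' => ⟨mul_mem hy.1 hy'.1, by
        obtain ⟨e, he, e1⟩ := hy.2
        obtain ⟨e', he', e2⟩ := hy'.2
        refine ⟨e * e', mul_mem he he', ?_⟩
        calc _ = y * (y' * c * y'⁻¹) * y⁻¹ := by group
          _ = _ := by rw [e2, ← conj_mul, e1, h.conj_E hy.1 he', mul_assoc]⟩
      inv_mem' := fun {y} hy => ⟨inv_mem hy.1, by
        obtain ⟨e, he, e1⟩ := hy.2
        refine ⟨e⁻¹, inv_mem he, ?_⟩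
        calc _ = y⁻¹ * (c * e) * y * (y⁻¹ * e * y⁻¹⁻¹)⁻¹ := by group
          _ = _ := by rw [← e1, h.conj_E (inv_mem hy.1) he]; group⟩ }
  have hN : IsPGroup p N := fun y => ⟨2, Subtype.ext (by
    obtain ⟨e, he, e1⟩ := y.2.2
    have h1 := pow_conj e1 (h.conj_E y.2.1 he) p
    rw [h.Ep e he, mul_one, mul_inv_eq_iff_eq_mul] at h1
    rw [pow_two, pow_mul]
    exact hp _ (pow_mem y.2.1 p) h1)⟩
  obtain ⟨m, hm⟩ := hN.exists_card_eq
  have tc : t * c * t⁻¹ = c := by rw [h.Γ0 t h.tΓ c (hY.le hc), mul_inv_cancel_right]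
  have tc' : t⁻¹ * c * t = c := by rw [mul_assoc, ← h.Γ0 t h.tΓ c (hY.le hc), inv_mul_cancel_left]
  obtain ⟨n, hn, h1⟩ := fix_coset h.rp h.tr N (fun e => h.r_ne ((Nat.prime_dvd_prime_iff_eq h.rp
    h.prime).1 (h.rp.dvd_of_dvd_pow (hm ▸ e)))) (fun y hy => ⟨h.Γn t h.tΓ y hy.1, by
      obtain ⟨e, he, e1⟩ := hy.2
      refine ⟨_, h.ΓE t h.tΓ e he, ?_⟩
      calc _ = t * (y * (t⁻¹ * c * t) * y⁻¹) * t⁻¹ := by group
        _ = _ := by rw [tc', e1, ← conj_mul, tc]⟩) (g := u)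
    ⟨mul_mem (inv_mem uO) (h.Γn t h.tΓ u uO), e⁻¹ * (t * e * t⁻¹),
      mul_mem (inv_mem he) (h.ΓE t h.tΓ e he), by
      calc _ = u⁻¹ * (t * (u * (t⁻¹ * c * t) * u⁻¹) * t⁻¹) * u := by group
        _ = u⁻¹ * ((t * c * t⁻¹)⁻¹ * e) * u * (u⁻¹ * (e⁻¹ * (t * e * t⁻¹)) * u⁻¹⁻¹) := by
          rw [tc', hu]; group
        _ = _ := by
          rw [tc, ← hu, h.conj_E (inv_mem uO) (mul_mem (inv_mem he) (h.ΓE t h.tΓ e he))]; group⟩
  obtain ⟨nO, e', he', h2⟩ := hn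
  have xO := mul_mem uO nO
  have x0 := h.ct _ xO h1
  have h3 : u * n * c * (u * n)⁻¹ = c⁻¹ * (e * e') := by
    calc _ = u * (n * c * n⁻¹) * u⁻¹ := by group
      _ = _ := by rw [h2, ← conj_mul, hu, h.conj_E uO he', mul_assoc]
  rw [h.dis _ (mul_mem he he') ((mul_mem_cancel_left (inv_mem (hY.le hc))).1
    (h3 ▸ mul_mem (mul_mem x0 (hY.le hc)) (inv_mem x0))), mul_one] at h3
  generalize u * n = x at xO x0 h3
  have h4 : x * x * c = c * (x * x) := by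
    rw [← mul_inv_eq_iff_eq_mul]
    calc _ = x * (x * c * x⁻¹) * x⁻¹ := by group
      _ = (x * c * x⁻¹)⁻¹ := by nth_rw 1 [h3]; group
      _ = c := by rw [h3, inv_inv]
  obtain ⟨k, hk⟩ := h.prime.odd_of_ne_two (by have := h.five; omega)
  refine ⟨x ^ p, pow_mem x0 p, by
    rw [← (Commute.refl x).mul_pow, hp _ (mul_mem xO xO) h4], ?_⟩
  have h5 : (x * x) ^ k * c⁻¹ = c⁻¹ * (x * x) ^ k := (Commute.inv_right h4).pow_left k
  calc _ = (x * x) ^ k * (x * c * x⁻¹) * ((x * x) ^ k)⁻¹ := by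
        rw [hk, pow_succ, pow_mul, pow_two]; group
    _ = _ := by rw [h3, h5, mul_inv_cancel_right]

/-- Commuting involutions of `O0` are equal. -/
theorem rank_one (h : PD p r κ O E O0 Γ t) (ne : ¬ O ≤ E ⊔ O0) {j k : G}
    (hj : j ∈ O0) (j1 : j ≠ 1) (j2 : j * j = 1) (hk : k ∈ O0) (k1 : k ≠ 1) (k2 : k * k = 1)
    (e : k * j = j * k) : k = j := by
  obtain ⟨g, gO, gH⟩ := SetLike.not_le_iff_exists.1 ne
  have u2 : g * j * g⁻¹ * (g * j * g⁻¹) = 1 := by rw [conj_mul, j2, mul_one, mul_inv_cancel]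
  have uO : g * j * g⁻¹ ∈ O := mul_mem (mul_mem gO (h.le0 hj)) (inv_mem gO)
  have uH : g * j * g⁻¹ ∉ E ⊔ O0 := fun e => gH (h.pt j hj j1 g gO (inv_mem0 h e u2))
  generalize g * j * g⁻¹ = u at u2 uO uH
  let Y : Subgroup G := O0 ⊓ (E ⊔ O0).comap (MulAut.conj u⁻¹).toMonoidHom
  have hY : ∀ c, c ∈ Y ↔ c ∈ O0 ∧ u⁻¹ * c * u ∈ E ⊔ O0 := fun c => by simp [Y]
  have mY : ∀ c ∈ O0, ∀ e ∈ E, u * c * u⁻¹ = c⁻¹ * e → c ∈ Y := fun c hc e he e1 =>
    (hY c).2 ⟨hc, by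
      rw [inv_eq u2] at e1 ⊢
      exact e1 ▸ mul_mem (mem_sup_right (inv_mem hc)) (mem_sup_left he)⟩
  obtain ⟨c, hc, h1, a, ha, h2⟩ := conj h uO uH u2 hj j1 j2 hk k1 k2
  by_contra hne
  have c1 : c ≠ 1 := by rintro rfl; exact hne (by simpa using h1.symm)
  have cY := mY c hc a ha h2
  have yd := h.yd uO uH hY fun e => c1 (mem_bot.1 (e ▸ cY))
  have c4 : c * c * (c * c) ≠ 1 := fun e => c1 (by
    rw [← pow_two, ← pow_two, ← pow_mul, ← pow_two] at e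
    have h3 := pow_gcd_eq_one.2 ⟨e, yd.pow c cY⟩
    rwa [(show Nat.Coprime (2 ^ 2) p from (two_cop h).pow_left 2).gcd_eq_one, pow_one] at h3)
  obtain ⟨s, hs, s2, h3⟩ := inverter h yd uO cY c1 ha h2
  have s1 : s ≠ 1 := by
    rintro rfl
    rw [one_mul, inv_one, mul_one, eq_inv_iff_mul_eq_one] at h3
    exact c4 (by rw [h3, one_mul])
  obtain ⟨d, hd, h4, b, hb, h5⟩ := conj h uO uH u2 hj j1 j2 hs s1 s2
  have h6 := yd.comm c cY d (mY d hd b hb h5)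
  have h7 : j * c⁻¹ * j⁻¹ = c := by
    have h8 : j * c * j⁻¹ = c⁻¹ := by
      calc _ = d⁻¹ * (d * j * d⁻¹ * (d * c) * d⁻¹ * (d * j * d⁻¹)⁻¹) * d := by group
        _ = (c * d)⁻¹ * d := by
          rw [h4, ← h6, mul_assoc s, mul_inv_cancel_right, h3, mul_inv_rev]
        _ = _ := by rw [h6]; group
    rw [← conj_inv, h8, inv_inv]
  have h8 : k * j = c * c := by
    rw [inv_eq j2] at h7
    rw [← h1, mul_assoc, mul_assoc, ← mul_assoc j, h7]
  refine c4 ?_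
  calc _ = k * j * (k * j) := by rw [h8]
    _ = k * (j * j) * k := by nth_rw 2 [e]; group
    _ = 1 := by rw [j2, mul_one, k2]

end PDe

theorem PD.even (h : PD p r κ O E O0 Γ t) (h2 : 2 ∣ Nat.card O0) : ∃ O', OD O E O0 O' := by
  have := Fact.mk h.prime
  have := Fact.mk Nat.prime_two
  have p2 : p ≠ 2 := by have := h.five; omega
  have Ep : IsPGroup p E := fun e => ⟨1, Subtype.ext (by rw [pow_one]; exact h.Ep e e.2)⟩
  by_cases h1 : O ≤ E ⊔ O0
  · have hE : E ≤ (pPrimeCore 2 O).map O.subtype := by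
      obtain ⟨k, hk⟩ := Ep.exists_card_eq
      exact Solv.le_map_pPrimeCore h.EO (fun g hg => Ab.nm fun e he => by rwa [h.conj_E hg he])
        (hk ▸ Nat.Coprime.pow_left _ (PDe.two_cop h).symm)
    exact ⟨_, map_subtype_le _, Nat.coprime_two_right.1 (Solv.coprime_card_map_pPrimeCore 2 O),
      fun g hg _ => Ab.cj (Solv.normalizer_le_normalizer_map_pPrimeCore 2 O (Ab.nm hg)), hE,
      h1.trans (sup_le_sup_right hE _)⟩
  obtain ⟨j, hj⟩ := exists_prime_orderOf_dvd_card' 2 h2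
  have j1 : (j : G) ≠ 1 := fun e => by
    rw [show j = 1 from Subtype.ext e, orderOf_one] at hj; omega
  have j2 : (j : G) * j = 1 := by
    rw [← pow_two, ← hj]; exact congrArg Subtype.val (pow_orderOf_eq_one j)
  refine od_of_isolated h.prime p2 h.EO h.Ec Ep (h.le0 j.2) j2 (fun g hg e => ?_)
    fun g hg => PDe.cent h j.2 j1 hg
  have k2 : g * j * g⁻¹ * (g * j * g⁻¹) = 1 := by rw [conj_mul, j2, mul_one, mul_inv_cancel]
  exact PDe.rank_one h h1 j.2 j1 j2 (PDe.inv_mem0 h (PDe.cent h j.2 j1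
    (mul_mem (mul_mem hg (h.le0 j.2)) (inv_mem hg)) e) k2) (by simpa using j1) k2 e

theorem PD.good (h : PD p r κ O E O0 Γ t)
    (hg : ∀ g ∈ O, g ∉ E ⊔ O0 → ∀ c ∈ O0, g⁻¹ * c * g ∈ E ⊔ O0 → c = 1) : NT O O0 := by
  by_cases h0 : O0 = ⊥
  · exact ⟨O, le_rfl, fun g hg k hk => mul_mem (mul_mem hg hk) (inv_mem hg),
      nil_of_fpf h.rp h.tr O (h.Γn t h.tΓ) fun g hg e => mem_bot.1 (h0 ▸ h.ct g hg e), le_sup_left⟩
  by_cases h1 : O ≤ E ⊔ O0
  · have : IsMulCommutative E := ⟨⟨fun a b => Subtype.ext (h.Ec a a.2 b (h.EO b.2))⟩⟩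
    exact ⟨E, h.EO, fun g hg k hk => by rwa [h.conj_E hg hk],
      Solv.isNilpotent_of_isMulCommutative E, h1⟩
  have hZ : E.subgroupOf O ≤ center O := fun e he =>
    mem_center_iff.2 fun g => Subtype.ext (h.Ec e he g g.2).symm
  have : (E.subgroupOf O).Normal := ⟨fun e he g => by
    rwa [mem_center_iff.1 (hZ he) g, mul_inv_cancel_right]⟩
  set f := QuotientGroup.mk' (E.subgroupOf O) with hf
  have hm : ∀ g : O, f g ∈ ((E ⊔ O0).subgroupOf O).map f ↔ (g : G) ∈ E ⊔ O0 := fun g => by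
    rw [← mem_comap, comap_map_eq_self (by
      rw [hf, QuotientGroup.ker_mk']; exact subgroupOf_mono _ le_sup_left), mem_subgroupOf]
  have hF : IsFrobeniusComplement (((E ⊔ O0).subgroupOf O).map f) := by
    refine ⟨fun e => h0 (eq_bot_iff.2 fun c hc => h.dis c ?_ hc), fun e => h1 fun g hg =>
      (hm ⟨g, hg⟩).1 (e ▸ mem_top _), fun g hg' => eq_bot_iff.2 fun x hx => ?_⟩
    · have h2 := (hm ⟨c, h.le0 hc⟩).2 (mem_sup_right hc)
      rw [e, mem_bot, hf, QuotientGroup.mk'_apply, QuotientGroup.eq_one_iff] at h2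
      exact h2
    · obtain ⟨g, rfl⟩ := QuotientGroup.mk'_surjective _ g
      obtain ⟨x, rfl⟩ := QuotientGroup.mk'_surjective _ x
      obtain ⟨h2, h3⟩ := mem_inf.1 hx
      rw [mem_pointwise_smul_iff_inv_smul_mem, ← map_inv, MulAut.smul_def, MulAut.conj_apply,
        ← hf, ← map_inv, ← map_inv, ← map_mul, ← map_mul, hm] at h3
      obtain ⟨e, he, c, hc, h4⟩ := h.mem_sup.1 ((hm x).1 h2)
      have h5 : c = 1 := hg g g.2 (fun e => hg' ((hm g).2 e)) c hc (by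
        have h6 : ((g⁻¹ * x * g⁻¹⁻¹ : O) : G) = (g : G)⁻¹ * e * (g : G)⁻¹⁻¹ * ((g : G)⁻¹ * c * g) := by
          push_cast; rw [h4]; group
        rw [h6, h.conj_E (inv_mem g.2) he] at h3
        exact (mul_mem_cancel_left (mem_sup_left he)).1 h3)
      rw [mem_bot, QuotientGroup.mk'_apply, QuotientGroup.eq_one_iff, mem_subgroupOf, h4, h5,
        mul_one]
      exact he
  obtain ⟨N, hN, hN1, hN2⟩ := Cfsg.Agent.S0042.result _ hF
  obtain ⟨N', hN', -, hN3⟩ := Cfsg.Agent.S0035.result _ hF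
  obtain rfl : N' = N := SetLike.coe_injective (hN'.trans hN.symm)
  refine ⟨(N'.comap f).map O.subtype, map_subtype_le _, ?_, ?_, fun g hg => ?_⟩
  · rintro g hg _ ⟨k, hk, rfl⟩
    exact ⟨⟨g, hg⟩ * k * ⟨g, hg⟩⁻¹, (hN1.comap f).conj_mem k hk _, rfl⟩
  · refine (Solv.isNilpotent_map_subtype_iff _).2
      (Solv.isNilpotent_of_map_mk'_of_le_centralizer (A := E.subgroupOf O)
        (fun k _ e he => (mem_center_iff.1 (hZ he) k).symm) ?_)
    rw [← hf, map_comap_eq_self_of_surjective (QuotientGroup.mk'_surjective _)]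
    exact hN2
  · obtain ⟨⟨n, y⟩, h2⟩ := (hN3.existsUnique (f ⟨g, hg⟩)).exists
    obtain ⟨y', hy', h3⟩ := y.2
    obtain ⟨e, he, c, hc, h4⟩ := h.mem_sup.1 (mem_subgroupOf.1 hy')
    refine (mul_mem_cancel_right (mem_sup_right (inv_mem hc))).1 (mem_sup_left
      ⟨⟨g, hg⟩ * ⟨c, h.le0 hc⟩⁻¹, ?_, rfl⟩)
    have h5 : f ⟨c, h.le0 hc⟩ = y := by
      rw [← h3, hf, QuotientGroup.mk'_apply, QuotientGroup.mk'_apply, QuotientGroup.eq,
        mem_subgroupOf]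
      push_cast
      rw [h4, h.Ec e he c (h.le0 hc), inv_mul_cancel_left]
      exact he
    change f _ ∈ N'
    rw [map_mul, map_inv, h5, ← h2, mul_inv_cancel_right]
    exact n.2

end abstract

end Cfsg.Lib.PT
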