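import Cfsg.Agent.PT.PDc0
import Cfsg.Agent.PT.PDa
import Cfsg.Agent.PT.PDe

/-!
# Tower `PT`: the abstract case `zz = 1`
-/

set_option autoImplicit false
set_option linter.unusedSectionVars false

namespace Cfsg.Lib.PT

open Subgroup

universe u

variable {G : Type u} [Group G] [Finite G] {p r : ℕ} {κ : ZMod p} {O E O0 Γ : Subgroup G} {t : G}

theorem PD.nt (h : PD p r κ O E O0 Γ t) (odd : Odd (Nat.card O)) : NT O O0 := by
  by_cases ne : O ≤ E ⊔ O0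
  · exact F2.nt h.prime (ne.trans (sup_le_sup_right h.EP _))
  by_cases hg : ∀ g ∈ O, g ∉ E ⊔ O0 → ∀ c ∈ O0, g⁻¹ * c * g ∈ E ⊔ O0 → c = 1
  · exact h.good hg
  push Not at hg
  obtain ⟨g, hg, g1, c, hc, h1, c1⟩ := hg
  have hY := h.yd (Y0 := O0 ⊓ (E ⊔ O0).comap (MulAut.conj g⁻¹).toMonoidHom) hg g1
    (fun c => by simp [mem_inf, mem_comap]) fun e => c1 (mem_bot.1 (e ▸ mem_inf.2 ⟨hc, by
      simpa [mem_comap] using h1⟩))
  by_cases hS : ∀ s : ℕ, s.Prime → s ≠ p → pCoreOf s O = ⊥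
  · by_cases hP : pCoreOf p O ⊓ O0 = ⊥
    · exact h.caseB1 odd hS hP
    · exact h.caseB2 odd hY hS hP
  · push Not at hS
    obtain ⟨s, hs, sp, hS⟩ := hS
    exact h.caseA odd hY ne hs sp hS

end Cfsg.Lib.PT
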