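import Cfsg.Agent.PT.PDb

/-!
# Tower `PT`: the case `O_p(O) ∩ O0 ≠ 1`
-/

set_option autoImplicit false
set_option linter.unusedSectionVars false

namespace Cfsg.Lib.PT

open Subgroup
open scoped commutatorElement Pointwise

universe u

variable {G : Type u} [Group G] [Finite G] {p r : ℕ} {κ : ZMod p} {O E O0 Y0 Γ : Subgroup G}
  {t : G}

theorem PD.psi (h : PD p r κ O E O0 Γ t) {B : Subgroup G} (hB : B ≤ O) {c : G}
    (hc : ∀ g ∈ B, ⁅g, c⁆ ∈ E) : ∃ ψ : B →* G, ∀ g, ψ g = ⁅(g : G), c⁆ :=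
  ⟨MonoidHom.mk' (fun g => ⁅(g : G), c⁆) fun a b => by
    calc _ = a * ⁅(b : G), c⁆ * (a : G)⁻¹ * ⁅(a : G), c⁆ := by
          simp only [commutatorElement_def, coe_mul]; group
      _ = _ := by rw [h.conj_E (hB a.2) (hc _ b.2), h.Ec _ (hc _ b.2) _ (h.EO (hc _ a.2))],
    fun _ => rfl⟩

theorem PD.tH (h : PD p r κ O E O0 Γ t) {a : G} (ha : a ∈ E ⊔ O0) :
    (a ^ 1)⁻¹ * (t * a * t⁻¹) ∈ E := by
  obtain ⟨e, he, c, hc, rfl⟩ := h.mem_sup.1 ha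
  have h1 := mul_mem (inv_mem he) (h.ΓE t h.tΓ e he)
  rw [← conj_mul, h.Γ0 t h.tΓ c hc, mul_inv_cancel_right]
  convert h1 using 1
  rw [← h.conj_E (inv_mem (h.le0 hc)) h1]
  group

theorem PD.z2 (h : PD p r κ O E O0 Γ t) {P : Subgroup G} (PO : P ≤ O) :
    ∃ Z : Subgroup G, ∀ g, g ∈ Z ↔ g ∈ P ∧ ∀ u ∈ P, ⁅g, u⁆ ∈ E :=
  ⟨{ carrier := {g | g ∈ P ∧ ∀ u ∈ P, ⁅g, u⁆ ∈ E}
     one_mem' := ⟨one_mem _, fun u _ => by simp⟩
     mul_mem' := fun {a b} ha hb => ⟨mul_mem ha.1 hb.1, fun u hu => by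
       convert mul_mem (hb.2 u hu) (ha.2 u hu) using 1
       rw [← h.conj_E (PO ha.1) (hb.2 u hu)]
       simp only [commutatorElement_def]; group⟩
     inv_mem' := fun {a} ha => ⟨inv_mem ha.1, fun u hu => by
       convert inv_mem (ha.2 u hu) using 1
       rw [← h.conj_E (inv_mem (PO ha.1)) (ha.2 u hu)]
       simp only [commutatorElement_def]; group⟩ }, fun _ => Iff.rfl⟩

theorem PD.caseB2 (h : PD p r κ O E O0 Γ t) (odd : Odd (Nat.card O)) (hY : YD p O E O0 Y0)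
    (hS : ∀ s : ℕ, s.Prime → s ≠ p → pCoreOf s O = ⊥) (hP : pCoreOf p O ⊓ O0 ≠ ⊥) : NT O O0 := by
  have := Fact.mk h.prime
  have cG := h.caseG odd hY hS hP
  have cp := fun g => F2.cp (g := g) odd hS
  have fit := F2.fit hS
  have hN : _ ≤ normalizer (pCoreOf p O : Set G) := Solv.normalizer_le_normalizer_map_pCore p O
  have pg : IsPGroup p (pCoreOf p O) := Solv.isPGroup_map_pCore p O
  have PO : pCoreOf p O ≤ O := map_subtype_le _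
  have EP := h.EP
  generalize pCoreOf p O = P at *
  have YH : E ⊔ Y0 ≤ E ⊔ O0 := sup_le_sup_left hY.le _
  have P0 : P ⊓ O0 ≤ Y0 := le_sup_left.trans (hY.syl h _ (sup_le inf_le_right hY.le)
    ((pg.to_le inf_le_left).to_sup_of_normal_left' (fun c => ⟨1, Subtype.ext (by
      simpa using hY.pow c c.2)⟩) (Solv.le_normalizer_inf
        (hY.le.trans (h.le0.trans (le_normalizer.trans hN))) (hY.le.trans le_normalizer)))
    le_sup_right).le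
  have ti : t⁻¹ ∈ Γ := inv_mem h.tΓ
  by_cases nle : P ≤ E ⊔ Y0
  · exact h.chain P PO (fun g hg _ => Ab.cj (hN (le_normalizer hg))) 1
      (fun a ha => h.tH (YH (nle ha))) (fun a ha => by simpa using Ab.cj (hN (Ab.nm (h.Γn _ ti))) ha)
      (pg.to_le fun g hg => cp g hg.1 hg.2)
  obtain ⟨Z, hZ⟩ := h.z2 PO
  have ZP : Z ≤ P := fun g hg => ((hZ g).1 hg).1
  have Zn : ∀ g ∈ normalizer (O : Set G), (∀ e ∈ E, g * e * g⁻¹ ∈ E) → ∀ a ∈ Z, g * a * g⁻¹ ∈ Z :=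
    fun g hg hE a ha => (hZ _).2 ⟨Ab.cj (hN hg) (ZP ha), fun u hu => by
      convert hE _ (((hZ a).1 ha).2 _ (Ab.cj (hN (inv_mem hg)) hu)) using 1
      simp only [commutatorElement_def]; group⟩
  have ZO : ∀ g ∈ O, ∀ a ∈ Z, g * a * g⁻¹ ∈ Z := fun g hg =>
    Zn g (le_normalizer hg) fun e he => by rwa [h.conj_E hg he]
  have ZΓ : ∀ g ∈ Γ, ∀ a ∈ Z, g * a * g⁻¹ ∈ Z := fun g hg => Zn g (Ab.nm (h.Γn g hg)) (h.ΓE g hg)
  have Zt : ∀ a ∈ Z, t⁻¹ * a * t ∈ Z := fun a ha => by simpa using ZΓ _ ti a ha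
  obtain ⟨g2, h2, h3⟩ : ∃ g ∈ Z, g ∉ E := by
    have : (E.subgroupOf P).Normal := ⟨fun e he g => by
      rw [mem_subgroupOf, coe_mul, coe_mul, coe_inv, h.conj_E (e := e) (PO g.2) he]; exact he⟩
    obtain ⟨g, hg, g1⟩ := SetLike.not_le_iff_exists.1 nle
    have : Nontrivial (P ⧸ E.subgroupOf P) := ⟨(⟨g, hg⟩ : P), 1, fun e =>
      g1 (mem_sup_left ((QuotientGroup.eq_one_iff (N := E.subgroupOf P) _).1 e))⟩
    have := (pg.to_quotient (E.subgroupOf P)).center_nontrivial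
    obtain ⟨⟨x, hx⟩, x1⟩ := exists_ne (1 : center (P ⧸ E.subgroupOf P))
    obtain ⟨x, rfl⟩ := QuotientGroup.mk_surjective x
    refine ⟨x, (hZ _).2 ⟨x.2, fun u hu => ?_⟩, fun e =>
      x1 (Subtype.ext ((QuotientGroup.eq_one_iff _).2 e))⟩
    refine (QuotientGroup.eq_one_iff (N := E.subgroupOf P) ⁅x, ⟨u, hu⟩⁆).1 ?_
    rw [← QuotientGroup.mk'_apply, map_commutatorElement, commutatorElement_eq_one_iff_mul_comm]
    exact (mem_center_iff.1 hx _).symm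
  by_cases ha : Z ≤ E ⊔ Y0
  · refine h.chain Z (ZP.trans PO) ZO 1 (fun a ha' => h.tH (YH (ha ha'))) Zt fun x => ?_
    obtain ⟨e, he, c, hc, rfl⟩ := (h.mem_sup' hY.le).1 (ha h2)
    obtain ⟨e', he', c', hc', h4⟩ := (h.mem_sup' hY.le).1 (hY.cc c hc
      (fun e => h3 (by rwa [e, mul_one])) x x.2.1 (by
        have h4 := x.2.2 _ h2
        rw [← mul_assoc, ← h.Ec e he _ x.2.1, mul_assoc, mul_assoc, mul_right_inj] at h4
        exact h4.symm))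
    refine ⟨1, Subtype.ext ?_⟩
    rw [pow_one, coe_pow, h4, Commute.mul_pow (h.Ec _ he' _ (h.le0 (hY.le hc'))), h.Ep _ he',
      hY.pow _ hc', one_mul, coe_one]
  by_cases hb : ∀ g ∈ Z, g ∈ E ⊔ Y0 → g ∈ E
  · obtain ⟨⟨c, hc⟩, c1⟩ := ne_bot_iff_exists_ne_one.1 hP
    obtain ⟨ψ, hψ⟩ := h.psi (ZP.trans PO) fun g hg => ((hZ g).1 hg).2 c hc.1
    refine h.chain Z (ZP.trans PO) ZO κ.val (fun a ha' => ?_) Zt (pg.to_le
      ((Solv.le_fittingOf inf_le_left (Solv.le_normalizer_inf_centralizer le_normalizer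
        fun g hg => Ab.nm (ZO g hg)) (nil_of_fpf h.rp h.tr _ (fun _ => Ab.cj
          (Solv.le_normalizer_inf_centralizer (B := Γ) (fun g hg => Ab.nm (h.Γn g hg))
            (fun g hg => Ab.nm (ZΓ g hg)) h.tΓ)) fun d hd e => by_contra fun d1 => ?_)).trans fit))
    · have h4 := mul_mem (inv_mem (pow_mem ha' κ.val)) (ZΓ t h.tΓ a ha')
      refine hb _ h4 (hY.cc c (P0 hc) (fun e => c1 (Subtype.ext e)) _ (PO (ZP h4)) ?_)
      rw [← commutatorElement_eq_one_iff_mul_comm, ← hψ ⟨_, h4⟩]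
      change ψ ((⟨a, ha'⟩ ^ κ.val)⁻¹ * ⟨_, ZΓ t h.tΓ a ha'⟩) = 1
      rw [map_mul, map_inv, map_pow, hψ, hψ, inv_mul_eq_one, ← pw,
        ← h.tE _ (((hZ a).1 ha').2 c hc.1), conjugate_commutatorElement, h.Γ0 t h.tΓ c hc.2,
        mul_inv_cancel_right]
    · have h4 := h.ct d hd.1 e
      obtain ⟨e', he', c', hc', rfl⟩ := h.mem_sup.1 (h.pt d h4 d1 g2 (PO (ZP h2)) (by
        rwa [hd.2 g2 h2, mul_inv_cancel_right]))
      exact h3 (hb _ h2 (mul_mem (mem_sup_left he') (mem_sup_right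
        (P0 (mem_inf.2 ⟨(mul_mem_cancel_left (EP he')).1 (ZP h2), hc'⟩)))))
  push Not at hb
  obtain ⟨x, hx, x1, x2⟩ := hb
  obtain ⟨e, he, c, hc, rfl⟩ := (h.mem_sup' hY.le).1 x1
  have c1 : c ≠ 1 := fun e => x2 (by rwa [e, mul_one])
  have cZ := (hZ c).1 ((mul_mem_cancel_left ((hZ e).2 ⟨EP he, fun u hu => by
    rw [commutatorElement_eq_one_iff_mul_comm.2 (h.Ec e he u (PO hu))]; exact one_mem _⟩)).1 hx)
  have h4 : ∀ g ∈ P, ⁅g, c⁆ ∈ E := fun g hg => by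
    simpa using inv_mem (cZ.2 g hg)
  obtain ⟨ψ, hψ⟩ := h.psi PO h4
  have h5 := (h.irr ((Z.subgroupOf P).map ψ) (by
    rintro _ ⟨g, -, rfl⟩
    exact hψ g ▸ h4 g g.2) (by
      rintro γ hγ _ ⟨g, hg, rfl⟩
      refine ⟨⟨_, ZP (ZΓ γ hγ g hg)⟩, ZΓ γ hγ g hg, ?_⟩
      rw [hψ, hψ, conjugate_commutatorElement, h.Γ0 γ hγ c (hY.le hc),
        mul_inv_cancel_right])).resolve_left fun e => ha fun g hg => hY.cc c hc c1 g (PO (ZP hg))
      (commutatorElement_eq_one_iff_mul_comm.1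
        ((hψ ⟨g, ZP hg⟩).symm.trans (mem_bot.1 (e.le ⟨_, hg, rfl⟩))))
  have h6 : ∀ g ∈ P, ∃ z ∈ Z, ∃ y ∈ Y0, g = z * y := fun g hg => by
    obtain ⟨z, hz, h6⟩ := h5.ge (h4 g hg)
    have h7 : ψ (z⁻¹ * ⟨g, hg⟩) = 1 := by rw [map_mul, map_inv, h6, hψ, inv_mul_cancel]
    rw [hψ, commutatorElement_eq_one_iff_mul_comm] at h7
    obtain ⟨e', he', y, hy, h8⟩ := (h.mem_sup' hY.le).1
      (hY.cc c hc c1 _ (PO (mul_mem (inv_mem z.2) hg)) h7)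
    refine ⟨z * e', mul_mem hz ((hZ _).2 ⟨EP he', fun u hu => ?_⟩), y, hy, ?_⟩
    · rw [commutatorElement_eq_one_iff_mul_comm.2 (h.Ec e' he' u (PO hu))]; exact one_mem _
    · rw [mul_assoc, ← h8, mul_inv_cancel_left]
  refine cG P0 (fun g hg g' hg' => ?_) nle
  obtain ⟨z, hz, y, hy, rfl⟩ := h6 g hg
  obtain ⟨z', hz', y', hy', rfl⟩ := h6 g' hg'
  have h7 := inv_mem (((hZ _).1 hz').2 y ((mul_mem_cancel_left (ZP hz)).1 hg))
  convert mul_mem h7 (((hZ _).1 hz).2 _ hg') using 1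
  rw [← h.conj_E (PO (ZP hz)) h7]
  simp only [commutatorElement_def]
  calc _ = z * y * z' * (y' * y⁻¹) * z⁻¹ * y'⁻¹ * z'⁻¹ := by group
    _ = _ := by rw [(Commute.inv_right (hY.comm y' hy' y hy)).eq]; group

end Cfsg.Lib.PT
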