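import Cfsg.Agent.PT.F2
import Cfsg.Agent.Solv.CoprimeFixed

/-!
# Tower `PT`: the case where `O_p(O) / E` is abelian
-/

set_option autoImplicit false
set_option linter.unusedSectionVars false

namespace Cfsg.Lib.PT

open Subgroup
open scoped commutatorElement Pointwise

universe u

variable {G : Type u} [Group G] [Finite G] {p r : ℕ} {κ : ZMod p} {O E O0 Y0 Γ P : Subgroup G}
  {t : G}

/-- The data of the case where `P / E` is abelian. -/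
structure CG (p r : ℕ) (κ : ZMod p) (O E O0 Γ : Subgroup G) (t : G) (Y0 P : Subgroup G) : Prop
    extends PD p r κ O E O0 Γ t where
  odd : Odd (Nat.card O)
  yd : YD p O E O0 Y0
  PO : P ≤ O
  norm : normalizer (O : Set G) ≤ normalizer (P : Set G)
  pg : IsPGroup p P
  EP : E ≤ P
  ne : P ⊓ O0 ≠ ⊥
  le : P ⊓ O0 ≤ Y0
  ab : ∀ g ∈ P, ∀ g' ∈ P, ⁅g, g'⁆ ∈ E
  nle : ¬ P ≤ E ⊔ Y0

namespace CG

variable (h : CG p r κ O E O0 Γ t Y0 P)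
include h

theorem dec {y : G} : y ∈ E ⊔ P ⊓ O0 ↔ ∃ e ∈ E, ∃ c ∈ P ⊓ O0, y = e * c :=
  h.mem_sup' inf_le_right

theorem YP : E ⊔ P ⊓ O0 ≤ P := sup_le h.EP inf_le_left

theorem cent {c g : G} (hc : c ∈ P ⊓ O0) (c1 : c ≠ 1) (hg : g ∈ P) :
    g * c = c * g ↔ g ∈ E ⊔ P ⊓ O0 := by
  refine ⟨fun e => ?_, fun e => ?_⟩
  · obtain ⟨u, hu, d, hd, rfl⟩ := (h.mem_sup' h.yd.le).1 (h.yd.cc c (h.le hc) c1 g (h.PO hg) e)
    exact h.dec.2 ⟨u, hu, d, mem_inf.2 ⟨(mul_mem_cancel_left (h.EP hu)).1 hg, h.yd.le hd⟩, rfl⟩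
  · obtain ⟨u, hu, d, hd, rfl⟩ := h.dec.1 e
    rw [mul_assoc, h.yd.comm d (h.le hd) c (h.le hc), ← mul_assoc, h.Ec u hu c (h.PO hc.1),
      mul_assoc]

theorem cent' {y g : G} (hy : y ∈ E ⊔ P ⊓ O0) (y1 : y ∉ E) (hg : g ∈ P) (e : g * y = y * g) :
    g ∈ E ⊔ P ⊓ O0 := by
  obtain ⟨u, hu, c, hc, rfl⟩ := h.dec.1 hy
  refine (h.cent hc (fun e => y1 (by rwa [e, mul_one])) hg).1 ?_
  rwa [← mul_assoc, ← h.Ec u hu g (h.PO hg), mul_assoc, mul_assoc, mul_right_inj] at e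

theorem psi {c : G} (hc : c ∈ P) : ∃ ψ : P →* G, ∀ g, ψ g = ⁅(g : G), c⁆ :=
  ⟨MonoidHom.mk' (fun g => ⁅(g : G), c⁆) fun a b => by
    calc _ = a * ⁅(b : G), c⁆ * (a : G)⁻¹ * ⁅(a : G), c⁆ := by
          simp only [commutatorElement_def, coe_mul]; group
      _ = _ := by
        rw [h.conj_E (h.PO a.2) (h.ab _ b.2 _ hc), h.Ec _ (h.ab _ b.2 _ hc) _
          (h.EO (h.ab _ a.2 _ hc))], fun _ => rfl⟩

theorem onto {c : G} (hc : c ∈ P ⊓ O0) (c1 : c ≠ 1) :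
    (∀ e ∈ E, ∃ u ∈ P, u * c * u⁻¹ = c * e) ∧ E ≠ ⊥ ∧
      Nat.card P = Nat.card (E ⊔ P ⊓ O0 : Subgroup G) * Nat.card E ∧
      ∀ g ∈ P, (g ^ κ.val)⁻¹ * (t * g * t⁻¹) ∈ E ⊔ P ⊓ O0 := by
  obtain ⟨ψ, hψ⟩ := h.psi hc.1
  have h1 : ψ.ker = (E ⊔ P ⊓ O0).subgroupOf P := Subgroup.ext fun g => by
    rw [MonoidHom.mem_ker, hψ, commutatorElement_eq_one_iff_mul_comm, h.cent hc c1 g.2,
      mem_subgroupOf]
  have h0 : ∀ γ (hγ : γ ∈ Γ) (g : P), γ * ψ g * γ⁻¹ =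
      ψ ⟨γ * g * γ⁻¹, Ab.cj (h.norm (Ab.nm (h.Γn γ hγ))) g.2⟩ := fun γ hγ g => by
    rw [hψ, hψ, conjugate_commutatorElement, h.Γ0 γ hγ c hc.2, mul_inv_cancel_right]
  have h2 : ψ.range ≠ ⊥ := fun e => h.nle fun g hg => sup_le_sup_left h.le _
    (h1.le (x := ⟨g, hg⟩) (mem_bot.1 (e.le ⟨⟨g, hg⟩, rfl⟩)))
  have h3 : ψ.range = E := (h.irr _ (by rintro _ ⟨g, rfl⟩; exact hψ g ▸ h.ab _ g.2 _ hc.1)
    (by rintro γ hγ _ ⟨g, rfl⟩; exact ⟨_, (h0 γ hγ g).symm⟩)).resolve_left h2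
  refine ⟨fun e he => ?_, h3 ▸ h2, ?_, fun g hg => ?_⟩
  · obtain ⟨u, hu⟩ := h3.ge he
    refine ⟨u, u.2, ?_⟩
    rw [← h.Ec e he c (h.PO hc.1), ← hu, hψ, commutatorElement_def, inv_mul_cancel_right]
  · rw [← ψ.ker.card_mul_index, index_ker, h3, h1, Solv.card_subgroupOf_of_le h.YP]
  · have h4 := h0 t h.tΓ ⟨g, hg⟩
    rw [h.tE _ (h3.le ⟨_, rfl⟩), pw, ← map_pow, ← inv_mul_eq_one, ← map_inv, ← map_mul] at h4
    exact mem_subgroupOf.1 (h1.le h4)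

theorem stab {g y : G} (hg : g ∈ O) (hy : y ∈ E ⊔ P ⊓ O0) (y1 : y ∉ E)
    (e : g * y * g⁻¹ ∈ E ⊔ P ⊓ O0) : g ∈ P ⊔ O0 := by
  obtain ⟨u, hu, c, hc, rfl⟩ := h.dec.1 hy
  rw [← conj_mul, h.conj_E hg hu, mul_mem_cancel_left (mem_sup_left hu)] at e
  obtain ⟨v, hv, d, hd, e⟩ := h.dec.1 e
  have c1 : c ≠ 1 := fun e => y1 (by rwa [e, mul_one])
  have d1 : d ≠ 1 := by
    rintro rfl
    refine c1 (h.dis c ?_ hc.2)
    rwa [show c = g⁻¹ * (g * c * g⁻¹) * g⁻¹⁻¹ by group, e, mul_one, h.conj_E (inv_mem hg) hv]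
  obtain ⟨w, hw, e1⟩ := (h.onto hd d1).1 v hv
  have h1 := h.pt c hc.2 c1 (w⁻¹ * g) (mul_mem (inv_mem (h.PO hw)) hg) (by
    rw [show w⁻¹ * g * c * (w⁻¹ * g)⁻¹ = w⁻¹ * (g * c * g⁻¹) * w by group, e,
      h.Ec v hv d (h.PO hd.1), ← e1]
    simpa [mul_assoc] using hd.2)
  exact (mul_mem_cancel_left (mem_sup_left (inv_mem hw))).1 (sup_le_sup_right h.EP _ h1)

theorem normY : P ⊔ O0 ≤ normalizer ((E ⊔ P ⊓ O0 : Subgroup G) : Set G) := by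
  refine sup_le (fun g hg => Ab.nm fun y hy => ?_) fun g hg => Ab.nm fun y hy => ?_
  · rw [show g * y * g⁻¹ = ⁅g, y⁆ * y by simp [commutatorElement_def]]
    exact mul_mem (mem_sup_left (h.ab g hg y (h.YP hy))) hy
  · obtain ⟨u, hu, c, hc, rfl⟩ := h.dec.1 hy
    rw [← conj_mul, h.conj_E (h.le0 hg) hu]
    exact h.dec.2 ⟨u, hu, _, mem_inf.2 ⟨Ab.cj (h.norm (le_normalizer (h.le0 hg))) hc.1,
      mul_mem (mul_mem hg hc.2) (inv_mem hg)⟩, rfl⟩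

theorem fixt {g : G} (hg : g ∈ O) (e : g⁻¹ * (t * g * t⁻¹) ∈ P ⊔ O0) : g ∈ P ⊔ O0 := by
  have := Fact.mk h.prime
  have tO := Ab.nm (h.Γn t h.tΓ)
  have gO := le_normalizer hg
  have h0 : (g⁻¹ * t * g) ^ r = 1 := by
    rw [show g⁻¹ * t * g = g⁻¹ * t * g⁻¹⁻¹ by group, conj_pow, h.tr]; group
  obtain ⟨k, hk, h1⟩ := Solv.Coprime.exists_conj_le (A := zpowers (g⁻¹ * t * g)) (K := P)
    (zpowers_le.2 (h.norm (mul_mem (mul_mem (inv_mem gO) tO) gO))) (by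
      obtain ⟨n, hn⟩ := h.pg.exists_card_eq
      rw [Nat.card_zpowers, hn]
      exact (((Nat.coprime_primes h.rp h.prime).2 h.r_ne).pow_right n).coprime_dvd_left
        (orderOf_dvd_of_pow_eq_one h0)) (Or.inl (Solv.Coprime.isSolvable_zpowers _))
    (L := centralizer {t} ⊓ normalizer (P : Set G)) fun a ha => by
      have h2 : zpowers (g⁻¹ * t * g) ≤ P ⊔ centralizer {t} ⊓ normalizer (P : Set G) := by
        rw [zpowers_le, show g⁻¹ * t * g = g⁻¹ * (t * g * t⁻¹) * t by group]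
        exact mul_mem (sup_le_sup_left (show O0 ≤ _ from fun c hc => mem_inf.2
          ⟨mem_centralizer_singleton_iff.2 (h.Γ0 t h.tΓ c hc).symm,
            h.norm (le_normalizer (h.le0 hc))⟩) P e)
          (mem_sup_right (mem_inf.2 ⟨mem_centralizer_singleton_iff.2 rfl, h.norm tO⟩))
      obtain ⟨n, hn, l, hl, rfl⟩ := (Solv.mem_sup_of_le_normalizer inf_le_right).1 (h2 ha)
      exact ⟨n⁻¹, inv_mem hn, by simpa using hl⟩
  have h2 := mem_centralizer_singleton_iff.1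
    (h1 (Solv.conj_mem_conj_smul k (mem_zpowers _))).1
  have h3 : k * g⁻¹ ∈ O := mul_mem (h.PO hk) (inv_mem hg)
  rw [show k * (g⁻¹ * t * g) * k⁻¹ = k * g⁻¹ * t * (k * g⁻¹)⁻¹ by group] at h2
  suffices h4 : k * g⁻¹ ∈ O0 from
    inv_mem_iff.1 ((mul_mem_cancel_left (mem_sup_left hk)).1 (mem_sup_right h4))
  generalize k * g⁻¹ = x at h2 h3
  have h4 : x * t * x⁻¹ * t⁻¹ ∈ O := by
    simpa [mul_assoc] using mul_mem h3 (h.Γn t h.tΓ _ (inv_mem h3))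
  have h5 : Commute (x * t * x⁻¹) t := h2
  by_cases h6 : r = 2
  · have h7 : (x * t * x⁻¹ * t⁻¹) ^ 2 = 1 := by
      rw [h5.inv_right.mul_pow, conj_pow, inv_pow, ← h6, h.tr]; group
    have h8 := pow_gcd_eq_one.2 ⟨h7, congrArg Subtype.val (pow_card_eq_one' (x := (⟨_, h4⟩ : O)))⟩
    rw [(Nat.coprime_two_left.2 h.odd).gcd_eq_one, pow_one, mul_inv_eq_one,
      mul_inv_eq_iff_eq_mul] at h8
    exact h.ct x h3 h8
  · exact h.fx h6 x h3 _ (h.ct _ h4 (h5.mul_left (Commute.refl t).inv_left))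
      (inv_mul_cancel_right _ _).symm

theorem cardY : Nat.card (E ⊔ P ⊓ O0 : Subgroup G) =
    Nat.card E * Nat.card (P ⊓ O0 : Subgroup G) :=
  Solv.card_sup_of_disjoint_of_le_normalizer (fun c hc => Ab.nm fun e he => by
    rwa [h.conj_E (h.le0 hc.2) he]) (eq_bot_iff.2 fun e he => h.dis e he.1 he.2.2)

theorem index : Nat.card E ≤ (P ⊔ O0).relIndex O := by
  obtain ⟨⟨c, hc⟩, c1⟩ := ne_bot_iff_exists_ne_one.1 h.ne
  replace c1 : c ≠ 1 := fun e => c1 (Subtype.ext e)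
  obtain ⟨h1, -, h2, -⟩ := h.onto hc c1
  have h3 := h.b5 c hc.2 c1 fun e he => (h1 e he).imp fun g hg => ⟨h.PO hg.1, hg.2⟩
  have h4 := Solv.card_sup_mul_card_inf_of_le_normalizer (h.le0.trans (le_normalizer.trans h.norm))
  rw [← Solv.card_mul_relIndex_of_le (sup_le h.PO h.le0)] at h3
  have h5 : Nat.card (P ⊔ O0 : Subgroup G) = Nat.card E ^ 2 * Nat.card O0 :=
    Nat.eq_of_mul_eq_mul_right (Nat.card_pos (α := (P ⊓ O0 : Subgroup G))) (by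
      rw [h4, h2, h.cardY]; ring)
  refine Nat.le_of_mul_le_mul_left ?_ (Nat.card_pos (α := (P ⊔ O0 : Subgroup G)))
  exact le_of_eq_of_le (by rw [h5]; ring) h3

theorem exA : ∃ A : Subgroup G, (∀ g, g ∈ A ↔ g ∈ P ∧ (g ^ κ.val)⁻¹ * (t * g * t⁻¹) ∈ E) ∧
    Nat.card E ^ 2 ≤ Nat.card A := by
  obtain ⟨⟨c, hc⟩, c1⟩ := ne_bot_iff_exists_ne_one.1 h.ne
  obtain ⟨-, -, h2, h3⟩ := h.onto hc fun e => c1 (Subtype.ext e)
  have : (E.subgroupOf P).Normal := ⟨fun e he g => by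
    rw [mem_subgroupOf, coe_mul, coe_mul, coe_inv, h.conj_E (e := e) (h.PO g.2) he]; exact he⟩
  have : IsMulCommutative (P ⧸ E.subgroupOf P) := ⟨⟨fun a b => by
    obtain ⟨a, rfl⟩ := QuotientGroup.mk_surjective a
    obtain ⟨b, rfl⟩ := QuotientGroup.mk_surjective b
    refine QuotientGroup.eq.2 ?_
    simpa [mem_subgroupOf, commutatorElement_def, mul_assoc] using
      h.ab _ (inv_mem b.2) _ (inv_mem a.2)⟩⟩
  open scoped IsMulCommutative in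
  let f := QuotientGroup.mk' (E.subgroupOf P)
  open scoped IsMulCommutative in
  let θ : P →* P ⧸ E.subgroupOf P := ((powMonoidHom κ.val).comp f)⁻¹ *
    f.comp (P.normalizerMonoidHom ⟨t, h.norm (Ab.nm (h.Γn t h.tΓ))⟩).toMonoidHom
  have hθ : ∀ g : P, θ g = f ⟨(g ^ κ.val)⁻¹ * (t * g * t⁻¹), h.YP (h3 g g.2)⟩ := fun g => by
    change (f g ^ κ.val)⁻¹ * f _ = _
    rw [← map_pow, ← map_inv, ← map_mul]
    rfl
  refine ⟨θ.ker.map P.subtype, fun g => ⟨?_, fun hg => ⟨⟨g, hg.1⟩, ?_, rfl⟩⟩, ?_⟩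
  · rintro ⟨g, hg, rfl⟩
    exact ⟨g.2, (QuotientGroup.eq_one_iff (N := E.subgroupOf P) _).1 ((hθ g).symm.trans hg)⟩
  · exact (hθ _).trans ((QuotientGroup.eq_one_iff _).2 hg.2)
  · have h4 : θ.range ≤ ((P ⊓ O0).subgroupOf P).map f := by
      rintro _ ⟨g, rfl⟩
      obtain ⟨e, he, d, hd, h5⟩ := h.dec.1 (h3 g g.2)
      refine ⟨⟨d, hd.1⟩, hd, ?_⟩
      rw [hθ, ← one_mul (f _), ← show f ⟨e, h.EP he⟩ = 1 from (QuotientGroup.eq_one_iff _).2 he,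
        ← map_mul]
      exact congrArg f (Subtype.ext h5.symm)
    have h5 := (card_le_of_le h4).trans (Nat.le_of_dvd Nat.card_pos (card_map_dvd _ _))
    rw [Solv.card_subgroupOf_of_le inf_le_left, ← index_ker] at h5
    refine Nat.le_of_mul_le_mul_right ?_ (Nat.card_pos (α := (P ⊓ O0 : Subgroup G)))
    rw [Solv.card_map_subtype]
    refine le_of_eq_of_le ?_ (Nat.mul_le_mul_left _ h5)
    rw [card_mul_index, h2, h.cardY]
    ring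

theorem notA {g y : G} (hg : g ∈ O) (hy : y ∈ E ⊔ P ⊓ O0) (y1 : y ∉ E) :
    ((g * y * g⁻¹) ^ κ.val)⁻¹ * (t * (g * y * g⁻¹) * t⁻¹) ∉ E := fun e => by
  have := Fact.mk h.prime
  have tY : ∀ u ∈ E, ∀ c ∈ O0, t * (u * c) * t⁻¹ = t * u * t⁻¹ * c := fun u _ c hc => by
    rw [← conj_mul, h.Γ0 t h.tΓ c hc, mul_inv_cancel_right]
  have h1 : g ∈ P ⊔ O0 := by
    obtain ⟨u, hu, c, hc, rfl⟩ := h.dec.1 hy
    have h2 := h.ΓE t h.tΓ u hu
    refine h.fixt hg (h.stab (y := t * (u * c) * t⁻¹) (mul_mem (inv_mem hg) (h.Γn t h.tΓ g hg))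
      (tY u hu c hc.2 ▸ h.dec.2 ⟨_, h2, c, hc, rfl⟩) (fun e => y1 ?_) ?_)
    · rw [tY u hu c hc.2, mul_mem_cancel_left h2] at e
      exact mul_mem hu e
    · convert mul_mem (pow_mem hy κ.val) (mem_sup_left e) using 1
      rw [← h.conj_E (inv_mem hg) e, conj_pow]
      group
  obtain ⟨u, hu, c, hc, h2⟩ := h.dec.1 (Ab.cj (h.normY h1) hy)
  have c1 : c ≠ 1 := by
    rintro rfl
    refine y1 ?_
    rwa [show y = g⁻¹ * (g * y * g⁻¹) * g⁻¹⁻¹ by group, h2, mul_one, h.conj_E (inv_mem hg) hu]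
  rw [h2, tY u hu c hc.2, Commute.mul_pow (h.Ec u hu c (h.le0 hc.2)), mul_inv_rev, mul_assoc,
    ← mul_assoc (u ^ _)⁻¹, h.Ec _ (mul_mem (inv_mem (pow_mem hu _)) (h.ΓE t h.tΓ u hu)) c
    (h.le0 hc.2), ← mul_assoc,
    mul_mem_cancel_right (mul_mem (inv_mem (pow_mem hu _)) (h.ΓE t h.tΓ u hu))] at e
  have h3 := inv_mul_eq_one.1 (h.dis _ e (mul_mem (inv_mem (pow_mem hc.2 _)) hc.2))
  rw [← pow_one c, ← pow_mul, one_mul, pow_eq_pow_iff_modEq,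
    orderOf_eq_prime (h.yd.pow c (h.le hc)) c1, ← ZMod.natCast_eq_natCast_iff] at h3
  exact h.κ1 (by simpa using h3)

end CG

theorem CG.card_diff {H K : Subgroup G} (h : H ≤ K) :
    Nat.card {x // x ∈ K ∧ x ∉ H} + Nat.card H = Nat.card K :=
  Set.ncard_sdiff_add_ncard_of_subset (s := (H : Set G)) (t := K) h

theorem PD.caseG (h : PD p r κ O E O0 Γ t) (odd : Odd (Nat.card O)) (hY : YD p O E O0 Y0)
    (hS : ∀ s : ℕ, s.Prime → s ≠ p → pCoreOf s O = ⊥) (hP : pCoreOf p O ⊓ O0 ≠ ⊥)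
    (hP' : pCoreOf p O ⊓ O0 ≤ Y0)
    (ab : ∀ g ∈ pCoreOf p O, ∀ g' ∈ pCoreOf p O, ⁅g, g'⁆ ∈ E)
    (nle : ¬ pCoreOf p O ≤ E ⊔ Y0) : NT O O0 := by
  have cp := fun g => F2.cp (g := g) odd hS
  have hG : CG p r κ O E O0 Γ t Y0 (pCoreOf p O) := ⟨h, odd, hY, map_subtype_le _,
    Solv.normalizer_le_normalizer_map_pCore p O, Solv.isPGroup_map_pCore p O,
    Solv.le_map_pCore h.EO (fun g hg => Ab.nm fun e he => by rwa [h.conj_E hg he])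
      fun e => ⟨1, Subtype.ext (by simpa using h.Ep e e.2)⟩, hP, hP', ab, nle⟩
  generalize pCoreOf p O = P at *
  obtain ⟨A, hA, cA⟩ := hG.exA
  obtain ⟨⟨c, hc⟩, c1⟩ := ne_bot_iff_exists_ne_one.1 hP
  obtain ⟨-, E1, cP, -⟩ := hG.onto hc fun e => c1 (Subtype.ext e)
  have AP : A ≤ P := fun a ha => ((hA a).1 ha).1
  let f : (O ⧸ (P ⊔ O0).subgroupOf O) × {y // y ∈ E ⊔ P ⊓ O0 ∧ y ∉ E} → {x // x ∈ P ∧ x ∉ A} :=
    fun y => ⟨y.1.out * y.2 * (y.1.out : G)⁻¹, Ab.cj (hG.norm (le_normalizer y.1.out.2))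
      (hG.YP y.2.2.1), fun e => hG.notA y.1.out.2 y.2.2.1 y.2.2.2 ((hA _).1 e).2⟩
  have h1 : Function.Injective f := fun a b e => by
    have e : (a.1.out : G) * a.2 * (a.1.out : G)⁻¹ = b.1.out * b.2 * (b.1.out : G)⁻¹ :=
      congrArg Subtype.val e
    have h2 : b.1 = a.1 := by
      rw [← a.1.out_eq, ← b.1.out_eq]
      refine QuotientGroup.eq.2 (hG.stab (g := (b.1.out : G)⁻¹ * a.1.out) (mul_mem
        (inv_mem b.1.out.2) a.1.out.2) a.2.2.1 a.2.2.2 ?_)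
      convert b.2.2.1 using 1
      calc _ = (b.1.out : G)⁻¹ * (a.1.out * a.2 * (a.1.out : G)⁻¹) * b.1.out := by group
        _ = _ := by rw [e]; group
    rw [h2, mul_left_inj, mul_right_inj] at e
    exact Prod.ext h2.symm (Subtype.ext e)
  have h2 : ∀ x ∈ P, x ∉ A → ∃ g ∈ O, ∃ y ∈ E ⊔ P ⊓ O0, y ∉ E ∧ g * y * g⁻¹ = x := by
    intro x hx x1
    obtain ⟨y, hy⟩ := (h1.bijective_of_nat_card_le (by
      have h3 := CG.card_diff AP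
      have h4 := CG.card_diff (le_sup_left : E ≤ E ⊔ P ⊓ O0)
      rw [Nat.card_prod]
      refine le_trans ?_ (Nat.mul_le_mul_right _ hG.index)
      rw [cP, ← h4] at h3
      nlinarith)).2 ⟨x, hx, x1⟩
    exact ⟨_, y.1.out.2, _, y.2.2.1, y.2.2.2, congrArg Subtype.val hy⟩
  have h3 : ∀ g ∈ O, ∀ a ∈ A, g * a * g⁻¹ ∈ A := fun g hg a ha => by_contra fun e => by
    obtain ⟨g', hg', y, hy, y1, e1⟩ := h2 _ (Ab.cj (hG.norm (le_normalizer hg)) (AP ha)) e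
    refine hG.notA (mul_mem (inv_mem hg) hg') hy y1 ?_
    rw [show g⁻¹ * g' * y * (g⁻¹ * g')⁻¹ = g⁻¹ * (g' * y * g'⁻¹) * g by group, e1]
    simpa [mul_assoc] using ((hA a).1 ha).2
  have h4 : ∀ x ∈ P, x ∈ centralizer (A : Set G) → x ∈ A := fun x hx h4 => by_contra fun e => by
    obtain ⟨g, hg, y, hy, y1, rfl⟩ := h2 x hx e
    have h5 : A ≤ E := fun a ha => by_contra fun a1 => hG.notA (one_mem O)
      (hG.cent' hy y1 (AP ha) (by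
        calc a * y = g⁻¹ * (g * a * g⁻¹ * (g * y * g⁻¹)) * g := by group
          _ = _ := by rw [h4 _ (h3 g hg a ha)]; group)) a1 (by simpa using ((hA a).1 ha).2)
    have h6 := card_le_of_le h5
    have h7 := (one_lt_card_iff_ne_bot E).2 E1
    nlinarith
  refine h.chain A (AP.trans hG.PO) h3 κ.val (fun a ha => ((hA a).1 ha).2) (fun a ha => ?_)
    fun y => ?_
  · have h5 := h.ΓE _ (inv_mem h.tΓ) _ ((hA a).1 ha).2
    refine (hA _).2 ⟨by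
      simpa using Ab.cj (hG.norm (Ab.nm (h.Γn _ (inv_mem h.tΓ)))) (AP ha), ?_⟩
    convert h5 using 1
    rw [show t⁻¹ * a * t = t⁻¹ * a * t⁻¹⁻¹ by group, conj_pow]
    group
  · have := Fact.mk h.prime
    obtain ⟨n, hn⟩ := hG.pg.exists_card_eq
    have h5 : ∀ u ∈ P, u ^ p ^ n = 1 := fun u hu =>
      hn ▸ congrArg Subtype.val (pow_card_eq_one' (x := (⟨u, hu⟩ : P)))
    refine ⟨n + n, Subtype.ext ?_⟩
    rw [pow_add, pow_mul]
    refine h5 _ (cp _ (pow_mem y.2.1 _) fun u hu => ?_)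
    have h6 : (y : G) * u * (y : G)⁻¹ * u⁻¹ ∈ P :=
      mul_mem (Ab.cj (hG.norm (le_normalizer y.2.1)) hu) (inv_mem hu)
    have h7 := Solv.Coprime.pow_conj_eq_of_commute (a := (y : G)) (k := u) (y.2.2 _ (h4 _ h6 (by
      simpa [mul_assoc] using mul_mem y.2.2 (Ab.cj (Solv.normalizer_le_normalizer_centralizer A
        (Ab.nm (h3 u (hG.PO hu)))) (inv_mem y.2.2))))).symm (p ^ n)
    rw [h5 _ h6, one_mul, mul_inv_eq_iff_eq_mul] at h7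
    exact h7.symm

end Cfsg.Lib.PT
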