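import Cfsg.Agent.PT.HT

/-!
# Tower `PT`: the polar space
-/

set_option autoImplicit false
set_option linter.unusedSectionVars false

namespace Cfsg.Lib.PT

open Subgroup
open scoped Pointwise

universe u

variable {G : Type u} [Group G]

namespace Cfg
variable {C : Cfg G} {x y r r' s u v : C.Pt} {a b c d e g n m ζ z : G}

theorem PS.half (C : Cfg G) : ∃ k, 2 * k = C.p + 1 := by
  obtain ⟨k, hk⟩ := C.prime.odd_of_ne_two (by have := C.five; omega)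
  exact ⟨k + 1, by omega⟩

theorem PS.pp (h1 : BP x y a b) (h2 : BP v y c b) (H : Heis C.p a b c n m ζ) : Pp x v :=
  (Pp_iff h1.ha h2.ha).2 (by
    rw [H.c_eq, mul_assoc (a * n), H.ζa, mul_assoc a n (a * ζ), ← mul_assoc n, H.na])

theorem PS.mx (h1 : BP x y a b) (h2 : BP v y c b) (H : Heis C.p a b c n m ζ) : m • x = v :=
  (smul_eq_iff h1.ha).2 (by
    have := H.ck 1
    simp only [pow_one, one_pow] at this
    rw [this, ← H.c_eq]; exact h2.ha)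

variable [Finite G]

namespace Simple
variable (h : C.Simple)
include h

theorem exists_perp_opp (ne : x ≠ v) : ∃ s, Pp s x ∧ ¬ Pp s v := by
  by_contra! k
  exact ne (h.perp_sub k)

theorem zeta_ne (ne : x ≠ v) (h1 : BP x y a b) (h2 : BP v y c b) (H : Heis C.p a b c n m ζ) :
    ζ ≠ 1 := by
  rintro rfl
  obtain ⟨s, h3, h4⟩ := h.exists_perp_opp ne
  obtain ⟨d, hd⟩ := M_nonempty s
  obtain ⟨k, hk⟩ := PS.half C
  have h5 := C.pow _ (heis_D H h1.bd k) 2 fun e => by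
    have := Nat.le_of_dvd two_pos e
    have := C.five
    omega
  rw [one_pow, mul_one, (Commute.pow_right H.na.symm k).mul_pow, ← pow_mul, mul_comm k, hk, pow_succ n, H.np,
    one_mul, pow_two, mul_assoc, ← H.na, ← mul_assoc, ← mul_one (a * n), ← H.c_eq] at h5
  exact ne_one (mem_D h1.ha) (l1 (k := 1) (mem_D h2.ha) (mem_D hd)
    (fun e => h4 ((Pp_iff hd h2.ha).2 e.symm)) (by rw [pow_one, pow_p (mem_D h1.ha)])
    (PS.pp h1 h2 H _ h1.ha _ h2.ha) (h3 _ hd _ h1.ha).symm h5)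

theorem pl_step (hP : Pp x v) (hu : u ∈ pl x v) (ne : x ≠ u) : pl x u = pl x v := by
  obtain ⟨s, h1, h2⟩ := h.exists_perp_opp ne
  have h3 : ¬ Pp s v := fun e => h2 (hu s h1 e)
  obtain ⟨a, b, k⟩ := exists_BP fun e : Pp u s => h2 e.symm
  obtain ⟨a', b', k'⟩ := exists_BP h3
  have h4 : (ww a' b' * ww a b) • x = x := CC_fix (mul_mem
    (KK_le_CC (r := x) ⟨h1.symm, hP⟩ k'.ww_KK)
    (KK_le_CC (r := x) ⟨hu x (Pp_refl x) hP, h1.symm⟩ k.ww_KK))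
  have h5 : (ww a' b' * ww a b) • u = v := by rw [mul_smul, k.ww_x, k'.ww_x]
  have h6 : Δ x v = Δ x u := Set.eq_of_subset_of_ncard_le (fun t ht => ⟨ht.1, hu t ht.1 ht.2⟩)
    (Set.ncard_le_ncard_of_injOn (fun t => (ww a' b' * ww a b) • t)
      (fun t ht => ⟨h4 ▸ (Pp_smul _).2 ht.1, h5 ▸ (Pp_smul _).2 ht.2⟩)
      (MulAction.injective _).injOn)
  exact Set.ext fun t => ⟨fun k s h1 h2 => k s h1 (h6.le ⟨h1, h2⟩).2,
    fun k s h1 h2 => k s h1 (h6.ge ⟨h1, h2⟩).2⟩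

theorem pl_eq (hP : Pp x v) (hu : u ∈ pl x v) (hs : s ∈ pl x v) (ne : u ≠ s) :
    pl u s = pl x v := by
  by_cases e : x = u
  · subst e
    exact h.pl_step hP hs ne
  · rw [← h.pl_step hP hu e, pl_symm x] at hs ⊢
    exact h.pl_step (hu x (Pp_refl x) hP).symm hs ne

theorem perp_of_two (hP : Pp x v) (hu : u ∈ pl x v) (hs : s ∈ pl x v) (ne : u ≠ s)
    (h1 : Pp y u) (h2 : Pp y s) : Pp y x ∧ Pp y v :=
  ⟨(h.pl_eq hP hu hs ne).ge (left_mem_pl x v) y h1 h2,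
    (h.pl_eq hP hu hs ne).ge (right_mem_pl x v) y h1 h2⟩

theorem third (hP : Pp x v) (ne : x ≠ v) : ∃ u ∈ pl x v, u ≠ x ∧ u ≠ v := by
  obtain ⟨y, h1, h2⟩ := h.z0 hP
  obtain ⟨a, b, k⟩ := exists_BP h1
  obtain ⟨c, n, m, ζ, k', H, h3, -⟩ := exists_triple hP ne k h2
  refine ⟨_, heis_pl k k' H 2, fun e => ne ?_, fun e => ne ?_⟩
  · obtain ⟨i, hi⟩ := PS.half C
    have := pow_mem (MulAction.mem_stabilizer_iff.2 e) i
    rwa [← pow_mul, hi, pow_succ, H.mp, one_mul, MulAction.mem_stabilizer_iff, h3, eq_comm] at this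
  · rw [pow_two, mul_smul, h3] at e
    exact MulAction.injective m (h3.trans e.symm)

theorem heis_pres (ne : x ≠ v) (h1 : BP x y a b) (h2 : BP v y c b) (H : Heis C.p a b c n m ζ)
    (hu : u ∈ pl x v) : m • u ∈ pl x v := by
  have h3 := PS.mx h1 h2 H
  have h4 : m • m ^ (C.p - 1) • x = x := by
    rw [← mul_smul, ← pow_succ', Nat.sub_add_cancel C.prime.one_le, H.mp, one_smul]
  rw [← h.pl_eq (PS.pp h1 h2 H) (heis_pl h1 h2 H (C.p - 1)) (left_mem_pl x v) fun e =>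
    ne (by rw [← h3, ← e, h4, e]), ← smul_mem_pl m, h4, h3] at hu
  exact hu

theorem opp_card (hP : Pp x v) (hu : u ∈ pl x v) (opp : ¬ Pp u y) :
    ∃ k, {s | s ∈ pl x v ∧ ¬ Pp s y}.ncard = C.p ^ k := by
  obtain ⟨a, b, k⟩ := exists_BP opp
  let P := MulAction.stabilizer G y ⊓ MulAction.stabilizer G (pl x v) ⊓
    (EL x v).map (MulAut.conj (ww a b)).toMonoidHom
  have hp : IsPGroup C.p P := (IsPGroup.map (fun e : EL x v => ⟨1, Subtype.ext (by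
    simpa using EL_pow hP e.2)⟩) _).to_le inf_le_right
  obtain ⟨i, hi⟩ := hp.card_orbit u
  refine ⟨i, hi ▸ congrArg Set.ncard (Set.ext fun s => ⟨fun ⟨h1, h2⟩ => ?_, ?_⟩)⟩
  · by_cases e : u = s
    · exact e ▸ MulAction.mem_orbit_self u
    obtain ⟨c, n, m, ζ, k', H, h3, h4⟩ := exists_triple (pl_perp hP hu h1) e k h2
    have h5 := h.pl_eq hP hu h1 e
    refine ⟨⟨m, ⟨h4, (MulAction.mem_stabilizer_set_iff_smul_set_subset (Set.toFinite _)).2 ?_⟩,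
      n, ?_, H.m_eq.symm⟩, h3⟩
    · rintro _ ⟨t, ht, rfl⟩
      exact h5 ▸ h.heis_pres e k k' H (h5 ▸ ht)
    · have := (heis_EL k k' H).1
      rwa [EL, h5] at this
  · rintro ⟨g, rfl⟩
    refine ⟨(MulAction.mem_stabilizer_iff.1 g.2.1.2).le ⟨u, hu, rfl⟩, fun e => opp ?_⟩
    rw [← Pp_smul (g : G), MulAction.mem_stabilizer_iff.1 g.2.1.1]
    exact e

theorem one_all (hP : Pp x v) (ne : x ≠ v) (y : C.Pt) : ∃ u ∈ pl x v, Pp u y := by
  by_contra! k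
  obtain ⟨s, h1, h2⟩ := h.exists_perp_opp ne
  obtain ⟨i, hi⟩ := h.opp_card hP (right_mem_pl x v) fun e : Pp v s => h2 e.symm
  obtain ⟨j, hj⟩ := h.opp_card hP (left_mem_pl x v) (k _ (left_mem_pl x v))
  have h3 : {t | t ∈ pl x v ∧ ¬ Pp t s} = pl x v \ {x} := Set.ext fun t => and_congr_right fun ht =>
    ⟨fun e e' => e ((show t = x from e') ▸ h1.symm), fun e e' =>
      h2 (h.perp_of_two hP ht (left_mem_pl x v) e e'.symm h1).2⟩
  rw [show {t | t ∈ pl x v ∧ ¬ Pp t y} = pl x v from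
    Set.ext fun t => and_iff_left_of_imp (k t)] at hj
  have h4 := Set.ncard_sdiff_singleton_add_one (left_mem_pl x v)
  obtain ⟨u, hu, u1, u2⟩ := h.third hP ne
  have h5 : 1 < (pl x v \ {x}).ncard := (Set.one_lt_ncard (Set.toFinite _)).2
    ⟨u, ⟨hu, u1⟩, v, ⟨right_mem_pl x v, ne.symm⟩, u2⟩
  rw [← h3, hi] at h4 h5
  rw [hj] at h4
  have h6 : C.p ∣ C.p ^ i := dvd_pow_self _ (by rintro rfl; simp at h5)
  have h7 : C.p ∣ C.p ^ j := dvd_pow_self _ (by rintro rfl; rw [pow_zero] at h4; omega)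
  rw [← h4, Nat.dvd_add_right h6] at h7
  exact C.prime.one_lt.ne' (Nat.dvd_one.1 h7)

theorem exists_Δ (opp : ¬ Pp x y) (hu : Pp u x) (ne : u ≠ x) : ∃ r ∈ Δ x y, u ∈ pl x r := by
  obtain ⟨r, h1, h2⟩ := h.one_all hu.symm ne.symm y
  exact ⟨r, ⟨pl_perp hu.symm h1 (left_mem_pl x u), h2⟩,
    (h.pl_step hu.symm h1 fun e => opp (e ▸ h2)).ge (right_mem_pl x u)⟩

theorem Δ_opp (opp : ¬ Pp x y) (hr : r ∈ Δ x y) : ∃ r' ∈ Δ x y, ¬ Pp r r' := by
  obtain ⟨s, h1, h2⟩ := h.exists_perp_opp (x := x) (v := r) fun e => opp (e ▸ hr.2)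
  obtain ⟨r', h3, h4⟩ := h.exists_Δ opp h1 fun e => h2 (e ▸ hr.1.symm)
  exact ⟨r', h3, fun e => h2 (h4 r hr.1 e).symm⟩

theorem Δ_ext (opp : ¬ Pp x y) (hr : r ∈ Δ x y) (hr' : r' ∈ Δ x y)
    (e : ∀ s ∈ Δ x y, Pp s r → Pp s r') : r = r' := by
  by_contra ne
  refine opp (h.perp_of_two hr.1.symm (right_mem_pl x r) (fun s h1 h2 => ?_) ne hr.2.symm
    hr'.2.symm).1.symm
  by_cases k : s = x
  · exact k ▸ hr'.1.symm
  obtain ⟨s0, h3, h4⟩ := h.exists_Δ opp h1 k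
  exact (h4 r' hr'.1 (e s0 h3 (h.perp_of_two h3.1.symm h4 (left_mem_pl x s0) k h2.symm
    hr.1).2.symm).symm).symm

end Simple

end Cfg

end Cfsg.Lib.PT
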