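import Cfsg.Agent.PT.PS

/-!
# Tower `PT`: connectivity and rigidity of the polar space
-/

set_option autoImplicit false
set_option linter.unusedSectionVars false

namespace Cfsg.Lib.PT

open Subgroup

universe u

variable {G : Type u} [Group G]

namespace Cfg
variable {C : Cfg G} {x y r r' s u v : C.Pt} {a b c d e g n m ζ z : G}

variable [Finite G]

theorem HR.Δ_ne (h : C.HR) (opp : ¬ Pp x y) : ∃ r, r ∈ Δ x y := by
  obtain ⟨u, v, h1, h2⟩ : ∃ u v : C.Pt, Pp u v ∧ u ≠ v := by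
    by_contra! k
    exact h.nr1 k
  obtain ⟨g, rfl⟩ := h.simple.trans u x
  obtain ⟨r, hr, -⟩ := h.simple.exists_Δ opp ((Pp_smul g).2 h1.symm)
    fun e => h2 (MulAction.injective g e).symm
  exact ⟨r, hr⟩

theorem HR.conn_opp (h : C.HR) (A : Set C.Pt) (opp : ¬ Pp x y) (hy : y ∈ A)
    (hA : ∀ u ∈ A, ∀ v, ¬ Pp x u → ¬ Pp x v → Pp u v → v ∈ A) (hu : ¬ Pp x u) : u ∈ A := by
  by_cases h1 : Pp y u
  · exact hA y hy u opp hu h1
  by_cases h2 : ∀ v ∈ Δ y u, Pp x v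
  swap
  · push Not at h2
    obtain ⟨v, hv, h2⟩ := h2
    exact hA v (hA y hy v opp h2 hv.1.symm) u h2 hu hv.2
  obtain ⟨r, hr⟩ := h.Δ_ne h1
  obtain ⟨r', hr', h3⟩ := h.simple.Δ_opp h1 hr
  obtain ⟨y1, h4, h5, h6⟩ := h.simple.third hr.1.symm fun e => h1 (e ▸ hr.2)
  have k1 := fun t => h.simple.perp_of_two (y := t) hr.1.symm h4 (right_mem_pl y r) h6
  have h7 : ¬ Pp x y1 := fun e => opp (k1 x e (h2 r hr)).1
  obtain ⟨v, h8, h9⟩ := h.simple.one_all hr'.2.symm (fun e => h1 (e ▸ hr'.1.symm)) y1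
  have h10 : ¬ Pp x v := fun e => hu (h.simple.perp_of_two hr'.2.symm h8 (right_mem_pl u r')
    (fun e' => h3 (h.simple.perp_of_two hr.1.symm h4 (left_mem_pl y r) h5 (e' ▸ h9)
      hr'.1).2.symm) e (h2 r' hr')).1
  exact hA v (hA y1 (hA y hy y1 opp h7 (pl_perp hr.1.symm (left_mem_pl y r) h4)) v h7 h10 h9.symm)
    u h10 hu (pl_perp hr'.2.symm h8 (left_mem_pl u r'))

theorem HR.rigid (h : C.HR) (opp : ¬ Pp x y) (h1 : ∀ s, Pp s x → g • s = s) (h2 : g • y = y) :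
    g = 1 := by
  refine h.simple.faith fun t => ?_
  by_cases ht : Pp x t
  · exact h1 t ht.symm
  refine h.conn_opp {u | g • u = u} opp h2 (fun u gu v hu hv hP => ?_) ht
  by_contra ne
  have uv : u ≠ v := fun e => ne (e ▸ gu)
  obtain ⟨r, h3, h4⟩ := h.simple.one_all hP uv x
  have ur : u ≠ r := fun e => hu (e ▸ h4.symm)
  obtain ⟨s, h5, h6⟩ := h.simple.exists_perp_opp (x := x) (v := r) fun e =>
    hu (e ▸ pl_perp hP h3 (left_mem_pl u v))
  obtain ⟨r', h7, h8⟩ := h.simple.one_all h5.symm (fun e => h6 (e ▸ h4.symm)) v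
  have h9 : g • v ∈ pl u v := by
    have := (smul_mem_pl g).2 ((h.simple.pl_eq hP (left_mem_pl u v) h3 ur).ge (right_mem_pl u v))
    rwa [show g • u = u from gu, h1 r h4, h.simple.pl_eq hP (left_mem_pl u v) h3 ur] at this
  have h10 := pl_perp h5.symm h7 (left_mem_pl x s)
  have h11 := h.simple.perp_of_two hP h9 (right_mem_pl u v) ne (h1 r' h10 ▸ (Pp_smul g).2 h8) h8
  exact h6 (h.simple.perp_of_two h5.symm h7 (left_mem_pl x s) (fun e => hv (e ▸ h8))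
    (h3 r' h11.1 h11.2).symm h4).2.symm

theorem HR.w1 (h : C.HR) (opp : ¬ Pp x y) : W1 x y :=
  w1_of_S opp (eq_bot_iff.2 fun _ he => h.rigid opp (fun _ hs => E_fix hs.symm (mem_S.1 he).1)
    (mem_S.1 he).2)

theorem HR.Δ_two (h : C.HR) (opp : ¬ Pp x y) (hr : r ∈ Δ x y) (hr' : r' ∈ Δ x y) :
    ∃ s ∈ Δ x y, ¬ Pp s r ∧ ¬ Pp s r' := by
  have key : ∀ {t s u : C.Pt} {c : G}, c ∈ M t → Pp t u → (Pp (c • s) u ↔ Pp s u) :=
    fun {_ s u c} hc e => by rw [← Pp_smul c (x := s), E_fix e (M_le_E hc)]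
  by_cases h1 : Pp r r'
  · obtain ⟨s1, h2, h3⟩ := h.simple.Δ_opp opp hr
    obtain ⟨s2, h4, h5⟩ := h.simple.Δ_opp opp hr'
    by_cases h6 : Pp s1 r'
    swap
    · exact ⟨s1, h2, fun e => h3 e.symm, h6⟩
    by_cases h7 : Pp s2 r
    swap
    · exact ⟨s2, h4, h7, fun e => h5 e.symm⟩
    by_cases h8 : Pp s1 s2
    · obtain ⟨s, h9, h10, h11⟩ := h.simple.third h8 fun e => h3 (e ▸ h7.symm)
      exact ⟨s, ⟨(h9 x h2.1.symm h4.1.symm).symm, (h9 y h2.2.symm h4.2.symm).symm⟩,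
        fun e => h3 (h.simple.perp_of_two h8 h9 (right_mem_pl _ _) h11 e.symm h7.symm).1,
        fun e => h5 (h.simple.perp_of_two h8 h9 (left_mem_pl _ _) h10 e.symm h6.symm).2⟩
    · obtain ⟨c, hc⟩ := M_nonempty s2
      exact ⟨c • s1, ⟨(key hc h4.1).2 h2.1, (key hc h4.2).2 h2.2⟩,
        fun e => h3 ((key hc h7).1 e).symm, fun e => h5 (br_perp h8 hc h6.symm e.symm)⟩
  · obtain ⟨c, hc⟩ := M_nonempty r
    obtain ⟨d, hd⟩ := M_nonempty r'
    exact ⟨c • r', ⟨(key hc hr.1).2 hr'.1, (key hc hr.2).2 hr'.2⟩,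
      fun e => h1 ((key hc (Pp_refl r)).1 e).symm, fun e => h1 ((Pp_iff hc hd).2
        (comm_of_conj (mem_D hc) (mem_D hd) (e _ (conj_mem c hd) _ hd)))⟩

end Cfg

end Cfsg.Lib.PT
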