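import Cfsg.Agent.PT.Defs3
import Cfsg.Agent.S0244

/-!
# Tower `PT`: `PSL₂ = PSp₂`
-/

set_option autoImplicit false

namespace Cfsg.Lib.PT

open Matrix Subgroup
open scoped MatrixGroups

theorem psl2_psp (K : Type) [Field K] : Nonempty (PSL(2, K) ≃* Cfsg.PSp 1 K) := by
  let ε : Fin 2 ≃ Fin 1 ⊕ Fin 1 := (finSumFinEquiv (m := 1) (n := 1)).symm
  let φ : SL(2, K) →* Matrix (Fin 1 ⊕ Fin 1) (Fin 1 ⊕ Fin 1) K :=
    (reindexAlgEquiv K K ε).toMonoidHom.comp SpecialLinearGroup.coeMonoidHom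
  let e : SL(2, K) ≃* symplecticGroup (Fin 1) K := MulEquiv.ofBijective
    (φ.codRestrict _ fun g => (Agent.S0244.result _).2 ((det_reindex_self ε _).trans g.2))
    ⟨fun x y h => Subtype.ext ((reindexAlgEquiv K K ε).injective (Subtype.mk.inj h)), fun y =>
      ⟨⟨reindex ε.symm ε.symm y.1, (det_reindex_self _ _).trans ((Agent.S0244.result _).1 y.2)⟩,
        Subtype.ext ((reindexAlgEquiv K K ε).apply_symm_apply y.1)⟩⟩
  exact ⟨QuotientGroup.congr _ _ e (by
    ext x
    obtain ⟨x, rfl⟩ := e.surjective x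
    refine (mem_map_iff_mem (f := e.toMonoidHom) e.injective).trans ?_
    rw [mem_center_iff, mem_center_iff, e.surjective.forall]
    simp only [← map_mul, e.injective.eq_iff])⟩

end Cfsg.Lib.PT
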