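import Cfsg.Agent.PT.Defs3
import Cfsg.Agent.PT.Mat

/-!
# Tower `PT`: the parameters of the torus argument
-/

set_option autoImplicit false
set_option linter.unusedVariables false

namespace Cfsg.Lib.PT

section Par
variable {p r : ℕ} {l : (ZMod p)ˣ}

theorem Par.units (hp : p.Prime) : Nat.card (ZMod p)ˣ = p - 1 := by
  have := Fact.mk hp
  rw [Nat.card_eq_fintype_card, ZMod.card_units]

theorem Par.neg_ne (hp : p.Prime) (h5 : 5 ≤ p) : (-1 : (ZMod p)ˣ) ≠ 1 := fun e => by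
  have := Fact.mk hp
  have : Fact (2 < p) := ⟨by omega⟩
  exact ZMod.neg_one_ne_one (congrArg Units.val e)

theorem exists_par (hp : p.Prime) (h5 : 5 ≤ p) : ∃ (r : ℕ) (l : (ZMod p)ˣ), Par p r l := by
  have := Fact.mk hp
  rcases Nat.eq_two_pow_or_exists_odd_prime_and_dvd (p - 1) with ⟨k, hk⟩ | ⟨r, hr, hd, ho⟩
  · obtain ⟨g, hg⟩ := IsCyclic.exists_ofOrder_eq_natCard (α := (ZMod p)ˣ)
    obtain ⟨j, rfl⟩ : ∃ j, k = j + 2 := ⟨k - 2, by
      have : ¬ k ≤ 1 := fun e => by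
        have := Nat.pow_le_pow_right two_pos e
        omega
      omega⟩
    rw [Par.units hp, hk] at hg
    refine ⟨2, g ^ 2 ^ j, Nat.prime_two, .inr ⟨rfl, ?_, fun e => ?_⟩⟩
    · have h1 : ((g ^ 2 ^ j) ^ 2) ^ 2 = 1 := by
        rw [← pow_mul, ← pow_mul, ← orderOf_dvd_iff_pow_eq_one, hg]
        exact Dvd.intro 1 (by ring)
      have h2 : (g ^ 2 ^ j) ^ 2 ≠ 1 := fun e => by
        rw [← pow_mul, ← orderOf_dvd_iff_pow_eq_one, hg, ← pow_succ,
          Nat.pow_dvd_pow_iff_le_right one_lt_two] at e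
        omega
      generalize (g ^ 2 ^ j) ^ 2 = x at *
      refine Units.ext ((sq_eq_one_iff.1 ?_).resolve_left fun e => h2 (Units.ext e))
      rw [← Units.val_pow_eq_pow_val, h1, Units.val_one]
    · rw [hk] at e
      exact absurd (Nat.prime_three.dvd_of_dvd_pow e) (by decide)
  · have := Fact.mk hr
    obtain ⟨l, hl⟩ := exists_prime_orderOf_dvd_card' (G := (ZMod p)ˣ) r (Par.units hp ▸ hd)
    exact ⟨r, l, hr, .inl ⟨by rintro rfl; exact absurd ho (by decide), hl⟩⟩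

theorem Par.prime (h : Par p r l) : r.Prime := h.1

theorem Par.dvd (hp : p.Prime) (h5 : 5 ≤ p) (h : Par p r l) : r ∣ p - 1 := by
  have := Fact.mk hp
  rcases h.2 with ⟨-, e⟩ | ⟨rfl, -⟩
  · rw [← e, ← Par.units hp]
    exact orderOf_dvd_natCard l
  · exact (hp.even_sub_one (by omega)).two_dvd

theorem Par.ne (hp : p.Prime) (h5 : 5 ≤ p) (h : Par p r l) : r ≠ p := fun e => by
  have := Nat.le_of_dvd (by omega) (h.dvd hp h5)
  omega

theorem Par.sq_ne (hp : p.Prime) (h5 : 5 ≤ p) (h : Par p r l) : l ^ 2 ≠ 1 := fun k => by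
  rcases h.2 with ⟨h2, e⟩ | ⟨-, e, -⟩
  · exact h2 ((Nat.prime_dvd_prime_iff_eq h.1 Nat.prime_two).1 (e ▸ orderOf_dvd_of_pow_eq_one k))
  · exact Par.neg_ne hp h5 (e.symm.trans k)

theorem Par.four_ne (h : Par p r l) (h2 : r ≠ 2) : (l ^ 2) ^ 2 ≠ 1 := fun k => by
  rcases h.2 with ⟨-, e⟩ | ⟨e, -⟩
  · rw [← pow_mul, ← orderOf_dvd_iff_pow_eq_one, e] at k
    exact h2 ((Nat.prime_dvd_prime_iff_eq h.1 Nat.prime_two).1
      ((h.1.dvd_mul.1 k).elim id id))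
  · exact h2 e

theorem Par.pow_r (h : Par p r l) (h2 : r ≠ 2) : l ^ r = 1 := by
  rcases h.2 with ⟨-, e⟩ | ⟨e, -⟩
  · rw [← e, pow_orderOf_eq_one]
  · exact absurd e h2

theorem Par.pow_sq (h : Par p r l) : l ^ r ^ 2 = 1 := by
  rcases h.2 with ⟨h2, -⟩ | ⟨rfl, e, -⟩
  · rw [sq, pow_mul, h.pow_r h2, one_pow]
  · rw [sq, pow_mul, e, neg_one_sq]

theorem Par.two (h : Par p 2 l) : l ^ 2 = -1 ∧ ¬ 3 ∣ p - 1 :=
  h.2.elim (fun e => absurd rfl e.1) And.right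

end Par

end Cfsg.Lib.PT
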