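import Cfsg.Agent.PT.Gen2

/-!
# Tower `PT`: points
-/

set_option autoImplicit false
set_option linter.unusedSectionVars false
set_option linter.unusedSimpArgs false

namespace Cfsg.Lib.PT

open Matrix Subgroup
open scoped MatrixGroups commutatorElement

universe u

variable {G : Type u} [Group G]

namespace Cfg
variable {C : Cfg G} {x y s : C.Pt} {a b c e g : G}

theorem ne_one (ha : a ∈ C.D) : a ≠ 1 := fun e => C.prime.one_lt.ne (by
  rw [← C.ord a ha, e, orderOf_one])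
theorem pow_p (ha : a ∈ C.D) : a ^ C.p = 1 := C.ord a ha ▸ pow_orderOf_eq_one a
theorem not_dvd_val (l : (ZMod C.p)ˣ) : ¬ C.p ∣ (l : ZMod C.p).val := fun h =>
  (Nat.le_of_dvd (ZMod.val_pos.2 l.ne_zero) h).not_gt (ZMod.val_lt _)
theorem inv_eq_pow (ha : a ∈ C.D) : a⁻¹ = a ^ (C.p - 1) :=
  inv_eq_of_mul_eq_one_left (by rw [← pow_succ, Nat.sub_add_cancel C.prime.one_le, pow_p ha])
theorem not_dvd_pred (C : Cfg G) : ¬ C.p ∣ C.p - 1 := fun h => by
  have := C.five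
  have := Nat.le_of_dvd (by omega) h
  omega
theorem pw_D (ha : a ∈ C.D) (l : (ZMod C.p)ˣ) : pw a (l : ZMod C.p) ∈ C.D :=
  C.pow a ha _ (not_dvd_val l)
theorem inv_D (ha : a ∈ C.D) : a⁻¹ ∈ C.D := inv_eq_pow ha ▸ C.pow a ha _ C.not_dvd_pred
theorem mem_D (h : a ∈ M x) : a ∈ C.D := by
  obtain ⟨_, u, _, rfl⟩ := x
  exact h.1
theorem mem_pnt (ha : a ∈ C.D) : a ∈ M (C.pnt a ha) := ⟨ha, rfl⟩
theorem M_nonempty (x : C.Pt) : ∃ a, a ∈ M x := by
  obtain ⟨_, u, hu, rfl⟩ := x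
  exact ⟨u, hu, rfl⟩
theorem exists_pt (ha : a ∈ C.D) : ∃ x : C.Pt, a ∈ M x := ⟨_, mem_pnt ha⟩
theorem ext_M (hx : a ∈ M x) (hy : a ∈ M y) : x = y := by
  obtain ⟨_, u, _, rfl⟩ := x
  obtain ⟨_, v, _, rfl⟩ := y
  exact Subtype.ext (show C.pt u = C.pt v by rw [pt, pt, ← hx.2, hy.2])
theorem mem_M_iff (ha : a ∈ M x) :
    b ∈ M x ↔ b ∈ C.D ∧ ∀ c ∈ C.D, (c * b = b * c ↔ c * a = a * c) := by
  rw [ext_M ha (mem_pnt (mem_D ha))]
  refine and_congr_right fun _ => Set.ext_iff.trans (forall_congr' fun c => ?_)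
  exact and_congr_right_iff
theorem conj_mem (g : G) (h : a ∈ M x) : g * a * g⁻¹ ∈ M (g • x) :=
  mem_M_smul.2 (by simpa [mul_assoc] using h)
theorem smul_eq_iff (h : a ∈ M x) : g • x = y ↔ g * a * g⁻¹ ∈ M y :=
  ⟨fun e => e ▸ conj_mem g h, ext_M (conj_mem g h)⟩
theorem fix_of_comm (h : a ∈ M x) (e : g * a = a * g) : g • x = x :=
  (smul_eq_iff h).2 (by rwa [e, mul_inv_cancel_right])
theorem pow_M (h : a ∈ M x) {k : ℕ} (hk : ¬ C.p ∣ k) : a ^ k ∈ M x := by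
  refine (mem_M_iff h).2 ⟨C.pow a (mem_D h) k hk, fun c _ => ⟨fun e => ?_, fun e =>
    (Commute.pow_right e k).eq⟩⟩
  obtain ⟨m, hm⟩ := exists_pow_eq_self_of_coprime (x := a) (n := k) (by
    rw [C.ord a (mem_D h)]; exact ((Nat.Prime.coprime_iff_not_dvd C.prime).2 hk).symm)
  exact hm ▸ (Commute.pow_right e m).eq
theorem pw_M (h : a ∈ M x) (l : (ZMod C.p)ˣ) : pw a (l : ZMod C.p) ∈ M x := pow_M h (not_dvd_val l)
theorem inv_M (h : a ∈ M x) : a⁻¹ ∈ M x := inv_eq_pow (mem_D h) ▸ pow_M h C.not_dvd_pred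
theorem Pp_iff (ha : a ∈ M x) (hb : b ∈ M y) : Pp x y ↔ a * b = b * a :=
  ⟨fun h => h a ha b hb, fun h _ ha' _ hb' => (((mem_M_iff hb).1 hb').2 _ (mem_D ha')).2
    ((((mem_M_iff ha).1 ha').2 b (mem_D hb)).2 h.symm).symm⟩
theorem Pp_refl (x : C.Pt) : Pp x x := by
  obtain ⟨a, ha⟩ := M_nonempty x
  exact (Pp_iff ha ha).2 rfl
theorem Pp.symm (h : Pp x y) : Pp y x := fun a ha b hb => (h b hb a ha).symm
theorem Pp_smul (g : G) : Pp (g • x) (g • y) ↔ Pp x y := by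
  obtain ⟨a, ha⟩ := M_nonempty x
  obtain ⟨b, hb⟩ := M_nonempty y
  rw [Pp_iff (conj_mem g ha) (conj_mem g hb), Pp_iff ha hb, conj_mul, conj_mul, mul_left_inj,
    mul_right_inj]
theorem ne_of_opp (h : ¬ Pp x y) : x ≠ y := fun e => h (e ▸ Pp_refl x)
theorem ext_Pp (h : ∀ s, Pp s x ↔ Pp s y) : x = y := by
  obtain ⟨a, ha⟩ := M_nonempty x
  obtain ⟨b, hb⟩ := M_nonempty y
  refine ext_M ((mem_M_iff ha).2 ⟨mem_D hb, fun c hc => ?_⟩) hb
  rw [← Pp_iff (mem_pnt hc) ha, ← Pp_iff (mem_pnt hc) hb, h]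
theorem M_le_E (h : a ∈ M x) : a ∈ E x := subset_closure h
theorem E_ne_bot (x : C.Pt) : E x ≠ ⊥ := fun e => by
  obtain ⟨a, ha⟩ := M_nonempty x
  exact ne_one (mem_D ha) (mem_bot.1 (e ▸ M_le_E ha))
theorem mem_CC : g ∈ CC x ↔ ∀ a ∈ M x, g * a = a * g := by
  rw [CC, E, centralizer_closure, mem_centralizer_iff]
  exact forall₂_congr fun _ _ => eq_comm
theorem CC_comm (h : g ∈ CC x) (he : e ∈ E x) : g * e = e * g := (mem_centralizer_iff.1 h e he).symm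
theorem E_le_CC (h : Pp x y) : E x ≤ CC y :=
  (closure_le _).2 fun a ha => mem_CC.2 fun b hb => h a ha b hb
theorem E_comm {e' : G} (h : e ∈ E x) (h' : e' ∈ E x) : e * e' = e' * e :=
  CC_comm (E_le_CC (Pp_refl x) h) h'
theorem E_pow (h : e ∈ E x) : e ^ C.p = 1 := by
  induction h using closure_induction with
  | mem a ha => exact pow_p (mem_D ha)
  | one => exact one_pow _
  | mul a b ha hb h1 h2 => rw [Commute.mul_pow (E_comm ha hb), h1, h2, mul_one]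
  | inv a _ h1 => rw [inv_pow, h1, inv_one]
theorem E_pgroup (x : C.Pt) : IsPGroup C.p (E x) := fun e =>
  ⟨1, Subtype.ext (by rw [pow_one]; exact E_pow e.2)⟩
theorem conj_E (g : G) (h : e ∈ E x) : g * e * g⁻¹ ∈ E (g • x) :=
  (closure_le ((E (g • x)).comap (MulAut.conj g).toMonoidHom)).2
    (fun _ ha => M_le_E (conj_mem g ha)) h
theorem mem_E_smul : e ∈ E (g • x) ↔ g⁻¹ * e * g ∈ E x :=
  ⟨fun h => by simpa using conj_E g⁻¹ h, fun h => by simpa [mul_assoc] using conj_E g h⟩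
theorem CC_fix (h : g ∈ CC x) : g • x = x := by
  obtain ⟨a, ha⟩ := M_nonempty x
  exact fix_of_comm ha (mem_CC.1 h a ha)
theorem conj_CC (g : G) (h : c ∈ CC x) : g * c * g⁻¹ ∈ CC (g • x) := mem_CC.2 fun a ha => by
  calc _ = g * (c * (g⁻¹ * a * g)) * g⁻¹ := by group
    _ = _ := by rw [mem_CC.1 h _ (mem_M_smul.1 ha)]; group
theorem E_fix (h : Pp x y) (he : e ∈ E x) : e • y = y := CC_fix (E_le_CC h he)
theorem mem_S : e ∈ S x y ↔ e ∈ E x ∧ e • y = y := Iff.rfl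
theorem mem_C0 : c ∈ C0 x y ↔ c ∈ CC x ∧ c • y = y := Iff.rfl
theorem conj_smul' (g e : G) (y : C.Pt) : (g * e * g⁻¹) • g • y = g • e • y := by
  rw [mul_smul, mul_smul, inv_smul_smul]
theorem conj_S (g : G) (h : e ∈ S x y) : g * e * g⁻¹ ∈ S (g • x) (g • y) :=
  mem_S.2 ⟨conj_E g (mem_S.1 h).1, by rw [conj_smul', (mem_S.1 h).2]⟩
theorem conj_KK (g : G) (h : e ∈ KK x y) : g * e * g⁻¹ ∈ KK (g • x) (g • y) :=
  (sup_le (c := (KK (g • x) (g • y)).comap (MulAut.conj g).toMonoidHom)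
    (fun _ h => mem_sup_left (conj_E g h)) fun _ h => mem_sup_right (conj_E g h)) h
theorem KK_symm (x y : C.Pt) : KK x y = KK y x := sup_comm _ _
theorem KK_eq (x y : C.Pt) : KK x y = closure (M x ∪ M y) := (closure_union _ _).symm
theorem W1.symm (h : W1 x y) : W1 y x := ⟨fun e => h.1 e.symm, h.2.2, h.2.1⟩
theorem S_smul_bot (h : S x y = ⊥) (g : G) : S (g • x) (g • y) = ⊥ := eq_bot_iff.2 fun e he => by
  have := conj_S g⁻¹ he
  rwa [inv_smul_smul, inv_smul_smul, h, mem_bot, conj_eq_one_iff] at this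
theorem W1.smul (h : W1 x y) (g : G) : W1 (g • x) (g • y) :=
  ⟨fun e => h.1 ((Pp_smul g).1 e), S_smul_bot h.2.1 g, S_smul_bot h.2.2 g⟩
theorem smul_mem_ln (g : G) (h : s ∈ ln x y) : g • s ∈ ln (g • x) (g • y) := by
  rcases h with rfl | ⟨e, he, rfl⟩
  exacts [Or.inl rfl, Or.inr ⟨_, conj_E g he, conj_smul' g e y⟩]
theorem Sc.of_M {k : ZMod C.p} (h : ∀ a ∈ M x, g * a * g⁻¹ = pw a k) :
    Sc (C := C) g (E x) k := by
  intro e he
  induction he using closure_induction with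
  | mem a ha => exact h a ha
  | one => rw [one_pw, mul_one, mul_inv_cancel]
  | mul a b ha hb h1 h2 => rw [mul_pw (E_comm ha hb), ← h1, ← h2, conj_mul]
  | inv a _ h1 => rw [inv_pw, ← h1, conj_inv]
theorem comm_of_solv (H : Subgroup G) (hH : Group.IsSolvable H) (ha : a ∈ C.D) (hb : b ∈ C.D)
    (ha' : a ∈ H) (hb' : b ∈ H) : a * b = b * a := by
  by_contra nc
  obtain ⟨K, _, _, f, α, β, h, rfl, rfl, e⟩ := C.pair a ha b hb nc
  have := Trans.eq_bot_of_perfect_of_le_isSolvable (h.perfect C.prime C.five)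
    (e.le.trans ((closure_le H).2 (Set.pair_subset ha' hb'))) hH
  exact ne_one ha (mem_bot.1 (this.le ⟨_, rfl⟩))
theorem comm_of_pgroup [Finite G] (P : Subgroup G) (hP : IsPGroup C.p P) (ha : a ∈ C.D)
    (hb : b ∈ C.D) (ha' : a ∈ P) (hb' : b ∈ P) : a * b = b * a :=
  comm_of_solv P (have := hP.isNilpotent; inferInstance) ha hb ha' hb'
theorem up_ne {K : Type} [Field K] {f : SL2 K →* G} {α : K} (h : f (up α) ∈ C.D) : α ≠ 0 := by
  rintro rfl
  exact ne_one h (by rw [up_zero, map_one])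
theorem lo_ne {K : Type} [Field K] {f : SL2 K →* G} {α : K} (h : f (lo α) ∈ C.D) : α ≠ 0 := by
  rintro rfl
  exact ne_one h (by rw [lo_zero, map_one])
theorem comm_of_conj (ha : a ∈ C.D) (hb : b ∈ C.D)
    (e : a * b * a⁻¹ * b = b * (a * b * a⁻¹)) : a * b = b * a := by
  by_contra nc
  obtain ⟨K, _, _, f, α, β, h, rfl, rfl, -⟩ := C.pair a ha b hb nc
  exact up_ne ha (h.fix C.prime C.five (lo_ne hb) e)
theorem smul_fix_iff (ha : a ∈ M x) : a • y = y ↔ Pp x y := by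
  obtain ⟨b, hb⟩ := M_nonempty y
  exact ⟨fun h => (Pp_iff ha hb).2 (comm_of_conj (mem_D ha) (mem_D hb)
    (Pp_refl y _ ((smul_eq_iff hb).1 h) b hb)), fun h => E_fix h (M_le_E ha)⟩
theorem reflect (N : Subgroup G) (ha : a ∈ C.D) (hb : b ∈ C.D)
    (hN : ∀ g ∈ closure ({a, b} : Set G), ∀ n ∈ N, g * n * g⁻¹ ∈ N) (aN : a ∉ N)
    (e : ⁅a, b⁆ ∈ N) : a * b = b * a := by
  by_contra nc
  obtain ⟨K, _, _, f, α, β, h, rfl, rfl, e'⟩ := C.pair a ha b hb nc
  have := h.char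
  rcases h.normal C.prime C.five N (fun g => hN _ (e'.le ⟨g, rfl⟩)) with h1 | h1
  · exact aN (h1 _)
  rcases h1 _ (map_commutatorElement f _ _ ▸ e) with h2 | h2
  · exact nc (by rw [← map_mul, commutatorElement_eq_one_iff_mul_comm.1 h2, map_mul])
  · rw [commutatorElement_def, mul_inv_eq_iff_eq_mul, mul_inv_eq_iff_eq_mul] at h2
    exact up_ne ha (Mat.eq_zero_of_neg C.five (by simpa [Mat.mm] using Mat.ent h2 0 1))
instance [Finite G] : Finite C.Pt := inferInstanceAs (Finite {M : Set G // ∃ a ∈ C.D, M = C.pt a})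

namespace Simple
variable (h : C.Simple)
include h
theorem cent_eq_one (hg : ∀ a ∈ C.D, g * a = a * g) : g = 1 := by
  have := h.simple
  obtain ⟨a, -, b, -, nc⟩ := h.nc
  refine mem_bot.1 (((IsSimpleGroup.eq_bot_or_eq_top_of_normal (center G) inferInstance).resolve_right
    fun e => nc (mem_center_iff.1 (e.ge (mem_top b)) a)).le (mem_center_iff.2 fun u => ?_))
  exact mem_centralizer_singleton_iff.1 ((closure_le (centralizer {g})).2
    (fun a ha => mem_centralizer_singleton_iff.2 (hg a ha).symm) (h.gen.ge (mem_top u)))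
theorem exists_opp (x : C.Pt) : ∃ y, ¬ Pp x y := by
  by_contra h1
  push Not at h1
  obtain ⟨a, ha⟩ := M_nonempty x
  exact ne_one (mem_D ha) (h.cent_eq_one fun b hb => h1 _ a ha b (mem_pnt hb))
theorem faith (hg : ∀ x : C.Pt, g • x = x) : g = 1 := by
  have := h.simple
  obtain ⟨a, ha, b, hb, nc⟩ := h.nc
  refine mem_bot.1 (((IsSimpleGroup.eq_bot_or_eq_top_of_normal (MulAction.toPermHom G C.Pt).ker
    inferInstance).resolve_right fun e => nc ?_).le (Equiv.ext hg))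
  exact (smul_fix_iff (mem_pnt ha)).1 (Equiv.congr_fun (MonoidHom.mem_ker.1 (e.ge (mem_top a))) _)
    a (mem_pnt ha) b (mem_pnt hb)
theorem iSup_E : ⨆ x : C.Pt, E x = ⊤ :=
  eq_top_iff.2 (h.gen.ge.trans ((closure_le _).2 fun _ ha =>
    mem_iSup_of_mem _ (M_le_E (mem_pnt ha))))
theorem not_solv : ¬ Group.IsSolvable G := fun _ => by
  obtain ⟨a, ha, b, hb, nc⟩ := h.nc
  exact nc (comm_of_solv ⊤ inferInstance ha hb (mem_top _) (mem_top _))
theorem cent_ne_top (hg : g ≠ 1) : centralizer ({g} : Set G) ≠ ⊤ := fun e =>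
  hg (h.cent_eq_one fun a _ => (mem_centralizer_singleton_iff.1 (e.ge (mem_top a))).symm)
end Simple

end Cfg

end Cfsg.Lib.PT
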