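import Cfsg.Agent.PT.JW

/-!
# Tower `PT`: the unipotent radical of a point stabiliser
-/

set_option autoImplicit false
set_option linter.unusedVariables false
set_option linter.unusedSectionVars false

namespace Cfsg.Lib.PT

open Matrix Subgroup Cfsg.Lib.Class.Form
open scoped MatrixGroups commutatorElement

universe u

variable {G : Type u} [Group G]

namespace Cfg
variable {C : Cfg G} {x y r r' s u v : C.Pt} {a b c d e g n m ζ z : G}

namespace QQp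

theorem odd (C : Cfg G) (H : Subgroup G) (h2 : g * g ∈ H) (hp : g ^ C.p ∈ H) : g ∈ H := by
  obtain ⟨k, hk⟩ := C.prime.odd_of_ne_two (by have := C.five; omega)
  have : g = ((g * g) ^ k)⁻¹ * g ^ C.p := by rw [hk, pow_succ, pow_mul, sq]; group
  rw [this]
  exact H.mul_mem (H.inv_mem (H.pow_mem h2 k)) hp

theorem ind {P : Subgroup G} (h1 : E x ≤ P) (h2 : ∀ r ∈ Δ x y, VV x r z ≤ P) : QQ x y z ≤ P :=
  sup_le h1 ((closure_le _).2 fun _ ⟨r, hr, hn⟩ => h2 r hr hn)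

theorem E_le : E x ≤ QQ x y z := le_sup_left

theorem VV_le (hr : r ∈ Δ x y) : VV x r z ≤ QQ x y z := fun _ hn =>
  (le_sup_right : _ ≤ QQ x y z) (subset_closure ⟨r, hr, hn⟩)

theorem VV_EL (x r : C.Pt) (z : G) : VV x r z ≤ EL x r := (closure_le _).2 fun _ h => h.1

theorem VV_cc (h1 : Pp s x) (h2 : Pp s r) : VV x r z ≤ CC s :=
  (VV_EL x r z).trans (EL_le_CC h1 h2)

theorem cc : QQ x y z ≤ CC x :=
  ind (E_le_CC (Pp_refl x)) fun _ hr => VV_cc (Pp_refl x) hr.1.symm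

theorem fx (hg : g ∈ QQ x y z) : g • x = x := CC_fix (cc hg)

theorem Δ_smul (gx : g • x = x) (gy : g • y = y) (hr : r ∈ Δ x y) : g • r ∈ Δ x y :=
  ⟨gx ▸ (Pp_smul g).2 hr.1, gy ▸ (Pp_smul g).2 hr.2⟩

theorem x_mem (hr : r ∈ Δ x y) (hr' : r' ∈ Δ x y) : x ∈ Δ r r' := ⟨hr.1.symm, hr'.1.symm⟩

theorem ne_x (opp : ¬ Pp x y) (hr : r ∈ Δ x y) : r ≠ x := fun e => opp (e ▸ hr.2)

/-- Elements of `CC x` commuting with `g` modulo `E x`. -/
def cm (x : C.Pt) (g : G) : Subgroup G where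
  carrier := {e | e ∈ CC x ∧ ⁅e, g⁆ ∈ E x}
  one_mem' := ⟨one_mem _, by simp⟩
  mul_mem' := fun {e e'} ⟨h1, h2⟩ ⟨h3, h4⟩ => ⟨mul_mem h1 h3, by
    have : ⁅e * e', g⁆ = e * ⁅e', g⁆ * e⁻¹ * ⁅e, g⁆ := by
      simp only [commutatorElement_def]; group
    rw [this, CC_comm h1 h4, mul_inv_cancel_right]
    exact mul_mem h4 h2⟩
  inv_mem' := fun {e} ⟨h1, h2⟩ => ⟨inv_mem h1, by
    have : ⁅e⁻¹, g⁆ = e⁻¹ * ⁅e, g⁆⁻¹ * e := by simp only [commutatorElement_def]; group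
    rw [this, CC_comm (inv_mem h1) (inv_mem h2), inv_mul_cancel_right]
    exact inv_mem h2⟩

theorem perp_comm (hr : r ∈ Δ x y) (hr' : r' ∈ Δ x y) (hP : Pp r r') (hn : n ∈ EL x r)
    (hm : m ∈ EL x r') : m * n = n * m := by
  have : EL x r' ≤ centralizer {n} := (closure_le _).2 fun c ⟨s, hs, hc⟩ =>
    mem_centralizer_singleton_iff.2 (CC_comm (EL_le_CC (hs x (Pp_refl x) hr'.1.symm).symm
      (hs r hr.1 hP).symm hn) (M_le_E hc)).symm
  exact mem_centralizer_singleton_iff.1 (this hm)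

end QQp

open QQp

variable [Finite G]

namespace HR
variable (h : C.HR) {a' b' : G}
include h

section QQ
variable (h1 : BP x y a b)
include h1

theorem Q_cc : QQ x y (zz a b) ≤ CC x := cc

theorem Q_norm (gx : g • x = x) (gy : g • y = y) (he : e ∈ QQ x y (zz a b)) :
    g * e * g⁻¹ ∈ QQ x y (zz a b) := by
  have hz : g * zz a b * g⁻¹ = zz a b := by
    rw [(h.w1 h1.opp).zz_cent h1 gx gy, mul_inv_cancel_right]
  refine ind (P := (QQ x y (zz a b)).comap (MulAut.conj g).toMonoidHom) (fun e he => ?_)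
    (fun r hr n hn => ?_) he
  · exact E_le (gx ▸ conj_E g he)
  · have := conj_VV g hn
    rw [gx, hz] at this
    exact VV_le (Δ_smul gx gy hr) this

theorem Q_comm (he : e ∈ QQ x y (zz a b)) (hg : g ∈ QQ x y (zz a b)) : ⁅e, g⁆ ∈ E x := by
  have k0 : ∀ g ∈ QQ x y (zz a b), E x ≤ cm x g := fun g hg e he =>
    ⟨E_le_CC (Pp_refl x) he, by
      rw [commutatorElement_eq_one_iff_mul_comm.2 (CC_comm (cc hg) he).symm]; exact one_mem _⟩
  have sw : ∀ {e g : G}, ⁅e, g⁆ ∈ E x → ⁅g, e⁆ ∈ E x := fun he => by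
    rw [← commutatorElement_inv]; exact inv_mem he
  refine (ind (P := cm x g) (k0 g hg) (fun r hr n hn => ⟨cc (VV_le hr hn), sw ?_⟩) he).2
  refine (ind (P := cm x n) (k0 n (VV_le hr hn))
    (fun r' hr' m hm => ⟨cc (VV_le hr' hm), ?_⟩) hg).2
  by_cases hP : Pp r r'
  · rw [commutatorElement_eq_one_iff_mul_comm.2
      (perp_comm hr hr' hP (VV_EL _ _ _ hn) (VV_EL _ _ _ hm))]
    exact one_mem _
  · obtain ⟨a', b', h2⟩ := exists_BP hP
    rw [h.VV_symm h1 hr hr' h2] at hn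
    rw [h.VV_symm h1 hr' hr h2.symm, h2.br.zz_symm] at hm
    exact h.VV_comm h2 (x_mem hr hr') hn hm

theorem Q_pow (hg : g ∈ QQ x y (zz a b)) : g ^ C.p ∈ E x := by
  have key : ∀ g ∈ QQ x y (zz a b), ∀ g' ∈ QQ x y (zz a b), ∀ k : ℕ,
      ∃ e ∈ E x, (g * g') ^ k = g ^ k * g' ^ k * e := fun g hg g' hg' k => by
    induction k with
    | zero => exact ⟨1, one_mem _, by simp⟩
    | succ k ih =>
      obtain ⟨e, he, ih⟩ := ih
      have hc := h.Q_comm h1 (inv_mem (pow_mem hg' k)) (inv_mem hg)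
      refine ⟨_, mul_mem hc he, ?_⟩
      rw [pow_succ, ih, mul_assoc, ← CC_comm (cc (mul_mem hg hg')) he, pow_succ, pow_succ,
        ← mul_assoc _ _ e, ← mul_assoc _ _ e, mul_assoc (g ^ k * g), mul_assoc (g' ^ k),
        CC_comm (cc hg') hc, commutatorElement_def]
      group
  let P : Subgroup G :=
    { carrier := {g | g ∈ QQ x y (zz a b) ∧ g ^ C.p ∈ E x}
      one_mem' := ⟨one_mem _, by simp⟩
      mul_mem' := fun {g g'} ⟨k1, k2⟩ ⟨k3, k4⟩ => ⟨mul_mem k1 k3, by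
        obtain ⟨e, he, k⟩ := key g k1 g' k3 C.p
        rw [k]
        exact mul_mem (mul_mem k2 k4) he⟩
      inv_mem' := fun {g} ⟨k1, k2⟩ => ⟨inv_mem k1, by rw [inv_pow]; exact inv_mem k2⟩ }
  exact (ind (P := P) (fun e he => ⟨E_le he, pow_mem he _⟩) (fun r hr n hn => ⟨VV_le hr hn, by
    rw [EL_pow hr.1.symm (VV_EL _ _ _ hn)]; exact one_mem _⟩) hg).2

theorem Q_inv (hg : g ∈ QQ x y (zz a b)) : g * (zz a b * g * (zz a b)⁻¹) ∈ E x := by
  let P : Subgroup G :=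
    { carrier := {g | g ∈ QQ x y (zz a b) ∧ g * (zz a b * g * (zz a b)⁻¹) ∈ E x}
      one_mem' := ⟨one_mem _, by simp⟩
      mul_mem' := fun {g g'} ⟨k1, k2⟩ ⟨k3, k4⟩ => ⟨mul_mem k1 k3, by
        have hc := h.Q_comm h1 k3 (h.Q_norm h1 h1.zz_x h1.zz_y k1)
        have : g * g' * (zz a b * (g * g') * (zz a b)⁻¹) =
            g * ⁅g', zz a b * g * (zz a b)⁻¹⁆ * (zz a b * g * (zz a b)⁻¹) *
              (g' * (zz a b * g' * (zz a b)⁻¹)) := by
          simp only [commutatorElement_def]; group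
        rw [this, CC_comm (cc k1) hc, mul_assoc _ g]
        exact mul_mem (mul_mem hc k2) k4⟩
      inv_mem' := fun {g} ⟨k1, k2⟩ => ⟨inv_mem k1, by
        have : g⁻¹ * (zz a b * g⁻¹ * (zz a b)⁻¹) =
            g⁻¹ * (g * (zz a b * g * (zz a b)⁻¹))⁻¹ * g := by group
        rw [this, CC_comm (cc (inv_mem k1)) (inv_mem k2), inv_mul_cancel_right]
        exact inv_mem k2⟩ }
  refine (ind (P := P) (fun e he => ⟨E_le he, mul_mem he (h1.zz_x ▸ conj_E _ he)⟩)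
    (fun r hr n hn => ⟨VV_le hr hn, ?_⟩) hg).2
  rw [((mem_VV hr.1.symm).1 hn).2, mul_inv_cancel]
  exact one_mem _

theorem Q_free (hg : g ∈ QQ x y (zz a b)) (e : g • y = y) : g = 1 := by
  have w := h.w1 h1.opp
  have k := h.Q_inv h1 hg
  rw [← w.c0_KK (mem_C0.2 ⟨cc hg, e⟩) h1.zz_KK, mul_inv_cancel_right] at k
  exact w.free (odd C _ k (h.Q_pow h1 hg)) e

theorem Q_trans (hu : ¬ Pp x u) : ∃ g ∈ QQ x y (zz a b), g • y = u := by
  refine h.conn_opp {u | ∃ g ∈ QQ x y (zz a b), g • y = u} h1.opp ⟨1, one_mem _, one_smul _ _⟩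
    ?_ hu
  rintro _ ⟨g, hg, rfl⟩ v - hv hP
  obtain ⟨v, rfl⟩ : ∃ v0, v = g • v0 := ⟨g⁻¹ • v, (smul_inv_smul _ _).symm⟩
  rw [Pp_smul] at hP
  rw [← fx hg, Pp_smul] at hv
  by_cases ne : y = v
  · exact ⟨g, hg, by rw [ne]⟩
  obtain ⟨r, hr, rx⟩ := h.simple.one_all hP ne x
  have hΔ : r ∈ Δ x y := ⟨rx, pl_perp hP hr (left_mem_pl y v)⟩
  have e := h.simple.pl_eq hP (left_mem_pl y v) hr (fun e => h1.opp (e ▸ rx).symm)
  obtain ⟨n, hn, rfl⟩ := h.VV_trans h1 hΔ (e ▸ right_mem_pl y v) (fun e => hv (e ▸ rx).symm)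
  exact ⟨g * n, mul_mem hg (VV_le hΔ hn), mul_smul _ _ _⟩

theorem Q_line (hg : g ∈ QQ x y (zz a b)) (hr : r ∈ Δ x y) (hu : u ∈ pl x r) :
    g • u ∈ pl x r := by
  let P : Subgroup G :=
    { carrier := {g | (∀ u ∈ pl x r, g • u ∈ pl x r) ∧ ∀ u ∈ pl x r, g⁻¹ • u ∈ pl x r}
      one_mem' := ⟨by simp, by simp⟩
      mul_mem' := fun {g g'} ⟨k1, k2⟩ ⟨k3, k4⟩ =>
        ⟨fun u hu => by rw [mul_smul]; exact k1 _ (k3 u hu),
          fun u hu => by rw [_root_.mul_inv_rev, mul_smul]; exact k4 _ (k2 u hu)⟩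
      inv_mem' := fun {g} ⟨k1, k2⟩ => ⟨k2, by rwa [inv_inv]⟩ }
  have key : ∀ A : Subgroup G, (∀ g ∈ A, ∀ u ∈ pl x r, g • u ∈ pl x r) → A ≤ P :=
    fun A hA g hg => ⟨hA g hg, hA _ (inv_mem hg)⟩
  refine (ind (P := P) (key _ fun e he u hu => ?_) (fun r' hr' => key _ fun n hn u hu => ?_)
    hg).1 u hu
  · rwa [E_fix (hu x (Pp_refl x) hr.1.symm) he]
  by_cases hP : Pp r' r
  · rwa [CC_fix (VV_cc (hu x (Pp_refl x) hr.1.symm).symm (hu r' hr'.1 hP).symm hn)]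
  · obtain ⟨a', b', h2⟩ := exists_BP hP
    rw [h.VV_symm h1 hr' hr h2] at hn
    rw [pl_symm] at hu ⊢
    exact h.VV_pres h2 (x_mem hr' hr) hn hu

theorem Q_trl (hr : r ∈ Δ x y) (hr' : r' ∈ Δ x y) (opp : ¬ Pp r r') (hu : u ∈ pl x r)
    (ne : u ≠ x) : ∃ g ∈ VV x r' (zz a b), g • r = u := by
  obtain ⟨a', b', h2⟩ := exists_BP (fun e => opp (Pp.symm e))
  rw [h.VV_symm h1 hr' hr h2]
  exact h.VV_trans h2 (x_mem hr' hr) (pl_symm x r ▸ hu) ne

theorem Q_stab' (hg : g ∈ QQ x y (zz a b)) (hr : r ∈ Δ x y) (e : g • r = r)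
    (hn : n ∈ VV x r (zz a b)) : g * n = n * g := by
  by_cases n1 : n = 1
  · rw [n1, mul_one, one_mul]
  obtain ⟨r', hr', opp⟩ := h.simple.Δ_opp h1.opp hr
  obtain ⟨a', b', h2⟩ := exists_BP opp
  have ga : g * a' = a' * g := by
    have hE := inv_mem (M_le_E h2.ha)
    have k1 : a'⁻¹ * (g * a' * g⁻¹) ∈ E r := mul_mem hE (M_le_E (e ▸ conj_mem g h2.ha))
    have k2 : a'⁻¹ * (g * a' * g⁻¹) ∈ QQ x y (zz a b) := by
      have := mul_mem (h.Q_norm h1 (E_fix hr.1 hE) (E_fix hr.2 hE) hg) (inv_mem hg)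
      rwa [inv_inv, mul_assoc a'⁻¹, mul_assoc a'⁻¹] at this
    have := h.Q_free h1 k2 (E_fix hr.2 k1)
    rwa [inv_mul_eq_one, eq_mul_inv_iff_mul_eq, eq_comm] at this
  have hnQ := VV_le hr hn
  have hc := h.Q_comm h1 hg hnQ
  rw [h.VV_symm h1 hr hr' h2] at hn
  obtain ⟨ζ, hζ, H⟩ := h.VV_heis h2 (x_mem hr hr') hn n1
  have hD : a' * n * ζ ∈ C.D := by simpa using heis_D H h2.bd 1
  have ea : ⁅g, n⁆ * a' = a' * ⁅g, n⁆ := CC_comm (E_le_CC hr.1.symm hc) (M_le_E h2.ha)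
  have en : ⁅g, n⁆ * n = n * ⁅g, n⁆ := (CC_comm (cc hnQ) hc).symm
  have eζ : ⁅g, n⁆ * ζ = ζ * ⁅g, n⁆ := E_comm hc (M_le_E hζ)
  have ec : ⁅g, n⁆ * (a' * n * ζ) = a' * n * ζ * ⁅g, n⁆ :=
    ((Commute.mul_right ea en).mul_right eζ).eq
  refine commutatorElement_eq_one_iff_mul_comm.1 (l1 (k := 1) hD (mem_D h2.hb) (fun k => ?_)
    (by rw [pow_one, E_pow hc]) ec (CC_comm (E_le_CC hr'.1.symm hc) (M_le_E h2.hb)) ?_)
  · have k1 := H.ck 1
    simp only [pow_one, one_pow] at k1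
    have k2 := H.mb
    generalize ww a' b' * n * (ww a' b')⁻¹ = m at k1 k2
    rw [← k1] at k
    refine h2.bd.nc ?_
    calc a' * b' = m⁻¹ * (m * a' * m⁻¹ * b') * m := by
          rw [mul_assoc _ _ m, mul_assoc _ b', ← k2]; group
      _ = b' * a' := by
          rw [k, ← mul_assoc b', ← mul_assoc b', ← k2]; group
  · have : a' * n * ζ * ⁅g, n⁆ = g * (a' * n * ζ) * g⁻¹ := by
      rw [← ec, ← mul_assoc, ← mul_assoc, ea, ← mul_assoc g, ← mul_assoc g, ga, mul_assoc _ ζ,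
        ← CC_comm (cc (inv_mem hg)) (M_le_E hζ), commutatorElement_def]
      group
    rw [this]
    exact C.conj _ hD g

theorem Q_stab (hg : g ∈ QQ x y (zz a b)) (hr : r ∈ Δ x y) :
    g • r = r ↔ ∀ n ∈ VV x r (zz a b), g * n = n * g := by
  refine ⟨fun e n hn => h.Q_stab' h1 hg hr e hn, fun e => ?_⟩
  obtain ⟨r', hr', opp⟩ := h.simple.Δ_opp h1.opp hr
  obtain ⟨v, hv, k⟩ := h.Q_trl h1 hr hr' opp (h.Q_line h1 hg hr (right_mem_pl x r))
    (fun k => ne_x h1.opp hr (by rw [← fx hg] at k; exact smul_left_cancel g k))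
  by_cases v1 : v = 1
  · rw [← k, v1, one_smul]
  exfalso
  have cv : ∀ n ∈ VV x r (zz a b), n * v = v * n := fun n hn => by
    have := h.Q_stab' h1 (mul_mem (inv_mem (VV_le hr' hv)) hg) hr
      (by rw [mul_smul, ← k, inv_smul_smul]) hn
    rw [mul_assoc, e n hn, ← mul_assoc, ← mul_assoc, mul_left_inj] at this
    calc n * v = v * (v⁻¹ * n) * v := by group
      _ = v * n := by rw [this]; group
  obtain ⟨a', b', h2⟩ := exists_BP (fun e => opp (Pp.symm e))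
  rw [h.VV_symm h1 hr' hr h2] at hv
  obtain ⟨ζ, hζ, H⟩ := h.VV_heis h2 (x_mem hr' hr) hv v1
  have hm := h.VV_ww h2 (x_mem hr' hr) h2.ww_KK h2.ww_x hv
  rw [← h2.br.zz_symm, ← h.VV_symm h1 hr hr' h2.symm] at hm
  have k1 := H.comm
  rw [cv _ hm, mul_inv_cancel_right, mul_inv_cancel] at k1
  have := orderOf_dvd_of_pow_eq_one k1.symm
  rw [C.ord ζ (mem_D hζ)] at this
  have := Nat.le_of_dvd two_pos this
  have := C.five
  omega

end QQ
end HR
end Cfg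

end Cfsg.Lib.PT
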