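import Cfsg.Agent.PT.BD
import Cfsg.Agent.Solv.FrattiniP
import Cfsg.Agent.Solv.CoprimeFixed

/-!
# Tower `PT`: quadratic action on `p`-subgroups
-/

set_option autoImplicit false
set_option linter.unusedSectionVars false

namespace Cfsg.Lib.PT

open Subgroup
open scoped commutatorElement

universe u

variable {G : Type u} [Group G]

theorem Quad.ring {R : Type*} [Ring R] {α β : R} (hR : ∀ x : R, 6 • x = 0 → x = 0)
    (ha : α * (α - 1) = α - 1) (hb : β * (β - 1) = β - 1) (br : α * β * α = β * α * β)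
    (hz : α * β * α * (α * β * α) = 1) : α = 1 := by
  obtain ⟨A, rfl⟩ : ∃ A, α = 1 + A := ⟨α - 1, by abel⟩
  obtain ⟨B, rfl⟩ : ∃ B, β = 1 + B := ⟨β - 1, by abel⟩
  have a0 : A * A = 0 := by simpa [add_mul] using ha
  have b0 : B * B = 0 := by simpa [add_mul] using hb
  have a1 : ∀ x, A * (A * x) = 0 := fun x => by rw [← mul_assoc, a0, zero_mul]
  have b1 : ∀ x, B * (B * x) = 0 := fun x => by rw [← mul_assoc, b0, zero_mul]
  have h : B * (A * B) = A + A * (B * A) - B := by
    simp only [mul_add, add_mul, mul_assoc, mul_one, one_mul, a0, b0] at br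
    rw [← sub_eq_zero] at br ⊢
    rw [← neg_eq_zero, ← br]
    abel
  have h1 : A * (B * (A * B)) = -(A * B) := by simp [h, mul_sub, mul_add, a0, a1]
  have h2 : B * (A * (B * A)) = -(B * A) := by
    have := congrArg (· * A) h
    simpa [sub_mul, add_mul, mul_assoc, a0] using this
  have r : 2 • (A * B) + 2 • (B * A) + 6 • A + 6 • (A * (B * A)) = 0 := by
    simp only [mul_add, add_mul, mul_assoc, mul_one, one_mul, a0, b0, a1, b1, h1, h2, mul_zero,
      mul_neg, zero_mul] at hz
    simp only [h] at hz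
    rw [← sub_eq_zero] at hz
    rw [← hz]
    abel
  have h3 : A * (B * A) = 0 := hR _ (by
    have := congrArg (fun x => 3 • (A * x)) r
    simpa only [mul_add, mul_smul_comm, a0, a1, smul_smul, smul_zero, zero_add, add_zero,
      mul_zero, Nat.reduceMul] using this)
  have h4 : A * B = 0 := neg_eq_zero.1 (by rw [← h1, ← mul_assoc B, ← mul_assoc, h3, zero_mul])
  have h5 : B * A = 0 := neg_eq_zero.1 (by rw [← h2, h3, mul_zero])
  rw [hR A (by simpa [h4, h5] using r), add_zero]

/-- The action of the normaliser on the abelianisation. -/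
def Quad.act (P : Subgroup G) :
    normalizer (P : Set G) →* AddMonoid.End (Additive (Abelianization P)) where
  toFun g := MonoidHom.toAdditive (Abelianization.map (P.normalizerMonoidHom g).toMonoidHom)
  map_one' := AddMonoidHom.ext fun v => by
    obtain ⟨u, rfl⟩ := QuotientGroup.mk_surjective (Additive.toMul v)
    exact congrArg (fun x : P => Additive.ofMul (Abelianization.of x)) (Subtype.ext (by simp))
  map_mul' g h := AddMonoidHom.ext fun v => by
    obtain ⟨u, rfl⟩ := QuotientGroup.mk_surjective (Additive.toMul v)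
    exact congrArg (fun x : P => Additive.ofMul (Abelianization.of x)) (Subtype.ext (by simp))

theorem Quad.ext {P : Subgroup G} {x y : AddMonoid.End (Additive (Abelianization P))}
    (h : ∀ u : P, x (Additive.ofMul (Abelianization.of u)) =
      y (Additive.ofMul (Abelianization.of u))) : x = y := AddMonoidHom.ext fun v => by
  obtain ⟨u, hu⟩ := QuotientGroup.mk_surjective (Additive.toMul v)
  exact (show Additive.ofMul (Abelianization.of u) = v from congrArg Additive.ofMul hu) ▸ h u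

theorem Quad.act_of {P : Subgroup G} (g : normalizer (P : Set G)) (u : P) :
    Quad.act P g (Additive.ofMul (Abelianization.of u)) =
      Additive.ofMul (Abelianization.of (P.normalizerMonoidHom g u)) := rfl

namespace Cfg
variable {C : Cfg G} {a b : G}

theorem quad_sq [Finite G] (ha : a ∈ C.D) {P : Subgroup G} (hP : IsPGroup C.p P)
    (h1 : a ∈ normalizer (P : Set G)) :
    Quad.act P ⟨a, h1⟩ * (Quad.act P ⟨a, h1⟩ - 1) = Quad.act P ⟨a, h1⟩ - 1 := Quad.ext fun u => by
  have h2 : IsPGroup C.p (P ⊔ zpowers a : Subgroup G) := hP.to_sup_of_normal_left'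
    (IsPGroup.of_card (n := 1) (by rw [Nat.card_zpowers, C.ord a ha, pow_one])) (zpowers_le.2 h1)
  have h3 : Commute a (u * a * (u : G)⁻¹) := comm_of_pgroup _ h2 ha (C.conj a ha u)
    (mem_sup_right (mem_zpowers a)) (mul_mem (mul_mem (mem_sup_left u.2)
      (mem_sup_right (mem_zpowers a))) (mem_sup_left (inv_mem u.2)))
  have h4 : (Quad.act P ⟨a, h1⟩ - 1) (Additive.ofMul (Abelianization.of u)) =
      Additive.ofMul (Abelianization.of (P.normalizerMonoidHom ⟨a, h1⟩ u * u⁻¹)) := by
    rw [map_mul, map_inv, ofMul_mul, ofMul_inv, ← sub_eq_add_neg]; rfl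
  refine (congrArg (Quad.act P ⟨a, h1⟩) h4).trans ?_
  rw [h4, Quad.act_of]
  refine congrArg (fun x : P => Additive.ofMul (Abelianization.of x)) (Subtype.ext ?_)
  change a * (a * u * a⁻¹ * (u : G)⁻¹) * a⁻¹ = a * u * a⁻¹ * (u : G)⁻¹
  calc _ = a * (a * (u * a * (u : G)⁻¹)⁻¹) * a⁻¹ := by group
    _ = _ := by rw [h3.inv_right.eq]; group

theorem quad_a [Finite G] (h : C.BD a b) {P : Subgroup G} (hP : IsPGroup C.p P)
    (h1 : a ∈ normalizer (P : Set G)) (h2 : b ∈ normalizer (P : Set G))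
    (hz : ∀ u ∈ P, zz a b * u = u * zz a b) : Quad.act P ⟨a, h1⟩ = 1 := by
  refine Quad.ring (β := Quad.act P ⟨b, h2⟩) (fun x hx => AddMonoidHom.ext fun v => ?_)
    (quad_sq h.ha hP h1) (quad_sq h.hb hP h2) ?_ ?_
  · obtain ⟨k, hk⟩ := (hP.of_surjective Abelianization.of QuotientGroup.mk_surjective)
      (Additive.toMul (x v))
    have h3 : Additive.toMul (x v) ^ 6 = 1 := congrArg Additive.toMul (DFunLike.congr_fun hx v)
    have h4 : (C.p ^ k).Coprime 6 := Nat.Coprime.pow_left _ ((Nat.Prime.coprime_iff_not_dvd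
      C.prime).2 fun h => by
        have := C.five
        have h5 := Nat.le_of_dvd (by omega) h
        have h6 := C.prime
        generalize C.p = p at *
        interval_cases p
        · omega
        · exact absurd h6 (by decide))
    have := pow_gcd_eq_one.2 ⟨hk, h3⟩
    rwa [h4.gcd_eq_one, pow_one] at this
  · simp only [← map_mul]
    exact congrArg _ (Subtype.ext h.br)
  · simp only [← map_mul]
    exact Quad.ext fun u => congrArg (fun x : P => Additive.ofMul (Abelianization.of x))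
      (Subtype.ext (mul_inv_eq_iff_eq_mul.2 (hz u u.2)))

theorem quad [Finite G] (h : C.BD a b) (P : Subgroup G) (hP : IsPGroup C.p P)
    (h1 : ∀ u ∈ P, a * u * a⁻¹ ∈ P) (h2 : ∀ u ∈ P, b * u * b⁻¹ ∈ P)
    (hz : ∀ u ∈ P, zz a b * u = u * zz a b) : ∀ u ∈ P, a * u = u * a ∧ b * u = u * b := by
  have h1' : a ∈ normalizer (P : Set G) := mem_normalizer_fintype h1
  have h2' : b ∈ normalizer (P : Set G) := mem_normalizer_fintype h2
  let K := (Quad.act P).ker.map (Subgroup.subtype _)
  have aK : a ∈ K := ⟨⟨a, h1'⟩, quad_a h hP h1' h2' hz, rfl⟩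
  have bK : b ∈ K := ⟨⟨b, h2'⟩, quad_a h.symm hP h2' h1' (h.br.zz_symm ▸ hz), rfl⟩
  have key : ∀ l : (ZMod C.p)ˣ, tt a b l ∈ centralizer (P : Set G) := fun l => by
    have h3 : zpowers (tt a b l) ≤ K := zpowers_le.2 (tt_mem aK bK l)
    refine zpowers_le.1 (Solv.Coprime.le_centralizer_of_commutator_le_frattini
      (h3.trans (map_subtype_le _)) ?_ (commutator_le.2 fun u hu t ht => ?_))
    · obtain ⟨k, hk⟩ := (hP.to_subgroup (frattini P)).exists_card_eq
      rw [hk, Nat.card_zpowers]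
      refine Nat.Coprime.pow_right _ (Nat.Coprime.coprime_dvd_left (orderOf_dvd_of_pow_eq_one
        (n := C.p - 1) ?_) ((Nat.Prime.coprime_iff_not_dvd C.prime).2 C.not_dvd_pred).symm)
      rw [← h.tt_pow, ZMod.units_pow_card_sub_one_eq_one, h.tt_one]
    · obtain ⟨t, h4, rfl⟩ := h3 ht
      have h5 : Abelianization.of (P.normalizerMonoidHom t ⟨u, hu⟩) = Abelianization.of ⟨u, hu⟩ :=
        DFunLike.congr_fun (MonoidHom.mem_ker.1 h4) (Additive.ofMul (Abelianization.of ⟨u, hu⟩))
      refine ⟨⟨u, hu⟩ * (P.normalizerMonoidHom t ⟨u, hu⟩)⁻¹,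
        Solv.commutator_le_frattini_of_isPGroup hP ?_, ?_⟩
      · rw [← Abelianization.ker_of, MonoidHom.mem_ker, map_mul, map_inv, h5, mul_inv_cancel]
      · change u * ((t : G) * u * (t : G)⁻¹)⁻¹ = ⁅u, (t : G)⁆
        rw [commutatorElement_def]; group
  obtain ⟨l, hl⟩ := C.exists_l
  have nc : ∀ {g : G}, g ∈ normalizer (P : Set G) → ∀ n ∈ centralizer (P : Set G),
      g * n * g⁻¹ ∈ centralizer (P : Set G) := fun hg n hn =>
    (mem_normalizer_iff.1 (Solv.normalizer_le_normalizer_centralizer P hg) n).1 hn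
  have ha := h.mem_of_tt _ (nc h1') hl (key l)
  have hb := h.symm.mem_of_tt _ (nc h2') hl (h.tt_symm l ▸ key l⁻¹)
  exact fun u hu => ⟨(ha u hu).symm, (hb u hu).symm⟩

theorem quad' [Finite G] (h : C.BD a b) (P : Subgroup G) (hP : IsPGroup C.p P)
    (h1 : ∀ u ∈ P, a * u * a⁻¹ ∈ P) (h2 : ∀ u ∈ P, b * u * b⁻¹ ∈ P) {u : G} (hu : u ∈ P)
    (hz : zz a b * u = u * zz a b) : a * u = u * a ∧ b * u = u * b := by
  have key : ∀ {g v : G}, Commute g (zz a b) → v ∈ centralizer {zz a b} →
      g * v * g⁻¹ ∈ centralizer {zz a b} := fun hg hv =>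
    mul_mem (mul_mem (mem_centralizer_singleton_iff.2 hg) hv)
      (inv_mem (mem_centralizer_singleton_iff.2 hg))
  exact quad h (P ⊓ centralizer {zz a b}) (hP.to_le inf_le_left)
    (fun v hv => mem_inf.2 ⟨h1 v hv.1, key h.br.zz_a.symm hv.2⟩)
    (fun v hv => mem_inf.2 ⟨h2 v hv.1, key h.br.zz_b.symm hv.2⟩)
    (fun v hv => (mem_centralizer_singleton_iff.1 hv.2).symm) u
    (mem_inf.2 ⟨hu, mem_centralizer_singleton_iff.2 hz.symm⟩)

end Cfg

end Cfsg.Lib.PT
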