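import Cfsg.Agent.PT.LNS
import Cfsg.Agent.PT.MX
import Cfsg.Agent.PT.Par

/-!
# Tower `PT`: the doubly transitive case
-/

set_option autoImplicit false

namespace Cfsg.Lib.PT

open Matrix Subgroup

universe u

variable {G : Type u} [Group G]

namespace Cfg
variable [Finite G] {C : Cfg G} {x y y' u v : C.Pt} {a b c e g : G} {r : ℕ} {l : (ZMod C.p)ˣ}

omit [Finite G] in
theorem R2a.card_E (g : G) (x : C.Pt) : Nat.card (E (g • x)) = Nat.card (E x) := by
  rw [show E (g • x) = (E x).map (MulAut.conj g).toMonoidHom from Subgroup.ext fun e => by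
    rw [mem_E_smul, mem_map_equiv, MulAut.conj_symm_apply]]
  exact card_map_of_injective (MulAut.conj g).injective

omit [Finite G] in
theorem R2a.mem_ln (g : G) : u ∈ ln (g • x) (g • y) ↔ g⁻¹ • u ∈ ln x y :=
  ⟨fun h => by simpa using smul_mem_ln g⁻¹ h, fun h => by simpa using smul_mem_ln g h⟩

namespace R2
variable (h : C.R2)
include h

theorem two {x' : C.Pt} (ne : x ≠ y) (ne' : x' ≠ y') : ∃ g : G, g • x = x' ∧ g • y = y' := by
  obtain ⟨g, rfl⟩ := h.simple.trans x x'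
  obtain ⟨k, hk, e⟩ := h.tr (g • x) (g • y) y' (fun e => ne (smul_left_cancel g e).symm) ne'.symm
  exact ⟨k * g, by rw [mul_smul, CC_fix hk], by rw [mul_smul, e]⟩

theorem card (ne : x ≠ y) :
    Nat.card (CC x) = Nat.card (C0 x y) * (Nat.card C.Pt - 1) := by
  have o : MulAction.orbit (CC x) y = {x}ᶜ := Set.ext fun u =>
    ⟨fun ⟨g, e⟩ k => ne (smul_left_cancel g.1 ((CC_fix g.2).trans (k.symm.trans e.symm))),
      fun k => (h.tr x y u ne.symm k).elim fun g hg => ⟨⟨g, hg.1⟩, hg.2⟩⟩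
  rw [← (MulAction.stabilizer (CC x) y).card_mul_index, MulAction.index_stabilizer, o,
    Set.ncard_compl, Set.ncard_singleton,
    ← Nat.card_congr (subgroupOfEquivOfLe (H := C0 x y) (K := CC x) inf_le_left).toEquiv]
  rw [show MulAction.stabilizer (CC x) y = (C0 x y).subgroupOf (CC x) from
    Subgroup.ext fun g => ⟨fun k => ⟨g.2, k⟩, fun k => k.2⟩]

theorem p_dvd : C.p ∣ Nat.card C.Pt - 1 := by
  obtain ⟨a, ha, -⟩ := h.simple.nc
  obtain ⟨x, hx⟩ := exists_pt ha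
  have := (E_pgroup x).card_modEq_card_fixedPoints C.Pt
  rw [show MulAction.fixedPoints (E x) C.Pt = {x} from Set.ext fun u =>
    ⟨fun k => (h.r1 _ _ ((smul_fix_iff hx).1 (k ⟨a, M_le_E hx⟩))).symm,
      fun k e => (show u = x from k).symm ▸ E_fix (Pp_refl x) e.2⟩, Nat.card_coe_set_eq ({x} : Set C.Pt),
    Set.ncard_singleton] at this
  have _ : Nonempty C.Pt := ⟨x⟩
  exact (Nat.modEq_iff_dvd' Nat.card_pos).1 this.symm

theorem KK_ne (ne : x ≠ y) (h0 : C0 x y ≠ ⊥) (huv : u ≠ v) : KK u v ≠ ⊤ := fun e => by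
  obtain ⟨c, hc, c1⟩ := (bot_or_exists_ne_one _).resolve_left h0
  obtain ⟨g, rfl, rfl⟩ := h.two huv ne
  refine h.simple.cent_ne_top c1 (eq_top_iff.2 fun k _ => mem_centralizer_singleton_iff.2
    ((h.w1 _ _ ne).c0_KK hc ?_).symm)
  have := conj_KK g (e ▸ mem_top (g⁻¹ * k * g))
  rwa [show g * (g⁻¹ * k * g) * g⁻¹ = k by group] at this

theorem mem_sup (ne : x ≠ y) (hg : g ∈ CC x) : g ∈ E x ⊔ C0 x y ↔ g • y ∈ ln x y := by
  refine ⟨fun k => ?_, ?_⟩
  · rw [← SetLike.mem_coe, coe_mul_of_right_le_normalizer_left (E x) (C0 x y)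
      (inf_le_left.trans (centralizer_le_normalizer _))] at k
    obtain ⟨e, he, c, hc, rfl⟩ := k
    exact .inr ⟨e, he, by rw [mul_smul, (mem_C0.1 hc).2]⟩
  · rintro (k | ⟨e, he, k⟩)
    · exact absurd (smul_left_cancel g ((CC_fix hg).trans k.symm)) ne
    · exact (mul_mem_cancel_left (mem_sup_left (inv_mem he))).1 (mem_sup_right (mem_C0.2
        ⟨mul_mem (inv_mem (E_le_CC (Pp_refl x) he)) hg, by rw [mul_smul, ← k, inv_smul_smul]⟩))

theorem c0_fix (ne : x ≠ y) (hc : c ∈ C0 x y) (hu : u ∈ ln x y) : c • u = u := by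
  have _ := h
  have _ := ne
  rcases hu with rfl | ⟨e, he, rfl⟩
  · exact CC_fix hc.1
  · rw [← mul_smul, CC_comm hc.1 he, mul_smul, (mem_C0.1 hc).2]

theorem cc (hc : c ∈ CC x) (cu : c • u = u) : c ∈ CC u := by
  by_cases e : x = u
  · exact e ▸ hc
  · exact (h.w1 _ _ e).cc hc cu

theorem fix_ln (h1 : BP x y a b) (hc : c ∈ C0 x y) (c1 : c ≠ 1) (hz : zz a b = 1 ∨ zz a b = c)
    (cu : c • u = u) : u ∈ ln x y := by
  obtain ⟨e, he⟩ := M_nonempty u
  exact h.toRO.line_of_cent h1 c1 (mem_CC.1 hc.1 a h1.ha)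
    (mem_CC.1 (h.cc hc.1 (mem_C0.1 hc).2) b h1.hb) hz he (mem_CC.1 (h.cc hc.1 cu) e he)

theorem fx0 (hl : Par C.p r l) (h1 : BP x y a b) (hg : g ∈ CC x)
    (e : g * tt a b l = tt a b l * g) : g ∈ C0 x y := by
  refine mem_C0.2 ⟨hg, by_contra fun k => ?_⟩
  have h2 := h1.smul g
  have e2 := conj_tt g a b l
  rw [mem_CC.1 hg a h1.ha, mul_inv_cancel_right] at h2 e2
  rw [CC_fix hg] at h2
  rw [e, mul_inv_cancel_right] at e2
  exact dlx hl (h.w1 _ _ (ne_of_opp h1.opp)) (h.w1 _ _ (ne_of_opp h2.opp))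
    (fun p => k (h.r1 _ _ p).symm) h1 h2 (by rw [← mul_smul, ← e, mul_smul, h1.tt_y])
    (e2 ▸ h1.tt_y l)

theorem fx0' (hl : Par C.p r l) (h1 : BP x y a b) (hg : g ∈ CC x)
    (e : g * (tt a b l * zz a b) = tt a b l * zz a b * g) : g ∈ C0 x y := by
  rw [← h1.bd.tt_neg_one, ← h1.bd.tt_mul] at e
  by_cases r2 : r = 2
  · subst r2
    rw [show l * -1 = l⁻¹ from eq_inv_of_mul_eq_one_right (by
      rw [← mul_assoc, ← pow_two, hl.two.1]; simp), h1.bd.tt_inv] at e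
    exact h.fx0 hl h1 hg (Commute.inv_right_iff.1 e)
  refine mem_C0.2 ⟨hg, by_contra fun k => ?_⟩
  have ne := ne_of_opp h1.opp
  refine fx1 (h.w1 _ _ ne) (h.w1 x (g • y) fun p => ne (smul_left_cancel g ((CC_fix hg).trans p)))
    (fun p => k (h.r1 _ _ p).symm) (hl.four_ne r2) ?_ (h1.tt_y (l * -1))
    (by rw [← mul_smul, ← e, mul_smul, h1.tt_y])
  simpa using (h.w1 _ _ ne).tt_sc h1 (l * -1)

theorem b5 (h1 : BP x y a b) (hz : zz a b = 1) (hc : c ∈ C0 x y) (c1 : c ≠ 1)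
    (hall : ∀ e ∈ E x, ∃ g ∈ CC x, g * c * g⁻¹ = c * e) :
    Nat.card (E x) ^ 3 * Nat.card (C0 x y) ≤ Nat.card (CC x) := by
  classical
  have ne := ne_of_opp h1.opp
  have h0 : C0 x y ≠ ⊥ := fun e => c1 (mem_bot.1 (e ▸ hc))
  have fx : ∀ w, c • w = w ↔ w ∈ ln x y := fun w =>
    ⟨h.fix_ln h1 hc c1 (.inl hz), h.c0_fix ne hc⟩
  have A : ∀ u ∈ ln x y, ∀ e ∈ E u, ∃ g : G, u ∈ ln (g • x) (g • y) ∧
      ∀ w, (c * e) • w = w ↔ w ∈ ln (g • x) (g • y) := fun u hu e he => by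
    obtain ⟨k, hk, rfl⟩ := (h.toRO.orbit_iff ne (h.KK_ne ne h0 ne)).1 hu
    obtain ⟨g, hg, e'⟩ := hall _ (mem_E_smul.1 he)
    have kc := (h.w1 _ _ ne).c0_KK hc hk
    have e2 : c * e = k * g * c * (k * g)⁻¹ := by
      calc c * e = c * k * (k⁻¹ * e * k) * k⁻¹ := by group
        _ = k * (g * c * g⁻¹) * k⁻¹ := by rw [kc, e']; group
        _ = _ := by group
    refine ⟨k * g, .inl (by rw [mul_smul, CC_fix hg]), fun w => ?_⟩
    rw [R2a.mem_ln, ← fx, e2, mul_smul, mul_smul (k * g), smul_eq_iff_eq_inv_smul]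
  have B : ∀ u ∈ ln x y, ∀ e ∈ E u, e ≠ 1 → ∀ w ∈ ln x y, (c * e) • w = w → w = u :=
    fun u hu e he e1 w hw k => by_contra fun n => e1 ((h.w1 u w (Ne.symm n)).free he
      (smul_left_cancel c (by rw [← mul_smul, k, (fx w).2 hw])))
  have := Fintype.ofFinite C.Pt
  have := Fintype.ofFinite G
  have cl : ∀ g : G, (Finset.univ.filter (· ∈ ln (g • x) (g • y))).card = Nat.card (E x) + 1 :=
    fun g => by
      rw [← R2a.card_E g, ← ((h.w1 _ _ ne).smul g).card_ln, Set.ncard_eq_toFinset_card']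
      simp
  have cL := cl 1
  simp only [one_smul] at cL
  let S : Finset (Σ _ : C.Pt, G) := (Finset.univ.filter (· ∈ ln x y)).sigma fun u =>
    (Finset.univ.filter (· ∈ E u)).erase 1
  let f : (Σ _ : C.Pt, G) → Finset C.Pt := fun p =>
    (Finset.univ.filter fun w => (c * p.2) • w = w).erase p.1
  have mS : ∀ p ∈ S, p.1 ∈ ln x y ∧ p.2 ≠ 1 ∧ p.2 ∈ E p.1 := fun p hp => by simpa [S] using hp
  have mf : ∀ p w, w ∈ f p ↔ w ≠ p.1 ∧ (c * p.2) • w = w := fun p w => by simp [f]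
  have cS : S.card = (Nat.card (E x) + 1) * (Nat.card (E x) - 1) := by
    rw [Finset.card_sigma, Finset.sum_const_nat (m := Nat.card (E x) - 1), cL]
    intro u _
    obtain ⟨g, rfl⟩ := h.simple.trans x u
    rw [Finset.card_erase_of_mem (by simp), ← R2a.card_E g, Nat.card_eq_fintype_card,
      Fintype.card_subtype]
  have cf : ∀ p ∈ S, (f p).card = Nat.card (E x) := fun p hp => by
    obtain ⟨g, g1, g2⟩ := A _ (mS p hp).1 _ (mS p hp).2.2
    rw [Finset.card_erase_of_mem (by simpa [g2] using g1), Finset.filter_congr fun w _ => g2 w, cl,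
      Nat.add_sub_cancel]
  have nL : ∀ p ∈ S, ∀ w ∈ f p, w ∉ ln x y := fun p hp w hw k =>
    ((mf p w).1 hw).1 (B _ (mS p hp).1 _ (mS p hp).2.2 (mS p hp).2.1 w k ((mf p w).1 hw).2)
  have ln' : ∀ p ∈ S, ∀ w ∈ f p, ∀ z, (c * p.2) • z = z ↔ z ∈ ln w (c • w) := fun p hp w hw z => by
    obtain ⟨g, -, g2⟩ := A _ (mS p hp).1 _ (mS p hp).2.2
    have n : g • x ≠ g • y := fun e => ne (smul_left_cancel g e)
    have k := ((mf p w).1 hw).2
    rw [g2, (h.toRO.ln_eq n (h.KK_ne ne h0 n) ((g2 w).1 k) ((g2 (c • w)).1 (by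
      rw [← mul_smul, mul_assoc, ← CC_comm (h.cc hc.1 ((fx _).2 (mS p hp).1)) (mS p hp).2.2,
        mul_smul, k])) fun e => nL p hp w hw ((fx w).1 e.symm)).1]
  have dj : (S : Set (Σ _ : C.Pt, G)).PairwiseDisjoint f := fun p hp p' hp' n =>
    Finset.disjoint_left.2 fun w hw hw' => n (by
      have e1 : p.1 = p'.1 := B _ (mS p' hp').1 _ (mS p' hp').2.2 (mS p' hp').2.1 _ (mS p hp).1
        ((ln' p' hp' w hw' _).2 ((ln' p hp w hw _).1 (by
          rw [mul_smul, E_fix (Pp_refl _) (mS p hp).2.2, (fx _).2 (mS p hp).1])))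
      refine Sigma.ext e1 (heq_of_eq (inv_mul_eq_one.1 ((h.w1 _ w ((mf p w).1 hw).1.symm).free
        (mul_mem (inv_mem (mS p hp).2.2) (e1 ▸ (mS p' hp').2.2)) ?_)))
      rw [mul_smul, inv_smul_eq_iff]
      exact smul_left_cancel c (by
        rw [← mul_smul, ← mul_smul, ((mf p w).1 hw).2, ((mf p' w).1 hw').2]))
  have le := Finset.card_le_card (show S.biUnion f ⊆ (Finset.univ.filter (· ∈ ln x y))ᶜ from
    fun w hw => by
      obtain ⟨p, hp, k⟩ := Finset.mem_biUnion.1 hw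
      simpa using nL p hp w k)
  have le' := Finset.card_le_univ (Finset.univ.filter (· ∈ ln x y))
  rw [Finset.card_biUnion dj, Finset.sum_const_nat cf, cS, Finset.card_compl, cL] at le
  rw [h.card ne, mul_comm, Nat.card_eq_fintype_card (α := C.Pt)]
  refine Nat.mul_le_mul_left _ ?_
  obtain ⟨q, hq⟩ : ∃ q, Nat.card (E x) = q + 1 := Nat.exists_eq_succ_of_ne_zero Nat.card_pos.ne'
  rw [hq] at le cL ⊢
  rw [cL] at le'
  rw [Nat.add_sub_cancel] at le
  have : (q + 1) ^ 3 = (q + 1 + 1) * q * (q + 1) + (q + 1) := by ring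
  omega

end R2
end Cfg
end Cfsg.Lib.PT
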