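import Cfsg.Agent.PT.R2
import Cfsg.Agent.PT.Ab
import Cfsg.Agent.Solv.FittingOf

/-!
# Tower `PT`: reduction of the rank one case to abstract data
-/

set_option autoImplicit false
set_option linter.unusedSectionVars false

namespace Cfsg.Lib.PT

open Matrix Subgroup
open scoped MatrixGroups commutatorElement

universe u

variable {G : Type u} [Group G]

namespace Cfg
variable [Finite G] {C : Cfg G} {x y y' u v : C.Pt} {a b c e g : G} {r : ℕ} {l : (ZMod C.p)ˣ}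

namespace RDp

theorem cC (hg : g • x = x) : ∀ k ∈ CC x, g * k * g⁻¹ ∈ CC x := fun k hk => by
  have := conj_CC g hk
  rwa [hg] at this

theorem cE (hg : g • x = x) : ∀ k ∈ E x, g * k * g⁻¹ ∈ E x := fun k hk => by
  have := conj_E g hk
  rwa [hg] at this

theorem ne_smul (ne : x ≠ y) (hg : g • x = x) : x ≠ g • y := fun e =>
  ne (MulAction.injective g (hg.trans e))

theorem cz (h : C.R2) (h1 : BP x y a b) (hz : zz a b ≠ 1) (e : g * zz a b = zz a b * g) :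
    g • y ∈ ln x y :=
  h.fix_ln h1 ((h.w1 x y (ne_of_opp h1.opp)).zz_c0 h1) hz (Or.inr rfl)
    (by rw [← mul_smul, ← e, mul_smul, h1.zz_y])

end RDp

open RDp

namespace R2
variable (h : C.R2)
include h

theorem pd (hl : Par C.p r l) (h1 : BP x y a b) (hz : zz a b = 1) (h0 : C0 x y ≠ ⊥) :
    ∃ Γ : Subgroup G, PD C.p r ((l : ZMod C.p) ^ 2) (CC x) (E x) (C0 x y) Γ (tt a b l) := by
  have ne := ne_of_opp h1.opp
  have w := h.w1 x y ne
  obtain ⟨K, _, _, f, hf⟩ := h.toRO.hasLn ne (h.KK_ne ne h0 ne) w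
  obtain ⟨α, rfl⟩ := (hf.up _).1 (M_le_E h1.ha)
  obtain ⟨β, rfl⟩ := (hf.lo _).1 (M_le_E h1.hb)
  have α0 : α ≠ 0 := fun e => ne_one h1.bd.ha (by rw [e, up_zero, map_one])
  obtain ⟨μ, hμ⟩ := hf.rep.exists_unit C.prime C.five l
  have hK : ∀ m, f m ∈ KK x y := fun m => (closure_le ((KK x y).comap f)).2 (by
    rintro _ (⟨s, rfl⟩ | ⟨s, rfl⟩)
    exacts [mem_sup_left ((hf.up _).2 ⟨s, rfl⟩), mem_sup_right ((hf.lo _).2 ⟨s, rfl⟩)])
    (closure_up_lo.ge (mem_top m))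
  have du : ∀ (ν : Kˣ) s, f (dg ν) * f (up s) * (f (dg ν))⁻¹ = f (up ((ν : K) ^ 2 * s)) :=
    fun ν s => by rw [← map_inv, ← map_mul, ← map_mul, dg_up]
  have fx : ∀ γ ∈ (f.comp (MonoidHom.mk' dg dg_mul)).range, γ • x = x := by
    rintro _ ⟨ν, rfl⟩
    refine (smul_eq_iff h1.ha).2 ?_
    have := C.conj _ h1.bd.ha (f (dg ν))
    change f (dg ν) * _ * (f (dg ν))⁻¹ ∈ _
    rw [du] at this ⊢
    exact up_mem_M hf.rep h1.ha this
  refine ⟨(f.comp (MonoidHom.mk' dg dg_mul)).range, C.prime, C.five, hl.prime,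
    hl.dvd C.prime C.five, fun e => hl.sq_ne C.prime C.five (Units.ext e), E_le_CC (Pp_refl x),
    fun e he g hg => (CC_comm hg he).symm, fun _ => E_pow, inf_le_left,
    fun e he k => w.free he k.2, ⟨μ, (hf.rep.tt_eq C.prime C.five
      ((hf.rep.br_iff C.prime C.five α0).1 h1.br) l μ hμ).symm⟩, ?_, fun γ hγ => cC (fx γ hγ),
    ?_, fun γ hγ => cE (fx γ hγ), fun A hA hΓ => ?_, w.tt_sc h1 l, fun g => h.fx0 hl h1,
    fun c hc c1 g hg k => ?_, fun r2 g hg k hk e => ⟨hg, ?_⟩, fun c hc => h.b5 h1 hz hc⟩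
  · by_cases r2 : r = 2
    · subst r2
      rw [← h1.bd.tt_pow, hl.two.1, h1.bd.tt_neg_one, hz]
    · rw [← h1.bd.tt_pow, hl.pow_r r2, h1.bd.tt_one]
  · rintro _ ⟨ν, rfl⟩ c hc
    exact (w.c0_KK hc (hK _)).symm
  · refine or_iff_not_imp_left.2 fun n => hA.antisymm fun e he => ?_
    obtain ⟨⟨e', he'⟩, n⟩ := ne_bot_iff_exists_ne_one.1 n
    obtain ⟨s, rfl⟩ := (hf.up _).1 (hA he')
    obtain ⟨t, rfl⟩ := (hf.up _).1 he
    obtain ⟨B, hB⟩ := PB3p.span_of (fun s => f (up s)) (fun s t => by rw [up_add, map_mul]) A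
    exact (hB t).1 ((sq_span B (fun e => n (Subtype.ext (by simp [e, up_zero])))
      fun ν => (hB _).2 (du ν s ▸ hΓ _ ⟨ν, rfl⟩ _ he')).ge (AddSubgroup.mem_top t))
  · refine inv_mem_iff.1 ((h.mem_sup ne (inv_mem hg)).2 (h.fix_ln h1 hc c1 (Or.inl hz) ?_))
    rw [eq_inv_smul_iff, ← mul_smul, ← mul_smul]
    exact k.2
  · by_contra n
    refine fx1 w (h.w1 x _ (ne_smul ne (CC_fix hg))) (fun k => n (h.r1 _ _ k).symm)
      (hl.four_ne r2) (g := k * tt (f (up α)) (f (lo β)) l) (fun d hd => ?_)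
      (by rw [mul_smul, h1.tt_y]; exact hk.2)
      (by rw [← e, mul_smul, mul_smul, inv_smul_smul, h1.tt_y])
    calc _ = k * (tt (f (up α)) (f (lo β)) l * d * (tt (f (up α)) (f (lo β)) l)⁻¹) * k⁻¹ := by
          group
      _ = _ := by
          rw [w.tt_sc h1 l d hd, CC_comm hk.1 (pw_mem hd _), mul_inv_cancel_right]
          rfl

theorem od (h1 : BP x y a b) (hz : zz a b ≠ 1) : ∃ O, OD (CC x) (E x) (C0 x y) O := by
  have ne := ne_of_opp h1.opp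
  have w := h.w1 x y ne
  have z0 := w.zz_c0 h1
  have p2 : C.p ≠ 2 := by have := C.five; omega
  refine od_of_isolated C.prime p2 (E_le_CC (Pp_refl x)) (fun e he g hg => (CC_comm hg he).symm)
    (E_pgroup x) z0.1 h1.bd.zz_sq (fun g hg e => ?_)
    fun g hg e => (h.mem_sup ne hg).2 (cz h h1 hz e)
  have h2 := h1.smul g
  rw [CC_fix hg] at h2
  rw [conj_zz] at e
  obtain ⟨u, ⟨hu, n⟩, k⟩ := MXp.fix (k := 1) Nat.prime_two
    (fun u => zz (g * a * g⁻¹) (g * b * g⁻¹) • u) (ln x y \ {x})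
    (fun u hu => ⟨h.fix_ln h1 z0 hz (Or.inr rfl)
      (by rw [← mul_smul, ← e, mul_smul, h.c0_fix ne z0 hu.1]), (ne_smul (Ne.symm hu.2) h2.zz_x).symm⟩)
    (fun u _ => by rw [smul_iterate_apply, pow_one, pow_two, h2.bd.zz_sq, one_smul])
    (by
      obtain ⟨n, hn⟩ := IsPGroup.iff_card.1 (E_pgroup x)
      rw [Set.ncard_sdiff_singleton_of_mem (show x ∈ ln x y from Or.inl rfl), w.card_ln, hn]
      exact fun d => p2 ((Nat.prime_dvd_prime_iff_eq Nat.prime_two C.prime).1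
        (Nat.prime_two.dvd_of_dvd_pow d)).symm)
  obtain ⟨e1, he1, rfl⟩ := hu.resolve_left n
  obtain ⟨e2, he2, k⟩ := (h.fix_ln h2 ((h.w1 x _ (ne_of_opp h2.opp)).zz_c0 h2)
    (by rwa [← conj_zz, Ne, conj_eq_one_iff]) (Or.inr rfl) k).resolve_left n
  have := (h.mem_sup ne hg).2 (Or.inr ⟨_, mul_mem (inv_mem he2) he1, by
    rw [mul_smul, ← k, inv_smul_smul]⟩)
  rw [mul_inv_eq_iff_eq_mul]
  exact mem_centralizer_singleton_iff.1 ((sup_le
    (fun e he => mem_centralizer_singleton_iff.2 (CC_comm z0.1 he).symm)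
    (fun c hc => mem_centralizer_singleton_iff.2 (w.zz_cent h1 (CC_fix hc.1) hc.2)) :
      E x ⊔ C0 x y ≤ centralizer {zz a b}) this)

theorem sd (hl : Par C.p r l) (h1 : BP x y a b) (hz : zz a b ≠ 1) {O : Subgroup G}
    (hO : OD (CC x) (E x) (C0 x y) O) :
    SD C.p O (E x) (O ⊓ C0 x y) (zz a b) (tt a b l) := by
  have ne := ne_of_opp h1.opp
  have w := h.w1 x y ne
  have z0 := w.zz_c0 h1
  refine ⟨C.prime, by have := C.five; omega, hO.odd, hO.EO,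
    fun e he g hg => (CC_comm (hO.le hg) he).symm, E_pgroup x, inf_le_left,
    hO.norm _ (cC h1.zz_x), hO.norm _ (cC (h1.tt_x l)), cE (h1.tt_x l), h1.bd.zz_sq,
    (h1.bd.tt_zz l).symm, ⟨C.p - 1, ?_, ?_⟩, fun e he => CC_comm z0.1 he,
    fun c hc => (w.zz_cent h1 (CC_fix hc.2.1) hc.2.2).symm,
    fun c hc => (w.tt_cent h1 l (CC_fix hc.2.1) hc.2.2).symm, fun g hg e => ?_,
    fun g hg e => ⟨hg, h.fx0 hl h1 (hO.le hg) e⟩, fun g hg e => ⟨hg, h.fx0' hl h1 (hO.le hg) e⟩,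
    fun c hc c1 d hd zd cd => ?_⟩
  · exact (Nat.coprime_self_sub_left C.prime.one_le).2 (Nat.coprime_one_left _)
  · rw [← h1.bd.tt_pow, ZMod.units_pow_card_sub_one_eq_one, h1.bd.tt_one]
  · obtain ⟨e, he, k⟩ := (cz h h1 hz e).resolve_left (ne_smul ne (CC_fix (hO.le hg))).symm
    have m := mul_mem (inv_mem (hO.EO he)) hg
    rw [← mul_inv_cancel_left e g]
    exact mul_mem (mem_sup_left he) (mem_sup_right ⟨m, mem_C0.2 ⟨hO.le m, by
      rw [mul_smul, ← k, inv_smul_smul]⟩⟩)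
  obtain ⟨n, hn⟩ := hO.odd
  have dn : d ^ (2 * n + 1) = 1 := by
    rw [← hn]
    exact congrArg Subtype.val (pow_card_eq_one' (x := (⟨d, hd⟩ : O)))
  have k2 : d ^ (n + 1) * d ^ (n + 1) = d := by
    rw [← pow_add, show n + 1 + (n + 1) = 2 * n + 1 + 1 by omega, pow_succ, dn, one_mul]
  have kz : zz a b * (d ^ (n + 1))⁻¹ * (zz a b)⁻¹ = d ^ (n + 1) := by
    rw [← conj_inv, ← conj_pow, zd, _root_.inv_pow, inv_inv]
  have kc : Commute c (d ^ (n + 1)) := Commute.pow_right cd _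
  have ka := CC_comm (inv_mem (pow_mem (hO.le hd) (n + 1))) (M_le_E h1.ha)
  generalize d ^ (n + 1) = k at k2 kz kc ka
  have h2 := h1.bd.conj k⁻¹
  have ez := conj_zz k⁻¹ a b
  rw [ka, mul_inv_cancel_right] at h2 ez
  have hs := sub_cent h.r1 {c}
  have cb : Commute c b := CC_comm (w.cc hc.2.1 hc.2.2) (M_le_E h1.hb)
  have ha : a ∈ C.D ∩ centralizer {c} :=
    ⟨h1.bd.ha, mem_centralizer_singleton_iff.2 (CC_comm hc.2.1 (M_le_E h1.ha)).symm⟩
  have hb : b ∈ C.D ∩ centralizer {c} := ⟨h1.bd.hb, mem_centralizer_singleton_iff.2 cb.symm⟩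
  obtain ⟨m, hm⟩ := pb2 hs (hs.good h.ih ha hb h1.bd.nc fun e => h.simple.cent_ne_top c1
    (eq_top_iff.2 (e.ge.trans ((closure_le _).2 Set.inter_subset_right)))) ha hb h1.bd
    ⟨h2.hb, mem_centralizer_singleton_iff.2
      ((kc.inv_right.mul_right cb).mul_right kc.inv_right.inv_right).symm⟩ h2
  rw [show zz a b * zz a (k⁻¹ * b * k⁻¹⁻¹) = d by
    rw [← ez, ← k2, inv_inv]
    calc _ = zz a b * k⁻¹ * (zz a b)⁻¹ * (zz a b * zz a b) * k := by group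
      _ = _ := by rw [kz, h1.bd.zz_sq, mul_one]] at hm
  have e1 := w.zz_cent h1 (CC_fix (pow_mem (hO.le hd) (C.p ^ m)))
    ((triv_iff h.r1 hs.sub).1 hm y ⟨b, hb, h1.hb⟩)
  have e2 : zz a b * d ^ C.p ^ m * (zz a b)⁻¹ = (d ^ C.p ^ m)⁻¹ := by
    rw [← conj_pow, zd, _root_.inv_pow]
  rw [← e1, mul_inv_cancel_right, eq_inv_iff_mul_eq_one, ← pow_two] at e2
  refine ⟨m, ?_⟩
  calc _ = ((d ^ C.p ^ m) ^ 2) ^ n * d ^ C.p ^ m := by rw [e2, one_pow, one_mul]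
    _ = 1 := by rw [← pow_mul, ← pow_succ, ← pow_mul, mul_comm, pow_mul, dn, one_pow]

theorem nu (ne : x ≠ y) {O : Subgroup G} (h1 : O ≤ CC x)
    (h2 : ∀ g : G, (∀ k ∈ CC x, g * k * g⁻¹ ∈ CC x) → ∀ k ∈ O, g * k * g⁻¹ ∈ O) (h3 : E x ≤ O)
    (h4 : CC x ≤ O ⊔ C0 x y) (h5 : NT O (O ⊓ C0 x y)) : ∃ U, C.NU x U := by
  obtain ⟨K, k1, k2, k3, k4⟩ := h5
  have nm : ∀ {A : Subgroup G} {g : G}, (∀ k ∈ A, g * k * g⁻¹ ∈ A) →
      (∀ k ∈ A, g⁻¹ * k * g⁻¹⁻¹ ∈ A) → g ∈ normalizer (A : Set G) := fun e1 e2 =>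
    mem_normalizer_iff.2 fun k => ⟨e1 k, fun hk => by simpa [mul_assoc] using e2 _ hk⟩
  have hN : ∀ g : G, g • x = x → g ∈ normalizer (fittingOf O : Set G) := fun g hg =>
    Solv.normalizer_le_normalizer_fittingOf O
      (nm (h2 g (cC hg)) (h2 _ (cC (inv_smul_eq_iff.2 hg.symm))))
  have tr : ∀ v : C.Pt, v ≠ x → ∃ g ∈ fittingOf O, g • y = v := fun v hv => by
    obtain ⟨g, hg, rfl⟩ := h.tr x y v ne.symm hv
    obtain ⟨n, hn, c, hc, rfl⟩ := (Solv.mem_sup_of_le_normalizer (H := C0 x y)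
      (fun c hc => hN c (CC_fix hc.1))).1 (sup_le (k4.trans (sup_le_sup (Solv.le_fittingOf k1
        (fun g hg => nm (k2 g hg) (k2 _ (inv_mem hg))) k3) inf_le_right)) le_sup_right (h4 hg))
    exact ⟨n, hn, by rw [mul_smul, (mem_C0.1 hc).2]⟩
  refine ⟨fittingOf O, Solv.le_fittingOf h3 (fun g hg => nm (cE (CC_fix (h1 hg)))
    (cE (CC_fix (h1 (inv_mem hg))))) (E_pgroup x).isNilpotent, (Solv.fittingOf_le O).trans h1,
    fun g hg u hu => (mem_normalizer_iff.1 (hN g hg) u).1 hu, inferInstance,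
    fun u v hu hv => ?_⟩
  obtain ⟨g, hg, rfl⟩ := tr u hu
  obtain ⟨k, hk, rfl⟩ := tr v hv
  exact ⟨k * g⁻¹, mul_mem hk (inv_mem hg), by rw [mul_smul, inv_smul_smul]⟩

end R2

end Cfg

end Cfsg.Lib.PT
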