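import Cfsg.Agent.PT.PS3
import Cfsg.Agent.PT.MDa

/-!
# Tower `PT`: rigidity of the embedding
-/

set_option autoImplicit false
set_option linter.unusedSectionVars false

namespace Cfsg.Lib.PT

open Matrix Subgroup Cfsg.Lib.Class.Form
open scoped MatrixGroups commutatorElement

universe u

variable {G : Type u} [Group G]

section model
variable {F : Type} [Field F] {σ : F →+* F}
variable {X : Type u} [AddCommGroup X] [Module F X] {B : X →ₛₗ[σ] X →ₗ[F] F}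
variable {C : Cfg G} {x y : C.Pt} {ψ : C.Pt → X}

theorem Cmp.one : Cmp B ψ (1 : G) 1 := fun u => ⟨1, by rw [one_smul, one_smul]; rfl⟩

theorem Cmp.mul {g g' : G} {γ γ' : isomGroup B} (h : Cmp B ψ g γ) (h' : Cmp B ψ g' γ') :
    Cmp B ψ (g * g') (γ * γ') := fun u => by
  obtain ⟨l, hl⟩ := h' u
  obtain ⟨l', hl'⟩ := h (g' • u)
  exact ⟨l * l', by rw [isom_mul_apply, hl, map_smul, hl', smul_smul, mul_smul g]⟩

theorem Cmp.inv (ne : ∀ u, ψ u ≠ 0) {g : G} {γ : isomGroup B} (h : Cmp B ψ g γ) :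
    Cmp B ψ g⁻¹ γ⁻¹ := fun u => by
  obtain ⟨l, hl⟩ := h (g⁻¹ • u)
  rw [smul_inv_smul] at hl
  have l0 : l ≠ 0 := fun e => ne (g⁻¹ • u) (by
    rw [e, zero_smul] at hl
    exact (LinearEquiv.map_eq_zero_iff _).1 hl)
  refine ⟨l⁻¹, ?_⟩
  have := congrArg ((γ⁻¹ : isomGroup B) : X ≃ₗ[F] X) hl
  rw [isom_inv_apply, map_smul] at this
  rw [this, smul_smul, inv_mul_cancel₀ l0, one_smul]

namespace RIGp

open Cfg

theorem sk_ne (h : SK B) {u v : X} (e : B u v ≠ 0) : B v u ≠ 0 := fun e' =>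
  e (by rw [h.skew, e', map_zero, neg_zero])

variable [Finite G] (hs : C.HR) (h : GD x y B ψ) {e : G} (he : e ∈ Cfg.E y) {c : F}
    {γ : isomGroup B} (hγ : Tv B (ψ y) c γ)
include hs h he hγ

theorem fix {u : C.Pt} (hu : Pp u y) : (γ : X ≃ₗ[F] X) (ψ u) = ψ u := by
  rw [hγ, h.pres y u hu.symm, mul_zero, zero_smul, add_zero]

theorem step {u u' : C.Pt} (hA : ∃ l : F, (γ : X ≃ₗ[F] X) (ψ u) = l • ψ (e • u))
    (hP : Pp u u') (ne : u ≠ u') (o1 : ¬ Pp u y) (o2 : ¬ Pp u' y)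
    (s1 : ∃ t ∈ pl u u', t = x ∨ ¬ Pp x t)
    (s2 : ∃ t ∈ pl u u', e • t = x ∨ ¬ Pp x (e • t)) :
    ∃ l : F, (γ : X ≃ₗ[F] X) (ψ u') = l • ψ (e • u') := by
  have S := hs.simple
  obtain ⟨l, hl⟩ := hA
  obtain ⟨r, hr, ry⟩ := S.one_all hP ne y
  have n1 : u ≠ r := fun k => o1 (k ▸ ry)
  have n2 : u' ≠ r := fun k => o2 (k ▸ ry)
  have L : pl u r = pl u u' := S.pl_eq hP (left_mem_pl _ _) hr n1
  have ur : Pp u r := pl_perp hP (left_mem_pl _ _) hr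
  have ur' : Pp u' r := pl_perp hP (right_mem_pl _ _) hr
  have er : e • r = r := E_fix ry.symm he
  obtain ⟨a, b, hab⟩ := h.line u r u' ur n1 (by rw [L]; exact right_mem_pl _ _) (by rw [L]; exact s1)
  obtain ⟨a', b', hab'⟩ := h.line (e • u) (e • r) (e • u') ((Pp_smul e).2 ur)
    (fun k => n1 (MulAction.injective e k))
    ((smul_mem_pl e).2 (by rw [L]; exact right_mem_pl _ _))
    (by
      obtain ⟨t, ht, k⟩ := s2
      exact ⟨e • t, (smul_mem_pl e).2 (by rw [L]; exact ht), k⟩)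
  rw [er] at hab'
  obtain ⟨s, su, sr⟩ := S.exists_perp_opp n2
  have n3 : u' ≠ s := fun k => sr (k ▸ ur')
  obtain ⟨r', hr', ry'⟩ := S.one_all su.symm n3 y
  have u'r' : Pp u' r' := pl_perp su.symm (left_mem_pl _ _) hr'
  have rr : ¬ Pp r' r := fun k =>
    sr (S.perp_of_two su.symm (left_mem_pl _ _) hr' (fun k' => o2 (k' ▸ ry')) ur'.symm k.symm).2.symm
  have δ0 : B (ψ r') (ψ r) ≠ 0 := fun k => rr (h.refl _ _ ry' ry k)
  have k1 : B (ψ r') ((γ : X ≃ₗ[F] X) (ψ u')) = 0 := by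
    rw [← fix hs h he hγ ry', isom_apply]; exact h.pres _ _ u'r'.symm
  have k2 : B (ψ r') (ψ (e • u')) = 0 := by
    refine h.pres _ _ ?_
    rw [← E_fix ry'.symm he]; exact (Pp_smul e).2 u'r'.symm
  have e1 : (γ : X ≃ₗ[F] X) (ψ u') = (a * l) • ψ (e • u) + b • ψ r := by
    rw [hab, map_add, map_smul, map_smul, hl, fix hs h he hγ ry, smul_smul]
  rw [e1] at k1
  rw [hab'] at k2
  simp only [map_add, map_smul, smul_eq_mul] at k1 k2
  have a0 : a' ≠ 0 := fun k => h.ne (e • u') (by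
    have : b' = 0 := by
      rw [k, zero_mul, zero_add] at k2
      exact (mul_eq_zero.1 k2).resolve_right δ0
    rw [hab', k, this, zero_smul, zero_smul, add_zero])
  refine ⟨a * l / a', ?_⟩
  have hb : b = a * l / a' * b' := by
    rw [div_mul_eq_mul_div, eq_div_iff a0]
    exact mul_right_cancel₀ δ0 (by linear_combination a' * k1 - a * l * k2)
  rw [e1, hab', smul_add, smul_smul, smul_smul, div_mul_cancel₀ _ a0, ← hb]

end RIGp

open Cfg RIGp in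
theorem GD.rig [Finite G] (hs : C.HR) (h : GD x y B ψ) {e : G} (he : e ∈ Cfg.E y) {c l : F}
    {γ : isomGroup B} (hγ : Tv B (ψ y) c γ)
    (e0 : ψ x + (c * B (ψ y) (ψ x)) • ψ y = l • ψ (e • x)) : Cmp B ψ e γ := by
  have S := hs.simple
  have xy : B (ψ x) (ψ y) ≠ 0 := fun k => h.opp (h.xo _ k)
  by_cases hx : Pp x (e • x)
  · have k := congrArg (B (ψ x)) e0
    simp only [map_add, map_smul, smul_eq_mul, h.pres _ _ (Pp_refl x), h.pres _ _ hx, zero_add,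
      mul_zero, mul_eq_zero, xy, sk_ne h.sk xy, or_false] at k
    rw [k, zero_mul, zero_smul, add_zero] at e0
    have e1 : e = 1 := (hs.w1 (mt Pp.symm h.opp)).free he (h.inj _ _ _ e0).symm
    refine fun u => ⟨1, ?_⟩
    rw [hγ, k, zero_mul, zero_smul, add_zero, e1, one_smul, one_smul]
  have A0 : ∀ u, Pp u y → ∃ l : F, (γ : X ≃ₗ[F] X) (ψ u) = l • ψ (e • u) := fun u hu =>
    ⟨1, by rw [fix hs h he hγ hu, E_fix hu.symm he, one_smul]⟩
  have Ax : ∃ l : F, (γ : X ≃ₗ[F] X) (ψ x) = l • ψ (e • x) := ⟨l, by rw [hγ, e0]⟩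
  have A1 : ∀ u, Pp u x → ∃ l : F, (γ : X ≃ₗ[F] X) (ψ u) = l • ψ (e • u) := fun u hu => by
    by_cases h1 : Pp u y
    · exact A0 u h1
    by_cases h2 : x = u
    · exact h2 ▸ Ax
    exact step hs h he hγ Ax hu.symm h2 h.opp h1 ⟨x, left_mem_pl _ _, Or.inl rfl⟩
      ⟨x, left_mem_pl _ _, Or.inr hx⟩
  have A2 : ∀ u u0, ¬ Pp x u → ¬ Pp u y → Pp u0 u → Pp u0 x → ¬ Pp u0 y →
      ∃ l : F, (γ : X ≃ₗ[F] X) (ψ u) = l • ψ (e • u) := fun u u0 h1 h2 h3 h4 h5 => by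
    have ne : u0 ≠ u := fun k => h1 (k ▸ h4.symm)
    refine step hs h he hγ (A1 u0 h4) h3 ne h5 h2 ⟨u, right_mem_pl _ _, Or.inr h1⟩ ?_
    obtain ⟨r, hr, ry⟩ := S.one_all h3 ne y
    refine ⟨r, hr, Or.inr ?_⟩
    rw [E_fix ry.symm he]
    exact fun k => h1 (S.perp_of_two h3 (left_mem_pl _ _) hr (fun k' => h5 (k' ▸ ry)) h4.symm k).2
  intro u
  by_cases h1 : Pp x u
  · exact A1 u h1.symm
  by_cases h2 : Pp u y
  · exact A0 u h2
  by_cases h3 : ∃ u0, Pp u0 u ∧ Pp u0 x ∧ ¬ Pp u0 y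
  · obtain ⟨u0, k1, k2, k3⟩ := h3
    exact A2 u u0 h1 h2 k1 k2 k3
  push Not at h3
  obtain ⟨r, hr⟩ := hs.Δ_ne h1
  obtain ⟨r', hr', rr⟩ := S.Δ_opp h1 hr
  have ry : Pp r y := h3 r hr.2 hr.1
  have ry' : Pp r' y := h3 r' hr'.2 hr'.1
  have n1 : u ≠ r := fun k => h2 (k ▸ ry)
  obtain ⟨u1, hu1, m1, m2⟩ := S.third hr.2.symm n1
  have two : ∀ s, Pp s u1 → Pp s r → Pp s u := fun s k1 k2 =>
    (S.perp_of_two hr.2.symm hu1 (right_mem_pl _ _) m2 k1 k2).1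
  have o1 : ¬ Pp x u1 := fun k => h1 (two x k hr.1.symm)
  have o2 : ¬ Pp u1 y := fun k => h2 (two y k.symm ry.symm).symm
  have o3 : ¬ Pp r' u1 := fun k =>
    rr (S.perp_of_two hr.2.symm hu1 (left_mem_pl _ _) m1 k hr'.2).2.symm
  have n2 : x ≠ r' := fun k => h.opp (k ▸ ry')
  obtain ⟨u0, hu0, k0⟩ := S.one_all hr'.1.symm n2 u1
  have B1 := A2 u1 u0 o1 o2 k0 (pl_perp hr'.1.symm hu0 (left_mem_pl _ _)) fun k =>
    h.opp (S.perp_of_two hr'.1.symm hu0 (right_mem_pl _ _) (fun k' => o3 (k' ▸ k0)) k.symm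
      ry'.symm).1.symm
  refine step hs h he hγ B1 (pl_perp hr.2.symm hu1 (left_mem_pl _ _)) m1 o2 h2
    ⟨u, right_mem_pl _ _, Or.inr h1⟩ ⟨u, right_mem_pl _ _, ?_⟩
  by_contra hc
  push Not at hc
  have all : ∀ t ∈ Δ x y, Pp t (e • u) := fun t ht => by
    have n3 : x ≠ t := fun k => h.opp (k ▸ ht.2)
    obtain ⟨t', ht', k⟩ := S.one_all ht.1.symm n3 u
    have tx : Pp t' x := pl_perp ht.1.symm ht' (left_mem_pl _ _)
    have : t' = t := by
      by_contra k'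
      exact h.opp (S.perp_of_two ht.1.symm ht' (right_mem_pl _ _) k' (h3 t' k tx).symm
        ht.2.symm).1.symm
    rw [← E_fix ht.2.symm he]
    exact (Pp_smul e).2 (this ▸ k)
  obtain ⟨t, ht, k⟩ := S.exists_Δ h.opp hc.2.symm hc.1
  obtain ⟨t', ht', k'⟩ := S.Δ_opp h.opp ht
  exact k' (S.perp_of_two ht.1.symm k (left_mem_pl _ _) hc.1 (all t' ht') ht'.1).2.symm

end model

end Cfsg.Lib.PT
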