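import Cfsg.Agent.PT.Mat
import Cfsg.Agent.Trans.Quasisimple

/-!
# Tower `PT`: representations of `SL₂(K)` with central kernel
-/

set_option autoImplicit false
set_option linter.unusedSimpArgs false
set_option linter.unusedSectionVars false

namespace Cfsg.Lib.PT

open Matrix Subgroup
open scoped MatrixGroups commutatorElement

universe u

variable {G : Type u} [Group G]

section Rep
variable {K : Type} [Field K] {p : ℕ} {f : SL2 K →* G}

theorem Mat.two_ne (K : Type) [Field K] (h5 : 5 ≤ p) [CharP K p] : (2 : K) ≠ 0 := by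
  simpa using Mat.cast_ne (p := p) K (n := 2) (by omega) (by omega)

theorem Mat.three_ne (K : Type) [Field K] (h5 : 5 ≤ p) [CharP K p] : (3 : K) ≠ 0 := by
  simpa using Mat.cast_ne (p := p) K (n := 3) (by omega) (by omega)

theorem Mat.two_sq (K : Type) [Field K] (h5 : 5 ≤ p) [CharP K p] : (2 : K) ^ 2 ≠ 1 := fun h =>
  Mat.three_ne K h5 (by linear_combination h)

theorem Mat.eq_zero_of_neg (h5 : 5 ≤ p) [CharP K p] {x : K} (h : x = -x) : x = 0 :=
  (mul_eq_zero.1 (show 2 * x = 0 by linear_combination h)).resolve_left (Mat.two_ne K h5)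

theorem Mat.ent {x y : SL2 K} (h : x = y) (i j : Fin 2) : x.1 i j = y.1 i j := by rw [h]

theorem perfect_SL2 (hp : p.Prime) (h5 : 5 ≤ p) [CharP K p] : commutator (SL2 K) = ⊤ := by
  have _ := hp
  exact SL2.commutator_eq_top (Mat.two_ne K h5) (Mat.two_sq K h5)

theorem normal_SL2 (hp : p.Prime) (h5 : 5 ≤ p) [CharP K p] (N : Subgroup (SL2 K)) [N.Normal] :
    N = ⊤ ∨ ∀ x ∈ N, x = 1 ∨ x = -1 := by
  have hq : IsQuasisimple (SL2 K) := ⟨⟨perfect_SL2 hp h5⟩,
    ProjectiveSpecialLinearGroup.rank_two_simple' ⟨2, Mat.two_ne K h5, Mat.two_sq K h5⟩⟩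
  refine (Trans.IsQuasisimple.eq_top_or_le_center hq N inferInstance).imp_right fun h x hx => ?_
  obtain ⟨r, h1, h2⟩ := Matrix.SpecialLinearGroup.mem_center_iff.1 (h hx)
  rw [Fintype.card_fin, sq_eq_one_iff] at h1
  rcases h1 with rfl | rfl
  · exact Or.inl (Subtype.ext (by rw [← h2, map_one]; rfl))
  · exact Or.inr (Subtype.ext (by rw [← h2, map_neg, map_one]; rfl))

theorem unip_conj (hp : p.Prime) [CharP K p] {x : SL2 K} (h : x ^ p = 1) :
    ∃ (g : SL2 K) (s : K), x = g * up s * g⁻¹ := by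
  have := Fact.mk hp
  have h1 : IsNilpotent (x.1 - 1) := ⟨p, by
    rw [sub_pow_char_of_commute _ (Commute.one_right _), one_pow, sub_eq_zero]
    exact congrArg Subtype.val h⟩
  have h2 := (isNilpotent_trace_of_isNilpotent h1).eq_zero
  rw [trace_fin_two] at h2
  simp only [Matrix.sub_apply, one_apply_eq] at h2
  have hd := Mat.det x
  by_cases hc : x.1 1 0 = 0
  · have h3 : x.1 0 0 = 1 := sub_eq_zero.1 (pow_eq_zero_iff two_ne_zero |>.1 (by
      linear_combination x.1 0 0 * h2 - hd - x.1 0 1 * hc))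
    exact ⟨1, x.1 0 1, by
      rw [one_mul, inv_one, mul_one]
      exact Mat.ext h3 rfl hc (by simp; linear_combination h2 - h3)⟩
  · refine ⟨up ((x.1 0 0 - 1) / x.1 1 0) * wy 1, -x.1 1 0, ?_⟩
    rw [_root_.mul_inv_rev, mul_assoc (up _), mul_assoc (up _), ← mul_assoc _ (wy 1)⁻¹, wy_up,
      ← up_neg]
    refine Mat.ext ?_ ?_ ?_ ?_ <;> simp [Mat.mm] <;> field_simp
    · ring
    · linear_combination -hd + x.1 0 0 * h2
    · linear_combination h2

namespace Rep
variable (h : Rep p K f) (hp : p.Prime) (h5 : 5 ≤ p)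
include h
theorem eq {x y : SL2 K} (e : f x = f y) : x = y ∨ x = -y := by
  rcases h.ker (x * y⁻¹) (by rw [map_mul, map_inv, e, mul_inv_cancel]) with h1 | h1
  · exact Or.inl (mul_inv_eq_one.1 h1)
  · exact Or.inr (by rw [mul_inv_eq_iff_eq_mul.1 h1, neg_one_mul])
omit h in
theorem neg_comm' (g : SL2 K) : f (-1) * f g = f g * f (-1) := by
  rw [← map_mul, ← map_mul, neg_one_mul, mul_neg_one]
theorem neg_comm (g : SL2 K) : f (-1) * f g = f g * f (-1) := neg_comm' g
/-- Twisting by an inner automorphism. -/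
theorem conj (g : SL2 K) : Rep p K (f.comp (MulAut.conj g).toMonoidHom) :=
  ⟨h.char, fun x e => (h.ker (g * x * g⁻¹) e).imp conj_eq_one_iff.1 fun h1 => by
    rw [mul_inv_eq_iff_eq_mul, neg_one_mul, ← mul_neg_one] at h1
    exact mul_left_cancel h1⟩
theorem gconj (g : G) : Rep p K ((MulAut.conj g).toMonoidHom.comp f) :=
  ⟨h.char, fun x e => h.ker x (conj_eq_one_iff.1 e)⟩
include hp h5
theorem up_inj {s t : K} (e : f (up s) = f (up t)) : s = t := by
  have := h.char
  rcases h.eq e with h1 | h1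
  · simpa using Mat.ent h1 0 1
  · exact absurd (Mat.eq_zero_of_neg h5 (by simpa using Mat.ent h1 0 0)) (one_ne_zero (α := K))
theorem lo_inj {s t : K} (e : f (lo s) = f (lo t)) : s = t := by
  have := h.char
  rcases h.eq e with h1 | h1
  · simpa using Mat.ent h1 1 0
  · exact absurd (Mat.eq_zero_of_neg h5 (by simpa using Mat.ent h1 0 0)) (one_ne_zero (α := K))
theorem up_pow_p (s : K) : f (up s) ^ p = 1 := by
  have := h.char
  rw [← map_pow, up_pow, CharP.cast_eq_zero, zero_mul, up_zero, map_one]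
theorem lo_pow_p (s : K) : f (lo s) ^ p = 1 := by
  have := h.char
  rw [← map_pow, lo_pow, CharP.cast_eq_zero, zero_mul, lo_zero, map_one]
theorem comm_iff {s t : K} : f (up s) * f (lo t) = f (lo t) * f (up s) ↔ s = 0 ∨ t = 0 := by
  have := h.char
  refine ⟨fun e => ?_, ?_⟩
  · rw [← map_mul, ← map_mul] at e
    rcases h.eq e with h1 | h1
    · simpa [Mat.mm] using Mat.ent h1 0 0
    · exact Or.inl (Mat.eq_zero_of_neg h5 (by simpa [Mat.mm] using Mat.ent h1 0 1))
  · rintro (rfl | rfl)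
    · rw [up_zero, map_one, one_mul, mul_one]
    · rw [lo_zero, map_one, one_mul, mul_one]
theorem br_iff {α β : K} (hα : α ≠ 0) : Br (f (up α)) (f (lo β)) ↔ α * β = -1 := by
  have := h.char
  rw [Br, ← map_mul, ← map_mul, ← map_mul, ← map_mul]
  refine ⟨fun e => ?_, fun e => congrArg f (Mat.ext ?_ ?_ ?_ ?_)⟩
  · rcases h.eq e with h1 | h1
    · have h2 := Mat.ent h1 0 1
      simp only [Matrix.SpecialLinearGroup.coe_mul, Mat.mm, Mat.up00, Mat.up01, Mat.up10, Mat.up11,
        Mat.lo00, Mat.lo01, Mat.lo10, Mat.lo11] at h2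
      exact mul_left_cancel₀ hα (by linear_combination h2)
    · have h2 := Mat.ent h1 0 0
      simp only [Matrix.SpecialLinearGroup.coe_mul, Mat.mm, Mat.up00, Mat.up01, Mat.up10, Mat.up11,
        Mat.lo00, Mat.lo01, Mat.lo10, Mat.lo11, Matrix.SpecialLinearGroup.coe_neg, Matrix.neg_apply] at h2
      have := Mat.eq_zero_of_neg h5 (x := 1 + α * β) (by linear_combination h2)
      linear_combination this
  all_goals simp only [Matrix.SpecialLinearGroup.coe_mul, Mat.mm, Mat.up00, Mat.up01, Mat.up10,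
    Mat.up11, Mat.lo00, Mat.lo01, Mat.lo10, Mat.lo11]
  · ring
  · linear_combination α * e
  · linear_combination -β * e
  · ring
theorem ww_eq {α β : K} (e : α * β = -1) (μ : Kˣ) (hμ : (μ : K) = α) :
    ww (f (up α)) (f (lo β)) = f (wy μ) := by
  subst hμ
  rw [← map_ww, ← wy_eq, Units.val_inv_eq_inv_val,
    show β = -(μ : K)⁻¹ by field_simp; linear_combination e]
omit h hp h5 in
theorem ne_zero {α β : K} (e : α * β = -1) : α ≠ 0 := by
  rintro rfl
  simp at e
theorem zz_eq {α β : K} (e : α * β = -1) : zz (f (up α)) (f (lo β)) = f (-1) := by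
  rw [zz, h.ww_eq hp h5 e (Units.mk0 α (ne_zero e)) rfl, ← map_mul, wy_sq]
theorem exists_unit (l : (ZMod p)ˣ) : ∃ μ : Kˣ, (μ : K) = ((l : ZMod p).val : K) := by
  have := h.char
  have := Fact.mk hp
  exact ⟨Units.mk0 _ (Mat.cast_ne (p := p) K (ZMod.val_pos.2 l.ne_zero) (ZMod.val_lt _)), rfl⟩
theorem tt_eq {α β : K} (e : α * β = -1) (l : (ZMod p)ˣ) (μ : Kˣ)
    (hμ : (μ : K) = ((l : ZMod p).val : K)) : tt (f (up α)) (f (lo β)) l = f (dg μ) := by
  have := h.char
  have := Fact.mk hp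
  have h1 : ((l : ZMod p).val : K) * (((l⁻¹ : (ZMod p)ˣ) : ZMod p).val : K) = 1 := by
    rw [ZMod.natCast_val, ZMod.natCast_val, ← ZMod.cast_mul dvd_rfl, Units.mul_inv,
      ZMod.cast_one dvd_rfl]
  rw [tt, ← map_pw, ← map_pw, up_pw, lo_pw, h.ww_eq hp h5 e (Units.mk0 α (ne_zero e)) rfl,
    h.ww_eq hp h5 (by linear_combination α * β * h1 + e) (μ * Units.mk0 α (ne_zero e))
      (by rw [← hμ]; rfl), ← map_inv, ← map_mul, wy_wy, mul_inv_cancel_right]
theorem cent_up {x : SL2 K} {s : K} (hs : s ≠ 0) (e : f x * f (up s) = f (up s) * f x) :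
    ∃ t, x = up t ∨ x = -up t := by
  have := h.char
  have hd := Mat.det x
  rw [← map_mul, ← map_mul] at e
  rcases h.eq e with h1 | h1
  · have h2 : x.1 1 0 = 0 := by simpa [Mat.mm, hs] using Mat.ent h1 0 0
    have h3 : x.1 0 0 = x.1 1 1 := mul_right_cancel₀ hs (by
      have := Mat.ent h1 0 1
      simp only [Matrix.SpecialLinearGroup.coe_mul, Mat.mm, Mat.up00, Mat.up01, Mat.up11] at this
      linear_combination this)
    rw [h2, ← h3, mul_zero, sub_zero, mul_self_eq_one_iff] at hd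
    rcases hd with h4 | h4
    · exact ⟨x.1 0 1, Or.inl (Mat.ext h4 rfl h2 (h3 ▸ h4))⟩
    · exact ⟨-x.1 0 1, Or.inr (Mat.ext (by simp [h4]) (by simp) (by simp [h2]) (by simp [← h3, h4]))⟩
  · have h2 : x.1 1 0 = 0 := Mat.eq_zero_of_neg h5 (by simpa [Mat.mm] using Mat.ent h1 1 0)
    have h3 : x.1 0 0 = 0 := Mat.eq_zero_of_neg h5 (by simpa [Mat.mm, h2] using Mat.ent h1 0 0)
    simp [h2, h3] at hd
/-- An element commuting with an upper and a lower unitriangular element is central. -/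
theorem cent2 {x : SL2 K} {s t : K} (hs : s ≠ 0) (ht : t ≠ 0)
    (e1 : f x * f (up s) = f (up s) * f x) (e2 : f x * f (lo t) = f (lo t) * f x) :
    x = 1 ∨ x = -1 := by
  obtain ⟨r, rfl | rfl⟩ := h.cent_up hp h5 hs e1
  · rw [((h.comm_iff hp h5).1 e2).resolve_right ht, up_zero]
    exact Or.inl rfl
  · rw [← neg_one_mul, map_mul, mul_assoc, ← mul_assoc (f (lo t)), ← h.neg_comm, mul_assoc,
      mul_left_cancel_iff] at e2
    rw [((h.comm_iff hp h5).1 e2).resolve_right ht, up_zero]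
    exact Or.inr rfl
theorem cent {x : SL2 K} (e : ∀ y, f x * f y = f y * f x) : x = 1 ∨ x = -1 :=
  h.cent2 hp h5 one_ne_zero one_ne_zero (e _) (e _)
theorem normal (N : Subgroup G) (hN : ∀ g, ∀ x ∈ N, f g * x * (f g)⁻¹ ∈ N) :
    (∀ x, f x ∈ N) ∨ ∀ x, f x ∈ N → x = 1 ∨ x = -1 := by
  have := h.char
  have : (N.comap f).Normal := ⟨fun x hx g => by
    rw [mem_comap, map_mul, map_mul, map_inv]; exact hN g _ hx⟩
  exact (normal_SL2 hp h5 (N.comap f)).imp_left fun e x => mem_comap.1 (e.ge (mem_top x))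
theorem perfect : ⁅f.range, f.range⁆ = f.range := by
  have := h.char
  rw [MonoidHom.range_eq_map, ← map_commutator, ← commutator_def, perfect_SL2 hp h5]
theorem fix {s β : K} (hβ : β ≠ 0)
    (e : f (up s) * f (lo β) * (f (up s))⁻¹ * f (lo β) =
      f (lo β) * (f (up s) * f (lo β) * (f (up s))⁻¹)) : s = 0 := by
  have := h.char
  rw [← map_inv, ← up_neg] at e
  simp only [← map_mul] at e
  rcases h.eq e with h1 | h1
  · have h2 := Mat.ent h1 0 0
    simp only [Matrix.SpecialLinearGroup.coe_mul, Mat.mm, Mat.up00, Mat.up01, Mat.up10, Mat.up11,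
      Mat.lo00, Mat.lo01, Mat.lo10, Mat.lo11] at h2
    have : (s * β) ^ 2 = 0 := by linear_combination -h2
    simpa [hβ] using this
  · have h2 := Mat.ent h1 0 1
    simp only [Matrix.SpecialLinearGroup.coe_mul, Mat.mm, Mat.up00, Mat.up01, Mat.up10, Mat.up11,
      Mat.lo00, Mat.lo01, Mat.lo10, Mat.lo11, Matrix.SpecialLinearGroup.coe_neg, Matrix.neg_apply] at h2
    have := Mat.eq_zero_of_neg h5 (x := s ^ 2 * β) (by linear_combination -h2)
    simpa [hβ] using this
theorem unip {x : SL2 K} (e : f x ^ p = 1) : ∃ (g : SL2 K) (s : K), f x = f (g * up s * g⁻¹) := by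
  have := h.char
  rw [← map_pow] at e
  rcases h.ker _ e with h1 | h1
  · obtain ⟨g, s, h2⟩ := unip_conj hp h1
    exact ⟨g, s, congrArg f h2⟩
  · obtain ⟨g, s, h2⟩ := unip_conj hp (x := -x) (by
      rw [(hp.odd_of_ne_two (by omega)).neg_pow, h1, neg_neg])
    exact ⟨g, s, by rw [← h2, ← neg_one_mul, map_mul, ← h1, e, one_mul]⟩
theorem map {H : Type u} [Group H] (φ : G →* H) {x y : SL2 K}
    (nc : φ (f x) * φ (f y) ≠ φ (f y) * φ (f x)) : Rep p K (φ.comp f) := by
  have := h.char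
  refine ⟨h.char, (normal_SL2 hp h5 (φ.comp f).ker).resolve_left fun e => nc ?_⟩
  rw [show φ (f x) = 1 from (e ▸ mem_top x : x ∈ (φ.comp f).ker), one_mul, mul_one]
end Rep
end Rep

end Cfsg.Lib.PT
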