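import Cfsg.Agent.PT.F2
import Cfsg.Agent.Solv.SectionAut
import Cfsg.Agent.Solv.FixedPointFree
import Cfsg.Agent.Solv.FrattiniP
import Cfsg.Agent.Solv.CoprimeFixed

/-!
# Tower `PT`: the abstract case `zz ≠ 1`
-/

set_option autoImplicit false
set_option linter.unusedSectionVars false

namespace Cfsg.Lib.PT

open Subgroup
open scoped commutatorElement Pointwise

universe u

theorem SD.sum {L W : Type*} [Group L] [CommGroup W] (φ : L →* MulAut W) (R : Subgroup L)
    [Finite R] {s₁ s₂ s₃ : L}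
    (hs : ∀ s ∈ [s₁, s₂, s₃], (∀ y ∈ R, s * y * s⁻¹ ∈ R) ∧ ∀ y ∈ R, y * s = s * y → y = 1)
    (rel : ∀ w, w * φ s₁ w = φ s₂ w * φ s₃ w) (w : W) {u : L} (hu : u ∈ R) :
    φ u (w ^ Nat.card R) = w ^ Nat.card R := by
  have := Fintype.ofFinite R
  have key : ∀ s ∈ [s₁, s₂, s₃], φ u (∏ h : R, φ (h * s * (h : L)⁻¹) w) =
      ∏ h : R, φ (h * s * (h : L)⁻¹) w := fun s h1 => by
    obtain ⟨h2, h3⟩ := hs s h1
    have h4 : Function.Bijective fun h : R => (⟨h * (s * (h : L)⁻¹ * s⁻¹),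
        mul_mem h.2 (h2 _ (inv_mem h.2))⟩ : R) := Finite.injective_iff_bijective.1 fun a b e => by
      have e : (a : L) * (s * (a : L)⁻¹ * s⁻¹) = b * (s * (b : L)⁻¹ * s⁻¹) := congrArg Subtype.val e
      refine Subtype.ext (inv_mul_eq_one.1 (h3 _ (mul_mem (inv_mem b.2) a.2) ?_)).symm
      calc _ = (b : L)⁻¹ * (a * (s * (a : L)⁻¹ * s⁻¹)) * s * a := by group
        _ = _ := by rw [e]; group
    have h5 : ∏ h : R, φ (h * s * (h : L)⁻¹) w = ∏ h : R, φ h (φ s w) := by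
      rw [← h4.prod_comp fun h : R => φ h (φ s w)]
      refine Finset.prod_congr rfl fun h _ => ?_
      rw [← MulAut.mul_apply, ← map_mul]
      congr 2
      group
    rw [h5, map_prod]
    refine Fintype.prod_equiv (Equiv.mulLeft (⟨u, hu⟩ : R)) _ _ fun k => ?_
    simp
  have h1 : w ^ Nat.card R * ∏ h : R, φ (h * s₁ * (h : L)⁻¹) w =
      (∏ h : R, φ (h * s₂ * (h : L)⁻¹) w) * ∏ h : R, φ (h * s₃ * (h : L)⁻¹) w := by
    rw [Nat.card_eq_fintype_card, ← Finset.card_univ, ← Finset.prod_const,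
      ← Finset.prod_mul_distrib, ← Finset.prod_mul_distrib]
    refine Finset.prod_congr rfl fun h _ => ?_
    simpa using congrArg (φ h) (rel (φ (h : L)⁻¹ w))
  rw [eq_mul_inv_of_mul_eq h1, map_mul, map_mul, map_inv, key _ (by simp), key _ (by simp),
    key _ (by simp)]

variable {G : Type u} [Group G] [Finite G] {p : ℕ} {O E O0 R : Subgroup G} {z t : G}

theorem SD.EP (h : SD p O E O0 z t) : E ≤ pCoreOf p O :=
  Solv.le_map_pCore h.EO (fun g hg => Ab.nm fun e he => by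
    rwa [← h.Ec e he g hg, mul_inv_cancel_right]) h.Ep

theorem SD.dec (h : SD p O E O0 z t) {g : G} (hg : g ∈ O) (e : g * z = z * g) :
    ∃ e ∈ E, ∃ c ∈ O0, e * c = g :=
  (Solv.mem_sup_of_le_normalizer fun c hc => Ab.nm fun e he => by
    rwa [← h.Ec e he c (h.le0 hc), mul_inv_cancel_right]).1 (h.cz g hg e)

theorem SD.fix (h : SD p O E O0 z t) {N : Subgroup G} (hN : N ≤ O)
    (h1 : ∀ n ∈ N, z * n * z⁻¹ ∈ N) {g : G} (h2 : g⁻¹ * (z * g * z⁻¹) ∈ N) :
    ∃ n ∈ N, g * n * z = z * (g * n) :=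
  fix_coset Nat.prime_two (by rw [pow_two, h.z2]) N
    (fun e => h.odd.not_two_dvd_nat (e.trans (card_dvd_of_le hN))) h1 h2

theorem SD.star (h : SD p O E O0 z t) (hR : F2 p O R) {d c : G} (hd : d ∈ R) (d1 : d ≠ 1)
    (hi : z * d * z⁻¹ = d⁻¹) (hc : c ∈ R) (h1 : c * z = z * c) (h2 : c * d = d * c) : c = 1 := by
  obtain ⟨e, he, c0, h0, rfl⟩ := h.dec (hR.le hc) h1
  by_cases c1 : c0 = 1
  · subst c1
    exact hR.dis h.prime hc (by rw [mul_one]; exact h.EP he)
  · obtain ⟨k, hk⟩ := h.s2 c0 h0 c1 d (hR.le hd) hi (by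
      rwa [mul_assoc, ← mul_assoc d, ← h.Ec e he d (hR.le hd), mul_assoc, mul_right_inj] at h2)
    have h3 := pow_gcd_eq_one.2 ⟨hk, congrArg Subtype.val (pow_card_eq_one' (x := (⟨d, hd⟩ : R)))⟩
    rw [(hR.cop.symm.pow_left k).gcd_eq_one, pow_one] at h3
    exact absurd h3 d1

theorem SD.inv (h : SD p O E O0 z t) (hR : F2 p O R) (hz : z ∈ normalizer (R : Set G))
    (hc : ¬ ∀ y ∈ R, y * z = z * y) : ∀ y ∈ R, y * z = z * y → y = 1 := by
  push Not at hc
  obtain ⟨g, hg, h1⟩ := hc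
  have zi : z⁻¹ = z := inv_eq_of_mul_eq_one_right h.z2
  have h2 : g⁻¹ * (z * g * z⁻¹) ≠ 1 := fun e =>
    h1 (by rw [← mul_inv_eq_iff_eq_mul.1 (inv_mul_eq_one.1 e).symm])
  have h3 := mul_mem (inv_mem hg) (Ab.cj hz hg)
  have h4 : ∀ a : G, z * (a⁻¹ * (z * a * z⁻¹)) * z⁻¹ = (a⁻¹ * (z * a * z⁻¹))⁻¹ := fun a => by
    calc _ = z * a⁻¹ * z * a * (z⁻¹ * z⁻¹) := by group
      _ = z * a⁻¹ * z⁻¹ * a := by rw [zi, h.z2, mul_one]
      _ = _ := by group
  obtain ⟨c, hc, c1, h5⟩ := hR.center h3 h2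
  have h6 := Solv.Fpf.conj_eq_inv_of_involution (K := R ⊓ centralizer (R : Set G)) (s := z)
    (Solv.le_normalizer_inf_centralizer le_rfl le_rfl hz)
    (Solv.Fpf.inf_centralizer_eq_bot_iff.2 fun k hk e =>
      h.star hR h3 h2 (h4 g) hk.1 e (hk.2 _ h3).symm) h.z2 (k := c) (mem_inf.2 ⟨hc, h5⟩)
  exact fun y hy e => h.star hR hc c1 h6 hy e (h5 y hy)

theorem SD.le (h : SD p O E O0 z t) (hR : F2 p O R) (ε : ℤ) (hz : ∀ y ∈ R, z * y * z⁻¹ = y ^ ε)
    (hε : ε = 1 ∨ ε = -1) : O ≤ (pCoreOf p O ⊔ R) ⊔ O0 := fun g hg => by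
  have hN : _ ≤ normalizer (pCoreOf p O : Set G) := Solv.normalizer_le_normalizer_map_pCore p O
  have zO := Ab.nm h.zn
  have h1 : ∀ y ∈ pCoreOf p O ⊔ R, z * y * z⁻¹ * (y ^ ε)⁻¹ ∈ pCoreOf p O := fun y hy => by
    obtain ⟨u, hu, s, hs, rfl⟩ := hR.dec hy
    rw [← conj_mul, hz s hs, mul_assoc]
    refine mul_mem (Ab.cj (hN zO) hu) ?_
    rcases hε with rfl | rfl
    · simpa using hu
    · simpa [mul_assoc] using Ab.cj (hN (le_normalizer (inv_mem (hR.le hs)))) hu
  have h2 := hR.cent _ (mul_mem (inv_mem hg) (h.zn g hg)) fun y hy => by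
    have h3 := Ab.cj (hR.norm (inv_mem zO)) (mem_sup_right hy)
    have h4 := mul_mem (Ab.cj (hN (le_normalizer (inv_mem hg)))
      (h1 _ (Ab.cj (hR.norm (le_normalizer hg)) h3))) (inv_mem (h1 _ h3))
    convert h4 using 1
    rw [conj_zpow (a := g)]
    group
  obtain ⟨n, hn, h3⟩ := h.fix hR.sup_le (fun _ => Ab.cj (hR.norm zO)) h2
  exact (mul_mem_cancel_right (mem_sup_left hn)).1 (sup_le_sup_right (h.EP.trans le_sup_left) _
    (h.cz _ (mul_mem hg (hR.sup_le hn)) h3))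

theorem SD.cent (h : SD p O E O0 z t) (hR : F2 p O R) (hz : z ∈ normalizer (R : Set G))
    (ht : t ∈ normalizer (R : Set G)) (fp : ∀ y ∈ R, y * z = z * y → y = 1) :
    R ≤ centralizer (pCoreOf p O : Set G) := by
  have := Fact.mk h.prime
  have hN := Solv.normalizer_le_normalizer_map_pCore p O
  have hP : IsPGroup p (pCoreOf p O) := Solv.isPGroup_map_pCore p O
  have PO : pCoreOf p O ≤ O := map_subtype_le _
  have EP := h.EP
  have cop := F2.cop' (O := O) h.prime hR.cop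
  change _ ≤ normalizer (pCoreOf p O : Set G) at hN
  generalize pCoreOf p O = P at *
  let M := (frattini P).map P.subtype ⊔ E
  let L := normalizer (P : Set G) ⊓ normalizer (E : Set G)
  have MP : M ≤ P := sup_le (map_subtype_le _) EP
  have LM : L ≤ normalizer (M : Set G) := Solv.le_normalizer_sup
    (inf_le_left.trans (Solv.normalizer_le_normalizer_map_subtype_of_char _)) inf_le_right
  have OL : O ≤ L := fun g hg => mem_inf.2 ⟨hN (le_normalizer hg), Ab.nm fun e he => by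
    rwa [← h.Ec e he g hg, mul_inv_cancel_right]⟩
  have zL : z ∈ L := mem_inf.2 ⟨hN (Ab.nm h.zn), Ab.nm fun e he => by
    rwa [h.zE e he, mul_inv_cancel_right]⟩
  have tL : t ∈ L := mem_inf.2 ⟨hN (Ab.nm h.tn), Ab.nm h.tE⟩
  have := normal_subgroupOf_of_le_normalizer (PO.trans (OL.trans LM))
  have := Solv.Coprime.isMulCommutative_section (K := P) (M := M)
    ((Solv.commutator_le_map_frattini hP).trans le_sup_left)
  let φ := Solv.Coprime.sectionAut (A := L) (K := P) inf_le_left LM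
  have h1 : ∀ w, φ ⟨z, zL⟩ w = w → φ ⟨t, tL⟩ w = w := fun w hw => by
    obtain ⟨v, rfl⟩ := QuotientGroup.mk_surjective w
    obtain ⟨n, hn, h2⟩ := h.fix (MP.trans PO) (fun _ => Ab.cj (LM zL)) (g := v)
      (QuotientGroup.eq (a := v) (b := P.normalizerMonoidHom ⟨z, zL.1⟩ v).1 hw.symm)
    obtain ⟨e, he, c, hc, h3⟩ := h.dec (mul_mem (PO v.2) (PO (MP hn))) h2
    refine (QuotientGroup.eq.2 ?_).symm
    change (v : G)⁻¹ * (t * v * t⁻¹) ∈ M
    have h4 := mul_mem (mul_mem hn (Ab.cj (LM (OL (inv_mem (h.le0 hc)))) (mem_sup_right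
      (mul_mem (inv_mem he) (h.tE e he))))) (inv_mem (Ab.cj (LM tL) hn))
    convert h4 using 1
    rw [eq_mul_inv_of_mul_eq h3.symm]
    calc _ = n * c⁻¹ * e⁻¹ * t * e * (c * t⁻¹) * t * n⁻¹ * t⁻¹ := by group
      _ = _ := by rw [(Commute.inv_left (h.t0 c hc)).symm.eq]; group
  have h2 : ⁅P, R⁆ ≤ M := by
    rw [commutator_comm, commutator_le]
    intro u hu
    open scoped IsMulCommutative in
    have h3 := fun w => SD.sum φ (R.subgroupOf L) (s₁ := ⟨z, zL⟩) (s₂ := ⟨t, tL⟩)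
      (s₃ := ⟨t, tL⟩ * ⟨z, zL⟩) (by
        simp only [List.mem_cons, List.not_mem_nil, or_false, forall_eq_or_imp, forall_eq]
        refine ⟨⟨fun _ => Ab.cj (G := G) hz, fun y hy e => ?_⟩, ⟨fun _ => Ab.cj (G := G) ht, fun y hy e => ?_⟩,
          fun _ => Ab.cj (G := G) (mul_mem ht hz), fun y hy e => ?_⟩
        · exact Subtype.ext (fp _ hy (congrArg Subtype.val e))
        · exact Subtype.ext (fp _ hy (h.z0 _ (h.ct _ (hR.le hy) (congrArg Subtype.val e))).symm)
        · exact Subtype.ext (fp _ hy (h.z0 _ (h.ctz _ (hR.le hy) (congrArg Subtype.val e))).symm))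
      (fun w => by
        rw [map_mul, MulAut.mul_apply, ← map_mul]
        refine (h1 _ ?_).symm
        rw [map_mul, ← MulAut.mul_apply, ← map_mul,
          show (⟨z, zL⟩ : L) * ⟨z, zL⟩ = 1 from Subtype.ext h.z2, map_one, MulAut.one_apply,
          mul_comm]) w (u := ⟨u, OL (hR.le hu)⟩) hu
    rw [Solv.card_subgroupOf_of_le (hR.le.trans OL)] at h3
    refine (Solv.Coprime.mem_ker_sectionAut inf_le_left LM ⟨u, OL (hR.le hu)⟩).1
      (MulEquiv.ext fun w => ?_)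
    obtain ⟨w, rfl⟩ := (powCoprime (G := P ⧸ M.subgroupOf P) (n := Nat.card R)
      (cop.symm.coprime_dvd_left (card_quotient_dvd_card _))).surjective w
    exact h3 w
  have h3 := Solv.Coprime.sup_centralizer_eq_of_commutator_le MP (hR.le.trans (OL.trans LM))
    (cop.coprime_dvd_right (card_dvd_of_le MP)) (Or.inl (have := hR.nil; inferInstance)) h2
  rw [sup_assoc, sup_eq_right.2 (show E ≤ P ⊓ centralizer (R : Set G) from
    le_inf EP fun e he y hy => (h.Ec e he y (hR.le hy)).symm)] at h3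
  exact le_centralizer_iff.1 ((Solv.Coprime.eq_of_frattini_sup_eq inf_le_left h3).ge.trans
    inf_le_right)

theorem SD.nt (h : SD p O E O0 z t) : NT O O0 := by
  have := Fact.mk h.prime
  obtain ⟨n, hn, tn⟩ := h.tord
  obtain ⟨R, hR, hA⟩ := F2.ex h.prime h.odd (zpowers z ⊔ zpowers t)
    (sup_le (zpowers_le.2 (Ab.nm h.zn)) (zpowers_le.2 (Ab.nm h.tn))) (by
      refine Nat.Coprime.coprime_dvd_left (Solv.card_sup_dvd_of_le_normalizer (zpowers_le.2
        (Ab.nm fun x hx => ?_))) (Nat.Coprime.mul_left ?_ ?_)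
      · obtain ⟨k, rfl⟩ := mem_zpowers_iff.1 hx
        rwa [← ((Commute.zpow_left h.zt k).eq), mul_inv_cancel_right]
      · rw [Nat.card_zpowers]
        exact ((Nat.coprime_primes Nat.prime_two h.prime).2 h.two.symm).coprime_dvd_left
          (orderOf_dvd_of_pow_eq_one (by rw [pow_two, h.z2]))
      · rw [Nat.card_zpowers]
        exact hn.coprime_dvd_left (orderOf_dvd_of_pow_eq_one tn))
  have hz := hA (mem_sup_left (mem_zpowers z))
  by_cases hc : ∀ y ∈ R, y * z = z * y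
  · refine F2.nt h.prime ((h.le hR 1 (fun y hy => by rw [← hc y hy]; simp) (Or.inl rfl)).trans
      (sup_le (sup_le le_sup_left fun y hy => ?_) le_sup_right))
    exact sup_le_sup_right h.EP _ (h.cz y (hR.le hy) (hc y hy))
  · have fp := h.inv hR hz hc
    have h1 := h.cent hR hz (hA (mem_sup_right (mem_zpowers t))) fp
    refine ⟨_, hR.sup_le, fun g hg _ => Ab.cj (hR.norm (le_normalizer hg)), ?_,
      h.le hR (-1) (fun y hy => ?_) (Or.inr rfl)⟩
    · refine Solv.isNilpotent_of_le (K := fittingOf (pCoreOf p O ⊔ R)) (sup_le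
        (Solv.le_fittingOf le_sup_left (hR.sup_le.trans (le_normalizer.trans
          (Solv.normalizer_le_normalizer_map_pCore p O))) (Solv.isPGroup_map_pCore p O).isNilpotent)
        (Solv.le_fittingOf le_sup_right (sup_le ((le_centralizer_iff.1 h1).trans
          (centralizer_le_normalizer _)) le_normalizer) hR.nil)) inferInstance
    · rw [zpow_neg_one]
      exact Solv.Fpf.conj_eq_inv_of_involution hz (Solv.Fpf.inf_centralizer_eq_bot_iff.2 fp) h.z2 hy

end Cfsg.Lib.PT
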