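import Cfsg.Agent.PT.DL
import Cfsg.Agent.PT.W1
import Cfsg.Agent.PT.Par
import Cfsg.Agent.Trans.SylowIn

/-!
# Tower `PT`: the torus argument
-/

set_option autoImplicit false
set_option linter.unusedSectionVars false

namespace Cfsg.Lib.PT

open Matrix Subgroup
open scoped MatrixGroups commutatorElement

universe u

variable {G : Type u} [Group G]

namespace Tp

open Cfsg.Lib.Trans MulAction

theorem core {X : Type*} [MulAction G X] [Finite G] {r : ℕ} [Fact r.Prime] (N : Subgroup G)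
    (Ω : Set X) (t : X → G) (hΩ : ∀ g ∈ N, ∀ u ∈ Ω, g • u ∈ Ω)
    (t1 : ∀ u ∈ Ω, t u ∈ N ⊓ stabilizer G u) (t2 : ∀ u ∈ Ω, ∃ k, t u ^ r ^ k = 1)
    (t3 : ∀ u ∈ Ω, ∀ g ∈ N ⊓ stabilizer G u, g * t u = t u * g)
    (key : ∀ u ∈ Ω, ∀ v ∈ Ω, t u • v = v → t v • u = u → u = v) :
    (∀ u ∈ Ω, ∃ R, IsSylowIn r R N ∧ R ≤ stabilizer G u) ∧
      ∀ u ∈ Ω, ∀ v ∈ Ω, ∃ g ∈ N, g • u = v := by
  have mem : ∀ u ∈ Ω, ∀ R, IsSylowIn r R (N ⊓ stabilizer G u) → t u ∈ R := fun u hu R hR => by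
    obtain ⟨k, hk⟩ := t2 u hu
    refine zpowers_le.1 (hR.le_of_normal ?_ (zpowers_le.2 (t1 u hu)) fun g hg =>
      centralizer_le_normalizer _ ?_)
    · rintro ⟨_, n, rfl⟩
      exact ⟨k, Subtype.ext (by
        change (t u ^ n) ^ r ^ k = 1
        rw [← zpow_natCast, ← _root_.zpow_mul, mul_comm, _root_.zpow_mul, zpow_natCast, hk,
          _root_.one_zpow])⟩
    · rintro _ ⟨n, rfl⟩
      exact (Commute.zpow_right (t3 u hu g hg) n).symm
  have k2 : ∀ u ∈ Ω, ∀ v ∈ Ω, ∀ R, IsSylowIn r R (N ⊓ stabilizer G u) →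
      IsSylowIn r R (N ⊓ stabilizer G v) → u = v := fun u hu v hv R h1 h2 =>
    key u hu v hv (h2.le (mem u hu R h1)).2 (h1.le (mem v hv R h2)).2
  have cn : ∀ g ∈ N, ∀ (u : X) R, IsSylowIn r R (N ⊓ stabilizer G u) →
      IsSylowIn r (cj g R) (N ⊓ stabilizer G (g • u)) := fun g hg u R h => by
    have := h.cj g
    rwa [cj_inf, cj_eq_of_mem hg, ← cj_def g (stabilizer G u),
      ← stabilizer_smul_eq_stabilizer_map_conj] at this
  have syl : ∀ u ∈ Ω, ∀ R, IsSylowIn r R (N ⊓ stabilizer G u) → IsSylowIn r R N :=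
    fun u hu R hR => by
      obtain ⟨S, hS, le⟩ := exists_isSylowIn_ge hR.isPGroup (hR.le.trans inf_le_left)
      by_contra n
      have := lt_inf_normalizer hS.isPGroup (lt_of_le_of_ne le fun e => n (e ▸ hS))
      refine this.ne' (hR.eq_of_le hS.isPGroup.to_inf_left this.le fun g hg => ⟨hS.le hg.1, ?_⟩)
      exact k2 _ (hΩ g (hS.le hg.1) u hu) u hu R
        (cj_eq_of_mem_normalizer hg.2 ▸ cn g (hS.le hg.1) u R hR) hR
  refine ⟨fun u hu => ?_, fun u hu v hv => ?_⟩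
  · obtain ⟨R, hR⟩ := exists_isSylowIn (p := r) (N ⊓ stabilizer G u)
    exact ⟨R, syl u hu R hR, hR.le.trans inf_le_right⟩
  · obtain ⟨R, hR⟩ := exists_isSylowIn (p := r) (N ⊓ stabilizer G u)
    obtain ⟨S, hS⟩ := exists_isSylowIn (p := r) (N ⊓ stabilizer G v)
    obtain ⟨g, hg, e⟩ := (syl v hv S hS).exists_cj_eq (syl u hu R hR)
    exact ⟨g, hg, k2 _ (hΩ g hg u hu) v hv S (e ▸ cn g hg u R hR) hS⟩

open Cfg

variable [Finite G] {C : Cfg G} {x y y' : C.Pt} {a b a' c : G} {r : ℕ} {l : (ZMod C.p)ˣ}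

theorem zc (h : W1 x y) (h' : W1 x y') (h1 : BP x y a b) (h2 : BP x y' a' c) (l : (ZMod C.p)ˣ) :
    (tt a' c l)⁻¹ * tt a b l ∈ CC x := mem_CC.2 fun d hd => by
  have e := (h.tt_sc h1 l d (M_le_E hd)).trans (h'.tt_sc h2 l d (M_le_E hd)).symm
  calc _ = (tt a' c l)⁻¹ * (tt a b l * d * (tt a b l)⁻¹) * tt a b l := by group
    _ = _ := by rw [e]; group

theorem tt_r (hl : Par C.p r l) (h : C.BD a b) : tt a b l ^ r ^ 2 = 1 := by
  rw [← h.tt_pow, hl.pow_sq, h.tt_one]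

end Tp

namespace Cfg
variable [Finite G] {C : Cfg G} {x y y' u v : C.Pt} {a b c e g : G} {r : ℕ} {l : (ZMod C.p)ˣ}

theorem fx1 (h : W1 x y) (h' : W1 x y') (opp : ¬ Pp y y') {κ : (ZMod C.p)ˣ} (hκ : κ ^ 2 ≠ 1)
    (hs : Sc (C := C) g (E x) (κ : ZMod C.p)) (gy : g • y = y) (gy' : g • y' = y') : False := by
  obtain ⟨b, b', k⟩ := exists_BP opp
  have e := k.br.conj g
  rw [h.sc gy hs b (M_le_E k.ha), h'.sc gy' hs b' (M_le_E k.hb)] at e
  have := (k.bd.pw κ⁻¹).pw_unique (k := ((κ⁻¹ * κ⁻¹ : (ZMod C.p)ˣ) : ZMod C.p)) (by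
    rwa [pw_pw (pow_p k.bd.hb), ← Units.val_mul, inv_mul_cancel_left])
  rw [Units.val_eq_one, ← _root_.mul_inv_rev, _root_.inv_eq_one, ← pow_two] at this
  exact hκ this

theorem dlx (hl : Par C.p r l) (h : W1 x y) (h' : W1 x y') (opp : ¬ Pp y y') (h1 : BP x y a b)
    (h2 : BP x y' a c) (e1 : tt a b l • y' = y') (e2 : tt a c l • y = y) : False := by
  by_cases r2 : r = 2
  · subst r2
    have z := Tp.zc h h' h1 h2 l
    exact dl h1.bd h2.bd (fun e => opp ((Pp_iff h1.hb h2.hb).2 e)) hl.two.1 hl.two.2 rfl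
      (mem_CC.1 z a h1.ha)
      (mem_CC.1 (h.cc z (by rw [mul_smul, h1.tt_y, inv_smul_eq_iff, e2])) b h1.hb)
      (mem_CC.1 (h'.cc z (by rw [mul_smul, e1, inv_smul_eq_iff, h2.tt_y])) c h2.hb)
  · exact fx1 h h' opp (hl.four_ne r2) (h.tt_sc h1 l) (h1.tt_y l) e1

theorem Tp.main (r1 : C.R1) (hl : Par C.p r l) (ha : a ∈ M x) (N : Subgroup G)
    (hN : ∀ g ∈ N, g • x = x) (ht : ∀ u b, W1 x u → BP x u a b → tt a b l ∈ N) :
    (∀ u, W1 x u → ∃ R, Trans.IsSylowIn r R N ∧ R ≤ MulAction.stabilizer G u) ∧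
      ∀ u, W1 x u → ∀ v, W1 x v → ∃ g ∈ N, g • u = v := by
  have := Fact.mk hl.prime
  have : ∀ u, ∃ b, W1 x u → BP x u a b := fun u => by
    by_cases k : W1 x u
    · obtain ⟨b, hb⟩ := exists_partner ha k.1
      exact ⟨b, fun _ => hb⟩
    · exact ⟨1, fun k' => absurd k' k⟩
  choose b hb using this
  refine PT.Tp.core N {u | W1 x u} (fun u => tt a (b u) l) (fun g hg u hu => ?_)
    (fun u hu => ⟨ht u _ hu (hb u hu), (hb u hu).tt_y l⟩)
    (fun u hu => ⟨2, PT.Tp.tt_r hl (hb u hu).bd⟩)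
    (fun u hu g hg => W1.tt_cent hu (hb u hu) l (hN g hg.1) hg.2) fun u hu v hv e1 e2 => ?_
  · have := W1.smul hu g
    rwa [hN g hg] at this
  · by_contra n
    exact dlx hl hu hv (fun k => n (r1 _ _ k)) (hb u hu) (hb v hv) e1 e2

theorem t_trans (r1 : C.R1) (h : W1 x y) (h' : W1 x y') : ∃ g ∈ CC x, g • y = y' := by
  obtain ⟨r, l, hl⟩ := exists_par C.prime C.five
  obtain ⟨a, c, k⟩ := exists_BP h'.1
  have fx : ∀ s ∈ zpowers (tt a c l), s • x = x ∧ s • y' = y' := fun s hs =>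
    (zpowers_le.2 ⟨k.tt_x l, k.tt_y l⟩ :
      _ ≤ MulAction.stabilizer G x ⊓ MulAction.stabilizer G y') hs
  have cj : ∀ s ∈ zpowers (tt a c l), ∀ g ∈ CC x, s * g * s⁻¹ ∈ CC x := fun s hs g hg => by
    have := conj_CC s hg
    rwa [(fx s hs).1] at this
  let N : Subgroup G :=
    { carrier := {g | ∃ s ∈ zpowers (tt a c l), s * g ∈ CC x}
      one_mem' := ⟨1, one_mem _, by simp⟩
      mul_mem' := by
        rintro g g' ⟨s, hs, e⟩ ⟨s', hs', e'⟩
        refine ⟨s' * s, mul_mem hs' hs, ?_⟩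
        convert mul_mem (cj s' hs' _ e) e' using 1
        group
      inv_mem' := by
        rintro g ⟨s, hs, e⟩
        refine ⟨s⁻¹, inv_mem hs, ?_⟩
        convert cj _ (inv_mem hs) _ (inv_mem e) using 1
        group }
  obtain ⟨g, ⟨s, hs, e⟩, rfl⟩ := (Tp.main r1 hl k.ha N (fun g ⟨s, hs, e⟩ => by
    have := CC_fix e
    rwa [mul_smul, ← (fx s hs).1, smul_left_cancel_iff, (fx s hs).1] at this)
    fun u b hu hb => ⟨_, inv_mem (mem_zpowers _), PT.Tp.zc hu h' hb k l⟩).2 y h y' h'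
  exact ⟨_, e, by rw [mul_smul, (fx s hs).2]⟩

theorem t_card (r1 : C.R1) (hl : Par C.p r l) (h : W1 x y) : ¬ r ∣ {u | W1 x u}.ncard := by
  obtain ⟨a, ha⟩ := M_nonempty x
  obtain ⟨h1, h2⟩ := Tp.main r1 hl ha (MulAction.stabilizer G x) (fun _ => id)
    fun _ _ _ hb => hb.tt_x l
  obtain ⟨R, hR, le⟩ := h1 y h
  have e : {u | W1 x u} = MulAction.orbit (MulAction.stabilizer G x) y := Set.ext fun u =>
    ⟨fun hu => let ⟨g, hg, e⟩ := h2 y h u hu; ⟨⟨g, hg⟩, e⟩, by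
      rintro ⟨g, rfl⟩
      have := h.smul (g : G)
      rw [show (g : G) • x = x from g.2] at this
      exact this⟩
  rw [e, ← MulAction.index_stabilizer, show MulAction.stabilizer (MulAction.stabilizer G x) y =
    (MulAction.stabilizer G y).subgroupOf _ from Subgroup.ext fun _ => Iff.rfl]
  exact hR.not_dvd_relIndex_of_le le

end Cfg

end Cfsg.Lib.PT
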