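import Cfsg.Agent.PT.Pt
import Cfsg.Agent.PT.Gen2
import Cfsg.Agent.Solv.Cores

/-!
# Tower `PT`: translation of the hypotheses
-/

set_option autoImplicit false

namespace Cfsg.Lib.PT

open Subgroup
open scoped commutatorElement

universe u

variable {G : Type u} [Group G] [Finite G]

theorem Cfg.simple_of (C : Cfg G) (hS : ∀ M : Subgroup G, M.Normal → Group.IsSolvable M → M = ⊥)
    (gen : closure C.D = ⊤) (ne : C.D.Nonempty)
    (one : ∀ N : Subgroup G, N.Normal → ∀ a ∈ C.D, a ∈ N → ∀ b ∈ C.D, b ∈ N) : C.Simple := by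
  obtain ⟨a₀, ha₀⟩ := ne
  have a1 := Cfg.ne_one ha₀
  have cen : ∀ N : Subgroup G, N.Normal → (∀ a ∈ C.D, ∀ n ∈ N, a * n = n * a) → N = ⊥ := by
    intro N hN h
    have h1 : ∀ n ∈ N, ∀ g : G, g * n = n * g := fun n hn g => by
      have : closure C.D ≤ centralizer {n} := (closure_le _).2 fun a ha =>
        mem_centralizer_singleton_iff.2 (h a ha n hn)
      exact mem_centralizer_singleton_iff.1 (this (gen ▸ mem_top g))
    exact hS N hN (Group.isSolvable_of_comm fun x y => Subtype.ext (h1 y y.2 x))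
  have hp : pCore C.p G = ⊥ := hS _ inferInstance (by
    have := (Solv.pCore_isPGroup C.p G).isNilpotent
    infer_instance)
  refine ⟨gen, ?_, ?_⟩
  · have : Nontrivial G := ⟨a₀, 1, a1⟩
    refine ⟨fun N hN => ?_⟩
    by_cases h : ∃ a ∈ C.D, a ∈ N
    · obtain ⟨a, ha, h⟩ := h
      exact Or.inr (top_le_iff.1 (gen ▸ (closure_le _).2 fun b hb => one N hN a ha h b hb))
    push Not at h
    refine Or.inl (cen N hN fun a ha n hn => ?_)
    have cm : ∀ b ∈ C.D, ∀ n ∈ N, b * (n * b * n⁻¹) = n * b * n⁻¹ * b := fun b hb n hn => by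
      refine Cfg.reflect N hb (C.conj b hb n) (fun g _ k hk => hN.conj_mem k hk g) (h b hb) ?_
      rw [← QuotientGroup.eq_one_iff (N := N)]
      have e : ((n : G) : G ⧸ N) = 1 := (QuotientGroup.eq_one_iff _).2 hn
      simp [commutatorElement_def, e]
    let X : Set G := {c | ∃ n ∈ N, c = n * a * n⁻¹}
    have Xc : ∀ c ∈ X, ∀ d ∈ X, c * d = d * c := by
      rintro _ ⟨n, hn, rfl⟩ _ ⟨m, hm, rfl⟩
      have := cm _ (C.conj a ha n) (m * n⁻¹) (mul_mem hm (inv_mem hn))
      simpa [mul_assoc] using this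
    have Pc : ∀ c ∈ closure X, ∀ d ∈ closure X, c * d = d * c := fun c hc d hd =>
      (closure_induction₂ (p := fun c d _ _ => Commute c d) (fun c d hc hd => Xc c hc d hd)
        (fun _ _ => Commute.one_left _) (fun _ _ => Commute.one_right _)
        (fun _ _ _ _ _ _ h1 h2 => h1.mul_left h2) (fun _ _ _ _ _ _ h1 h2 => h1.mul_right h2)
        (fun _ _ _ _ h1 => h1.inv_left) (fun _ _ _ _ h1 => h1.inv_right) hc hd).eq
    have Pp : ∀ c ∈ closure X, c ^ C.p = 1 := fun c hc => by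
      induction hc using closure_induction with
      | mem c hc =>
        obtain ⟨n, hn, rfl⟩ := hc
        exact Cfg.pow_p (C.conj a ha n)
      | one => exact one_pow _
      | mul c d hc hd h1 h2 => rw [Commute.mul_pow (Pc c hc d hd), h1, h2, one_mul]
      | inv c _ h1 => rw [inv_pow, h1, inv_one]
    have Pn : ∀ n ∈ N, ∀ c ∈ closure X, n * c * n⁻¹ ∈ closure X := fun n hn c hc => by
      induction hc using closure_induction with
      | mem c hc =>
        obtain ⟨m, hm, rfl⟩ := hc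
        exact subset_closure ⟨n * m, mul_mem hn hm, by group⟩
      | one => simp
      | mul c d _ _ h1 h2 => simpa [mul_assoc] using mul_mem h1 h2
      | inv c _ h1 => simpa [mul_assoc] using inv_mem h1
    have hle : closure X ⊓ N ≤ (pCore C.p N).map N.subtype :=
      Solv.le_map_pCore inf_le_right (fun n hn => mem_normalizer_iff.2 fun c =>
        ⟨fun hc => ⟨Pn n hn c hc.1, hN.conj_mem c hc.2 n⟩, fun hc =>
          ⟨by simpa [mul_assoc] using Pn n⁻¹ (inv_mem hn) _ hc.1,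
            by simpa [mul_assoc] using hN.conj_mem _ hc.2 n⁻¹⟩⟩)
        (fun c => ⟨1, Subtype.ext (by simpa using Pp c c.2.1)⟩)
    have h3 : a⁻¹ * (n * a * n⁻¹) ∈ closure X ⊓ N :=
      mem_inf.2 ⟨mul_mem (inv_mem (subset_closure ⟨1, one_mem _, by simp⟩)) (subset_closure ⟨n, hn, rfl⟩),
        by simpa [mul_assoc] using mul_mem (hN.conj_mem n hn a⁻¹) (inv_mem hn)⟩
    have h4 := Solv.map_pCore_le_of_normal N (hle h3)
    rw [hp, mem_bot, inv_mul_eq_one, eq_mul_inv_iff_mul_eq] at h4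
    exact h4
  · by_contra hc
    push Not at hc
    have : closure C.D ≤ centralizer C.D := (closure_le _).2 fun a ha b hb => hc b hb a ha
    have h2 := cen ⊤ inferInstance fun a ha n _ => this (gen ▸ mem_top n) a ha
    exact a1 (mem_bot.1 (h2 ▸ mem_top a₀))

theorem exists_cfg (p : ℕ) (hp : p.Prime) (hp5 : 5 ≤ p)
    (hS : ∀ M : Subgroup G, M.Normal → Group.IsSolvable M → M = ⊥)
    (A : G → Subgroup G) (hc : ∀ g, Nat.card (A g) = p)
    (hA : ∀ g h a, a ∈ A h → g * a * g⁻¹ ∈ A (g * h)) (hgen : (⨆ g : G, A g) = ⊤)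
    (hpair : ∀ g h : G, A g ≠ A h →
      Nonempty (↥(A g ⊔ A h) ≃* (Multiplicative (ZMod p) × Multiplicative (ZMod p))) ∨
      ∃ (K : Type) (_ : Field K) (_ : Fintype K) (m : ℕ), 1 ≤ m ∧ Fintype.card K = p ^ m ∧
        (Nonempty (↥(A g ⊔ A h) ≃* Matrix.ProjectiveSpecialLinearGroup (Fin 2) K) ∨
          Nonempty (↥(A g ⊔ A h) ≃* Matrix.SpecialLinearGroup (Fin 2) K))) :
    ∃ C : Cfg G, C.p = p ∧ C.Simple := by
  have ord : ∀ g a, a ∈ A g → a ≠ 1 → orderOf a = p := fun g a ha a1 => by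
    have := (A g).orderOf_dvd_natCard ha
    rw [hc] at this
    exact ((Nat.dvd_prime hp).1 this).resolve_left (by simpa using a1)
  have zp : ∀ g a, a ∈ A g → a ≠ 1 → zpowers a = A g := fun g a ha a1 =>
    eq_of_le_of_card_ge (zpowers_le.2 ha) (by rw [hc, Nat.card_zpowers, ord g a ha a1])
  let C : Cfg G :=
    { p := p
      D := {a | a ≠ 1 ∧ ∃ g, a ∈ A g}
      prime := hp
      five := hp5
      ord := fun a ⟨a1, g, ha⟩ => ord g a ha a1
      conj := fun a ⟨a1, h, ha⟩ g => ⟨by simpa using a1, _, hA g h a ha⟩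
      pow := fun a ⟨a1, g, ha⟩ k hk =>
        ⟨fun e => hk (ord g a ha a1 ▸ orderOf_dvd_of_pow_eq_one e), g, pow_mem ha k⟩
      pair := fun a ⟨a1, g, ha⟩ b ⟨b1, h, hb⟩ nc => by
        have e : A g ⊔ A h = closure {a, b} := by
          rw [← zp g a ha a1, ← zp h b hb b1, zpowers_eq_closure, zpowers_eq_closure,
            ← Subgroup.closure_union]
          rfl
        have ne : A g ≠ A h := fun e => by
          rw [← e, ← zp g a ha a1] at hb
          obtain ⟨k, rfl⟩ := hb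
          exact nc (Commute.self_zpow a k).eq
        rcases hpair g h ne with ⟨⟨f⟩⟩ | ⟨K, _, _, m, -, hK, h3⟩
        · exact absurd (congrArg Subtype.val (f.injective (a₁ := ⟨a, mem_sup_left ha⟩ *
            ⟨b, mem_sup_right hb⟩) (a₂ := ⟨b, mem_sup_right hb⟩ * ⟨a, mem_sup_left ha⟩)
              (by rw [map_mul, map_mul, mul_comm]))) nc
        · rw [e] at h3
          exact gen2_of_iso hp hp5 (ord g a ha a1) (ord h b hb b1) nc K hK h3 }
  refine ⟨C, rfl, C.simple_of hS ?_ ?_ ?_⟩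
  · refine top_le_iff.1 (hgen ▸ iSup_le fun g a ha => ?_)
    by_cases a1 : a = 1
    · exact a1 ▸ one_mem _
    · exact subset_closure ⟨a1, g, ha⟩
  · have : A 1 ≠ ⊥ := fun e => by
      have := hc 1
      rw [e, card_bot] at this
      omega
    obtain ⟨⟨a, ha⟩, a1⟩ := ne_bot_iff_exists_ne_one.1 this
    exact ⟨a, fun e => a1 (Subtype.ext e), 1, ha⟩
  · rintro N hN a ⟨a1, g, ha⟩ aN b ⟨-, h, hb⟩
    have h1 := hA (g * h⁻¹) h b hb
    rw [inv_mul_cancel_right, ← zp g a ha a1] at h1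
    have h2 := hN.conj_mem _ (zpowers_le.2 aN h1) (g * h⁻¹)⁻¹
    simpa [mul_assoc] using h2

end Cfsg.Lib.PT
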