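import Cfsg.Agent.PT.Heis
import Cfsg.Agent.PT.Quad

/-!
# Tower `PT`: mutual stabilisers
-/

set_option autoImplicit false
set_option linter.unusedSectionVars false

namespace Cfsg.Lib.PT

open Matrix Subgroup
open scoped MatrixGroups commutatorElement

universe u

variable {G : Type u} [Group G]

namespace Cfg
variable {C : Cfg G} {x y s : C.Pt} {a b c e g : G}

section W
variable [Finite G] {m : G}

theorem heis_mem {n ζ : G} (h : BP x y a b) (hc : c ∈ M x) (H : Heis C.p a b c n m ζ) :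
    n ∈ S x y ∧ m ∈ S y x ∧ ζ ∈ E x ∧ ζ ∈ E y := by
  have e1 := H.ck 1
  rw [pow_one, pow_one, one_pow, pow_one, ← H.c_eq] at e1
  have mx : m • x = x := (smul_eq_iff h.ha).2 (e1 ▸ hc)
  have k1 : n * ζ ∈ E x := by
    have := mul_mem (inv_mem (M_le_E h.ha)) (M_le_E hc)
    rwa [H.c_eq, mul_assoc, inv_mul_cancel_left] at this
  have k2 : n ^ 2 * ζ ^ 2 ^ 2 ∈ E x := by
    have := mul_mem (inv_mem (M_le_E h.ha)) (M_le_E (conj_mem (m ^ 2) h.ha) |>
      (by rw [pow_two, mul_smul, mx, mx] : m ^ 2 • x = x).subst (motive := fun u => _ ∈ E u))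
    rwa [H.ck 2, mul_assoc, inv_mul_cancel_left] at this
  have k3 : ζ ∈ E x := by
    have := mul_mem (inv_mem (pow_mem k1 2)) k2
    rw [Commute.mul_pow H.ζn.symm, show (n ^ 2 * ζ ^ 2)⁻¹ * (n ^ 2 * ζ ^ 2 ^ 2) = ζ ^ 2 by
      group] at this
    obtain ⟨j, hj⟩ := C.prime.odd_of_ne_two (by have := C.five; omega)
    have := pow_mem this (j + 1)
    rwa [← pow_mul, show 2 * (j + 1) = C.p + 1 by omega, pow_succ, H.ζp, one_mul] at this
  have k4 : n ∈ E x := by simpa using mul_mem k1 (inv_mem k3)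
  refine ⟨mem_S.2 ⟨k4, ?_⟩, mem_S.2 ⟨H.m_eq ▸ h.ww_x ▸ conj_E _ k4, mx⟩, k3, ?_⟩
  · rw [eq_comm, ← inv_smul_eq_iff, ← H.wm, mul_smul, mul_smul, inv_smul_eq_iff.2 h.ww_x.symm, mx,
      h.ww_x]
  · have := conj_E (ww a b) k3
    have e : Commute ζ (ww a b) := (Commute.mul_right H.ζa H.ζb).mul_right H.ζa
    rwa [h.ww_x, ← e.eq, mul_inv_cancel_right] at this

theorem w3 (h : BP x y a b) (h' : BP x y c b) : ∃ m ∈ S y x, c = m * a * m⁻¹ := by
  by_cases k : c = a
  · exact ⟨1, one_mem _, by simp [k]⟩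
  obtain ⟨n, m, ζ, H, -⟩ := exists_heis h.bd h'.bd (Pp_refl x a h.ha c h'.ha) k
  exact ⟨m, (heis_mem h h'.ha H).2.1, by simpa [← H.c_eq] using (H.ck 1).symm⟩

theorem w3' (h : BP x y a b) (hm : m ∈ S y x) : BP x y (m * a * m⁻¹) b := by
  have := h.smul m
  rwa [(mem_S.1 hm).2, E_fix (Pp_refl y) hm.1, E_comm hm.1 (M_le_E h.hb),
    mul_inv_cancel_right] at this

theorem w1 (opp : ¬ Pp x y) (ha : a ∈ M x) (hm : m ∈ S y x) : a⁻¹ * (m * a * m⁻¹) ∈ S x y := by
  obtain ⟨b, h⟩ := exists_partner ha opp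
  have h' := w3' h hm
  by_cases k : m * a * m⁻¹ = a
  · rw [k, inv_mul_cancel]
    exact one_mem _
  obtain ⟨n, m', ζ, H, -⟩ := exists_heis h.bd h'.bd (Pp_refl x a h.ha _ h'.ha) k
  obtain ⟨h1, -, h2, h3⟩ := heis_mem h h'.ha H
  rw [H.c_eq, mul_assoc, inv_mul_cancel_left]
  exact mul_mem h1 (mem_S.2 ⟨h2, E_fix (Pp_refl y) h3⟩)

namespace Wp

theorem lin (hg : g • x = x) {k : ZMod C.p}
    (h : ∀ a ∈ M x, (pw a k)⁻¹ * (g * a * g⁻¹) ∈ S x y) (he : e ∈ E x) :
    (pw e k)⁻¹ * (g * e * g⁻¹) ∈ S x y := by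
  induction he using closure_induction with
  | mem a ha => exact h a ha
  | one => simp [one_pw]
  | mul u v hu hv k1 k2 =>
    have := mul_mem k1 k2
    rw [← mul_assoc, E_comm k1.1 (inv_mem (pw_mem hv k))] at this
    rw [mul_pw (E_comm hu hv)]
    convert this using 1
    group
  | inv u hu k1 =>
    have := inv_mem k1
    rw [_root_.mul_inv_rev, inv_inv, E_comm (inv_mem (hg ▸ conj_E g hu)) (pw_mem hu k)] at this
    rw [inv_pw]
    convert this using 1
    group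

theorem fx (hm : m ∈ WW x y) : m • x = x ∧ m • y = y := by
  have : WW x y ≤ MulAction.stabilizer G x ⊓ MulAction.stabilizer G y :=
    sup_le (fun _ h => ⟨E_fix (Pp_refl x) h.1, h.2⟩) fun _ h => ⟨h.2, E_fix (Pp_refl y) h.1⟩
  exact this hm

theorem cS (hm : g • x = x ∧ g • y = y) (he : e ∈ S x y) : g * e * g⁻¹ ∈ S x y := by
  have := conj_S g he
  rwa [hm.1, hm.2] at this

theorem act (hc : c ∈ M x) (hb : b ∈ M y) (opp : ¬ Pp x y) (l : (ZMod C.p)ˣ) :
    ∃ c', BP x y c' b ∧ tt c' b l * c * (tt c' b l)⁻¹ = pw c ((l : ZMod C.p) ^ 2) := by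
  obtain ⟨K, _, _, f, α, β, hf, rfl, rfl, -⟩ :=
    C.pair c (mem_D hc) b (mem_D hb) fun e => opp ((Pp_iff hc hb).2 e)
  have := hf.char
  have hβ : β ≠ 0 := by
    rintro rfl
    exact ne_one (mem_D hb) (by rw [lo_zero, map_one])
  obtain ⟨μ, hμ⟩ := hf.exists_unit C.prime C.five l
  refine ⟨_, lo_partner hf hc hb, ?_⟩
  rw [hf.tt_eq C.prime C.five (by field_simp) l μ hμ, ← map_inv, ← map_mul, ← map_mul, dg_up,
    ← map_pw, up_pw, hμ, ZMod.natCast_val, ZMod.natCast_val, ZMod.cast_pow']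

theorem card_le (opp : ¬ Pp x y) : Nat.card (S x y) ≤ Nat.card (S y x) := by
  obtain ⟨a, b, h⟩ := exists_BP opp
  refine Nat.card_le_card_of_injective (fun e => ⟨ww a b * e * (ww a b)⁻¹, ?_⟩) fun u v k => ?_
  · have := conj_S (ww a b) e.2
    rwa [h.ww_x, h.ww_y] at this
  · simpa using k

end Wp

open Wp

theorem w1' (opp : ¬ Pp x y) (he : e ∈ E x) (hm : m ∈ WW x y) :
    e⁻¹ * (m * e * m⁻¹) ∈ S x y := by
  rw [WW, sup_eq_closure] at hm
  induction hm using closure_induction with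
  | mem m hm =>
    rcases hm with hm | hm
    · rw [E_comm hm.1 he, mul_inv_cancel_right, inv_mul_cancel]
      exact one_mem _
    · have := lin (y := y) (mem_S.1 hm).2 (k := 1)
        (fun a ha => by rw [pw_one]; exact w1 opp ha hm) he
      rwa [pw_one] at this
  | one => simp
  | mul u v hu hv k1 k2 =>
    rw [← sup_eq_closure] at hu
    convert mul_mem k1 (cS (fx hu) k2) using 1
    group
  | inv u hu k1 =>
    rw [← sup_eq_closure] at hu
    convert cS (fx (inv_mem hu)) (inv_mem k1) using 1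
    group

theorem WW_symm (x y : C.Pt) : WW x y = WW y x := sup_comm _ _

theorem WW_le (x y : C.Pt) : WW x y ≤ KK x y := sup_le_sup inf_le_left inf_le_left

theorem Wp.norm (opp : ¬ Pp x y) : E x ≤ normalizer (WW x y : Set G) := by
  have k : ∀ e ∈ E x, ∀ m ∈ WW x y, e * m * e⁻¹ ∈ WW x y := fun e he m hm => by
    rw [show e * m * e⁻¹ = e⁻¹⁻¹ * (m * e⁻¹ * m⁻¹) * m by group]
    exact mul_mem (mem_sup_left (w1' opp (inv_mem he) hm)) hm
  refine fun e he => mem_normalizer_iff.2 fun m => ⟨k e he m, fun hm => ?_⟩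
  convert k _ (inv_mem he) _ hm using 1
  group

theorem WW_norm (opp : ¬ Pp x y) (hg : g ∈ KK x y) (hm : m ∈ WW x y) :
    g * m * g⁻¹ ∈ WW x y :=
  (mem_normalizer_iff.1 (sup_le (Wp.norm opp) (by
    rw [WW_symm]; exact Wp.norm fun h => opp h.symm) hg) m).1 hm

theorem WW_pgroup (opp : ¬ Pp x y) : IsPGroup C.p (WW x y) := by
  refine ((E_pgroup x).to_le inf_le_left).to_sup_of_normal_left' ((E_pgroup y).to_le inf_le_left)
    fun m hm => mem_normalizer_iff.2 fun e => ⟨cS (fx (mem_sup_right hm)), fun he => ?_⟩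
  rw [show e = m⁻¹ * (m * e * m⁻¹) * m⁻¹⁻¹ by group]
  exact cS (fx (inv_mem (mem_sup_right hm))) he

theorem WW_fix (opp : ¬ Pp x y) (hg : g ∈ KK x y) (hm : m ∈ WW x y) : m • g • x = g • x := by
  have := (fx (WW_norm opp (inv_mem hg) hm)).1
  rwa [inv_inv, mul_smul, mul_smul, inv_smul_eq_iff] at this

theorem w2 (h : BP x y a b) (l : (ZMod C.p)ˣ) (he : e ∈ E x) :
    (pw e ((l : ZMod C.p) ^ 2))⁻¹ * (tt a b l * e * (tt a b l)⁻¹) ∈ S x y := by
  refine lin (h.tt_x l) (fun c hc => ?_) he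
  obtain ⟨c', h', k⟩ := act hc h.hb h.opp l
  obtain ⟨m, hm, rfl⟩ := w3 h h'
  have e : tt (m * a * m⁻¹) b l = m * tt a b l * m⁻¹ := by
    rw [conj_tt, E_comm hm.1 (M_le_E h.hb), mul_inv_cancel_right]
  have mW : m ∈ WW x y := mem_sup_right hm
  have := w1' h.opp (pw_mem (M_le_E hc) ((l : ZMod C.p) ^ 2))
    (mul_mem (inv_mem mW) (WW_norm h.opp (h'.tt_KK l) mW))
  convert this using 2
  rw [← k, e]
  group

theorem w2' (h : BP x y a b) (l : (ZMod C.p)ˣ) (he : e ∈ E y) :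
    (pw e (((l⁻¹ : (ZMod C.p)ˣ) : ZMod C.p) ^ 2))⁻¹ * (tt a b l * e * (tt a b l)⁻¹) ∈ S y x := by
  have := w2 h.symm l⁻¹ he
  rwa [h.bd.tt_symm, inv_inv] at this

theorem zz_cent (h : BP x y a b) (hg : g ∈ KK x y) :
    g⁻¹ * (zz a b * g * (zz a b)⁻¹) ∈ WW x y := by
  rw [KK, sup_eq_closure] at hg
  induction hg using closure_induction with
  | mem e he =>
    rcases he with he | he
    · have := w2 h (-1) he
      rw [h.bd.tt_neg_one, Units.val_neg, Units.val_one, neg_one_sq, pw_one] at this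
      exact mem_sup_left this
    · have := w2' h (-1) he
      rw [h.bd.tt_neg_one, inv_neg_one, Units.val_neg, Units.val_one, neg_one_sq, pw_one] at this
      exact mem_sup_right this
  | one => simp
  | mul u v hu hv k1 k2 =>
    rw [← sup_eq_closure] at hv
    convert mul_mem (WW_norm h.opp (inv_mem hv) k1) k2 using 1
    group
  | inv u hu k1 =>
    rw [← sup_eq_closure] at hu
    convert WW_norm h.opp hu (inv_mem k1) using 1
    group

theorem zz_fix (h : BP x y a b) (hg : g ∈ KK x y) : zz a b • g • x = g • x := by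
  have := (fx (zz_cent h hg)).1
  rwa [mul_smul, mul_smul, mul_smul, inv_smul_eq_iff.2 h.zz_x.symm, inv_smul_eq_iff] at this

theorem w4 (opp : ¬ Pp x y) (ha : a ∈ M x) (hm : m ∈ S y x) (e : m * a = a * m) : m ∈ E x := by
  obtain ⟨b, h⟩ := exists_partner ha opp
  have := conj_E (ww a b) hm.1
  have k : Commute m (ww a b) := (Commute.mul_right e (E_comm hm.1 (M_le_E h.hb))).mul_right e
  rwa [h.ww_y, ← k.eq, mul_inv_cancel_right] at this

theorem card_S (opp : ¬ Pp x y) : Nat.card (S x y) = Nat.card (S y x) :=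
  le_antisymm (card_le opp) (card_le fun h => opp h.symm)

theorem w1_of_S (opp : ¬ Pp x y) (h : S x y = ⊥) : W1 x y :=
  ⟨opp, h, card_eq_one.1 (by rw [← card_S opp, h, card_bot])⟩

theorem w5 (opp : ¬ Pp x y) (h : S y x ≤ E x) : W1 x y := by
  refine (w1_of_S (fun h => opp h.symm) (eq_bot_iff.2 fun m hm => ?_)).symm
  obtain ⟨a, b, hb⟩ := exists_BP opp
  obtain ⟨l, hl⟩ := C.exists_l
  have k : Sc (C := C) (tt a b l) (E x) ((l : ZMod C.p) ^ 2) := Sc.of_M fun c hc => by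
    obtain ⟨c', h', k⟩ := act hc hb.hb opp l
    obtain ⟨m, hm, rfl⟩ := w3 hb h'
    rwa [E_comm (h hm) (M_le_E hb.ha), mul_inv_cancel_right] at k
  have k1 : tt a b l ∈ centralizer ({m} : Set G) :=
    tt_mem (mem_centralizer_singleton_iff.2 (E_comm (M_le_E hb.ha) (h hm)))
      (mem_centralizer_singleton_iff.2 (E_comm (M_le_E hb.hb) hm.1)) l
  have k2 := k m (h hm)
  rw [mem_centralizer_singleton_iff.1 k1, mul_inv_cancel_right] at k2
  by_contra n
  exact hl (Units.ext (pw_inj (E_pow hm.1) n (k2.symm.trans (pw_one m).symm)))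

theorem w6 (h : BP x y a b) (hz : zz a b = 1) : W1 x y :=
  w5 h.opp fun m hm => w4 h.opp h.ha hm (quad h.bd (WW x y) (WW_pgroup h.opp)
    (fun _ => WW_norm h.opp (mem_sup_left (M_le_E h.ha)))
    (fun _ => WW_norm h.opp (mem_sup_right (M_le_E h.hb))) (fun _ _ => by simp [hz]) m
    (mem_sup_right hm)).1.symm

theorem w7 (h : BP x y a b) : ∃ k, {c | BP x y c b}.ncard = C.p ^ k := by
  have hP : IsPGroup C.p ((S y x).map (MulAut.conj : G →* MulAut G)) :=
    ((E_pgroup y).to_le inf_le_left).map _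
  obtain ⟨k, hk⟩ := hP.card_orbit a
  refine ⟨k, hk ▸ congrArg Set.ncard (Set.ext fun c => ⟨fun hc => ?_, ?_⟩)⟩
  · obtain ⟨m, hm, rfl⟩ := w3 h hc
    exact ⟨⟨_, m, hm, rfl⟩, rfl⟩
  · rintro ⟨⟨_, m, hm, rfl⟩, rfl⟩
    exact w3' h hm

theorem w8 (opp : ¬ Pp x y) (hI : E x ⊓ E y = ⊥) (ha : a ∈ M x) (he : e ∈ S x y) :
    a * e ∈ M x := by
  have hi : Function.Injective fun m : S y x => (⟨_, w1 opp ha m.2⟩ : S x y) := fun u v k => by
    have k1 := mul_mem (inv_mem v.2) u.2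
    have k2 : (v : G)⁻¹ * u ∈ E x ⊓ E y := ⟨w4 opp ha k1 (by
      have := mul_left_cancel (congrArg Subtype.val k)
      calc (v : G)⁻¹ * u * a = (v : G)⁻¹ * (u * a * (u : G)⁻¹) * u := by group
        _ = _ := by rw [this]; group), k1.1⟩
    exact Subtype.ext (inv_mul_eq_one.1 (mem_bot.1 (hI ▸ k2))).symm
  obtain ⟨m, k⟩ := (hi.bijective_of_nat_card_le (card_S opp).le).2 ⟨e, he⟩
  rw [← show _ = e from congrArg Subtype.val k, mul_inv_cancel_left]
  exact (smul_eq_iff ha).1 (mem_S.1 m.2).2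

end W

end Cfg

end Cfsg.Lib.PT
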